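import Cfsg.Agent.Helper44.OPlus
import Cfsg.Prelude.Def_ClassicalGeometry

set_option autoImplicit false

/-!
Helper library (helper44): the Dickson invariant of an isometry of the hyperbolic form
`Σ x_i y_i` in characteristic two. For `G = [[A, B], [C, D]]` it is `tr(Bᵀ C) = Σ B_ij C_ij`;
it is additive on products of isometries, equals `1` on reflections and equals the rank of `C`
modulo two.
-/

namespace Cfsg.Agent.Helper44

open Matrix

section Dickson

variable {F : Type*} [Field F] {m : ℕ}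

/-- the Dickson invariant `Σ B_ij C_ij` of a matrix in block form `[[A, B], [C, D]]` -/
def dk (G : Matrix (Fin m ⊕ Fin m) (Fin m ⊕ Fin m) F) : F :=
  ∑ i, ∑ j, G (Sum.inl i) (Sum.inr j) * G (Sum.inr i) (Sum.inl j)

theorem dk_eq_trace (G : Matrix (Fin m ⊕ Fin m) (Fin m ⊕ Fin m) F) :
    dk G = Matrix.trace (G.toBlocks₁₂ᵀ * G.toBlocks₂₁) := by
  simp only [dk, Matrix.trace, Matrix.diag, Matrix.mul_apply, Matrix.transpose_apply,
    Matrix.toBlocks₁₂, Matrix.toBlocks₂₁, Matrix.of_apply]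
  rw [Finset.sum_comm]

/-- in characteristic two, the trace of the product of a symmetric matrix with zero diagonal and
a symmetric matrix vanishes -/
theorem trace_mul_eq_zero_of_symm [CharP F 2] {n : Type*} [Fintype n] [DecidableEq n]
    (S M : Matrix n n F) (hS : Sᵀ = S) (hS0 : ∀ i, S i i = 0) (hM : Mᵀ = M) :
    Matrix.trace (S * M) = 0 := by
  have hSs : ∀ i j, S j i = S i j := fun i j => by
    have := congrFun (congrFun hS i) j
    rwa [Matrix.transpose_apply] at this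
  have hMs : ∀ i j, M j i = M i j := fun i j => by
    have := congrFun (congrFun hM i) j
    rwa [Matrix.transpose_apply] at this
  simp only [Matrix.trace, Matrix.diag, Matrix.mul_apply]
  rw [← Finset.sum_product' (s := Finset.univ) (t := Finset.univ) (f := fun i j => S i j * M j i)]
  apply Finset.sum_ninvolution (fun p => (p.2, p.1))
  · intro p
    show S p.1 p.2 * M p.2 p.1 + S p.2 p.1 * M p.1 p.2 = 0
    rw [hSs p.1 p.2, hMs p.2 p.1]
    exact CharTwo.add_self_eq_zero _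
  · intro p hp hpp
    apply hp
    have h1 : p.2 = p.1 := congrArg Prod.fst hpp
    show S p.1 p.2 * M p.2 p.1 = 0
    rw [h1, hS0, zero_mul]
  · intro p; simp
  · intro p; rfl

theorem neg_eq_self_of_char_two [CharP F 2] {n : Type*} (X : Matrix n n F) : -X = X := by
  ext i j
  rw [Matrix.neg_apply]
  exact CharTwo.neg_eq _

theorem Jp_mul_Jp : Jp m F * Jp m F = 1 := by
  rw [Jp, Matrix.fromBlocks_multiply]
  simp

theorem mul_Jp_transpose_of_isometry (G : Matrix (Fin m ⊕ Fin m) (Fin m ⊕ Fin m) F)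
    (h : ∀ v, Cfsg.quadFormPlus m F (G *ᵥ v) = Cfsg.quadFormPlus m F v) :
    G * Jp m F * Gᵀ = Jp m F := by
  have h1 := transpose_Jp_mul_of_isometry G h
  have h2 : (Jp m F * Gᵀ * Jp m F) * G = 1 := by
    rw [Matrix.mul_assoc, Matrix.mul_assoc, ← Matrix.mul_assoc Gᵀ, h1, Jp_mul_Jp]
  have h3 : G * (Jp m F * Gᵀ * Jp m F) = 1 := mul_eq_one_comm.mp h2
  calc G * Jp m F * Gᵀ = G * Jp m F * Gᵀ * (Jp m F * Jp m F) := by rw [Jp_mul_Jp, Matrix.mul_one]
    _ = (G * (Jp m F * Gᵀ * Jp m F)) * Jp m F := by simp only [Matrix.mul_assoc]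
    _ = Jp m F := by rw [h3, Matrix.one_mul]

/-- the block relations satisfied by an isometry of the hyperbolic form -/
theorem isometry_rel (G : Matrix (Fin m ⊕ Fin m) (Fin m ⊕ Fin m) F)
    (h : ∀ v, Cfsg.quadFormPlus m F (G *ᵥ v) = Cfsg.quadFormPlus m F v) :
    G.toBlocks₂₁ᵀ * G.toBlocks₁₁ + G.toBlocks₁₁ᵀ * G.toBlocks₂₁ = 0 ∧
    G.toBlocks₂₁ᵀ * G.toBlocks₁₂ + G.toBlocks₁₁ᵀ * G.toBlocks₂₂ = 1 ∧
    G.toBlocks₂₂ᵀ * G.toBlocks₁₂ + G.toBlocks₁₂ᵀ * G.toBlocks₂₂ = 0 := by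
  set A := G.toBlocks₁₁ with hA
  set B := G.toBlocks₁₂ with hB
  set C := G.toBlocks₂₁ with hC
  set D := G.toBlocks₂₂ with hD
  have hGb : G = Matrix.fromBlocks A B C D := (Matrix.fromBlocks_toBlocks G).symm
  have hrel := transpose_Jp_mul_of_isometry G h
  rw [hGb, Jp, Matrix.fromBlocks_transpose, Matrix.fromBlocks_multiply,
    Matrix.fromBlocks_multiply, Matrix.fromBlocks_inj] at hrel
  obtain ⟨r1, r2, -, r4⟩ := hrel
  simp only [Matrix.mul_zero, Matrix.mul_one, zero_add, add_zero] at r1 r2 r4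
  exact ⟨r1, r2, r4⟩

/-- the block relations satisfied by the transpose of an isometry of the hyperbolic form -/
theorem isometry_rel' (G : Matrix (Fin m ⊕ Fin m) (Fin m ⊕ Fin m) F)
    (h : ∀ v, Cfsg.quadFormPlus m F (G *ᵥ v) = Cfsg.quadFormPlus m F v) :
    G.toBlocks₁₂ * G.toBlocks₁₁ᵀ + G.toBlocks₁₁ * G.toBlocks₁₂ᵀ = 0 ∧
    G.toBlocks₁₂ * G.toBlocks₂₁ᵀ + G.toBlocks₁₁ * G.toBlocks₂₂ᵀ = 1 ∧
    G.toBlocks₂₂ * G.toBlocks₂₁ᵀ + G.toBlocks₂₁ * G.toBlocks₂₂ᵀ = 0 := by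
  set A := G.toBlocks₁₁ with hA
  set B := G.toBlocks₁₂ with hB
  set C := G.toBlocks₂₁ with hC
  set D := G.toBlocks₂₂ with hD
  have hGb : G = Matrix.fromBlocks A B C D := (Matrix.fromBlocks_toBlocks G).symm
  have hrel := mul_Jp_transpose_of_isometry G h
  rw [hGb, Jp, Matrix.fromBlocks_transpose, Matrix.fromBlocks_multiply,
    Matrix.fromBlocks_multiply, Matrix.fromBlocks_inj] at hrel
  obtain ⟨r1, r2, -, r4⟩ := hrel
  simp only [Matrix.mul_zero, Matrix.mul_one, zero_add, add_zero] at r1 r2 r4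
  exact ⟨r1, r2, r4⟩

/-- the diagonal of `Aᵀ C` vanishes for an isometry -/
theorem isometry_diag₁ (G : Matrix (Fin m ⊕ Fin m) (Fin m ⊕ Fin m) F)
    (h : ∀ v, Cfsg.quadFormPlus m F (G *ᵥ v) = Cfsg.quadFormPlus m F v) (i : Fin m) :
    (G.toBlocks₁₁ᵀ * G.toBlocks₂₁) i i = 0 := by
  have h1 := h (Pi.single (Sum.inl i) 1)
  simp only [Cfsg.quadFormPlus, Matrix.mulVec_single_one, Matrix.col_apply] at h1
  rw [Matrix.mul_apply]
  simp only [Matrix.transpose_apply, Matrix.toBlocks₁₁, Matrix.toBlocks₂₁, Matrix.of_apply]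
  rw [h1]
  apply Finset.sum_eq_zero
  intro j _
  simp

/-- the diagonal of `Bᵀ D` vanishes for an isometry -/
theorem isometry_diag₂ (G : Matrix (Fin m ⊕ Fin m) (Fin m ⊕ Fin m) F)
    (h : ∀ v, Cfsg.quadFormPlus m F (G *ᵥ v) = Cfsg.quadFormPlus m F v) (i : Fin m) :
    (G.toBlocks₁₂ᵀ * G.toBlocks₂₂) i i = 0 := by
  have h1 := h (Pi.single (Sum.inr i) 1)
  simp only [Cfsg.quadFormPlus, Matrix.mulVec_single_one, Matrix.col_apply] at h1
  rw [Matrix.mul_apply]
  simp only [Matrix.transpose_apply, Matrix.toBlocks₁₂, Matrix.toBlocks₂₂, Matrix.of_apply]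
  rw [h1]
  apply Finset.sum_eq_zero
  intro j _
  simp

/-- **additivity of the Dickson invariant** on isometries of the hyperbolic form in
characteristic two -/
theorem dk_mul [CharP F 2] (G G' : Matrix (Fin m ⊕ Fin m) (Fin m ⊕ Fin m) F)
    (hG : ∀ v, Cfsg.quadFormPlus m F (G *ᵥ v) = Cfsg.quadFormPlus m F v)
    (hG' : ∀ v, Cfsg.quadFormPlus m F (G' *ᵥ v) = Cfsg.quadFormPlus m F v) :
    dk (G * G') = dk G + dk G' := by
  obtain ⟨r1, r2, r3⟩ := isometry_rel G hG
  obtain ⟨s1, s2, s3⟩ := isometry_rel' G' hG'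
  have d1 := isometry_diag₁ G hG
  have d2 := isometry_diag₂ G hG
  set A := G.toBlocks₁₁ with hA
  set B := G.toBlocks₁₂ with hB
  set C := G.toBlocks₂₁ with hC
  set D := G.toBlocks₂₂ with hD
  set A' := G'.toBlocks₁₁ with hA'
  set B' := G'.toBlocks₁₂ with hB'
  set C' := G'.toBlocks₂₁ with hC'
  set D' := G'.toBlocks₂₂ with hD'
  have hGb : G = Matrix.fromBlocks A B C D := (Matrix.fromBlocks_toBlocks G).symm
  have hGb' : G' = Matrix.fromBlocks A' B' C' D' := (Matrix.fromBlocks_toBlocks G').symm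
  have hprod : G * G' = Matrix.fromBlocks (A * A' + B * C') (A * B' + B * D')
      (C * A' + D * C') (C * B' + D * D') := by
    rw [hGb, hGb', Matrix.fromBlocks_multiply]
  rw [dk_eq_trace, dk_eq_trace, dk_eq_trace, hprod, Matrix.toBlocks_fromBlocks₁₂,
    Matrix.toBlocks_fromBlocks₂₁, ← hB, ← hC, ← hB', ← hC']
  -- symmetry facts
  have hS1 : (Aᵀ * C)ᵀ = Aᵀ * C := by
    rw [Matrix.transpose_mul, Matrix.transpose_transpose]
    have := eq_neg_of_add_eq_zero_left r1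
    rw [this, neg_eq_self_of_char_two]
  have hS2 : (Bᵀ * D)ᵀ = Bᵀ * D := by
    rw [Matrix.transpose_mul, Matrix.transpose_transpose]
    have := eq_neg_of_add_eq_zero_left r3
    rw [this, neg_eq_self_of_char_two]
  have hM1 : (A' * B'ᵀ)ᵀ = A' * B'ᵀ := by
    rw [Matrix.transpose_mul, Matrix.transpose_transpose]
    have := eq_neg_of_add_eq_zero_left s1
    rw [this, neg_eq_self_of_char_two]
  have hM2 : (C' * D'ᵀ)ᵀ = C' * D'ᵀ := by
    rw [Matrix.transpose_mul, Matrix.transpose_transpose]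
    have := eq_neg_of_add_eq_zero_left s3
    rw [this, neg_eq_self_of_char_two]
  have hAD : Aᵀ * D = 1 + Cᵀ * B := by
    have : Aᵀ * D = 1 - Cᵀ * B := by rw [← r2]; abel
    rw [this, sub_eq_add_neg, neg_eq_self_of_char_two]
  have hAD' : A' * D'ᵀ = 1 + B' * C'ᵀ := by
    have : A' * D'ᵀ = 1 - B' * C'ᵀ := by rw [← s2]; abel
    rw [this, sub_eq_add_neg, neg_eq_self_of_char_two]
  have e1 : (A * B' + B * D')ᵀ * (C * A' + D * C')
      = B'ᵀ * (Aᵀ * C) * A' + B'ᵀ * (Aᵀ * D) * C' + D'ᵀ * (Bᵀ * C) * A' + D'ᵀ * (Bᵀ * D) * C' := by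
    simp only [Matrix.transpose_add, Matrix.transpose_mul, Matrix.add_mul, Matrix.mul_add,
      Matrix.mul_assoc]
    abel
  rw [e1, Matrix.trace_add, Matrix.trace_add, Matrix.trace_add]
  have t1 : Matrix.trace (B'ᵀ * (Aᵀ * C) * A') = 0 := by
    rw [Matrix.trace_mul_cycle, Matrix.trace_mul_comm, ← Matrix.mul_assoc,
      Matrix.trace_mul_comm, ← Matrix.mul_assoc]
    rw [Matrix.trace_mul_comm, ← Matrix.mul_assoc, Matrix.trace_mul_comm]
    exact trace_mul_eq_zero_of_symm (Aᵀ * C) (A' * B'ᵀ) hS1 d1 hM1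
  have t4 : Matrix.trace (D'ᵀ * (Bᵀ * D) * C') = 0 := by
    rw [Matrix.trace_mul_cycle, Matrix.trace_mul_comm, ← Matrix.mul_assoc,
      Matrix.trace_mul_comm, ← Matrix.mul_assoc]
    rw [Matrix.trace_mul_comm, ← Matrix.mul_assoc, Matrix.trace_mul_comm]
    exact trace_mul_eq_zero_of_symm (Bᵀ * D) (C' * D'ᵀ) hS2 d2 hM2
  have t2 : Matrix.trace (B'ᵀ * (Aᵀ * D) * C')
      = Matrix.trace (B'ᵀ * C') + Matrix.trace (B'ᵀ * (Cᵀ * B) * C') := by
    rw [hAD, Matrix.mul_add, Matrix.add_mul, Matrix.mul_one, Matrix.trace_add]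
  have t3 : Matrix.trace (D'ᵀ * (Bᵀ * C) * A')
      = Matrix.trace (Bᵀ * C) + Matrix.trace ((Bᵀ * C) * (B' * C'ᵀ)) := by
    rw [Matrix.trace_mul_cycle, Matrix.trace_mul_comm (A' * D'ᵀ) (Bᵀ * C), hAD', Matrix.mul_add,
      Matrix.mul_one, Matrix.trace_add]
  have t5 : Matrix.trace (B'ᵀ * (Cᵀ * B) * C') = Matrix.trace ((Bᵀ * C) * (B' * C'ᵀ)) := by
    rw [← Matrix.trace_transpose]
    simp only [Matrix.transpose_mul, Matrix.transpose_transpose]
    rw [Matrix.trace_mul_comm]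
    simp only [Matrix.mul_assoc]
  rw [t1, t4, t2, t3, t5, zero_add, add_zero]
  have := CharTwo.add_self_eq_zero (Matrix.trace ((Bᵀ * C) * (B' * C'ᵀ)))
  linear_combination this

/-- the Dickson invariant of a reflection is `1` -/
theorem dk_reflection (v : Fin m ⊕ Fin m → F) (hv : Cfsg.quadFormPlus m F v ≠ 0) :
    dk (Cfsg.reflectionMatrix (Cfsg.quadFormPlus m F) v) = 1 := by
  have hpol : ∀ b, Cfsg.polarVec (Cfsg.quadFormPlus m F) v b = v ⬝ᵥ (Jp m F *ᵥ Pi.single b 1) := by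
    intro b
    unfold Cfsg.polarVec QuadraticMap.polar
    rw [quadFormPlus_add]
    ring
  have hpr : ∀ j, Cfsg.polarVec (Cfsg.quadFormPlus m F) v (Sum.inr j) = v (Sum.inl j) := by
    intro j
    rw [hpol, Jp_form]
    simp [Pi.single_apply]
  have hpl : ∀ j, Cfsg.polarVec (Cfsg.quadFormPlus m F) v (Sum.inl j) = v (Sum.inr j) := by
    intro j
    rw [hpol, Jp_form]
    simp [Pi.single_apply]
  have e1 : ∀ i j, Cfsg.reflectionMatrix (Cfsg.quadFormPlus m F) v (Sum.inl i) (Sum.inr j)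
      = -((Cfsg.quadFormPlus m F v)⁻¹ * (v (Sum.inl i) * v (Sum.inl j))) := by
    intro i j
    simp [Cfsg.reflectionMatrix, Matrix.vecMulVec_apply, hpr]
  have e2 : ∀ i j, Cfsg.reflectionMatrix (Cfsg.quadFormPlus m F) v (Sum.inr i) (Sum.inl j)
      = -((Cfsg.quadFormPlus m F v)⁻¹ * (v (Sum.inr i) * v (Sum.inr j))) := by
    intro i j
    simp [Cfsg.reflectionMatrix, Matrix.vecMulVec_apply, hpl]
  simp only [dk, e1, e2]
  have e3 : ∀ i j : Fin m, -((Cfsg.quadFormPlus m F v)⁻¹ * (v (Sum.inl i) * v (Sum.inl j))) *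
      -((Cfsg.quadFormPlus m F v)⁻¹ * (v (Sum.inr i) * v (Sum.inr j)))
      = (Cfsg.quadFormPlus m F v)⁻¹ * (Cfsg.quadFormPlus m F v)⁻¹ *
        ((v (Sum.inl i) * v (Sum.inr i)) * (v (Sum.inl j) * v (Sum.inr j))) := by
    intro i j; ring
  simp only [e3]
  simp only [← Finset.mul_sum, ← Finset.sum_mul]
  have e4 : ∑ i, v (Sum.inl i) * v (Sum.inr i) = Cfsg.quadFormPlus m F v := rfl
  rw [e4]
  field_simp

/-- swapping the rows `x_i`, `y_i` of an isometry whose lower-left block is singular, for a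
suitable `i`, decreases the nullity of the lower-left block by one -/
theorem exists_swap_step (G : Matrix (Fin m ⊕ Fin m) (Fin m ⊕ Fin m) F)
    (hG : ∀ v, Cfsg.quadFormPlus m F (G *ᵥ v) = Cfsg.quadFormPlus m F v) (hdet : G.det ≠ 0)
    (k : ℕ) (hk : Module.finrank F (LinearMap.ker (Matrix.mulVecLin G.toBlocks₂₁)) = k + 1) :
    ∃ i : Fin m, Module.finrank F (LinearMap.ker (Matrix.mulVecLin
      (G.submatrix (Equiv.swap (Sum.inl i) (Sum.inr i)) id).toBlocks₂₁)) = k := by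
  set C := G.toBlocks₂₁ with hC
  have hpos : 0 < Module.finrank F (LinearMap.ker (Matrix.mulVecLin C)) := by
    rw [hk]; exact Nat.succ_pos k
  obtain ⟨⟨x₀, hx₀⟩, hx₀ne⟩ := Module.finrank_pos_iff_exists_ne_zero.mp hpos
  have hx₀0 : x₀ ≠ 0 := fun h => hx₀ne (Subtype.ext h)
  have hCx₀ : ∀ j, (G *ᵥ Sum.elim x₀ 0) (Sum.inr j) = 0 := by
    intro j
    rw [← toBlocks₂₁_mulVec]
    have h1 : C *ᵥ x₀ = 0 := hx₀
    rw [← hC, h1]; rfl
  have hGx₀ : G *ᵥ Sum.elim x₀ 0 ≠ 0 := by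
    intro h
    have h1 := Matrix.eq_zero_of_mulVec_eq_zero hdet h
    apply hx₀0
    funext a
    have := congrFun h1 (Sum.inl a)
    simpa using this
  obtain ⟨i, hi⟩ : ∃ i, (G *ᵥ Sum.elim x₀ 0) (Sum.inl i) ≠ 0 := by
    by_contra hcon
    push Not at hcon
    apply hGx₀
    funext a
    cases a with
    | inl a => exact hcon a
    | inr a => exact hCx₀ a
  refine ⟨i, ?_⟩
  set σ : Equiv.Perm (Fin m ⊕ Fin m) := Equiv.swap (Sum.inl i) (Sum.inr i) with hσ
  set G' := G.submatrix σ id with hG'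
  have hG'v : ∀ v, G' *ᵥ v = (G *ᵥ v) ∘ σ := fun v => rfl
  let ℓ : (Fin m → F) →ₗ[F] F :=
    (LinearMap.proj (Sum.inl i)) ∘ₗ (Matrix.mulVecLin G) ∘ₗ (inlLin m F)
  have hℓ : ∀ x, ℓ x = (G *ᵥ Sum.elim x 0) (Sum.inl i) := fun x => rfl
  have hker : LinearMap.ker (Matrix.mulVecLin G'.toBlocks₂₁)
      = LinearMap.ker (Matrix.mulVecLin C) ⊓ LinearMap.ker ℓ := by
    ext x
    rw [Submodule.mem_inf, LinearMap.mem_ker, LinearMap.mem_ker, LinearMap.mem_ker,
      Matrix.mulVecLin_apply, Matrix.mulVecLin_apply, hℓ]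
    constructor
    · intro hx
      have hx' : ∀ j, (G *ᵥ Sum.elim x 0) (σ (Sum.inr j)) = 0 := by
        intro j
        have h1 := congrFun hx j
        rw [toBlocks₂₁_mulVec, hG'v] at h1
        exact h1
      have hxi : (G *ᵥ Sum.elim x 0) (Sum.inl i) = 0 := by
        have h1 := hx' i
        rwa [hσ, Equiv.swap_apply_right] at h1
      have hxj : ∀ j, j ≠ i → (G *ᵥ Sum.elim x 0) (Sum.inr j) = 0 := by
        intro j hj
        have h1 := hx' j
        rwa [hσ, Equiv.swap_apply_of_ne_of_ne (by simp) (by simp [hj])] at h1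
      refine ⟨?_, hxi⟩
      have hpol := polar_of_isometry G hG (Sum.elim x₀ 0) (Sum.elim x 0)
      rw [Jp_form, Jp_form] at hpol
      simp only [Sum.elim_inl, Sum.elim_inr, Pi.zero_apply, mul_zero, zero_mul, add_zero,
        Finset.sum_const_zero] at hpol
      rw [Finset.sum_eq_single i] at hpol
      · rw [hCx₀ i, zero_mul, add_zero] at hpol
        have hxi' := (mul_eq_zero.mp hpol).resolve_left hi
        funext j
        rw [toBlocks₂₁_mulVec]
        by_cases hj : j = i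
        · subst hj; exact hxi'
        · exact hxj j hj
      · intro j _ hj
        rw [hxj j hj, hCx₀ j, mul_zero, zero_mul, add_zero]
      · intro h; exact absurd (Finset.mem_univ i) h
    · rintro ⟨hx, hxi⟩
      funext j
      rw [toBlocks₂₁_mulVec, hG'v]
      show (G *ᵥ Sum.elim x 0) (σ (Sum.inr j)) = 0
      by_cases hj : j = i
      · subst hj; rw [hσ, Equiv.swap_apply_right]; exact hxi
      · rw [hσ, Equiv.swap_apply_of_ne_of_ne (by simp) (by simp [hj]), ← toBlocks₂₁_mulVec,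
          ← hC, hx]; rfl
  rw [hker]
  have h1 := finrank_inf_ker (LinearMap.ker (Matrix.mulVecLin C)) ℓ x₀ hx₀
    (by rw [hℓ]; exact hi)
  omega

/-- the Dickson invariant after swapping the rows `x_i`, `y_i` -/
theorem dk_swap [CharP F 2] (G : Matrix (Fin m ⊕ Fin m) (Fin m ⊕ Fin m) F)
    (hG : ∀ v, Cfsg.quadFormPlus m F (G *ᵥ v) = Cfsg.quadFormPlus m F v) (i : Fin m) :
    dk (G.submatrix (Equiv.swap (Sum.inl i) (Sum.inr i)) id) = dk G + 1 := by
  obtain ⟨-, s2, -⟩ := isometry_rel' G hG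
  have hrel : ∑ b, G (Sum.inl i) (Sum.inr b) * G (Sum.inr i) (Sum.inl b)
      + ∑ b, G (Sum.inl i) (Sum.inl b) * G (Sum.inr i) (Sum.inr b) = 1 := by
    have := congrFun (congrFun s2 i) i
    simp only [Matrix.add_apply, Matrix.mul_apply, Matrix.transpose_apply, Matrix.toBlocks₁₂,
      Matrix.toBlocks₂₁, Matrix.toBlocks₁₁, Matrix.toBlocks₂₂, Matrix.of_apply,
      Matrix.one_apply_eq] at this
    exact this
  set σ : Equiv.Perm (Fin m ⊕ Fin m) := Equiv.swap (Sum.inl i) (Sum.inr i) with hσ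
  simp only [dk, Matrix.submatrix_apply, id]
  rw [← Finset.add_sum_erase Finset.univ _ (Finset.mem_univ i),
    ← Finset.add_sum_erase Finset.univ (fun a => ∑ j, G (Sum.inl a) (Sum.inr j) * G (Sum.inr a) (Sum.inl j))
      (Finset.mem_univ i)]
  have herase : ∑ a ∈ Finset.univ.erase i, ∑ j, G (σ (Sum.inl a)) (Sum.inr j) * G (σ (Sum.inr a)) (Sum.inl j)
      = ∑ a ∈ Finset.univ.erase i, ∑ j, G (Sum.inl a) (Sum.inr j) * G (Sum.inr a) (Sum.inl j) := by
    apply Finset.sum_congr rfl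
    intro a ha
    have hai : a ≠ i := Finset.ne_of_mem_erase ha
    rw [hσ, Equiv.swap_apply_of_ne_of_ne (by simp [hai]) (by simp),
      Equiv.swap_apply_of_ne_of_ne (by simp) (by simp [hai])]
  rw [herase, hσ, Equiv.swap_apply_left, Equiv.swap_apply_right]
  have h2 : ∑ j, G (Sum.inr i) (Sum.inr j) * G (Sum.inl i) (Sum.inl j)
      = ∑ b, G (Sum.inl i) (Sum.inl b) * G (Sum.inr i) (Sum.inr b) :=
    Finset.sum_congr rfl (fun j _ => mul_comm _ _)
  rw [h2]
  have h3 := CharTwo.add_self_eq_zero (∑ b, G (Sum.inl i) (Sum.inr b) * G (Sum.inr i) (Sum.inl b))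
  linear_combination hrel - h3

/-- **the Dickson invariant is the rank of the lower-left block modulo two** -/
theorem dk_eq_of_isometry [CharP F 2] (m : ℕ) :
    ∀ (k : ℕ) (G : Matrix (Fin m ⊕ Fin m) (Fin m ⊕ Fin m) F),
    (∀ v, Cfsg.quadFormPlus m F (G *ᵥ v) = Cfsg.quadFormPlus m F v) → G.det ≠ 0 →
    Module.finrank F (LinearMap.ker (Matrix.mulVecLin G.toBlocks₂₁)) = k →
    dk G = ((m - k : ℕ) : F) := by
  intro k
  induction k with
  | zero =>
    intro G hG hdet hk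
    obtain ⟨r1, r2, r3⟩ := isometry_rel G hG
    obtain ⟨s1, s2, s3⟩ := isometry_rel' G hG
    have d1 := isometry_diag₁ G hG
    set A := G.toBlocks₁₁ with hA
    set B := G.toBlocks₁₂ with hB
    set C := G.toBlocks₂₁ with hC
    set D := G.toBlocks₂₂ with hD
    have hker : LinearMap.ker (Matrix.mulVecLin C) = ⊥ := Submodule.finrank_eq_zero.mp hk
    have hCinj : Function.Injective C.mulVec := LinearMap.ker_eq_bot.mp hker
    have hCu : IsUnit C := Matrix.mulVec_injective_iff_isUnit.mp hCinj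
    haveI : Invertible C := hCu.invertible
    have hS1 : (Aᵀ * C)ᵀ = Aᵀ * C := by
      rw [Matrix.transpose_mul, Matrix.transpose_transpose]
      have := eq_neg_of_add_eq_zero_left r1
      rw [this, neg_eq_self_of_char_two]
    have hDC : D * Cᵀ = C * Dᵀ := by
      have := eq_neg_of_add_eq_zero_left s3
      rw [this, neg_eq_self_of_char_two]
    have hCC : Cᵀ * (⅟C)ᵀ = 1 := by
      rw [← Matrix.transpose_mul, invOf_mul_self, Matrix.transpose_one]
    have hM : (⅟C * D)ᵀ = ⅟C * D := by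
      rw [Matrix.transpose_mul]
      calc Dᵀ * (⅟C)ᵀ = (⅟C * C) * Dᵀ * (⅟C)ᵀ := by rw [invOf_mul_self, Matrix.one_mul]
        _ = ⅟C * (C * Dᵀ) * (⅟C)ᵀ := by simp only [Matrix.mul_assoc]
        _ = ⅟C * (D * Cᵀ) * (⅟C)ᵀ := by rw [hDC]
        _ = ⅟C * D * (Cᵀ * (⅟C)ᵀ) := by simp only [Matrix.mul_assoc]
        _ = ⅟C * D := by rw [hCC, Matrix.mul_one]
    have hAD0 : Matrix.trace (Aᵀ * D) = 0 := by
      have e : Aᵀ * D = (Aᵀ * C) * (⅟C * D) := by
        rw [Matrix.mul_assoc, ← Matrix.mul_assoc C, mul_invOf_self, Matrix.one_mul]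
      rw [e]
      exact trace_mul_eq_zero_of_symm (Aᵀ * C) (⅟C * D) hS1 d1 hM
    have hCB : Cᵀ * B = 1 - Aᵀ * D := by rw [← r2]; abel
    rw [dk_eq_trace, ← hB, ← hC, ← Matrix.trace_transpose, Matrix.transpose_mul,
      Matrix.transpose_transpose, hCB, Matrix.trace_sub, hAD0, sub_zero, Matrix.trace_one,
      Fintype.card_fin, Nat.sub_zero]
  | succ k ih =>
    intro G hG hdet hk
    obtain ⟨i, hi⟩ := exists_swap_step G hG hdet k hk
    set σ : Equiv.Perm (Fin m ⊕ Fin m) := Equiv.swap (Sum.inl i) (Sum.inr i) with hσ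
    set G' := G.submatrix σ id with hG'
    have hG'v : ∀ v, G' *ᵥ v = (G *ᵥ v) ∘ σ := fun v => rfl
    have hG'iso : ∀ v, Cfsg.quadFormPlus m F (G' *ᵥ v) = Cfsg.quadFormPlus m F v := fun v => by
      rw [hG'v, hσ, quadFormPlus_comp_swap, hG]
    have hdet' : G'.det = - G.det := by
      rw [hG', Matrix.det_permute, hσ, Equiv.Perm.sign_swap (by simp)]
      simp
    have hdet'0 : G'.det ≠ 0 := by rw [hdet']; exact neg_ne_zero.mpr hdet
    have h7 := ih G' hG'iso hdet'0 hi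
    have h8 := dk_swap G hG i
    rw [← hσ, ← hG', h7] at h8
    have hkm : k + 1 ≤ m := by
      have h1 := Submodule.finrank_le (LinearMap.ker (Matrix.mulVecLin G.toBlocks₂₁))
      rw [Module.finrank_fin_fun, hk] at h1
      exact h1
    have h9 : ((m - k : ℕ) : F) = ((m - (k + 1) : ℕ) : F) + 1 := by
      have : m - k = (m - (k + 1)) + 1 := by omega
      rw [this]; push_cast; ring
    rw [h9] at h8
    linear_combination -h8

end Dickson

end Cfsg.Agent.Helper44
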