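import Cfsg.Agent.Helper44.FieldExt

set_option autoImplicit false

/-!
Helper library (helper44): more on quadratic extensions of finite fields:
norm-one elements, roots of anisotropic quadratics, pairs of norm forms.
-/

namespace Cfsg.Agent.Helper44

open Polynomial

section Quadratic2

variable {F K : Type*} [Field F] [Fintype F] [Field K] [Fintype K] [Algebra F K] {q : ℕ}

/-- the norm `z ↦ z * z ^ q` of a quadratic extension of finite fields is surjective -/
theorem exists_norm_eq (hF : Fintype.card F = q) (hK : Fintype.card K = q ^ 2) (b : F) :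
    ∃ z : K, z * z ^ q = algebraMap F K b := by
  obtain ⟨z, hz⟩ := FiniteField.norm_surjective F K b
  refine ⟨z, ?_⟩
  have h := FiniteField.algebraMap_norm_eq_pow (K := F) (K' := K) (x := z)
  rw [hz, Nat.card_eq_fintype_card, Nat.card_eq_fintype_card, hK, hF] at h
  have hq := two_le_card hF
  have e : (q ^ 2 - 1) / (q - 1) = q + 1 := by
    have h1 : q ^ 2 - 1 = (q + 1) * (q - 1) := by
      have h2 : q ^ 2 = (q + 1) * (q - 1) + 1 := by
        obtain ⟨r, rfl⟩ : ∃ r, q = r + 1 := ⟨q - 1, by omega⟩
        simp only [Nat.add_sub_cancel]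
        ring
      omega
    rw [h1]
    exact Nat.mul_div_cancel _ (by omega)
  rw [e, pow_succ'] at h
  exact h.symm

/-- a root in the quadratic extension of an anisotropic quadratic, with its conjugate -/
theorem exists_root_pair (hF : Fintype.card F = q) (hK : Fintype.card K = q ^ 2) (a c : F)
    (hac : ∀ z₁ z₂ : F, z₁ ^ 2 + a * z₁ * z₂ + c * z₂ ^ 2 = 0 → z₁ = 0 ∧ z₂ = 0) :
    ∃ r : K, (∀ b : F, algebraMap F K b ≠ r) ∧ r + r ^ q = -algebraMap F K a ∧
      r * r ^ q = algebraMap F K c := by
  classical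
  obtain ⟨τ, hτ⟩ := exists_frob hF hK (by norm_num)
  set A := algebraMap F K with hA
  set f : F[X] := C 1 * X ^ 2 + C a * X + C c with hf
  have hfdeg : f.natDegree = 2 := natDegree_quadratic one_ne_zero
  have hfirr : Irreducible f := by
    apply irreducible_of_degree_le_three_of_not_isRoot
    · rw [hfdeg]; simp
    · intro x hx
      have h2 : x ^ 2 + a * x * 1 + c * 1 ^ 2 = 0 := by
        have : eval x f = 0 := hx
        simp only [hf, eval_add, eval_mul, eval_C, eval_pow, eval_X] at this
        linear_combination this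
      exact one_ne_zero (hac x 1 h2).2
  have hdvd : f ∣ X ^ Nat.card F ^ 2 - X :=
    (hfirr.natDegree_dvd_iff_dvd_X_pow_card_pow_sub_X).mp (by rw [hfdeg])
  have hdvdK : f.map A ∣ (X ^ Nat.card K - X : K[X]) := by
    have := Polynomial.map_dvd A hdvd
    rw [Polynomial.map_sub, Polynomial.map_pow, Polynomial.map_X] at this
    rw [Nat.card_eq_fintype_card, hK, ← hF, ← Nat.card_eq_fintype_card]
    exact this
  have hne : (X ^ Nat.card K - X : K[X]) ≠ 0 := by
    rw [Nat.card_eq_fintype_card]
    exact FiniteField.X_pow_card_sub_X_ne_zero K Fintype.one_lt_card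
  have hsplit : (f.map A).Splits := Splits.of_dvd splits_X_pow_nat_card_sub_X hne hdvdK
  have hdegK : (f.map A).degree ≠ 0 := by
    rw [degree_map, degree_eq_natDegree hfirr.ne_zero, hfdeg]
    norm_num
  obtain ⟨r₁, hr₁⟩ := hsplit.exists_eval_eq_zero hdegK
  have hr₁' : r₁ ^ 2 + A a * r₁ + A c = 0 := by
    simp only [hf, Polynomial.map_add, Polynomial.map_mul, Polynomial.map_pow, map_C, map_X,
      eval_add, eval_mul, eval_C, eval_pow, eval_X, map_one, one_mul] at hr₁
    linear_combination hr₁
  have hr₁F : ∀ b : F, A b ≠ r₁ := by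
    intro b hb
    have h2 : b ^ 2 + a * b * 1 + c * 1 ^ 2 = 0 := by
      apply A.injective
      rw [← hb] at hr₁'
      simp only [map_add, map_mul, map_pow, map_one, map_zero]
      linear_combination hr₁'
    exact one_ne_zero (hac b 1 h2).2
  have hr₂ : (r₁ ^ q) ^ 2 + A a * r₁ ^ q + A c = 0 := by
    have h2 := congrArg τ hr₁'
    rw [map_add, map_add, map_mul, map_pow, map_zero, hτ, hτ, hτ, algebraMap_pow_card hF,
      algebraMap_pow_card hF] at h2
    exact h2
  have hr12 : r₁ ≠ r₁ ^ q := by
    intro h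
    obtain ⟨b, hb⟩ := mem_range_of_pow_eq hF r₁ h.symm
    exact hr₁F b hb
  have hsum : r₁ + r₁ ^ q = -A a := by
    have h2 : (r₁ - r₁ ^ q) * (r₁ + r₁ ^ q + A a) = 0 := by linear_combination hr₁' - hr₂
    have h3 := (mul_eq_zero.mp h2).resolve_left (sub_ne_zero.mpr hr12)
    linear_combination h3
  refine ⟨r₁, hr₁F, hsum, ?_⟩
  linear_combination -hr₁' + r₁ * hsum

end Quadratic2

end Cfsg.Agent.Helper44
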