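import Cfsg.Prelude.Def_LieClassical
import Cfsg.Agent.Helper44.FieldExt2

set_option autoImplicit false

/-!
Helper library (helper44): embedding the unitary group `GU_m(q)` into the isometry group of
a quadratic form over the subfield, from an `F`-linear map `Ψ : K^m → F^κ` under which the
form becomes `v ↦ Σ v_i v_i^q`.
-/

namespace Cfsg.Agent.Helper44

open Matrix

theorem mem_isometryGroup_iff {ι : Type} [Fintype ι] [DecidableEq ι] (F : Type*) [Field F]
    (Q : (ι → F) → F) (g : GL ι F) :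
    g ∈ Cfsg.isometryGroup F Q ↔ ∀ u : ι → F, Q ((g : Matrix ι ι F) *ᵥ u) = Q u := by
  constructor
  · intro h u
    exact h u u
  · intro h u v
    exact h u

section Herm

variable {F K : Type*} [Field F] [Fintype F] [Field K] [Fintype K] [Algebra F K] {q : ℕ}

/-- injectivity of a linear map carrying a function `Q'` with `Q' 0 = 0` to the norm form -/
theorem injective_of_herm_identity (hF : Fintype.card F = q) (hK : Fintype.card K = q ^ 2)
    {ι κ : Type*} [Fintype ι] [DecidableEq ι] (Q' : (κ → F) → F) (hQ0 : Q' 0 = 0)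
    (Ψ : (ι → K) →ₗ[F] (κ → F))
    (hΨ : ∀ v, algebraMap F K (Q' (Ψ v)) = ∑ i, v i * (v i) ^ q) : Function.Injective Ψ := by
  obtain ⟨τ, hτ⟩ := exists_frob hF hK (by norm_num)
  obtain ⟨ω, hω⟩ := exists_not_mem_range hF hK
  have hωτ : τ ω - ω ≠ 0 := by
    intro h
    rw [hτ] at h
    obtain ⟨a, ha⟩ := mem_range_of_pow_eq hF ω (sub_eq_zero.mp h)
    exact hω a ha
  rw [injective_iff_map_eq_zero]
  intro v hv
  have h0 : ∑ i, v i * τ (v i) = 0 := by
    have := hΨ v
    rw [hv, hQ0, map_zero] at this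
    simp only [hτ]
    exact this.symm
  have h1 : ∀ u : ι → K, ∑ i, (u i + v i) * τ (u i + v i) = ∑ i, u i * τ (u i) := by
    intro u
    have e1 := hΨ (u + v)
    rw [map_add, hv, add_zero, hΨ u] at e1
    simp only [hτ]
    exact e1.symm
  have h2 : ∀ u : ι → K, ∑ i, (u i * τ (v i) + v i * τ (u i)) = 0 := by
    intro u
    have e2 : ∑ i, (u i + v i) * τ (u i + v i)
        = ∑ i, u i * τ (u i) + ∑ i, (u i * τ (v i) + v i * τ (u i)) + ∑ i, v i * τ (v i) := by
      rw [← Finset.sum_add_distrib, ← Finset.sum_add_distrib]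
      apply Finset.sum_congr rfl
      intro i _
      rw [map_add]; ring
    rw [h1 u, h0, add_zero] at e2
    exact (add_eq_left.mp e2.symm)
  ext i
  have e3 := h2 (Pi.single i 1)
  have e4 := h2 (Pi.single i ω)
  rw [Finset.sum_eq_single i] at e3 e4
  · rw [Pi.single_eq_same, map_one] at e3
    rw [Pi.single_eq_same] at e4
    have e5 : τ (v i) = -v i := by linear_combination e3
    rw [e5] at e4
    have e6 : v i * (τ ω - ω) = 0 := by linear_combination e4
    exact (mul_eq_zero.mp e6).resolve_right hωτ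
  · intro j _ hj
    rw [Pi.single_eq_of_ne hj, map_zero, zero_mul, mul_zero, add_zero]
  · intro h; exact absurd (Finset.mem_univ i) h
  · intro j _ hj
    rw [Pi.single_eq_of_ne hj, map_zero, zero_mul, mul_zero, add_zero]
  · intro h; exact absurd (Finset.mem_univ i) h

/-- the embedding of `GU_m(q)` into the isometry group of a form over the subfield -/
theorem exists_embedding_of_identity (hF : Fintype.card F = q) (hK : Fintype.card K = q ^ 2)
    (m : ℕ) {κ : Type} [Fintype κ] [DecidableEq κ] (Q' : (κ → F) → F) (hQ0 : Q' 0 = 0)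
    (hcard : Fintype.card κ = 2 * m) (Ψ : (Fin m → K) →ₗ[F] (κ → F))
    (hΨ : ∀ v, algebraMap F K (Q' (Ψ v)) = ∑ i, v i * (v i) ^ q) :
    ∃ φ : ↥(Cfsg.GU m K q) →* ↥(Cfsg.isometryGroup F Q'), Function.Injective φ := by
  classical
  have hinj := injective_of_herm_identity hF hK Q' hQ0 Ψ hΨ
  haveI : Module.Finite F K := Module.Finite.of_finite
  have hfr : Module.finrank F (Fin m → K) = Module.finrank F (κ → F) := by
    rw [Module.finrank_pi_fintype, Module.finrank_pi, hcard, finrank_eq_two hF hK]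
    simp [mul_comm]
  set Ψ' : (Fin m → K) ≃ₗ[F] (κ → F) := Ψ.linearEquivOfInjective hinj hfr with hΨ'
  have hΨ'app : ∀ v, Ψ' v = Ψ v := fun v => LinearMap.linearEquivOfInjective_apply hinj hfr v
  have hmem : ∀ g : ↥(Cfsg.GU m K q),
      ((resGL Ψ').comp (Cfsg.GU m K q).subtype) g ∈ Cfsg.isometryGroup F Q' := by
    intro g
    rw [mem_isometryGroup_iff]
    intro U
    obtain ⟨v, rfl⟩ := Ψ'.surjective U
    show Q' ((resHom Ψ' ((g : GL (Fin m) K) : Matrix (Fin m) (Fin m) K)) *ᵥ Ψ' v) = _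
    rw [resHom_mulVec]
    apply (algebraMap F K).injective
    rw [hΨ'app, hΨ'app, hΨ, hΨ]
    have hg := g.2 v v
    simp only [Cfsg.hermForm, Units.coeHom_apply] at hg
    exact hg
  refine ⟨((resGL Ψ').comp (Cfsg.GU m K q).subtype).codRestrict _ hmem, ?_⟩
  intro g h hgh
  have h2 : resGL Ψ' (g : GL (Fin m) K) = resGL Ψ' (h : GL (Fin m) K) :=
    congrArg Subtype.val hgh
  exact Subtype.ext (resGL_injective Ψ' h2)

/-- The pair map: on `K × K` (indexed in blocks), the sum of two norms becomes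
a sum of products `x y` of `F`-coordinates. -/
theorem exists_pairMap (hF : Fintype.card F = q) (hK : Fintype.card K = q ^ 2) (k : ℕ) :
    ∃ P : (Fin k ⊕ Fin k → K) →ₗ[F] ((Fin k ⊕ Fin k) ⊕ (Fin k ⊕ Fin k) → F),
      ∀ v, algebraMap F K (∑ s, P v (Sum.inl s) * P v (Sum.inr s)) = ∑ s, v s * (v s) ^ q := by
  classical
  obtain ⟨τ, hτ⟩ := exists_frob hF hK (by norm_num)
  obtain ⟨ω, hω⟩ := exists_not_mem_range hF hK
  obtain ⟨c₀, c₁, hz, h0, h1⟩ := exists_coords hF hK ω hω
  set A := algebraMap F K with hA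
  have hττ : ∀ x, τ (τ x) = x := by
    intro x; rw [hτ, hτ, pow_card_sq hK]
  have hτA : ∀ r : F, τ (A r) = A r := by
    intro r; rw [hτ, algebraMap_pow_card hF]
  have hωτ : ω - τ ω ≠ 0 := by
    intro h
    rw [hτ] at h
    obtain ⟨a, ha⟩ := mem_range_of_pow_eq hF ω (sub_eq_zero.mp h).symm
    exact hω a ha
  have hfix : ∀ x : K, τ x = x → A (c₀ x) = x := by
    intro x hx
    rw [hτ] at hx
    obtain ⟨r, rfl⟩ := mem_range_of_pow_eq hF x hx
    have := h0 r 0
    rw [map_zero, zero_mul, add_zero] at this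
    rw [this]
  obtain ⟨c, hc⟩ := exists_norm_eq hF hK (-1 : F)
  rw [← hτ, map_neg, map_one] at hc
  set θ : K := ω / (ω - τ ω) with hθ
  have hθ1 : θ + τ θ = 1 := by
    rw [hθ, map_div₀, map_sub, hττ]
    have h3 : τ ω - ω ≠ 0 := by
      intro h; apply hωτ; linear_combination -h
    field_simp
    ring
  -- the F-linear conjugation
  let τL : K →ₗ[F] K :=
    { toFun := τ
      map_add' := map_add τ
      map_smul' := by
        intro r z
        simp only [Algebra.smul_def, map_mul, RingHom.id_apply]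
        rw [hτA] }
  have hτL : ∀ z, τL z = τ z := fun z => rfl
  -- a and b
  let la : Fin k → (Fin k ⊕ Fin k → K) →ₗ[F] K := fun i =>
    { toFun := fun v => v (Sum.inl i) - τ c * v (Sum.inr i)
      map_add' := by intro u v; simp only [Pi.add_apply]; ring
      map_smul' := by
        intro r v
        simp only [Pi.smul_apply, Algebra.smul_def, RingHom.id_apply]; ring }
  let lb : Fin k → (Fin k ⊕ Fin k → K) →ₗ[F] K := fun i =>
    { toFun := fun v => τ c * v (Sum.inr i) + θ * (v (Sum.inl i) - τ c * v (Sum.inr i))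
      map_add' := by intro u v; simp only [Pi.add_apply]; ring
      map_smul' := by
        intro r v
        simp only [Pi.smul_apply, Algebra.smul_def, RingHom.id_apply]; ring }
  have hla : ∀ i v, la i v = v (Sum.inl i) - τ c * v (Sum.inr i) := fun i v => rfl
  have hlb : ∀ i v, lb i v = τ c * v (Sum.inr i) + θ * (v (Sum.inl i) - τ c * v (Sum.inr i)) :=
    fun i v => rfl
  let y₀ : K →ₗ[F] F := c₀ ∘ₗ (LinearMap.id + τL)
  let y₁ : K →ₗ[F] F := c₀ ∘ₗ (LinearMap.mulLeft F ω ∘ₗ τL + LinearMap.mulLeft F (τ ω))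
  have hy₀ : ∀ b, A (y₀ b) = b + τ b := by
    intro b
    show A (c₀ (b + τ b)) = _
    apply hfix
    rw [map_add, hττ, add_comm]
  have hy₁ : ∀ b, A (y₁ b) = ω * τ b + τ ω * b := by
    intro b
    show A (c₀ (ω * τ b + τ ω * b)) = _
    apply hfix
    rw [map_add, map_mul, map_mul, hττ, hττ, add_comm]
  let P : (Fin k ⊕ Fin k → K) →ₗ[F] ((Fin k ⊕ Fin k) ⊕ (Fin k ⊕ Fin k) → F) :=
    LinearMap.pi (fun s => Sum.elim
      (Sum.elim (fun i => c₀ ∘ₗ la i) (fun i => c₁ ∘ₗ la i))
      (Sum.elim (fun i => y₀ ∘ₗ lb i) (fun i => y₁ ∘ₗ lb i)) s)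
  refine ⟨P, fun v => ?_⟩
  rw [Fintype.sum_sum_type, Fintype.sum_sum_type, ← Finset.sum_add_distrib,
    ← Finset.sum_add_distrib, map_sum]
  apply Finset.sum_congr rfl
  intro i _
  show A (c₀ (la i v) * y₀ (lb i v) + c₁ (la i v) * y₁ (lb i v)) = _
  rw [map_add, map_mul, map_mul, hy₀, hy₁]
  have ha : la i v = A (c₀ (la i v)) + A (c₁ (la i v)) * ω := hz _
  have hta : τ (la i v) = A (c₀ (la i v)) + A (c₁ (la i v)) * τ ω := by
    conv_lhs => rw [ha]
    rw [map_add, map_mul, hτA, hτA]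
  have e0 : ∀ (a b : K) (x₀ x₁ : F), a = A x₀ + A x₁ * ω → τ a = A x₀ + A x₁ * τ ω →
      A x₀ * (b + τ b) + A x₁ * (ω * τ b + τ ω * b) = a * τ b + τ a * b := by
    intro a b x₀ x₁ h1 h2
    rw [h2, h1]
    ring
  have e1 := e0 (la i v) (lb i v) (c₀ (la i v)) (c₁ (la i v)) ha hta
  rw [e1, hlb, hla, ← hτ, ← hτ]
  simp only [map_add, map_mul, map_sub, hττ]
  have e2 : τ θ = 1 - θ := by linear_combination hθ1
  rw [e2]
  linear_combination (-(v (Sum.inr i) * τ (v (Sum.inr i)))) * hc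

end Herm

end Cfsg.Agent.Helper44
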