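import Cfsg.Agent.Helper44.LangB

set_option autoImplicit false

/-!
Helper library (helper44): classification of non-degenerate Hermitian matrices over a finite
field: every invertible matrix `H` with `σ(H)ᵀ = H` (`σ` an involutory field automorphism) is of
the form `h σ(h)ᵀ` (`lang_herm_gl`), via the existence of an orthonormal basis
(`lang_herm_class`).
-/

namespace Cfsg.Agent.Helper44.PSLn

open Matrix

universe u

section Herm

variable {F : Type u} [Field F] {n : ℕ}

/-- entrywise application of `σ` to a vector -/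
def lang_sv (σ : RingAut F) (v : Fin n → F) : Fin n → F := fun i => σ (v i)

theorem lang_sv_add (σ : RingAut F) (v w : Fin n → F) :
    lang_sv σ (v + w) = lang_sv σ v + lang_sv σ w := by
  funext i
  simp [lang_sv]

theorem lang_sv_smul (σ : RingAut F) (a : F) (v : Fin n → F) :
    lang_sv σ (a • v) = σ a • lang_sv σ v := by
  funext i
  simp [lang_sv]

theorem lang_sv_zero (σ : RingAut F) : lang_sv σ (0 : Fin n → F) = 0 := by
  funext i
  simp [lang_sv]

/-- the sesquilinear form with Gram matrix `H` -/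
def lang_hf (σ : RingAut F) (H : Matrix (Fin n) (Fin n) F) (u v : Fin n → F) : F :=
  u ⬝ᵥ (H *ᵥ lang_sv σ v)

variable (σ : RingAut F) (H : Matrix (Fin n) (Fin n) F)

theorem lang_hf_add_left (u u' v : Fin n → F) :
    lang_hf σ H (u + u') v = lang_hf σ H u v + lang_hf σ H u' v := by
  unfold lang_hf
  rw [add_dotProduct]

theorem lang_hf_smul_left (a : F) (u v : Fin n → F) :
    lang_hf σ H (a • u) v = a * lang_hf σ H u v := by
  unfold lang_hf
  rw [smul_dotProduct, smul_eq_mul]

theorem lang_hf_add_right (u v v' : Fin n → F) :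
    lang_hf σ H u (v + v') = lang_hf σ H u v + lang_hf σ H u v' := by
  unfold lang_hf
  rw [lang_sv_add, Matrix.mulVec_add, dotProduct_add]

theorem lang_hf_smul_right (a : F) (u v : Fin n → F) :
    lang_hf σ H u (a • v) = σ a * lang_hf σ H u v := by
  unfold lang_hf
  rw [lang_sv_smul, Matrix.mulVec_smul, dotProduct_smul, smul_eq_mul]

theorem lang_hf_zero_left (v : Fin n → F) : lang_hf σ H 0 v = 0 := by
  unfold lang_hf
  rw [zero_dotProduct]

theorem lang_hf_neg_left (u v : Fin n → F) : lang_hf σ H (-u) v = -lang_hf σ H u v := by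
  unfold lang_hf
  rw [neg_dotProduct]

theorem lang_hf_sub_left (u u' v : Fin n → F) :
    lang_hf σ H (u - u') v = lang_hf σ H u v - lang_hf σ H u' v := by
  rw [sub_eq_add_neg, lang_hf_add_left, lang_hf_neg_left, ← sub_eq_add_neg]

theorem lang_hf_sum_left {ι : Type*} (s : Finset ι) (a : ι → F) (e : ι → Fin n → F)
    (v : Fin n → F) :
    lang_hf σ H (∑ i ∈ s, a i • e i) v = ∑ i ∈ s, a i * lang_hf σ H (e i) v := by
  classical
  induction s using Finset.induction_on with
  | empty => rw [Finset.sum_empty, Finset.sum_empty, lang_hf_zero_left]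
  | insert i s hi ih =>
    rw [Finset.sum_insert hi, Finset.sum_insert hi, lang_hf_add_left, lang_hf_smul_left, ih]

/-- Hermitian symmetry -/
theorem lang_hf_symm (hσ2 : ∀ a, σ (σ a) = a) (hH : (H.map σ)ᵀ = H) (u v : Fin n → F) :
    σ (lang_hf σ H u v) = lang_hf σ H v u := by
  have hH' : ∀ i j, σ (H j i) = H i j := fun i j => congrFun (congrFun hH i) j
  unfold lang_hf
  simp only [dotProduct, Matrix.mulVec, lang_sv, map_sum, map_mul, hσ2, Finset.mul_sum]
  rw [Finset.sum_comm]
  refine Finset.sum_congr rfl fun i _ => Finset.sum_congr rfl fun j _ => ?_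
  rw [hH']
  ring

theorem lang_hf_nondeg (hU : IsUnit H) (v : Fin n → F)
    (h : ∀ u, lang_hf σ H u v = 0) : v = 0 := by
  have h1 : H *ᵥ lang_sv σ v = 0 := by
    funext i
    have h2 := h (Pi.single i 1)
    unfold lang_hf at h2
    rw [single_dotProduct, one_mul] at h2
    exact h2
  have h3 : lang_sv σ v = 0 := by
    apply Matrix.mulVec_injective_iff_isUnit.mpr hU
    rw [h1, Matrix.mulVec_zero]
  funext i
  have h4 := congrFun h3 i
  exact (map_eq_zero σ).mp h4

theorem lang_orderOf_two (hσ2 : ∀ a, σ (σ a) = a) (hσ : σ ≠ 1) : orderOf σ = 2 := by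
  haveI : Fact (Nat.Prime 2) := ⟨Nat.prime_two⟩
  apply orderOf_eq_prime
  · apply RingEquiv.ext
    intro a
    rw [pow_two]
    exact hσ2 a
  · exact hσ

theorem lang_trace_ne (hσ2 : ∀ a, σ (σ a) = a) (hσ : σ ≠ 1) : ∃ t : F, t + σ t ≠ 0 := by
  by_contra hne
  push_neg at hne
  apply hσ
  have h1 : (1 : F) + 1 = 0 := by
    have := hne 1
    rwa [map_one] at this
  apply RingEquiv.ext
  intro t
  have h2 := hne t
  have h3 : t + t = 0 := by
    have : t + t = t * (1 + 1) := by ring
    rw [this, h1, mul_zero]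
  show σ t = t
  have h4 : σ t = -t := by
    rw [eq_neg_iff_add_eq_zero, add_comm]
    exact h2
  rw [h4, neg_eq_iff_add_eq_zero]
  exact h3

/-- existence of orthonormal families -/
theorem lang_orthonormal [Finite F] (hσ2 : ∀ a, σ (σ a) = a) (hσ : σ ≠ 1)
    (hH : (H.map σ)ᵀ = H) (hU : IsUnit H) :
    ∀ k : ℕ, k ≤ n → ∃ e : Fin k → (Fin n → F),
      ∀ i j, lang_hf σ H (e i) (e j) = if i = j then 1 else 0 := by
  classical
  intro k
  induction k with
  | zero =>
    intro _
    exact ⟨fun i => i.elim0, fun i => i.elim0⟩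
  | succ k ih =>
    intro hk
    obtain ⟨e, he⟩ := ih (by omega)
    -- the projection onto the orthogonal complement of the `e i`
    have hproj : ∀ z : Fin n → F, ∀ j,
        lang_hf σ H (z - ∑ i, lang_hf σ H z (e i) • e i) (e j) = 0 := by
      intro z j
      rw [lang_hf_sub_left, lang_hf_sum_left]
      have h1 : ∑ i, lang_hf σ H z (e i) * lang_hf σ H (e i) (e j) = lang_hf σ H z (e j) := by
        rw [Finset.sum_eq_single j]
        · rw [he, if_pos rfl, mul_one]
        · intro i _ hij
          rw [he, if_neg hij, mul_zero]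
        · intro hj
          exact absurd (Finset.mem_univ j) hj
      rw [h1, sub_self]
    -- a vector outside the span
    have hS : Submodule.span F (Set.range e) ≠ ⊤ := by
      intro htop
      have h1 := finrank_range_le_card (R := F) e
      rw [Set.finrank, htop, finrank_top, Module.finrank_fin_fun, Fintype.card_fin] at h1
      omega
    obtain ⟨v, hv⟩ : ∃ v : Fin n → F, v ∉ Submodule.span F (Set.range e) := by
      by_contra hall
      push_neg at hall
      exact hS (Submodule.eq_top_iff'.mpr hall)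
    set w : Fin n → F := v - ∑ i, lang_hf σ H v (e i) • e i with hw
    have hw0 : w ≠ 0 := by
      intro h0
      apply hv
      have h1 : v = ∑ i, lang_hf σ H v (e i) • e i := sub_eq_zero.mp h0
      rw [h1]
      exact Submodule.sum_mem _ fun i _ =>
        Submodule.smul_mem _ _ (Submodule.subset_span ⟨i, rfl⟩)
    have hwW : ∀ j, lang_hf σ H w (e j) = 0 := hproj v
    -- an anisotropic vector orthogonal to the `e i`
    have hex : ∃ x : Fin n → F, (∀ j, lang_hf σ H x (e j) = 0) ∧ lang_hf σ H x x ≠ 0 := by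
      by_contra hno
      push_neg at hno
      have hpol : ∀ x y : Fin n → F, (∀ j, lang_hf σ H x (e j) = 0) →
          (∀ j, lang_hf σ H y (e j) = 0) → lang_hf σ H x y = 0 := by
        intro x y hx hy
        by_contra hb
        obtain ⟨t, ht⟩ := lang_trace_ne σ hσ2 hσ
        set b := lang_hf σ H x y with hbdef
        have h1 : lang_hf σ H (x + (t * b) • y) (x + (t * b) • y) = 0 := by
          apply hno
          intro j
          rw [lang_hf_add_left, lang_hf_smul_left, hx, hy, mul_zero, add_zero]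
        rw [lang_hf_add_left, lang_hf_add_right, lang_hf_add_right, lang_hf_smul_left,
          lang_hf_smul_left, lang_hf_smul_right, lang_hf_smul_right, hno x hx, hno y hy,
          ← lang_hf_symm σ H hσ2 hH x y, ← hbdef, map_mul] at h1
        have h2 : (t + σ t) * (b * σ b) = 0 := by
          rw [← h1]
          ring
        rcases mul_eq_zero.mp h2 with h3 | h3
        · exact ht h3
        · rcases mul_eq_zero.mp h3 with h4 | h4
          · exact hb h4
          · exact hb ((map_eq_zero σ).mp h4)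
      apply hw0
      apply lang_hf_nondeg σ H hU
      intro u
      have h1 : u = (u - ∑ i, lang_hf σ H u (e i) • e i) + ∑ i, lang_hf σ H u (e i) • e i := by
        rw [sub_add_cancel]
      rw [h1, lang_hf_add_left, hpol _ _ (hproj u) hwW, lang_hf_sum_left, zero_add]
      apply Finset.sum_eq_zero
      intro i _
      rw [← lang_hf_symm σ H hσ2 hH w (e i), hwW, map_zero, mul_zero]
    obtain ⟨x, hx, hxx⟩ := hex
    have hd : σ (lang_hf σ H x x) = lang_hf σ H x x := lang_hf_symm σ H hσ2 hH x x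
    obtain ⟨μ, hμ0, hμ⟩ := lang_norm_surj σ 2 (lang_orderOf_two σ hσ2 hσ) (by norm_num)
      (lang_hf σ H x x) hxx hd
    have hμ' : μ * σ μ = lang_hf σ H x x := by
      rw [← hμ]
      show μ * σ μ = μ * σ (μ * σ 1)
      rw [map_one, mul_one]
    have hσμ : σ μ ≠ 0 := (map_ne_zero σ).mpr hμ0
    refine ⟨Fin.snoc e (μ⁻¹ • x), ?_⟩
    intro i j
    refine Fin.lastCases ?_ (fun i' => ?_) i
    · refine Fin.lastCases ?_ (fun j' => ?_) j
      · rw [Fin.snoc_last, if_pos rfl, lang_hf_smul_left, lang_hf_smul_right, ← hμ', map_inv₀]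
        field_simp
      · rw [Fin.snoc_last, Fin.snoc_castSucc, if_neg (Fin.castSucc_lt_last j').ne',
          lang_hf_smul_left, hx, mul_zero]
    · refine Fin.lastCases ?_ (fun j' => ?_) j
      · rw [Fin.snoc_last, Fin.snoc_castSucc, if_neg (Fin.castSucc_lt_last i').ne,
          lang_hf_smul_right, ← lang_hf_symm σ H hσ2 hH x (e i'), hx, map_zero, mul_zero]
      · rw [Fin.snoc_castSucc, Fin.snoc_castSucc, he]
        by_cases hij : i' = j'
        · rw [if_pos hij, if_pos (by rw [hij])]
        · rw [if_neg hij, if_neg (fun h => hij (Fin.castSucc_injective _ h))]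

/-- a non-degenerate Hermitian matrix is congruent to the identity -/
theorem lang_herm_class [Finite F] (hσ2 : ∀ a, σ (σ a) = a) (hσ : σ ≠ 1)
    (hH : (H.map σ)ᵀ = H) (hU : IsUnit H) :
    ∃ P : Matrix (Fin n) (Fin n) F, P * H * (P.map σ)ᵀ = 1 := by
  obtain ⟨e, he⟩ := lang_orthonormal σ H hσ2 hσ hH hU n le_rfl
  refine ⟨Matrix.of e, ?_⟩
  ext i j
  rw [Matrix.one_apply, ← he i j]
  unfold lang_hf
  simp only [Matrix.mul_apply, Matrix.transpose_apply, Matrix.map_apply, Matrix.of_apply,
    dotProduct, Matrix.mulVec, lang_sv, Finset.sum_mul, Finset.mul_sum]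
  rw [Finset.sum_comm]
  refine Finset.sum_congr rfl fun a _ => Finset.sum_congr rfl fun b _ => ?_
  ring

/-- an invertible Hermitian matrix is of the form `h σ(h)ᵀ` -/
theorem lang_herm_gl [Finite F] (hσ2 : ∀ a, σ (σ a) = a) (hσ : σ ≠ 1) (g : GL (Fin n) F)
    (hg : ((g : Matrix (Fin n) (Fin n) F).map σ)ᵀ = (g : Matrix (Fin n) (Fin n) F)) :
    ∃ h : GL (Fin n) F,
      (g : Matrix (Fin n) (Fin n) F)
        = (h : Matrix (Fin n) (Fin n) F) * ((h : Matrix (Fin n) (Fin n) F).map σ)ᵀ := by
  obtain ⟨P, hP⟩ := lang_herm_class σ (g : Matrix (Fin n) (Fin n) F) hσ2 hσ hg g.isUnit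
  have hPu : IsUnit P := by
    rw [mul_assoc] at hP
    exact IsUnit.of_mul_eq_one _ hP
  obtain ⟨pg, hpg⟩ := hPu
  refine ⟨pg⁻¹, ?_⟩
  have h1 : ((pg⁻¹ : GL (Fin n) F) : Matrix (Fin n) (Fin n) F) * P = 1 := by
    rw [← hpg, ← Units.val_mul, inv_mul_cancel, Units.val_one]
  have h2 : P * ((pg⁻¹ : GL (Fin n) F) : Matrix (Fin n) (Fin n) F) = 1 := by
    rw [← hpg, ← Units.val_mul, mul_inv_cancel, Units.val_one]
  have h3 : (P.map σ)ᵀ * ((((pg⁻¹ : GL (Fin n) F) : Matrix (Fin n) (Fin n) F)).map σ)ᵀ = 1 := by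
    rw [← Matrix.transpose_mul]
    have h4 : (((pg⁻¹ : GL (Fin n) F) : Matrix (Fin n) (Fin n) F)).map σ * P.map σ
        = (((pg⁻¹ : GL (Fin n) F) : Matrix (Fin n) (Fin n) F) * P).map (σ : F →+* F) :=
      (Matrix.map_mul (f := (σ : F →+* F))).symm
    rw [h4, h1]
    ext i j
    rw [Matrix.transpose_apply, Matrix.map_apply, Matrix.one_apply, Matrix.one_apply]
    by_cases hij : i = j
    · subst hij
      rw [if_pos rfl, map_one]
    · rw [if_neg hij, if_neg (Ne.symm hij), map_zero]
  calc (g : Matrix (Fin n) (Fin n) F)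
      = (((pg⁻¹ : GL (Fin n) F) : Matrix (Fin n) (Fin n) F) * P) * (g : Matrix (Fin n) (Fin n) F)
          * ((P.map σ)ᵀ * ((((pg⁻¹ : GL (Fin n) F) : Matrix (Fin n) (Fin n) F)).map σ)ᵀ) := by
        rw [h1, h3, one_mul, mul_one]
    _ = ((pg⁻¹ : GL (Fin n) F) : Matrix (Fin n) (Fin n) F)
          * (P * (g : Matrix (Fin n) (Fin n) F) * (P.map σ)ᵀ)
          * ((((pg⁻¹ : GL (Fin n) F) : Matrix (Fin n) (Fin n) F)).map σ)ᵀ := by
        simp only [mul_assoc]
    _ = _ := by rw [hP, mul_one]

end Herm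

end Cfsg.Agent.Helper44.PSLn
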