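import Cfsg.Agent.Helper44.PSLnI
import Cfsg.Agent.Helper44.LangC

set_option autoImplicit false

/-!
Helper library (helper44): tools for the classes of field and graph-field automorphisms of
`PSL_n(F)` (`n ≥ 2`): kernel of `GL_n(F) → Aut(PSL_n(F))`, `Inndiag = dAutN.range`,
`Inn = dAutN(SL_n)`, reduction of a field / graph-field automorphism to the standard one by an
inner-diagonal conjugation, powers of semilinear automorphisms, the number of `Inn`-classes in
an `Inndiag`-class (`lang_split_count`), and an index computation in cyclic groups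
(`lang_cyclic_index`).
-/

namespace Cfsg.Agent.Helper44.PSLn

open Matrix

universe u

section LangA

variable {n : ℕ} {F : Type u} [Field F]

/-- a diagonal automorphism equal to a field automorphism is trivial (`n ≥ 2`) -/
theorem lang_dAutN_eq_fAutN (hn : 2 ≤ n) (g : GL (Fin n) F) (σ : RingAut F)
    (h : dAutN g = fAutN σ) : g ∈ Subgroup.center (GL (Fin n) F) ∧ σ = 1 := by
  rcases Nat.lt_or_ge n 3 with h3 | h3
  · obtain rfl : n = 2 := by omega
    have h' : Cfsg.Agent.Helper44.dAut g = Cfsg.Agent.Helper44.fAut σ := h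
    obtain ⟨⟨a, ha⟩, hσ⟩ := Cfsg.Agent.Helper44.dAut_eq_fAut g σ h'
    refine ⟨?_, hσ⟩
    rw [Matrix.GeneralLinearGroup.mem_center_iff_val_mem_range_scalar]
    exact ⟨a, by rw [ha, Matrix.scalar_apply, Matrix.smul_one_eq_diagonal]⟩
  · exact dAutN_eq_fAutN h3 g σ h

theorem lang_dAutN_ker (hn : 2 ≤ n) :
    (dAutN : GL (Fin n) F →* MulAut (PSLn n F)).ker = Subgroup.center (GL (Fin n) F) := by
  ext g
  rw [MonoidHom.mem_ker]
  constructor
  · intro h
    exact (lang_dAutN_eq_fAutN hn g 1 (by rw [h, map_one])).1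
  · exact dAutN_of_center g

theorem lang_center_iff (g : GL (Fin n) F) :
    g ∈ Subgroup.center (GL (Fin n) F) ↔ ∃ c : F, (g : Mn n F) = c • (1 : Mn n F) := by
  rw [Matrix.GeneralLinearGroup.mem_center_iff_val_mem_range_scalar]
  constructor
  · rintro ⟨c, hc⟩
    exact ⟨c, by rw [← hc, Matrix.scalar_apply, Matrix.smul_one_eq_diagonal]⟩
  · rintro ⟨c, hc⟩
    exact ⟨c, by rw [hc, Matrix.scalar_apply, Matrix.smul_one_eq_diagonal]⟩

theorem lang_dAutN_eq_one_iff (hn : 2 ≤ n) (g : GL (Fin n) F) :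
    dAutN g = 1 ↔ ∃ c : F, (g : Mn n F) = c • (1 : Mn n F) := by
  rw [← MonoidHom.mem_ker, lang_dAutN_ker hn, lang_center_iff]

/-- two matrices induce the same automorphism iff they are proportional -/
theorem lang_dAutN_eq_iff (hn : 2 ≤ n) (g g' : GL (Fin n) F) :
    dAutN g = dAutN g' ↔ ∃ c : F, (g' : Mn n F) = c • (g : Mn n F) := by
  have h1 : dAutN g = dAutN g' ↔ dAutN (g⁻¹ * g') = 1 := by
    rw [map_mul, map_inv, inv_mul_eq_one]
  rw [h1, lang_dAutN_eq_one_iff hn]
  constructor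
  · rintro ⟨c, hc⟩
    refine ⟨c, ?_⟩
    have h2 : (g' : Mn n F) = (g : Mn n F) * ((g⁻¹ * g' : GL (Fin n) F) : Mn n F) := by
      rw [← Units.val_mul, mul_inv_cancel_left]
    rw [h2, hc, Matrix.mul_smul, mul_one]
  · rintro ⟨c, hc⟩
    refine ⟨c, ?_⟩
    rw [Units.val_mul, hc, Matrix.mul_smul, ← Units.val_mul, inv_mul_cancel, Units.val_one]

/-- the scalar multiple `c • g` of an invertible matrix -/
def lang_smulGL (c : F) (hc : c ≠ 0) (g : GL (Fin n) F) : GL (Fin n) F :=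
  ⟨c • (g : Mn n F), c⁻¹ • ((g⁻¹ : GL (Fin n) F) : Mn n F), by
    rw [Matrix.smul_mul, Matrix.mul_smul, smul_smul, mul_inv_cancel₀ hc, one_smul,
      ← Units.val_mul, mul_inv_cancel, Units.val_one], by
    rw [Matrix.smul_mul, Matrix.mul_smul, smul_smul, inv_mul_cancel₀ hc, one_smul,
      ← Units.val_mul, inv_mul_cancel, Units.val_one]⟩

theorem lang_smulGL_coe (c : F) (hc : c ≠ 0) (g : GL (Fin n) F) :
    ((lang_smulGL c hc g : GL (Fin n) F) : Mn n F) = c • (g : Mn n F) := rfl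

theorem lang_dAutN_smulGL (hn : 2 ≤ n) (c : F) (hc : c ≠ 0) (g : GL (Fin n) F) :
    dAutN (lang_smulGL c hc g) = dAutN g :=
  ((lang_dAutN_eq_iff hn g _).mpr ⟨c, rfl⟩).symm

theorem lang_fAutN_injective (hn : 2 ≤ n) :
    Function.Injective (fAutN : RingAut F →* MulAut (PSLn n F)) := by
  rw [injective_iff_map_eq_one]
  intro σ h
  exact (lang_dAutN_eq_fAutN hn 1 σ (by rw [map_one, h])).2

theorem lang_orderOf_fAutN (hn : 2 ≤ n) (σ : RingAut F) :
    orderOf (fAutN σ : MulAut (PSLn n F)) = orderOf σ :=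
  orderOf_injective fAutN (lang_fAutN_injective hn) σ

/-- `Inndiag(PSL_n(F))` is the image of `GL_n(F)` -/
theorem lang_inndiag_eq :
    Cfsg.inndiagPSL n F = (dAutN : GL (Fin n) F →* MulAut (PSLn n F)).range := by
  unfold Cfsg.inndiagPSL Cfsg.autSubgroupOf
  have h : {β : MulAut (PSLn n F) | Cfsg.IsInnerDiagonalAutPSL β}
      = ((dAutN : GL (Fin n) F →* MulAut (PSLn n F)).range : Set (MulAut (PSLn n F))) := by
    ext β
    constructor
    · rintro ⟨g, hg⟩
      refine ⟨g, ?_⟩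
      apply MulEquiv.ext
      intro x
      obtain ⟨s, rfl⟩ := prn_surjective x
      rw [dAutN_prn]
      exact (hg s (conjFun g s) rfl).symm
    · rintro ⟨g, rfl⟩
      exact isInnerDiagonal_dAutN g
  rw [h, Subgroup.closure_eq]

theorem lang_mem_inndiag (δ : MulAut (PSLn n F)) :
    δ ∈ Cfsg.inndiagPSL n F ↔ ∃ g : GL (Fin n) F, dAutN g = δ := by
  rw [lang_inndiag_eq]
  exact MonoidHom.mem_range

theorem lang_dAutN_mem_inndiag (g : GL (Fin n) F) :
    (dAutN g : MulAut (PSLn n F)) ∈ Cfsg.inndiagPSL n F :=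
  (lang_mem_inndiag _).mpr ⟨g, rfl⟩

theorem lang_mem_inn (α : MulAut (PSLn n F)) :
    α ∈ Cfsg.Inn (PSLn n F)
      ↔ ∃ s : SLn n F, dAutN (Matrix.SpecialLinearGroup.toGL s) = α := by
  constructor
  · rintro ⟨x, rfl⟩
    obtain ⟨s, rfl⟩ := prn_surjective x
    exact ⟨s, (conj_prn s).symm⟩
  · rintro ⟨s, rfl⟩
    exact ⟨prn s, conj_prn s⟩

theorem lang_eq_fAutN_of_std (σ : RingAut F) (β : MulAut (PSLn n F))
    (h : Cfsg.IsStdFieldAutPSL σ β) : β = fAutN σ := by
  apply MulEquiv.ext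
  intro x
  obtain ⟨s, rfl⟩ := prn_surjective x
  rw [fAutN_prn]
  exact h s (mapFun σ s) rfl

theorem lang_eq_iAutN_of_it (γ : MulAut (PSLn n F))
    (h : Cfsg.IsInverseTransposeAutPSL γ) : γ = iAutN := by
  apply MulEquiv.ext
  intro x
  obtain ⟨s, rfl⟩ := prn_surjective x
  rw [iAutN_prn]
  exact h s (itFun s) rfl

theorem lang_conj_comm {G : Type*} [Group G] (d c y : G) (hc : c * y = y * c) :
    (d * c) * y * (d * c)⁻¹ = d * y * d⁻¹ := by
  rw [_root_.mul_inv_rev, mul_assoc d c y, hc]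
  group

/-- the standard graph-field automorphism attached to `σ` -/
def lang_gf (σ : RingAut F) : MulAut (PSLn n F) := fAutN σ * iAutN

theorem lang_gf_mul_dAutN (σ : RingAut F) (g : GL (Fin n) F) :
    (lang_gf σ : MulAut (PSLn n F)) * dAutN g
      = dAutN (Matrix.GeneralLinearGroup.map (σ : F →+* F) (itGL g)) * lang_gf σ := by
  unfold lang_gf
  rw [mul_assoc, iAutN_mul_dAutN, ← mul_assoc, fAutN_mul_dAutN, mul_assoc]

theorem lang_gf_sq (σ : RingAut F) :
    (lang_gf σ : MulAut (PSLn n F)) * lang_gf σ = fAutN (σ * σ) := by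
  unfold lang_gf
  rw [mul_assoc, ← mul_assoc iAutN, iAutN_mul_fAutN, mul_assoc, iAutN_mul_self, mul_one,
    ← map_mul]

/-- powers of a semilinear automorphism -/
theorem lang_semi_pow (g : GL (Fin n) F) (σ : RingAut F) (k : ℕ) :
    ∃ gk : GL (Fin n) F,
      (gk : Mn n F) = twR (RingHom.mapMatrix (σ : F →+* F)) (g : Mn n F) k ∧
        (dAutN g * fAutN σ) ^ k = dAutN gk * fAutN (σ ^ k) := by
  induction k with
  | zero => exact ⟨1, rfl, by rw [pow_zero, pow_zero, map_one, map_one, one_mul]⟩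
  | succ k ih =>
    obtain ⟨gk, hgk, hpow⟩ := ih
    refine ⟨g * Matrix.GeneralLinearGroup.map (σ : F →+* F) gk, ?_, ?_⟩
    · rw [twR_succ, ← hgk]
      rfl
    · rw [pow_succ', hpow, semi_mul, pow_succ']

/-- the matrices inducing automorphisms commuting with `x` -/
def lang_cGL (x : MulAut (PSLn n F)) : Subgroup (GL (Fin n) F) :=
  (Subgroup.centralizer {x}).comap dAutN

theorem lang_mem_cGL (x : MulAut (PSLn n F)) (g : GL (Fin n) F) :
    g ∈ lang_cGL x ↔ dAutN g * x = x * dAutN g := by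
  unfold lang_cGL
  rw [Subgroup.mem_comap, Subgroup.mem_centralizer_iff]
  constructor
  · intro h
    exact (h x rfl).symm
  · intro h y hy
    rw [Set.mem_singleton_iff] at hy
    subst hy
    exact h.symm

/-- **class splitting**: the number of `Inn`-classes in the `Inndiag`-class of `x` is the index
in `Fˣ` of the determinants of the matrices commuting with `x` -/
theorem lang_split_count (hn : 1 ≤ n) (x : MulAut (PSLn n F)) :
    Cfsg.splitClassCount (Cfsg.inndiagPSL n F) (Cfsg.Inn (PSLn n F)) x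
      = ((lang_cGL x).map Matrix.GeneralLinearGroup.det).index := by
  haveI : Nonempty (Fin n) := ⟨⟨0, by omega⟩⟩
  set A : Subgroup Fˣ := (lang_cGL x).map Matrix.GeneralLinearGroup.det with hA
  have hex : ∀ y : {y : MulAut (PSLn n F) // Cfsg.IsConjUnder (Cfsg.inndiagPSL n F) x y},
      ∃ g : GL (Fin n) F, y.1 = dAutN g * x * (dAutN g)⁻¹ := by
    rintro ⟨y, h, hh, rfl⟩
    obtain ⟨g, rfl⟩ := (lang_mem_inndiag h).mp hh
    exact ⟨g, rfl⟩
  choose gy hgy using hex
  let fq : {y : MulAut (PSLn n F) // Cfsg.IsConjUnder (Cfsg.inndiagPSL n F) x y} → Fˣ ⧸ A :=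
    fun y => QuotientGroup.mk (Matrix.GeneralLinearGroup.det (gy y))
  have key : ∀ (y : {y : MulAut (PSLn n F) // Cfsg.IsConjUnder (Cfsg.inndiagPSL n F) x y})
      (g : GL (Fin n) F), y.1 = dAutN g * x * (dAutN g)⁻¹ →
      fq y = QuotientGroup.mk (Matrix.GeneralLinearGroup.det g) := by
    intro y g hg
    show (QuotientGroup.mk (Matrix.GeneralLinearGroup.det (gy y)) : Fˣ ⧸ A) = _
    rw [QuotientGroup.eq, ← map_inv, ← map_mul]
    refine ⟨(gy y)⁻¹ * g, ?_, rfl⟩
    rw [SetLike.mem_coe, lang_mem_cGL, map_mul, map_inv]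
    have h1 := (hgy y).symm.trans hg
    calc (dAutN (gy y))⁻¹ * dAutN g * x
        = (dAutN (gy y))⁻¹ * (dAutN g * x * (dAutN g)⁻¹) * dAutN g := by group
      _ = (dAutN (gy y))⁻¹ * (dAutN (gy y) * x * (dAutN (gy y))⁻¹) * dAutN g := by rw [h1]
      _ = x * ((dAutN (gy y))⁻¹ * dAutN g) := by group
  have hI : ∀ y z : {y : MulAut (PSLn n F) // Cfsg.IsConjUnder (Cfsg.inndiagPSL n F) x y},
      Cfsg.IsConjUnder (Cfsg.Inn (PSLn n F)) y.1 z.1 → fq y = fq z := by
    rintro y z ⟨k, hk, hz⟩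
    obtain ⟨s, rfl⟩ := (lang_mem_inn k).mp hk
    have h1 : z.1 = dAutN (Matrix.SpecialLinearGroup.toGL s * gy y) * x
        * (dAutN (Matrix.SpecialLinearGroup.toGL s * gy y))⁻¹ := by
      rw [hz, hgy y, map_mul]
      group
    rw [key z _ h1, map_mul]
    have h3 : Matrix.GeneralLinearGroup.det
        (Matrix.SpecialLinearGroup.toGL s : GL (Fin n) F) = 1 := by
      apply Units.ext
      rw [Matrix.GeneralLinearGroup.val_det_apply]
      exact s.2
    rw [h3, one_mul]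
  have hII : ∀ y z : {y : MulAut (PSLn n F) // Cfsg.IsConjUnder (Cfsg.inndiagPSL n F) x y},
      fq y = fq z → Cfsg.IsConjUnder (Cfsg.Inn (PSLn n F)) y.1 z.1 := by
    intro y z hyz
    have h1 : (Matrix.GeneralLinearGroup.det (gy y))⁻¹ * Matrix.GeneralLinearGroup.det (gy z)
        ∈ A := QuotientGroup.eq.mp hyz
    obtain ⟨c, hc, hdet⟩ := h1
    rw [SetLike.mem_coe, lang_mem_cGL] at hc
    set t : GL (Fin n) F := gy z * c⁻¹ * (gy y)⁻¹ with ht
    have hdt : Matrix.GeneralLinearGroup.det t = 1 := by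
      rw [ht, map_mul, map_mul, map_inv, map_inv, hdet]
      rw [_root_.mul_inv_rev, inv_inv, mul_inv_cancel_left, mul_inv_cancel]
    let s : SLn n F := ⟨(t : Mn n F), by
      have := congrArg Units.val hdt
      rwa [Matrix.GeneralLinearGroup.val_det_apply] at this⟩
    have hs : Matrix.SpecialLinearGroup.toGL s = t := by
      apply Units.ext
      rfl
    refine ⟨dAutN t, (lang_mem_inn _).mpr ⟨s, by rw [hs]⟩, ?_⟩
    have hc' : (dAutN c)⁻¹ * x * dAutN c = x := by
      rw [mul_assoc, ← hc, ← mul_assoc, inv_mul_cancel, one_mul]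
    rw [hgy z, hgy y, ht, map_mul, map_mul, map_inv, map_inv]
    calc dAutN (gy z) * x * (dAutN (gy z))⁻¹
        = dAutN (gy z) * ((dAutN c)⁻¹ * x * dAutN c) * (dAutN (gy z))⁻¹ := by rw [hc']
      _ = dAutN (gy z) * (dAutN c)⁻¹ * (dAutN (gy y))⁻¹
            * (dAutN (gy y) * x * (dAutN (gy y))⁻¹)
            * (dAutN (gy z) * (dAutN c)⁻¹ * (dAutN (gy y))⁻¹)⁻¹ := by group
  have hIII : Function.Surjective fq := by
    intro q
    obtain ⟨u, rfl⟩ := QuotientGroup.mk_surjective q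
    obtain ⟨g, rfl⟩ := Matrix.GeneralLinearGroup.det_surjective (n := Fin n) (R := F) u
    exact ⟨⟨dAutN g * x * (dAutN g)⁻¹, dAutN g, lang_dAutN_mem_inndiag g, rfl⟩, key _ g rfl⟩
  unfold Cfsg.splitClassCount
  show _ = Nat.card (Fˣ ⧸ A)
  apply Nat.card_eq_of_bijective (Quot.lift fq hI)
  constructor
  · intro a b
    induction a using Quot.ind with
    | _ y =>
      induction b using Quot.ind with
      | _ z =>
        intro h
        exact Quot.sound (hII y z h)
  · intro q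
    obtain ⟨y, rfl⟩ := hIII q
    exact ⟨Quot.mk _ y, rfl⟩

end LangA

section Cyclic

/-- in a finite cyclic group, the index of `A · Gⁿ`, where `|G| = |A| m` -/
theorem lang_cyclic_index {G : Type*} [CommGroup G] [Finite G] [IsCyclic G] (A : Subgroup G)
    (m : ℕ) (hm : Nat.card A * m = Nat.card G) (n : ℕ) :
    (A ⊔ (powMonoidHom n : G →* G).range).index = Nat.gcd n m := by
  have hG : 0 < Nat.card G := Nat.card_pos
  have ha : 0 < Nat.card A := Nat.card_pos
  have hm0 : 0 < m := by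
    rcases Nat.eq_zero_or_pos m with h | h
    · rw [h, mul_zero] at hm
      omega
    · exact h
  -- `A` is the group of `m`-th powers
  have hA : A = (powMonoidHom m : G →* G).range := by
    apply Subgroup.eq_of_le_of_card_ge
    · intro x hx
      obtain ⟨γ, hγ⟩ := IsCyclic.exists_generator (α := G)
      obtain ⟨k, rfl⟩ := (mem_powers_iff_mem_zpowers.mpr (hγ x))
      have h1 : (γ ^ k) ^ Nat.card A = 1 := by
        have h2 : (⟨γ ^ k, hx⟩ : A) ^ Nat.card A = 1 := pow_card_eq_one'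
        exact congrArg Subtype.val h2
      rw [← pow_mul] at h1
      have h3 : orderOf γ = Nat.card G := orderOf_eq_card_of_forall_mem_zpowers hγ
      have h4 : Nat.card A * m ∣ k * Nat.card A := by
        rw [hm, ← h3]
        exact orderOf_dvd_of_pow_eq_one h1
      rw [mul_comm k] at h4
      obtain ⟨j, hj⟩ := (Nat.mul_dvd_mul_iff_left ha).mp h4
      refine ⟨γ ^ j, ?_⟩
      show (γ ^ j) ^ m = γ ^ k
      rw [← pow_mul, hj, mul_comm]
    · have h1 := IsCyclic.index_powMonoidHom_range (G := G) m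
      have h2 := Subgroup.card_mul_index (powMonoidHom m : G →* G).range
      rw [h1, ← hm, Nat.gcd_mul_left_left] at h2
      have h3 : Nat.card (powMonoidHom m : G →* G).range = Nat.card A :=
        Nat.eq_of_mul_eq_mul_right hm0 h2
      exact h3.le
  have hsup : (powMonoidHom m : G →* G).range ⊔ (powMonoidHom n : G →* G).range
      = (powMonoidHom (Nat.gcd m n) : G →* G).range := by
    apply le_antisymm
    · apply sup_le
      · rintro _ ⟨x, rfl⟩
        obtain ⟨j, hj⟩ := Nat.gcd_dvd_left m n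
        refine ⟨x ^ j, ?_⟩
        show (x ^ j) ^ Nat.gcd m n = x ^ m
        rw [← pow_mul, mul_comm, ← hj]
      · rintro _ ⟨x, rfl⟩
        obtain ⟨j, hj⟩ := Nat.gcd_dvd_right m n
        refine ⟨x ^ j, ?_⟩
        show (x ^ j) ^ Nat.gcd m n = x ^ n
        rw [← pow_mul, mul_comm, ← hj]
    · rintro _ ⟨x, rfl⟩
      show x ^ Nat.gcd m n ∈ _
      have h1 : x ^ Nat.gcd m n
          = (x ^ Nat.gcdA m n) ^ m * (x ^ Nat.gcdB m n) ^ n := by
        rw [← _root_.zpow_natCast x (Nat.gcd m n), Nat.gcd_eq_gcd_ab, _root_.zpow_add,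
          mul_comm (m : ℤ), mul_comm (n : ℤ), _root_.zpow_mul, _root_.zpow_mul,
          _root_.zpow_natCast, _root_.zpow_natCast]
      rw [h1]
      exact Subgroup.mul_mem_sup ⟨_, rfl⟩ ⟨_, rfl⟩
  rw [hA, hsup, IsCyclic.index_powMonoidHom_range, ← hm, Nat.gcd_comm n m]
  exact Nat.gcd_eq_right (Dvd.dvd.mul_left (Nat.gcd_dvd_left m n) _)

end Cyclic

section Reduce

variable {n : ℕ} {F : Type u} [Field F] [Fintype F]

theorem lang_ringAut_comm (p f : ℕ) [Fact p.Prime] (hF : Fintype.card F = p ^ f)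
    (σ τ : RingAut F) : σ * τ = τ * σ := by
  haveI : CharP F p := charP_of_card p f hF
  obtain ⟨hc, -⟩ := ringAut_cyclic_card p f hF
  haveI := hc
  exact mul_comm' σ τ

theorem lang_comm_ff (p f : ℕ) [Fact p.Prime] (hF : Fintype.card F = p ^ f) (σ τ : RingAut F) :
    Commute (fAutN τ : MulAut (PSLn n F)) (fAutN σ) := by
  show fAutN τ * fAutN σ = fAutN σ * fAutN τ
  rw [← map_mul, ← map_mul, lang_ringAut_comm p f hF]

theorem lang_comm_if (σ : RingAut F) : Commute (iAutN : MulAut (PSLn n F)) (fAutN σ) :=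
  iAutN_mul_fAutN σ

theorem lang_comm_fg (p f : ℕ) [Fact p.Prime] (hF : Fintype.card F = p ^ f) (σ τ : RingAut F) :
    Commute (fAutN τ : MulAut (PSLn n F)) (lang_gf σ) :=
  Commute.mul_right (lang_comm_ff p f hF σ τ) (lang_comm_if τ).symm

theorem lang_comm_ig (σ : RingAut F) : Commute (iAutN : MulAut (PSLn n F)) (lang_gf σ) :=
  Commute.mul_right (lang_comm_if σ) (Commute.refl _)

/-- a field automorphism is conjugate to a standard one under the inner-diagonal group -/
theorem lang_field_reduce (p f : ℕ) [Fact p.Prime] (hF : Fintype.card F = p ^ f) (hf : 1 ≤ f)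
    (hn : 2 ≤ n) (x : MulAut (PSLn n F)) (hx : Cfsg.IsFieldAutClassPSL x) :
    ∃ (σ : RingAut F) (h : GL (Fin n) F), σ ≠ 1 ∧ x = dAutN h * fAutN σ * (dAutN h)⁻¹ := by
  obtain ⟨α, σ, hσ, hstd⟩ := hx
  have h1 : α * x * α⁻¹ = fAutN σ := lang_eq_fAutN_of_std σ _ hstd
  have h2 : x = α⁻¹ * fAutN σ * α⁻¹⁻¹ := by
    rw [← h1]
    group
  obtain ⟨g, τ, h3 | h3⟩ := aut_psln_all p f hF hf hn α⁻¹
  · refine ⟨σ, g, hσ, ?_⟩
    rw [h2, h3]
    exact lang_conj_comm _ _ _ (lang_comm_ff p f hF σ τ).eq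
  · refine ⟨σ, g, hσ, ?_⟩
    rw [h2, h3, mul_assoc (dAutN g)]
    exact lang_conj_comm _ _ _
      (Commute.mul_left (lang_comm_ff p f hF σ τ) (lang_comm_if σ)).eq

/-- a graph-field automorphism is conjugate to a standard one under the inner-diagonal
group -/
theorem lang_graphfield_reduce (p f : ℕ) [Fact p.Prime] (hF : Fintype.card F = p ^ f)
    (hf : 1 ≤ f) (hn : 2 ≤ n) (x : MulAut (PSLn n F)) (hx : Cfsg.IsGraphFieldAutClassPSL x) :
    3 ≤ n ∧ ∃ (σ : RingAut F) (h : GL (Fin n) F),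
      σ ≠ 1 ∧ x = dAutN h * lang_gf σ * (dAutN h)⁻¹ := by
  obtain ⟨hn3, α, φ, γ, σ, hσ, hφ, hγ, heq⟩ := hx
  refine ⟨hn3, ?_⟩
  have e1 := lang_eq_fAutN_of_std σ φ hφ
  have e2 := lang_eq_iAutN_of_it γ hγ
  have h1 : α * x * α⁻¹ = lang_gf σ := by
    rw [heq, e1, e2]
    rfl
  have h2 : x = α⁻¹ * lang_gf σ * α⁻¹⁻¹ := by
    rw [← h1]
    group
  obtain ⟨g, τ, h3 | h3⟩ := aut_psln_all p f hF hf hn α⁻¹
  · refine ⟨σ, g, hσ, ?_⟩
    rw [h2, h3]
    exact lang_conj_comm _ _ _ (lang_comm_fg p f hF σ τ).eq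
  · refine ⟨σ, g, hσ, ?_⟩
    rw [h2, h3, mul_assoc (dAutN g)]
    exact lang_conj_comm _ _ _
      (Commute.mul_left (lang_comm_fg p f hF σ τ) (lang_comm_ig σ)).eq

end Reduce

end Cfsg.Agent.Helper44.PSLn
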