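import Mathlib

set_option autoImplicit false

/-!
Helper library (helper44): Hilbert's Theorem 90 for a cyclic group of field automorphisms,
for scalars and for invertible matrices (`lang_h90_scalar`, `lang_h90_matrix`), surjectivity of
the norm of a finite field onto the fixed field (`lang_norm_surj`), and the size of the fixed
field of an automorphism of a finite field (`lang_card_fix`).
-/

namespace Cfsg.Agent.Helper44.PSLn

open Matrix

universe u

section TwR

variable {R : Type*} [Ring R]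

/-- the twisted powers `G τ(G) ⋯ τ^{k-1}(G)` -/
def twR (τ : R →+* R) (G : R) : ℕ → R
  | 0 => 1
  | (k + 1) => G * τ (twR τ G k)

theorem twR_zero (τ : R →+* R) (G : R) : twR τ G 0 = 1 := rfl

theorem twR_succ (τ : R →+* R) (G : R) (k : ℕ) : twR τ G (k + 1) = G * τ (twR τ G k) := rfl

/-- the twisted powers computed from the other side -/
theorem twR_succ' (τ : R →+* R) (G : R) (k : ℕ) :
    twR τ G (k + 1) = twR τ G k * τ^[k] G := by
  induction k with
  | zero => simp [twR]
  | succ k ih =>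
    calc twR τ G (k + 1 + 1) = G * τ (twR τ G (k + 1)) := rfl
      _ = G * τ (twR τ G k * τ^[k] G) := by rw [ih]
      _ = G * τ (twR τ G k) * τ (τ^[k] G) := by rw [map_mul, mul_assoc]
      _ = twR τ G (k + 1) * τ^[k + 1] G := by rw [Function.iterate_succ_apply']; rfl

/-- the twisted sum `∑ tw_i τ^i(c)` is fixed by `x ↦ G τ(x)` -/
theorem twR_sum_fix (τ : R →+* R) (G : R) (r : ℕ) (hr : twR τ G r = 1) (c : R)
    (hc : τ^[r] c = c) :
    G * τ (∑ i ∈ Finset.range r, twR τ G i * τ^[i] c)
      = ∑ i ∈ Finset.range r, twR τ G i * τ^[i] c := by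
  have h1 : G * τ (∑ i ∈ Finset.range r, twR τ G i * τ^[i] c)
      = ∑ i ∈ Finset.range r, twR τ G (i + 1) * τ^[i + 1] c := by
    rw [map_sum, Finset.mul_sum]
    refine Finset.sum_congr rfl fun i _ => ?_
    rw [map_mul, ← mul_assoc, ← twR_succ, Function.iterate_succ_apply']
  have h2 := Finset.sum_range_succ (fun i => twR τ G i * τ^[i] c) r
  have h3 := Finset.sum_range_succ' (fun i => twR τ G i * τ^[i] c) r
  rw [h1]
  have h4 : ∑ i ∈ Finset.range r, twR τ G (i + 1) * τ^[i + 1] c + twR τ G 0 * τ^[0] c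
      = ∑ i ∈ Finset.range r, twR τ G i * τ^[i] c + twR τ G r * τ^[r] c := by
    rw [← h3, ← h2]
  rw [hr, hc, twR_zero, one_mul, one_mul, Function.iterate_zero_apply] at h4
  exact add_right_cancel h4

end TwR

section TwComm

variable {R : Type*} [CommRing R]

theorem twR_one (τ : R →+* R) (k : ℕ) : twR τ (1 : R) k = 1 := by
  induction k with
  | zero => rfl
  | succ k ih => rw [twR_succ, ih, map_one, one_mul]

theorem twR_mul (τ : R →+* R) (a b : R) (k : ℕ) :
    twR τ (a * b) k = twR τ a k * twR τ b k := by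
  induction k with
  | zero => rw [twR_zero, twR_zero, twR_zero, one_mul]
  | succ k ih => rw [twR_succ, twR_succ, twR_succ, ih, map_mul, mul_mul_mul_comm]

theorem twR_map (τ : R →+* R) (a : R) (k : ℕ) : twR τ (τ a) k = τ (twR τ a k) := by
  induction k with
  | zero => rw [twR_zero, twR_zero, map_one]
  | succ k ih => rw [twR_succ, twR_succ, ih, map_mul]

end TwComm

section Field

variable {F : Type u} [Field F]

theorem lang_iter_apply (σ : RingAut F) (i : ℕ) (c : F) :
    (⇑(σ : F →+* F))^[i] c = (σ ^ i) c := by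
  induction i with
  | zero => rfl
  | succ i ih =>
    rw [Function.iterate_succ_apply', ih, pow_succ']
    rfl

theorem lang_iter_order (σ : RingAut F) (r : ℕ) (hr : orderOf σ = r) (c : F) :
    (⇑(σ : F →+* F))^[r] c = c := by
  rw [lang_iter_apply, ← hr, pow_orderOf_eq_one]
  rfl

/-- Dedekind's independence of characters for the powers of an automorphism -/
theorem lang_dedekind (σ : RingAut F) (r : ℕ) (hr : orderOf σ = r) (c : ℕ → F)
    (h : ∀ a : F, ∑ i ∈ Finset.range r, c i * (σ ^ i) a = 0) : ∀ i < r, c i = 0 := by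
  have hinj : Function.Injective
      (fun i : Fin r => (((σ ^ (i : ℕ) : RingAut F) : F →+* F) : F →* F)) := by
    intro i j hij
    have h1 : σ ^ (i : ℕ) = σ ^ (j : ℕ) := by
      apply RingEquiv.ext
      intro a
      exact DFunLike.congr_fun hij a
    have h2 := pow_injOn_Iio_orderOf (x := σ)
      (show (i : ℕ) ∈ Set.Iio (orderOf σ) by rw [hr]; exact i.2)
      (show (j : ℕ) ∈ Set.Iio (orderOf σ) by rw [hr]; exact j.2) h1
    exact Fin.ext h2
  have hli := (linearIndependent_monoidHom F F).comp _ hinj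
  rw [Fintype.linearIndependent_iff] at hli
  have h2 := hli (fun i => c i) (by
    funext a
    have h3 := h a
    rw [← Fin.sum_univ_eq_sum_range (fun i => c i * (σ ^ i) a) r] at h3
    simp only [Finset.sum_apply, Pi.smul_apply, Function.comp_apply, smul_eq_mul, Pi.zero_apply]
    exact h3)
  intro i hi
  exact h2 ⟨i, hi⟩

/-- Hilbert 90 for scalars -/
theorem lang_h90_scalar (σ : RingAut F) (r : ℕ) (hr : orderOf σ = r) (hr0 : 0 < r) (a : F)
    (ha : twR (σ : F →+* F) a r = 1) : ∃ b : F, b ≠ 0 ∧ a * σ b = b := by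
  by_contra hne
  push_neg at hne
  have h1 : ∀ c : F, ∑ i ∈ Finset.range r, twR (σ : F →+* F) a i * (σ ^ i) c = 0 := by
    intro c
    by_contra h0
    have h2 := twR_sum_fix (σ : F →+* F) a r ha c (lang_iter_order σ r hr c)
    have h3 : ∑ i ∈ Finset.range r, twR (σ : F →+* F) a i * (⇑(σ : F →+* F))^[i] c
        = ∑ i ∈ Finset.range r, twR (σ : F →+* F) a i * (σ ^ i) c :=
      Finset.sum_congr rfl fun i _ => by rw [lang_iter_apply]
    rw [h3] at h2
    exact hne _ h0 h2
  have h4 := lang_dedekind σ r hr (fun i => twR (σ : F →+* F) a i) h1 0 hr0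
  rw [twR_zero] at h4
  exact one_ne_zero h4

end Field

section MatrixH90

variable {F : Type u} [Field F] {n : ℕ}

theorem lang_iter_mapMatrix (σ : RingAut F) (i : ℕ) (c : Matrix (Fin n) (Fin n) F) :
    (⇑(RingHom.mapMatrix (σ : F →+* F) : Matrix (Fin n) (Fin n) F →+* _))^[i] c
      = c.map (σ ^ i) := by
  induction i with
  | zero =>
    ext k l
    rfl
  | succ i ih =>
    rw [Function.iterate_succ_apply', ih, pow_succ']
    ext k l
    rfl

theorem lang_mulVec_single (T : Matrix (Fin n) (Fin n) F) (j : Fin n) (x : F) :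
    T *ᵥ (Pi.single j x : Fin n → F) = x • (fun k => T k j) := by
  funext k
  simp only [Matrix.mulVec, dotProduct, Pi.single_apply, mul_ite, mul_zero, Finset.sum_ite_eq',
    Finset.mem_univ, if_true, Pi.smul_apply, smul_eq_mul]
  exact mul_comm _ _

/-- Hilbert 90 for matrices: a matrix whose twisted `r`-th power is `1` is of the form
`b σ(b)⁻¹` -/
theorem lang_h90_matrix (σ : RingAut F) (r : ℕ) (hr : orderOf σ = r) (hr0 : 0 < r)
    (G : Matrix (Fin n) (Fin n) F)
    (hG : twR (RingHom.mapMatrix (σ : F →+* F)) G r = 1) :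
    ∃ b : Matrix (Fin n) (Fin n) F, IsUnit b ∧ G * b.map σ = b := by
  set τ : Matrix (Fin n) (Fin n) F →+* Matrix (Fin n) (Fin n) F :=
    RingHom.mapMatrix (σ : F →+* F) with hτ
  set T : ℕ → Matrix (Fin n) (Fin n) F := fun i => twR τ G i with hT
  let Bv : (Fin n → F) → (Fin n → F) := fun v =>
    ∑ i ∈ Finset.range r, T i *ᵥ (fun k => (σ ^ i) (v k))
  -- the vectors `Bv v` span the space
  have hspan : Submodule.span F (Set.range Bv) = ⊤ := by
    by_contra hne
    obtain ⟨f, hf0, hfle⟩ := Submodule.exists_le_ker_of_lt_top _ (lt_top_iff_ne_top.mpr hne)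
    have hfB : ∀ v, f (Bv v) = 0 := fun v =>
      LinearMap.mem_ker.mp (hfle (Submodule.subset_span ⟨v, rfl⟩))
    apply hf0
    apply LinearMap.pi_ext
    intro j x
    have h1 : ∀ a : F, ∑ i ∈ Finset.range r, f (fun k => T i k j) * (σ ^ i) a = 0 := by
      intro a
      have h2 := hfB (Pi.single j a)
      have h3 : Bv (Pi.single j a)
          = ∑ i ∈ Finset.range r, (σ ^ i) a • (fun k => T i k j) := by
        show ∑ i ∈ Finset.range r, T i *ᵥ (fun k => (σ ^ i) ((Pi.single j a : Fin n → F) k)) = _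
        refine Finset.sum_congr rfl fun i _ => ?_
        have h4 : (fun k => (σ ^ i) ((Pi.single j a : Fin n → F) k))
            = (Pi.single j ((σ ^ i) a) : Fin n → F) := by
          funext k
          by_cases hk : k = j
          · subst hk
            rw [Pi.single_eq_same, Pi.single_eq_same]
          · rw [Pi.single_eq_of_ne hk, Pi.single_eq_of_ne hk, map_zero]
        rw [h4, lang_mulVec_single]
      rw [h3, map_sum] at h2
      rw [← h2]
      refine Finset.sum_congr rfl fun i _ => ?_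
      rw [map_smul, smul_eq_mul, mul_comm]
    have h5 := lang_dedekind σ r hr (fun i => f (fun k => T i k j)) h1 0 hr0
    have h6 : (fun k => T 0 k j) = (Pi.single j 1 : Fin n → F) := by
      funext k
      show (1 : Matrix (Fin n) (Fin n) F) k j = _
      rw [Matrix.one_apply, Pi.single_apply]
    rw [h6] at h5
    have h7 : (Pi.single j x : Fin n → F) = x • (Pi.single j 1 : Fin n → F) := by
      funext k
      by_cases hk : k = j
      · subst hk
        simp
      · simp [Pi.single_eq_of_ne hk]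
    rw [h7, map_smul, h5, smul_zero, LinearMap.zero_apply]
  -- extract a basis
  obtain ⟨b, hb1, hb2, hb3⟩ := exists_linearIndependent F (Set.range Bv)
  rw [hspan] at hb2
  let bs : Module.Basis b F (Fin n → F) := Module.Basis.mk hb3 (by
    rw [Subtype.range_coe_subtype]
    exact hb2.ge)
  haveI : Fintype b := FiniteDimensional.fintypeBasisIndex bs
  have hcard : Fintype.card b = n := by
    rw [← Module.finrank_eq_card_basis bs, Module.finrank_fin_fun]
  let e : b ≃ Fin n := Fintype.equivFinOfCardEq hcard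
  have hw : LinearIndependent F (fun j : Fin n => ((e.symm j : b) : Fin n → F)) :=
    hb3.comp e.symm e.symm.injective
  have hex : ∀ j : Fin n, ∃ v : Fin n → F, Bv v = ((e.symm j : b) : Fin n → F) :=
    fun j => hb1 (e.symm j).2
  choose v hv using hex
  let c : Matrix (Fin n) (Fin n) F := Matrix.of fun k j => v j k
  let bm : Matrix (Fin n) (Fin n) F := ∑ i ∈ Finset.range r, T i * (⇑τ)^[i] c
  have hcol : bm.col = fun j : Fin n => ((e.symm j : b) : Fin n → F) := by
    funext j k
    rw [← hv j]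
    show (∑ i ∈ Finset.range r, T i * (⇑τ)^[i] c) k j
      = (∑ i ∈ Finset.range r, T i *ᵥ (fun l => (σ ^ i) (v j l))) k
    rw [Finset.sum_apply, Matrix.sum_apply]
    refine Finset.sum_congr rfl fun i _ => ?_
    rw [hτ, lang_iter_mapMatrix, Matrix.mul_apply]
    rfl
  refine ⟨bm, ?_, ?_⟩
  · rw [← Matrix.linearIndependent_cols_iff_isUnit, hcol]
    exact hw
  · have hc : (⇑τ)^[r] c = c := by
      rw [hτ, lang_iter_mapMatrix, ← hr, pow_orderOf_eq_one]
      ext k l
      rfl
    exact twR_sum_fix τ G r hG c hc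

end MatrixH90

section Norm

variable {F : Type u} [Field F]

/-- the units fixed by `σ` -/
def lang_fixU (σ : RingAut F) : Subgroup Fˣ where
  carrier := {u | σ (u : F) = u}
  mul_mem' := by
    intro a b ha hb
    simp only [Set.mem_setOf_eq, Units.val_mul, map_mul] at *
    rw [ha, hb]
  one_mem' := by simp
  inv_mem' := by
    intro a ha
    simp only [Set.mem_setOf_eq, Units.val_inv_eq_inv_val, map_inv₀] at *
    rw [ha]

theorem lang_mem_fixU (σ : RingAut F) (u : Fˣ) : u ∈ lang_fixU σ ↔ σ (u : F) = u := Iff.rfl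

/-- the norm `a ↦ a σ(a) ⋯ σ^{r-1}(a)` -/
def lang_nmF (σ : RingAut F) (r : ℕ) : F →* F where
  toFun a := twR (σ : F →+* F) a r
  map_one' := twR_one _ r
  map_mul' a b := twR_mul _ a b r

theorem lang_nmF_apply (σ : RingAut F) (r : ℕ) (a : F) :
    lang_nmF σ r a = twR (σ : F →+* F) a r := rfl

/-- the norm is fixed by `σ` -/
theorem lang_nmF_fixed (σ : RingAut F) (r : ℕ) (hr : orderOf σ = r) (a : F) (ha : a ≠ 0) :
    σ (lang_nmF σ r a) = lang_nmF σ r a := by
  have h1 : twR (σ : F →+* F) a (r + 1) = a * σ (twR (σ : F →+* F) a r) := rfl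
  have h2 := twR_succ' (σ : F →+* F) a r
  rw [lang_iter_order σ r hr, h1, mul_comm] at h2
  exact mul_right_cancel₀ ha h2

theorem lang_nmF_map (σ : RingAut F) (r : ℕ) (hr : orderOf σ = r) (a : F) (ha : a ≠ 0) :
    lang_nmF σ r (σ a) = lang_nmF σ r a := by
  rw [← lang_nmF_fixed σ r hr a ha]
  exact twR_map (σ : F →+* F) a r

/-- the map `u ↦ u / σ(u)` -/
def lang_thU (σ : RingAut F) : Fˣ →* Fˣ where
  toFun u := u * (Units.map ((σ : F →+* F) : F →* F) u)⁻¹
  map_one' := by simp
  map_mul' a b := by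
    rw [map_mul, mul_inv, mul_mul_mul_comm]

theorem lang_thU_coe (σ : RingAut F) (u : Fˣ) :
    ((lang_thU σ u : Fˣ) : F) = (u : F) * (σ (u : F))⁻¹ := by
  show ((u * (Units.map ((σ : F →+* F) : F →* F) u)⁻¹ : Fˣ) : F) = _
  rw [Units.val_mul, Units.val_inv_eq_inv_val]
  rfl

theorem lang_thU_ker (σ : RingAut F) : (lang_thU σ).ker = lang_fixU σ := by
  ext u
  rw [MonoidHom.mem_ker, lang_mem_fixU]
  show u * (Units.map ((σ : F →+* F) : F →* F) u)⁻¹ = 1 ↔ _
  rw [mul_inv_eq_one]
  constructor
  · intro h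
    have h2 := congrArg Units.val h
    exact h2.symm
  · intro h
    exact Units.ext h.symm

theorem lang_nm_ker (σ : RingAut F) (r : ℕ) (hr : orderOf σ = r) (hr0 : 0 < r) :
    (Units.map (lang_nmF σ r)).ker = (lang_thU σ).range := by
  ext u
  rw [MonoidHom.mem_ker, MonoidHom.mem_range]
  constructor
  · intro h
    have h1 : twR (σ : F →+* F) (u : F) r = 1 := congrArg Units.val h
    obtain ⟨b, hb0, hb⟩ := lang_h90_scalar σ r hr hr0 (u : F) h1
    refine ⟨Units.mk0 b hb0, ?_⟩
    apply Units.ext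
    rw [lang_thU_coe]
    show b * (σ b)⁻¹ = (u : F)
    have hσb : σ b ≠ 0 := by
      intro h0
      rw [h0, mul_zero] at hb
      exact hb0 hb.symm
    calc b * (σ b)⁻¹ = (u : F) * σ b * (σ b)⁻¹ := by rw [hb]
      _ = (u : F) := by rw [mul_assoc, mul_inv_cancel₀ hσb, mul_one]
  · rintro ⟨w, rfl⟩
    have h1 : Units.map (lang_nmF σ r) (Units.map ((σ : F →+* F) : F →* F) w)
        = Units.map (lang_nmF σ r) w := by
      apply Units.ext
      exact lang_nmF_map σ r hr _ w.ne_zero
    show Units.map (lang_nmF σ r) (w * (Units.map ((σ : F →+* F) : F →* F) w)⁻¹) = 1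
    rw [map_mul, map_inv, h1, mul_inv_cancel]

theorem lang_nm_range_le (σ : RingAut F) (r : ℕ) (hr : orderOf σ = r) :
    (Units.map (lang_nmF σ r)).range ≤ lang_fixU σ := by
  rintro _ ⟨u, rfl⟩
  rw [lang_mem_fixU]
  exact lang_nmF_fixed σ r hr (u : F) u.ne_zero

/-- `|ker N| · |fixed units| = |Fˣ|` -/
theorem lang_card_norm_ker [Finite F] (σ : RingAut F) (r : ℕ) (hr : orderOf σ = r)
    (hr0 : 0 < r) :
    Nat.card (Units.map (lang_nmF σ r)).ker * Nat.card (lang_fixU σ) = Nat.card Fˣ := by
  rw [lang_nm_ker σ r hr hr0, ← lang_thU_ker, mul_comm, ← Subgroup.index_ker,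
    Subgroup.card_mul_index]

/-- the norm is surjective onto the fixed units -/
theorem lang_nm_range [Finite F] (σ : RingAut F) (r : ℕ) (hr : orderOf σ = r) (hr0 : 0 < r) :
    (Units.map (lang_nmF σ r)).range = lang_fixU σ := by
  apply Subgroup.eq_of_le_of_card_ge (lang_nm_range_le σ r hr)
  have h1 := lang_card_norm_ker σ r hr hr0
  have h2 := Subgroup.card_mul_index (Units.map (lang_nmF σ r)).ker
  rw [Subgroup.index_ker] at h2
  have h3 : 0 < Nat.card (Units.map (lang_nmF σ r)).ker := Nat.card_pos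
  have h4 : Nat.card (lang_fixU σ) = Nat.card (Units.map (lang_nmF σ r)).range :=
    Nat.eq_of_mul_eq_mul_left h3 (h1.trans h2.symm)
  exact h4.le

/-- surjectivity of the norm onto the non-zero fixed elements -/
theorem lang_norm_surj [Finite F] (σ : RingAut F) (r : ℕ) (hr : orderOf σ = r) (hr0 : 0 < r)
    (c : F) (hc0 : c ≠ 0) (hc : σ c = c) :
    ∃ μ : F, μ ≠ 0 ∧ twR (σ : F →+* F) μ r = c := by
  have h1 : Units.mk0 c hc0 ∈ (Units.map (lang_nmF σ r)).range := by
    rw [lang_nm_range σ r hr hr0, lang_mem_fixU]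
    exact hc
  obtain ⟨μ, hμ⟩ := h1
  exact ⟨(μ : F), μ.ne_zero, congrArg Units.val hμ⟩

end Norm

section Artin

variable {F : Type u} [Field F] [Fintype F]

/-- the fixed field of an automorphism of order `r` of a field with `p ^ f` elements has
`p ^ (f / r)` elements -/
theorem lang_card_fix (p f : ℕ) [Fact p.Prime] (hF : Fintype.card F = p ^ f) (σ : RingAut F)
    (r : ℕ) (hr : orderOf σ = r) (hr0 : 0 < r) :
    r ∣ f ∧ ∃ K₀ : Subfield F, (∀ x, x ∈ K₀ ↔ σ x = x) ∧ Nat.card K₀ = p ^ (f / r) := by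
  classical
  let Z : Subgroup (RingAut F) := Subgroup.zpowers σ
  haveI : Finite (RingAut F) :=
    Finite.of_injective (fun τ : RingAut F => (τ : F → F)) DFunLike.coe_injective
  haveI : Fintype Z := Fintype.ofFinite Z
  haveI : FaithfulSMul Z F := ⟨fun {g g'} h => Subtype.ext (RingEquiv.ext h)⟩
  let K₀ : Subfield F := FixedPoints.subfield Z F
  have hmem : ∀ x, x ∈ K₀ ↔ σ x = x := by
    intro x
    constructor
    · intro hx
      exact hx ⟨σ, Subgroup.mem_zpowers σ⟩
    · intro hx g
      have h1 : Z ≤ MulAction.stabilizer (RingAut F) x := by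
        rw [Subgroup.zpowers_le]
        exact hx
      exact h1 g.2
  have hfr : Module.finrank K₀ F = r := by
    rw [FixedPoints.finrank_eq_card Z F, ← hr, ← Nat.card_eq_fintype_card]
    exact Nat.card_zpowers σ
  haveI : Fintype K₀ := Fintype.ofFinite K₀
  have hc : Fintype.card F = Fintype.card K₀ ^ r := by
    rw [← hfr]
    exact Module.card_eq_pow_finrank
  rw [hF] at hc
  have hdvd : Fintype.card K₀ ∣ p ^ f := by
    rw [hc]
    exact dvd_pow_self _ hr0.ne'
  obtain ⟨k, -, hk⟩ := (Nat.dvd_prime_pow (Fact.out : p.Prime)).mp hdvd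
  rw [hk, ← pow_mul] at hc
  have hkr : f = k * r := Nat.pow_right_injective (Fact.out : p.Prime).two_le hc
  refine ⟨⟨k, by rw [hkr, mul_comm]⟩, K₀, hmem, ?_⟩
  rw [Nat.card_eq_fintype_card, hk, hkr, Nat.mul_div_cancel _ hr0]

theorem lang_card_fixU (p f : ℕ) [Fact p.Prime] (hF : Fintype.card F = p ^ f) (σ : RingAut F)
    (r : ℕ) (hr : orderOf σ = r) (hr0 : 0 < r) :
    Nat.card (lang_fixU σ) = p ^ (f / r) - 1 := by
  obtain ⟨-, K₀, hmem, hK⟩ := lang_card_fix p f hF σ r hr hr0
  rw [← hK, ← Nat.card_units]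
  let φ : (K₀)ˣ →* Fˣ := Units.map (K₀.subtype : K₀ →* F)
  have hφ : Function.Injective φ := by
    intro a b hab
    apply Units.ext
    apply Subtype.ext
    exact congrArg Units.val hab
  have hrange : φ.range = lang_fixU σ := by
    ext u
    rw [MonoidHom.mem_range, lang_mem_fixU]
    constructor
    · rintro ⟨w, rfl⟩
      exact (hmem _).mp (w : K₀).2
    · intro hu
      have h1 : (u : F) ∈ K₀ := (hmem _).mpr hu
      refine ⟨Units.mk0 ⟨(u : F), h1⟩ (by
        intro h0
        exact u.ne_zero (congrArg Subtype.val h0)), ?_⟩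
      apply Units.ext
      rfl
  rw [← hrange]
  exact (Nat.card_congr (MonoidHom.ofInjective hφ).toEquiv).symm

/-- a field with `p ^ (f / r)` elements embeds onto the fixed field -/
theorem lang_exists_embedding (p f : ℕ) [Fact p.Prime] (hF : Fintype.card F = p ^ f)
    (σ : RingAut F) (r : ℕ) (hr : orderOf σ = r) (hr0 : 0 < r)
    (F₀ : Type*) [Field F₀] [Fintype F₀] (hF₀ : Fintype.card F₀ = p ^ (f / r)) :
    ∃ ι : F₀ →+* F, ∀ x : F, σ x = x ↔ x ∈ Set.range ι := by
  obtain ⟨-, K₀, hmem, hK⟩ := lang_card_fix p f hF σ r hr hr0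
  haveI : Fintype K₀ := Fintype.ofFinite K₀
  have hcard : Fintype.card F₀ = Fintype.card K₀ := by
    rw [hF₀, ← hK, Nat.card_eq_fintype_card]
  let e : F₀ ≃+* K₀ := FiniteField.ringEquivOfCardEq hcard
  refine ⟨K₀.subtype.comp (e : F₀ →+* K₀), fun x => ?_⟩
  rw [← hmem]
  constructor
  · intro hx
    exact ⟨e.symm ⟨x, hx⟩, by simp⟩
  · rintro ⟨y, rfl⟩
    exact (e y).2

end Artin

end Cfsg.Agent.Helper44.PSLn
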