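import Cfsg.Agent.Helper44.LangA

set_option autoImplicit false

/-!
Helper library (helper44): the Lang–Steinberg property for the standard field and graph-field
automorphisms of `PSL_n(F)`: an element of order `r` in the coset `Inndiag · φ_σ`
(resp. `Inndiag · φ_σ ι`) is conjugate to `φ_σ` (resp. `φ_σ ι`) under `Inndiag`
(`lang_field_std`, `lang_gf_std`).
-/

namespace Cfsg.Agent.Helper44.PSLn

open Matrix

universe u

section MatLemmas

variable {n : ℕ} {F : Type u} [Field F]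

theorem lang_smul_one_inj (hn : 1 ≤ n) (a b : F)
    (h : a • (1 : Mn n F) = b • (1 : Mn n F)) : a = b := by
  have h1 := congrFun (congrFun h ⟨0, by omega⟩) ⟨0, by omega⟩
  simpa using h1

theorem lang_map_smul (σ : RingAut F) (c : F) (G : Mn n F) :
    (c • G).map σ = σ c • G.map σ := by
  ext i j
  simp

theorem lang_map_one (σ : RingAut F) : (1 : Mn n F).map σ = 1 := by
  ext i j
  rw [Matrix.map_apply, Matrix.one_apply]
  by_cases hij : i = j
  · rw [if_pos hij, map_one]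
  · rw [if_neg hij, map_zero]

theorem lang_map_mul (σ : RingAut F) (A B : Mn n F) :
    (A * B).map σ = A.map σ * B.map σ :=
  Matrix.map_mul (f := (σ : F →+* F))

theorem lang_map_map_one (G : Mn n F) : G.map (1 : RingAut F) = G := by
  ext i j
  rfl

theorem lang_map_map (σ : RingAut F) (hσ2 : ∀ a, σ (σ a) = a) (G : Mn n F) :
    (G.map σ).map σ = G := by
  ext i j
  exact hσ2 _

theorem lang_twR_smul (σ : RingAut F) (μ : F) (G : Mn n F) (k : ℕ) :
    twR (RingHom.mapMatrix (σ : F →+* F)) (μ • G) k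
      = twR (σ : F →+* F) μ k • twR (RingHom.mapMatrix (σ : F →+* F)) G k := by
  induction k with
  | zero => rw [twR_zero, twR_zero, twR_zero, one_smul]
  | succ k ih =>
    rw [twR_succ, twR_succ, twR_succ, ih]
    show (μ • G) * ((twR (σ : F →+* F) μ k
      • twR (RingHom.mapMatrix (σ : F →+* F)) G k).map σ) = _
    rw [lang_map_smul, Matrix.smul_mul, Matrix.mul_smul, smul_smul]
    rfl

theorem lang_GLmap_coe (σ : RingAut F) (g : GL (Fin n) F) :
    ((Matrix.GeneralLinearGroup.map (σ : F →+* F) g : GL (Fin n) F) : Mn n F)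
      = (g : Mn n F).map σ := rfl

theorem lang_mul_inv_coe (g : GL (Fin n) F) :
    (g : Mn n F) * ((g⁻¹ : GL (Fin n) F) : Mn n F) = 1 := by
  rw [← Units.val_mul, mul_inv_cancel, Units.val_one]

theorem lang_inv_mul_coe (g : GL (Fin n) F) :
    ((g⁻¹ : GL (Fin n) F) : Mn n F) * (g : Mn n F) = 1 := by
  rw [← Units.val_mul, inv_mul_cancel, Units.val_one]

theorem lang_smul_ne_zero (hn : 1 ≤ n) (g : GL (Fin n) F) (c : F)
    (h : (g : Mn n F) = c • (1 : Mn n F)) : c ≠ 0 := by
  intro h0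
  rw [h0, zero_smul] at h
  have h1 := lang_mul_inv_coe g
  rw [h, zero_mul] at h1
  have h2 := congrFun (congrFun h1 ⟨0, by omega⟩) ⟨0, by omega⟩
  simp at h2

end MatLemmas

section LangD

variable {n : ℕ} {F : Type u} [Field F] [Fintype F]

/-- **Lang–Steinberg for field automorphisms**: an element of `Inndiag · φ_σ` whose `r`-th
power is trivial (`r` the order of `σ`) is `Inndiag`-conjugate to `φ_σ` -/
theorem lang_field_std (hn : 2 ≤ n) (σ : RingAut F) (r : ℕ) (hr : orderOf σ = r) (hr0 : 0 < r)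
    (g : GL (Fin n) F) (hy : (dAutN g * fAutN σ) ^ r = (1 : MulAut (PSLn n F))) :
    ∃ k : GL (Fin n) F, dAutN g * fAutN σ = dAutN k * fAutN σ * (dAutN k)⁻¹ := by
  obtain ⟨gr, hgr, hpow⟩ := lang_semi_pow g σ r
  have hσr : σ ^ r = 1 := by rw [← hr, pow_orderOf_eq_one]
  rw [hy, hσr, map_one, mul_one] at hpow
  obtain ⟨c, hc⟩ := (lang_dAutN_eq_one_iff hn gr).mp hpow.symm
  have hc0 : c ≠ 0 := lang_smul_ne_zero (by omega) gr c hc
  have hT : twR (RingHom.mapMatrix (σ : F →+* F)) (g : Mn n F) r = c • (1 : Mn n F) :=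
    hgr.symm.trans hc
  -- the scalar is fixed by `σ`
  have hσc : σ c = c := by
    have h1 : twR (RingHom.mapMatrix (σ : F →+* F)) (g : Mn n F) (r + 1)
        = (g : Mn n F) * (twR (RingHom.mapMatrix (σ : F →+* F)) (g : Mn n F) r).map σ := rfl
    have h2 := twR_succ' (RingHom.mapMatrix (σ : F →+* F)) (g : Mn n F) r
    rw [h1, hT, lang_iter_mapMatrix, hσr, lang_map_map_one, lang_map_smul, lang_map_one,
      Matrix.mul_smul, mul_one, Matrix.smul_mul, one_mul] at h2
    have h3 := congrArg (fun M => M * ((g⁻¹ : GL (Fin n) F) : Mn n F)) h2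
    simp only [Matrix.smul_mul, lang_mul_inv_coe] at h3
    exact lang_smul_one_inj (by omega) _ _ h3
  obtain ⟨μ, hμ0, hμ⟩ := lang_norm_surj σ r hr hr0 c⁻¹ (inv_ne_zero hc0)
    (by rw [map_inv₀, hσc])
  have hT' : twR (RingHom.mapMatrix (σ : F →+* F))
      ((lang_smulGL μ hμ0 g : GL (Fin n) F) : Mn n F) r = 1 := by
    rw [lang_smulGL_coe, lang_twR_smul, hμ, hT, smul_smul, inv_mul_cancel₀ hc0, one_smul]
  obtain ⟨b, hbU, hb⟩ := lang_h90_matrix σ r hr hr0 _ hT'
  obtain ⟨bg, hbg⟩ := hbU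
  have hgl : lang_smulGL μ hμ0 g * Matrix.GeneralLinearGroup.map (σ : F →+* F) bg = bg := by
    apply Units.ext
    rw [Units.val_mul, lang_GLmap_coe, hbg]
    exact hb
  refine ⟨bg, ?_⟩
  rw [← lang_dAutN_smulGL hn μ hμ0 g]
  have h4 : lang_smulGL μ hμ0 g
      = bg * (Matrix.GeneralLinearGroup.map (σ : F →+* F) bg)⁻¹ :=
    eq_mul_inv_of_mul_eq hgl
  rw [h4, map_mul, mul_assoc, mul_assoc, ← map_inv, ← map_inv, fAutN_mul_dAutN]

/-- **Lang–Steinberg for graph-field automorphisms**: an involution in `Inndiag · φ_σ ι`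
(`σ` of order two) is `Inndiag`-conjugate to `φ_σ ι` -/
theorem lang_gf_std (hn : 2 ≤ n) (σ : RingAut F) (hσ2 : ∀ a, σ (σ a) = a) (hσ : σ ≠ 1)
    (g : GL (Fin n) F)
    (hy : (dAutN g * lang_gf σ) * (dAutN g * lang_gf σ) = (1 : MulAut (PSLn n F))) :
    ∃ k : GL (Fin n) F, dAutN g * lang_gf σ = dAutN k * lang_gf σ * (dAutN k)⁻¹ := by
  have hσσ : σ * σ = 1 := by
    apply RingEquiv.ext
    intro a
    exact hσ2 a
  have h1 : (dAutN g * lang_gf σ) * (dAutN g * lang_gf σ)
      = (dAutN (g * Matrix.GeneralLinearGroup.map (σ : F →+* F) (itGL g))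
          : MulAut (PSLn n F)) := by
    calc (dAutN g * lang_gf σ) * (dAutN g * lang_gf σ)
        = dAutN g * (lang_gf σ * dAutN g) * lang_gf σ := by simp only [mul_assoc]
      _ = dAutN g * (dAutN (Matrix.GeneralLinearGroup.map (σ : F →+* F) (itGL g)) * lang_gf σ)
            * lang_gf σ := by rw [lang_gf_mul_dAutN]
      _ = dAutN g * dAutN (Matrix.GeneralLinearGroup.map (σ : F →+* F) (itGL g))
            * (lang_gf σ * lang_gf σ) := by simp only [mul_assoc]
      _ = _ := by rw [lang_gf_sq, hσσ, map_one, mul_one, ← map_mul]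
  rw [h1] at hy
  obtain ⟨c, hc⟩ := (lang_dAutN_eq_one_iff hn _).mp hy
  have hc0 : c ≠ 0 := lang_smul_ne_zero (by omega) _ c hc
  rw [Units.val_mul, lang_GLmap_coe, itGL_coe] at hc
  -- `G = c • G^*`
  have hG : (g : Mn n F) = c • ((g : Mn n F).map σ)ᵀ := by
    have h2 : (((g⁻¹ : GL (Fin n) F) : Mn n F)ᵀ).map σ * ((g : Mn n F).map σ)ᵀ = 1 := by
      rw [Matrix.transpose_map, ← Matrix.transpose_mul, ← lang_map_mul, lang_mul_inv_coe,
        lang_map_one, Matrix.transpose_one]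
    have h3 := congrArg (fun M => M * ((g : Mn n F).map σ)ᵀ) hc
    simp only [mul_assoc, h2, mul_one, Matrix.smul_mul, one_mul] at h3
    exact h3
  have hcc : c * σ c = 1 := by
    have h2 : ((g : Mn n F).map σ)ᵀ = σ c • (g : Mn n F) := by
      conv_lhs => rw [hG]
      rw [lang_map_smul, Matrix.transpose_smul, Matrix.transpose_map, Matrix.transpose_transpose,
        lang_map_map σ hσ2]
    rw [h2, smul_smul] at hG
    have h3 := congrArg (fun M => M * ((g⁻¹ : GL (Fin n) F) : Mn n F)) hG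
    simp only [Matrix.smul_mul, lang_mul_inv_coe] at h3
    have h4 : (1 : F) • (1 : Mn n F) = (c * σ c) • (1 : Mn n F) := by
      rw [one_smul]
      exact h3
    exact (lang_smul_one_inj (by omega) _ _ h4).symm
  have htw : twR (σ : F →+* F) c 2 = 1 := by
    show c * σ (c * σ 1) = 1
    rw [map_one, mul_one, hcc]
  obtain ⟨b, hb0, hb⟩ := lang_h90_scalar σ 2 (lang_orderOf_two σ hσ2 hσ) (by norm_num) c htw
  have hd0 : σ b ≠ 0 := (map_ne_zero σ).mpr hb0
  -- `g' = σ b • g` is Hermitian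
  have hherm : ((((lang_smulGL (σ b) hd0 g : GL (Fin n) F) : Mn n F)).map σ)ᵀ
      = ((lang_smulGL (σ b) hd0 g : GL (Fin n) F) : Mn n F) := by
    rw [lang_smulGL_coe, lang_map_smul, Matrix.transpose_smul, hσ2]
    conv_rhs => rw [hG]
    rw [smul_smul, mul_comm, hb]
  obtain ⟨h, hh⟩ := lang_herm_gl σ hσ2 hσ _ hherm
  have hgl : lang_smulGL (σ b) hd0 g
      = h * Matrix.GeneralLinearGroup.map (σ : F →+* F) (itGL h⁻¹) := by
    apply Units.ext
    rw [hh, Units.val_mul, lang_GLmap_coe, itGL_coe, inv_inv, Matrix.transpose_map]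
  refine ⟨h, ?_⟩
  rw [← lang_dAutN_smulGL hn (σ b) hd0 g, hgl, map_mul, mul_assoc, mul_assoc, ← map_inv,
    lang_gf_mul_dAutN]

end LangD

end Cfsg.Agent.Helper44.PSLn
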