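import Cfsg.Agent.Helper44.LangD

set_option autoImplicit false

/-!
Helper library (helper44): the coset statement for field and graph-field automorphisms of
`PSL_n(F)` (`lang_coset_conj`): for `x` a field or graph-field automorphism of prime order `r`
and `δ` inner-diagonal, `δ x` has order `r` iff it is conjugate to `x` under `Inndiag`.
-/

namespace Cfsg.Agent.Helper44.PSLn

open Matrix

universe u

section Gen

theorem lang_orderOf_conj {G : Type*} [Group G] (h x : G) :
    orderOf (h * x * h⁻¹) = orderOf x :=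
  (MulAut.conj h).orderOf_eq x

/-- reduction of the coset statement to a conjugate -/
theorem lang_reduce_conj {G : Type*} [Group G] (H : Subgroup G) (x x₀ η δ : G) (r : ℕ)
    (hη : η ∈ H) (hx : x = η * x₀ * η⁻¹) (hδ : δ ∈ H)
    (hstd : ∀ δ₀ ∈ H, orderOf (δ₀ * x₀) = r → Cfsg.IsConjUnder H x₀ (δ₀ * x₀))
    (ho : orderOf (δ * x) = r) : Cfsg.IsConjUnder H x (δ * x) := by
  have h1 : δ * x = η * ((η⁻¹ * δ * η) * x₀) * η⁻¹ := by
    rw [hx]
    group
  have h2 : orderOf ((η⁻¹ * δ * η) * x₀) = r := by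
    rw [← ho, h1, lang_orderOf_conj]
  obtain ⟨k, hk, hk2⟩ := hstd (η⁻¹ * δ * η) (H.mul_mem (H.mul_mem (H.inv_mem hη) hδ) hη) h2
  refine ⟨η * k * η⁻¹, H.mul_mem (H.mul_mem hη hk) (H.inv_mem hη), ?_⟩
  rw [h1, hk2, hx]
  group

end Gen

section Coset

variable {n : ℕ} {F : Type u} [Field F]

/-- a standard graph-field automorphism of prime order has order two, and `σ² = 1` -/
theorem lang_gf_order (hn3 : 3 ≤ n) (σ : RingAut F) (r : ℕ) (hr : r.Prime)
    (h : orderOf (lang_gf σ : MulAut (PSLn n F)) = r) : r = 2 ∧ ∀ a, σ (σ a) = a := by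
  have hpow : (lang_gf σ : MulAut (PSLn n F)) ^ r = 1 := by
    rw [← h]
    exact pow_orderOf_eq_one _
  have hcomm : Commute (fAutN σ : MulAut (PSLn n F)) iAutN := (iAutN_mul_fAutN σ).symm
  have hr2 : r = 2 := by
    rcases hr.eq_two_or_odd' with h2 | ⟨j, hj⟩
    · exact h2
    · exfalso
      have h3 : (iAutN : MulAut (PSLn n F)) ^ r = iAutN := by
        rw [hj, pow_succ, pow_mul, pow_two, iAutN_mul_self, one_pow, one_mul]
      unfold lang_gf at hpow
      rw [hcomm.mul_pow, h3, ← map_pow] at hpow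
      have h4 : (iAutN : MulAut (PSLn n F)) = dAutN 1 * fAutN (σ ^ r)⁻¹ := by
        rw [map_one, one_mul, map_inv]
        exact (inv_eq_of_mul_eq_one_right hpow).symm
      exact iAutN_ne_semi hn3 _ _ h4
  refine ⟨hr2, ?_⟩
  subst hr2
  rw [pow_two, lang_gf_sq] at hpow
  have hn2 : 2 ≤ n := by omega
  have h5 : σ * σ = 1 := lang_fAutN_injective (n := n) hn2 (by rw [hpow, map_one])
  intro a
  exact DFunLike.congr_fun h5 a

variable [Fintype F]

/-- **the coset statement for field and graph-field automorphisms of `PSL_n(F)`** -/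
theorem lang_coset_conj (p f : ℕ) [Fact p.Prime] (hF : Fintype.card F = p ^ f) (hf : 1 ≤ f)
    (hn : 2 ≤ n) (x δ : MulAut (PSLn n F))
    (hx : Cfsg.IsFieldAutClassPSL x ∨ Cfsg.IsGraphFieldAutClassPSL x) (r : ℕ) (hr : r.Prime)
    (hxr : orderOf x = r) (hδ : δ ∈ Cfsg.inndiagPSL n F) :
    orderOf (δ * x) = r ↔ Cfsg.IsConjUnder (Cfsg.inndiagPSL n F) x (δ * x) := by
  constructor
  · intro ho
    rcases hx with hx | hx
    · obtain ⟨σ, h, hσ, hxe⟩ := lang_field_reduce p f hF hf hn x hx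
      have hσr : orderOf σ = r := by
        rw [← hxr, hxe, lang_orderOf_conj, lang_orderOf_fAutN hn]
      refine lang_reduce_conj _ x (fAutN σ) (dAutN h) δ r (lang_dAutN_mem_inndiag h) hxe hδ ?_ ho
      intro δ₀ hδ₀ ho₀
      obtain ⟨g, rfl⟩ := (lang_mem_inndiag δ₀).mp hδ₀
      obtain ⟨k, hk⟩ := lang_field_std hn σ r hσr hr.pos g (by
        rw [← ho₀]
        exact pow_orderOf_eq_one _)
      exact ⟨dAutN k, lang_dAutN_mem_inndiag k, hk⟩
    · obtain ⟨hn3, σ, h, hσ, hxe⟩ := lang_graphfield_reduce p f hF hf hn x hx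
      have hψr : orderOf (lang_gf σ : MulAut (PSLn n F)) = r := by
        rw [← hxr, hxe, lang_orderOf_conj]
      obtain ⟨hr2, hσ2⟩ := lang_gf_order hn3 σ r hr hψr
      subst hr2
      refine lang_reduce_conj _ x (lang_gf σ) (dAutN h) δ 2 (lang_dAutN_mem_inndiag h) hxe hδ
        ?_ ho
      intro δ₀ hδ₀ ho₀
      obtain ⟨g, rfl⟩ := (lang_mem_inndiag δ₀).mp hδ₀
      obtain ⟨k, hk⟩ := lang_gf_std hn σ hσ2 hσ g (by
        rw [← pow_two, ← ho₀]
        exact pow_orderOf_eq_one _)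
      exact ⟨dAutN k, lang_dAutN_mem_inndiag k, hk⟩
  · rintro ⟨h, -, heq⟩
    rw [heq, lang_orderOf_conj, hxr]

end Coset

end Cfsg.Agent.Helper44.PSLn
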