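import Cfsg.Agent.Helper44.LangE
import Cfsg.Agent.Helper44.Unitary

set_option autoImplicit false

/-!
Helper library (helper44): centralisers in `GL_n(F)` of the standard field and graph-field
automorphisms of `PSL_n(F)` (`lang_cGL_field`, `lang_cGL_gf`), their determinants
(`lang_det_cGL_field`, `lang_det_cGL_gf`), membership in the unitary group as a matrix equation
(`lang_mem_GU`), the abstract isomorphism of the centraliser in `Inndiag` with a quotient
(`lang_centralizer_iso`), and uniqueness of the involutory automorphism of a finite field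
(`lang_involution_unique`, `lang_involution_eq_pow`).
-/

namespace Cfsg.Agent.Helper44.PSLn

open Matrix

universe u

section Cent

variable {n : ℕ} {F : Type u} [Field F]

theorem lang_map_pow_smul (σ : RingAut F) (lam : F) (G : Mn n F) (h : G.map σ = lam • G)
    (k : ℕ) : G.map (σ ^ k) = twR (σ : F →+* F) lam k • G := by
  induction k with
  | zero =>
    rw [pow_zero, twR_zero, one_smul]
    exact lang_map_map_one G
  | succ k ih =>
    have h1 : G.map (σ ^ (k + 1)) = (G.map (σ ^ k)).map σ := by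
      rw [pow_succ']
      ext i j
      rfl
    rw [h1, ih, lang_map_smul, h, smul_smul, twR_succ]
    congr 1
    exact mul_comm _ _

/-- the matrices commuting with a standard field automorphism: scalar multiples of matrices
fixed by `σ` -/
theorem lang_cGL_field (hn : 2 ≤ n) (σ : RingAut F) (r : ℕ) (hr : orderOf σ = r) (hr0 : 0 < r)
    (g : GL (Fin n) F) :
    g ∈ lang_cGL (fAutN σ : MulAut (PSLn n F)) ↔
      ∃ (c : F) (g₀ : GL (Fin n) F), c ≠ 0 ∧ (g₀ : Mn n F).map σ = (g₀ : Mn n F)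
        ∧ (g : Mn n F) = c • (g₀ : Mn n F) := by
  rw [lang_mem_cGL]
  constructor
  · intro h
    rw [fAutN_mul_dAutN] at h
    have h1 : dAutN g = dAutN (Matrix.GeneralLinearGroup.map (σ : F →+* F) g) :=
      mul_right_cancel h
    obtain ⟨lam, hlam⟩ := (lang_dAutN_eq_iff hn _ _).mp h1
    rw [lang_GLmap_coe] at hlam
    have hσr : σ ^ r = 1 := by rw [← hr, pow_orderOf_eq_one]
    have h2 := lang_map_pow_smul σ lam (g : Mn n F) hlam r
    rw [hσr, lang_map_map_one] at h2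
    have h3 : twR (σ : F →+* F) lam r = 1 := by
      have h4 := congrArg (fun M => M * ((g⁻¹ : GL (Fin n) F) : Mn n F)) h2
      simp only [Matrix.smul_mul, lang_mul_inv_coe] at h4
      have h5 : (1 : F) • (1 : Mn n F) = twR (σ : F →+* F) lam r • (1 : Mn n F) := by
        rw [one_smul]
        exact h4
      exact (lang_smul_one_inj (by omega) _ _ h5).symm
    obtain ⟨b, hb0, hb⟩ := lang_h90_scalar σ r hr hr0 lam h3
    refine ⟨b⁻¹, lang_smulGL b hb0 g, inv_ne_zero hb0, ?_, ?_⟩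
    · rw [lang_smulGL_coe, lang_map_smul, hlam, smul_smul, mul_comm, hb]
    · rw [lang_smulGL_coe, smul_smul, inv_mul_cancel₀ hb0, one_smul]
  · rintro ⟨c, g₀, hc, hfix, hg⟩
    have h1 : dAutN g = dAutN g₀ := ((lang_dAutN_eq_iff hn g₀ g).mpr ⟨c, hg⟩).symm
    have h2 : Matrix.GeneralLinearGroup.map (σ : F →+* F) g₀ = g₀ := Units.ext hfix
    rw [h1, fAutN_mul_dAutN, h2]

end Cent

section CentGF

variable {n : ℕ} {F : Type u} [Field F] [Fintype F]

/-- the matrices commuting with a standard graph-field automorphism: scalar multiples of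
unitary matrices -/
theorem lang_cGL_gf (hn : 2 ≤ n) (σ : RingAut F) (hσ2 : ∀ a, σ (σ a) = a) (hσ : σ ≠ 1)
    (g : GL (Fin n) F) :
    g ∈ lang_cGL (lang_gf σ : MulAut (PSLn n F)) ↔
      ∃ (c : F) (g₀ : GL (Fin n) F), c ≠ 0 ∧ (g₀ : Mn n F)ᵀ * (g₀ : Mn n F).map σ = 1
        ∧ (g : Mn n F) = c • (g₀ : Mn n F) := by
  rw [lang_mem_cGL]
  constructor
  · intro h
    rw [lang_gf_mul_dAutN] at h
    have h1 : dAutN g = dAutN (Matrix.GeneralLinearGroup.map (σ : F →+* F) (itGL g)) :=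
      mul_right_cancel h
    obtain ⟨lam, hlam⟩ := (lang_dAutN_eq_iff hn _ _).mp h1
    rw [lang_GLmap_coe, itGL_coe] at hlam
    -- `(G⁻¹)ᵀ = σ(lam) • σ(G)`
    have h2 : ((g⁻¹ : GL (Fin n) F) : Mn n F)ᵀ = σ lam • (g : Mn n F).map σ := by
      have h3 := congrArg (fun M : Mn n F => M.map σ) hlam
      simp only [lang_map_map σ hσ2, lang_map_smul] at h3
      exact h3
    have h4 : (1 : Mn n F) = σ lam • ((g : Mn n F)ᵀ * (g : Mn n F).map σ) := by
      rw [← Matrix.mul_smul, ← h2, ← Matrix.transpose_mul, lang_inv_mul_coe,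
        Matrix.transpose_one]
    have hlam0 : σ lam ≠ 0 := by
      intro h0
      rw [h0, zero_smul] at h4
      have h5 := congrFun (congrFun h4 ⟨0, by omega⟩) ⟨0, by omega⟩
      simp at h5
    have hM : (g : Mn n F)ᵀ * (g : Mn n F).map σ = (σ lam)⁻¹ • (1 : Mn n F) := by
      rw [h4, smul_smul, inv_mul_cancel₀ hlam0, one_smul]
    -- the scalar is fixed by `σ`
    have hν : σ (σ lam)⁻¹ = (σ lam)⁻¹ := by
      have h5 : (((g : Mn n F)ᵀ * (g : Mn n F).map σ).map σ)ᵀ
          = (g : Mn n F)ᵀ * (g : Mn n F).map σ := by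
        rw [lang_map_mul, lang_map_map σ hσ2, Matrix.transpose_mul, Matrix.transpose_map,
          Matrix.transpose_transpose]
      rw [hM, lang_map_smul, lang_map_one, Matrix.transpose_smul, Matrix.transpose_one] at h5
      exact lang_smul_one_inj (by omega) _ _ h5
    obtain ⟨μ, hμ0, hμ⟩ := lang_norm_surj σ 2 (lang_orderOf_two σ hσ2 hσ) (by norm_num)
      (σ lam)⁻¹ (inv_ne_zero hlam0) hν
    have hμ' : μ * σ μ = (σ lam)⁻¹ := by
      rw [← hμ]
      show μ * σ μ = μ * σ (μ * σ 1)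
      rw [map_one, mul_one]
    have hσμ : σ μ ≠ 0 := (map_ne_zero σ).mpr hμ0
    refine ⟨μ, lang_smulGL μ⁻¹ (inv_ne_zero hμ0) g, hμ0, ?_, ?_⟩
    · rw [lang_smulGL_coe, lang_map_smul, Matrix.transpose_smul, Matrix.smul_mul,
        Matrix.mul_smul, hM, smul_smul, smul_smul, ← hμ', map_inv₀]
      have h6 : μ⁻¹ * (σ μ)⁻¹ * (μ * σ μ) = 1 := by
        field_simp
      rw [h6, one_smul]
    · rw [lang_smulGL_coe, smul_smul, mul_inv_cancel₀ hμ0, one_smul]
  · rintro ⟨c, g₀, hc, hu, hg⟩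
    have h1 : dAutN g = dAutN g₀ := ((lang_dAutN_eq_iff hn g₀ g).mpr ⟨c, hg⟩).symm
    have h2 : Matrix.GeneralLinearGroup.map (σ : F →+* F) (itGL g₀) = g₀ := by
      apply Units.ext
      rw [lang_GLmap_coe, itGL_coe]
      have h3 : (g₀ : Mn n F).map σ = ((g₀⁻¹ : GL (Fin n) F) : Mn n F)ᵀ := by
        have h4 : ((g₀⁻¹ : GL (Fin n) F) : Mn n F)ᵀ * (g₀ : Mn n F)ᵀ = 1 := by
          rw [← Matrix.transpose_mul, lang_mul_inv_coe, Matrix.transpose_one]
        calc (g₀ : Mn n F).map σ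
            = ((g₀⁻¹ : GL (Fin n) F) : Mn n F)ᵀ * (g₀ : Mn n F)ᵀ * (g₀ : Mn n F).map σ := by
              rw [h4, one_mul]
          _ = ((g₀⁻¹ : GL (Fin n) F) : Mn n F)ᵀ := by rw [mul_assoc, hu, mul_one]
      rw [← h3, lang_map_map σ hσ2]
    rw [h1, lang_gf_mul_dAutN, h2]

end CentGF

section GU

variable {n : ℕ} {F : Type u} [Field F]

theorem lang_sv_mulVec (σ : RingAut F) (G : Mn n F) (v : Fin n → F) :
    lang_sv σ (G *ᵥ v) = G.map σ *ᵥ lang_sv σ v := by
  funext i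
  simp [lang_sv, Matrix.mulVec, dotProduct, map_sum, map_mul]

theorem lang_sv_single (σ : RingAut F) (j : Fin n) :
    lang_sv σ (Pi.single j 1 : Fin n → F) = Pi.single j 1 := by
  funext k
  unfold lang_sv
  by_cases hk : k = j
  · subst hk
    rw [Pi.single_eq_same, map_one]
  · rw [Pi.single_eq_of_ne hk, map_zero]

theorem lang_hf_single (σ : RingAut F) (M : Mn n F) (i j : Fin n) :
    lang_hf σ M (Pi.single i 1) (Pi.single j 1) = M i j := by
  unfold lang_hf
  rw [lang_sv_single, single_dotProduct, one_mul, lang_mulVec_single, one_smul]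

theorem lang_hermForm_eq (σ : RingAut F) (q : ℕ) (hσq : ∀ a, σ a = a ^ q) (u v : Fin n → F) :
    Cfsg.hermForm n F q u v = lang_hf σ 1 u v := by
  unfold Cfsg.hermForm lang_hf
  rw [Matrix.one_mulVec]
  unfold lang_sv dotProduct
  refine Finset.sum_congr rfl fun i _ => ?_
  show u i * v i ^ q = u i * σ (v i)
  rw [hσq]

theorem lang_hermForm_mulVec (σ : RingAut F) (q : ℕ) (hσq : ∀ a, σ a = a ^ q) (G : Mn n F)
    (u v : Fin n → F) :
    Cfsg.hermForm n F q (G *ᵥ u) (G *ᵥ v) = lang_hf σ (Gᵀ * G.map σ) u v := by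
  rw [lang_hermForm_eq σ q hσq]
  unfold lang_hf
  rw [Matrix.one_mulVec, lang_sv_mulVec, ← Matrix.mulVec_mulVec,
    Matrix.dotProduct_mulVec u Gᵀ, Matrix.vecMul_transpose]

/-- membership in the unitary group as a matrix equation -/
theorem lang_mem_GU (σ : RingAut F) (q : ℕ) (hσq : ∀ a, σ a = a ^ q) (g : GL (Fin n) F) :
    g ∈ Cfsg.GU n F q ↔ (g : Mn n F)ᵀ * (g : Mn n F).map σ = 1 := by
  have hmem : g ∈ Cfsg.GU n F q ↔ ∀ u v : Fin n → F,
      Cfsg.hermForm n F q ((g : Mn n F) *ᵥ u) ((g : Mn n F) *ᵥ v)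
        = Cfsg.hermForm n F q u v := Iff.rfl
  rw [hmem]
  constructor
  · intro h
    ext i j
    have h1 := h (Pi.single i 1) (Pi.single j 1)
    rw [lang_hermForm_mulVec σ q hσq, lang_hermForm_eq σ q hσq, lang_hf_single,
      lang_hf_single] at h1
    exact h1
  · intro h u v
    rw [lang_hermForm_mulVec σ q hσq, lang_hermForm_eq σ q hσq, h]

/-- the diagonal matrix `diag(u, 1, …, 1)` -/
def lang_d1 (hn : 1 ≤ n) (u : Fˣ) : GL (Fin n) F :=
  diagGL (Function.update (fun _ => (1 : F)) ⟨0, hn⟩ (u : F)) (by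
    intro i
    by_cases hi : i = ⟨0, hn⟩
    · rw [hi, Function.update_self]
      exact u.ne_zero
    · rw [Function.update_of_ne hi]
      exact one_ne_zero)

theorem lang_d1_coe (hn : 1 ≤ n) (u : Fˣ) :
    ((lang_d1 hn u : GL (Fin n) F) : Mn n F)
      = Matrix.diagonal (Function.update (fun _ => (1 : F)) ⟨0, hn⟩ (u : F)) := rfl

theorem lang_d1_det (hn : 1 ≤ n) (u : Fˣ) :
    Matrix.GeneralLinearGroup.det (lang_d1 hn u) = u := by
  apply Units.ext
  rw [Matrix.GeneralLinearGroup.val_det_apply, lang_d1_coe, Matrix.det_diagonal,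
    Finset.prod_update_of_mem (Finset.mem_univ _)]
  simp

theorem lang_det_smulGL (c : F) (hc : c ≠ 0) (g : GL (Fin n) F) :
    Matrix.GeneralLinearGroup.det (lang_smulGL c hc g)
      = (Units.mk0 c hc) ^ n * Matrix.GeneralLinearGroup.det g := by
  apply Units.ext
  rw [Matrix.GeneralLinearGroup.val_det_apply, lang_smulGL_coe, Matrix.det_smul,
    Fintype.card_fin, Units.val_mul, Units.val_pow_eq_pow_val,
    Matrix.GeneralLinearGroup.val_det_apply]
  rfl

theorem lang_eq_smulGL (c : F) (hc : c ≠ 0) (g g₀ : GL (Fin n) F)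
    (h : (g : Mn n F) = c • (g₀ : Mn n F)) : g = lang_smulGL c hc g₀ :=
  Units.ext h

theorem lang_det_map (σ : RingAut F) (G : Mn n F) : (G.map σ).det = σ G.det :=
  (RingHom.map_det (σ : F →+* F) G).symm

/-- the determinants of the matrices commuting with `x` only depend on the conjugacy class of
`x` under the inner-diagonal group -/
theorem lang_cGL_conj (x₀ : MulAut (PSLn n F)) (h₁ : GL (Fin n) F) :
    (lang_cGL (dAutN h₁ * x₀ * (dAutN h₁)⁻¹)).map Matrix.GeneralLinearGroup.det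
      = (lang_cGL x₀).map Matrix.GeneralLinearGroup.det := by
  ext u
  constructor
  · rintro ⟨g, hg, rfl⟩
    rw [SetLike.mem_coe, lang_mem_cGL] at hg
    refine ⟨h₁⁻¹ * g * h₁, ?_, ?_⟩
    · rw [SetLike.mem_coe, lang_mem_cGL, map_mul, map_mul, map_inv]
      calc (dAutN h₁)⁻¹ * dAutN g * dAutN h₁ * x₀
          = (dAutN h₁)⁻¹ * (dAutN g * (dAutN h₁ * x₀ * (dAutN h₁)⁻¹)) * dAutN h₁ := by group
        _ = (dAutN h₁)⁻¹ * ((dAutN h₁ * x₀ * (dAutN h₁)⁻¹) * dAutN g) * dAutN h₁ := by rw [hg]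
        _ = x₀ * ((dAutN h₁)⁻¹ * dAutN g * dAutN h₁) := by group
    · rw [map_mul, map_mul, map_inv, mul_comm, ← mul_assoc, mul_inv_cancel, one_mul]
  · rintro ⟨g, hg, rfl⟩
    rw [SetLike.mem_coe, lang_mem_cGL] at hg
    refine ⟨h₁ * g * h₁⁻¹, ?_, ?_⟩
    · rw [SetLike.mem_coe, lang_mem_cGL, map_mul, map_mul, map_inv]
      calc dAutN h₁ * dAutN g * (dAutN h₁)⁻¹ * (dAutN h₁ * x₀ * (dAutN h₁)⁻¹)
          = dAutN h₁ * (dAutN g * x₀) * (dAutN h₁)⁻¹ := by group
        _ = dAutN h₁ * (x₀ * dAutN g) * (dAutN h₁)⁻¹ := by rw [hg]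
        _ = dAutN h₁ * x₀ * (dAutN h₁)⁻¹ * (dAutN h₁ * dAutN g * (dAutN h₁)⁻¹) := by group
    · rw [map_mul, map_mul, map_inv, mul_comm, ← mul_assoc, inv_mul_cancel, one_mul]

/-- the determinants of the matrices commuting with a standard field automorphism -/
theorem lang_det_cGL_field (hn : 2 ≤ n) (σ : RingAut F) (r : ℕ) (hr : orderOf σ = r)
    (hr0 : 0 < r) :
    (lang_cGL (fAutN σ : MulAut (PSLn n F))).map Matrix.GeneralLinearGroup.det
      = lang_fixU σ ⊔ (powMonoidHom n : Fˣ →* Fˣ).range := by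
  apply le_antisymm
  · rintro _ ⟨g, hg, rfl⟩
    obtain ⟨c, g₀, hc, hfix, hge⟩ := (lang_cGL_field hn σ r hr hr0 g).mp hg
    rw [lang_eq_smulGL c hc g g₀ hge, lang_det_smulGL, mul_comm]
    refine Subgroup.mul_mem_sup ?_ ⟨Units.mk0 c hc, rfl⟩
    rw [lang_mem_fixU, Matrix.GeneralLinearGroup.val_det_apply, ← lang_det_map, hfix]
  · apply sup_le
    · intro u hu
      rw [lang_mem_fixU] at hu
      refine ⟨lang_d1 (by omega) u, ?_, lang_d1_det _ u⟩
      rw [SetLike.mem_coe, lang_cGL_field hn σ r hr hr0]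
      refine ⟨1, lang_d1 (by omega) u, one_ne_zero, ?_, by rw [one_smul]⟩
      rw [lang_d1_coe, Matrix.diagonal_map (map_zero σ)]
      congr 1
      funext i
      by_cases hi : i = ⟨0, by omega⟩
      · rw [hi, Function.update_self, hu]
      · rw [Function.update_of_ne hi, map_one]
    · rintro _ ⟨c, rfl⟩
      refine ⟨lang_smulGL (c : F) c.ne_zero 1, ?_, ?_⟩
      · rw [SetLike.mem_coe, lang_cGL_field hn σ r hr hr0]
        refine ⟨(c : F), 1, c.ne_zero, ?_, rfl⟩
        rw [Units.val_one, lang_map_one]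
      · rw [lang_det_smulGL, map_one, mul_one]
        show _ = c ^ n
        congr 1
        exact Units.ext rfl

end GU

section GUdet

variable {n : ℕ} {F : Type u} [Field F] [Fintype F]

/-- the determinants of the matrices commuting with a standard graph-field automorphism -/
theorem lang_det_cGL_gf (hn : 2 ≤ n) (σ : RingAut F) (hσ2 : ∀ a, σ (σ a) = a) (hσ : σ ≠ 1) :
    (lang_cGL (lang_gf σ : MulAut (PSLn n F))).map Matrix.GeneralLinearGroup.det
      = (Units.map (lang_nmF σ 2)).ker ⊔ (powMonoidHom n : Fˣ →* Fˣ).range := by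
  have hnm : ∀ a : F, lang_nmF σ 2 a = a * σ a := by
    intro a
    show a * σ (a * σ 1) = a * σ a
    rw [map_one, mul_one]
  apply le_antisymm
  · rintro _ ⟨g, hg, rfl⟩
    obtain ⟨c, g₀, hc, hu, hge⟩ := (lang_cGL_gf hn σ hσ2 hσ g).mp hg
    rw [lang_eq_smulGL c hc g g₀ hge, lang_det_smulGL, mul_comm]
    refine Subgroup.mul_mem_sup ?_ ⟨Units.mk0 c hc, rfl⟩
    rw [MonoidHom.mem_ker]
    apply Units.ext
    rw [Units.coe_map, Units.val_one, Matrix.GeneralLinearGroup.val_det_apply]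
    show lang_nmF σ 2 (g₀ : Mn n F).det = 1
    rw [hnm, ← lang_det_map, ← Matrix.det_transpose (g₀ : Mn n F), ← Matrix.det_mul, hu,
      Matrix.det_one]
  · apply sup_le
    · intro u hu
      rw [MonoidHom.mem_ker] at hu
      have hu' : (u : F) * σ (u : F) = 1 := by
        rw [← hnm]
        exact congrArg Units.val hu
      refine ⟨lang_d1 (by omega) u, ?_, lang_d1_det _ u⟩
      rw [SetLike.mem_coe, lang_cGL_gf hn σ hσ2 hσ]
      refine ⟨1, lang_d1 (by omega) u, one_ne_zero, ?_, by rw [one_smul]⟩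
      rw [lang_d1_coe, Matrix.diagonal_transpose, Matrix.diagonal_map (map_zero σ),
        Matrix.diagonal_mul_diagonal, ← Matrix.diagonal_one]
      congr 1
      funext i
      by_cases hi : i = ⟨0, by omega⟩
      · rw [hi, Function.update_self, hu']
      · rw [Function.update_of_ne hi, map_one, mul_one]
    · rintro _ ⟨c, rfl⟩
      refine ⟨lang_smulGL (c : F) c.ne_zero 1, ?_, ?_⟩
      · rw [SetLike.mem_coe, lang_cGL_gf hn σ hσ2 hσ]
        refine ⟨(c : F), 1, c.ne_zero, ?_, rfl⟩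
        rw [Units.val_one, lang_map_one, Matrix.transpose_one, mul_one]
      · rw [lang_det_smulGL, map_one, mul_one]
        show _ = c ^ n
        congr 1
        exact Units.ext rfl

end GUdet

section Iso

variable {n : ℕ} {F : Type u} [Field F]

/-- the centraliser in `Inndiag` of a conjugate of `x₀` is the image of a group `Γ` mapping
onto the centraliser of `x₀` in `GL_n(F)` modulo scalars -/
theorem lang_centralizer_iso (hn : 2 ≤ n) {Γ : Type*} [Group Γ] (θ : Γ →* GL (Fin n) F)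
    (x₀ : MulAut (PSLn n F)) (h₁ : GL (Fin n) F)
    (ha : ∀ γ, θ γ ∈ lang_cGL x₀)
    (hb : ∀ g ∈ lang_cGL x₀, ∃ (γ : Γ) (c : F), (g : Mn n F) = c • (θ γ : Mn n F))
    (N : Subgroup Γ) [N.Normal]
    (hN : ∀ γ, γ ∈ N ↔ ∃ c : F, (θ γ : Mn n F) = c • (1 : Mn n F)) :
    Nonempty (↥(Cfsg.inndiagPSL n F
        ⊓ Subgroup.centralizer {dAutN h₁ * x₀ * (dAutN h₁)⁻¹}) ≃* Γ ⧸ N) := by
  set x : MulAut (PSLn n F) := dAutN h₁ * x₀ * (dAutN h₁)⁻¹ with hx
  let Θ₀ : Γ →* MulAut (PSLn n F) :=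
    (MulAut.conj (dAutN h₁ : MulAut (PSLn n F))).toMonoidHom.comp (dAutN.comp θ)
  have hΘ₀ : ∀ γ, Θ₀ γ = dAutN h₁ * dAutN (θ γ) * (dAutN h₁)⁻¹ := fun γ => rfl
  have hmem : ∀ γ, Θ₀ γ ∈ Cfsg.inndiagPSL n F ⊓ Subgroup.centralizer {x} := by
    intro γ
    refine Subgroup.mem_inf.mpr ⟨?_, ?_⟩
    · rw [hΘ₀, ← map_mul, ← map_inv, ← map_mul]
      exact lang_dAutN_mem_inndiag _
    · rw [Subgroup.mem_centralizer_iff]
      intro y hy
      rw [Set.mem_singleton_iff] at hy
      subst hy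
      have h1 := (lang_mem_cGL x₀ (θ γ)).mp (ha γ)
      rw [hΘ₀, hx]
      calc dAutN h₁ * x₀ * (dAutN h₁)⁻¹ * (dAutN h₁ * dAutN (θ γ) * (dAutN h₁)⁻¹)
          = dAutN h₁ * (x₀ * dAutN (θ γ)) * (dAutN h₁)⁻¹ := by group
        _ = dAutN h₁ * (dAutN (θ γ) * x₀) * (dAutN h₁)⁻¹ := by rw [h1]
        _ = dAutN h₁ * dAutN (θ γ) * (dAutN h₁)⁻¹ * (dAutN h₁ * x₀ * (dAutN h₁)⁻¹) := by
            group
  let Θ : Γ →* ↥(Cfsg.inndiagPSL n F ⊓ Subgroup.centralizer {x}) :=
    Θ₀.codRestrict _ hmem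
  have hker : Θ.ker = N := by
    ext γ
    rw [MonoidHom.mem_ker, hN, ← lang_dAutN_eq_one_iff hn]
    constructor
    · intro h
      have h1 : Θ₀ γ = 1 := congrArg Subtype.val h
      rw [hΘ₀] at h1
      have h2 : dAutN (θ γ) = (dAutN h₁)⁻¹ * (dAutN h₁ * dAutN (θ γ) * (dAutN h₁)⁻¹)
          * dAutN h₁ := by group
      rw [h2, h1]
      group
    · intro h
      apply Subtype.ext
      show Θ₀ γ = 1
      rw [hΘ₀, h]
      group
  have hsurj : Function.Surjective Θ := by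
    rintro ⟨y, hy⟩
    obtain ⟨hy1, hy2⟩ := Subgroup.mem_inf.mp hy
    obtain ⟨g, rfl⟩ := (lang_mem_inndiag y).mp hy1
    rw [Subgroup.mem_centralizer_iff] at hy2
    have h1 := hy2 x rfl
    have h2 : h₁⁻¹ * g * h₁ ∈ lang_cGL x₀ := by
      rw [lang_mem_cGL, map_mul, map_mul, map_inv]
      calc (dAutN h₁)⁻¹ * dAutN g * dAutN h₁ * x₀
          = (dAutN h₁)⁻¹ * (dAutN g * (dAutN h₁ * x₀ * (dAutN h₁)⁻¹)) * dAutN h₁ := by group
        _ = (dAutN h₁)⁻¹ * ((dAutN h₁ * x₀ * (dAutN h₁)⁻¹) * dAutN g) * dAutN h₁ := by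
            rw [← hx, h1]
        _ = x₀ * ((dAutN h₁)⁻¹ * dAutN g * dAutN h₁) := by group
    obtain ⟨γ, c, hc⟩ := hb _ h2
    refine ⟨γ, ?_⟩
    apply Subtype.ext
    show Θ₀ γ = dAutN g
    have h3 : dAutN (θ γ) = dAutN (h₁⁻¹ * g * h₁) := (lang_dAutN_eq_iff hn _ _).mpr ⟨c, hc⟩
    rw [hΘ₀, h3, map_mul, map_mul, map_inv]
    group
  exact ⟨((QuotientGroup.quotientMulEquivOfEq hker.symm).trans
    (QuotientGroup.quotientKerEquivOfSurjective Θ hsurj)).symm⟩

end Iso

section Invol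

variable {F : Type u} [Field F] [Fintype F]

/-- a finite field has at most one involutory automorphism -/
theorem lang_involution_unique (p f : ℕ) [Fact p.Prime] (hF : Fintype.card F = p ^ f)
    (σ τ : RingAut F) (hσ : orderOf σ = 2) (hτ : orderOf τ = 2) : σ = τ := by
  classical
  haveI : CharP F p := charP_of_card p f hF
  obtain ⟨hc, hcard⟩ := ringAut_cyclic_card p f hF
  haveI := hc
  haveI : Finite (RingAut F) :=
    Finite.of_injective (fun τ : RingAut F => (τ : F → F)) DFunLike.coe_injective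
  haveI : Fintype (RingAut F) := Fintype.ofFinite _
  have hd : 2 ∣ Fintype.card (RingAut F) := by
    rw [← hσ]
    exact orderOf_dvd_card
  have h1 := IsCyclic.card_orderOf_eq_totient (α := RingAut F) hd
  rw [Nat.totient_two] at h1
  have h2 := Finset.card_le_one.mp h1.le σ (by simp [hσ]) τ (by simp [hτ])
  exact h2

/-- the involutory automorphism of a field with `p ^ f` elements is `a ↦ a ^ (p ^ (f / 2))` -/
theorem lang_involution_eq_pow (p f : ℕ) [Fact p.Prime] (hF : Fintype.card F = p ^ f)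
    (σ : RingAut F) (hσ : orderOf σ = 2) : ∀ a : F, σ a = a ^ (p ^ (f / 2)) := by
  obtain ⟨⟨k, hk⟩, -⟩ := lang_card_fix p f hF σ 2 hσ (by norm_num)
  have hK : Fintype.card F = (p ^ (f / 2)) ^ 2 := by
    rw [hF, ← pow_mul, hk, Nat.mul_div_cancel_left k (by norm_num : 0 < 2), mul_comm]
  obtain ⟨τ₀, hτ₀⟩ := Cfsg.Agent.Helper44.exists_conj hK
  have hbij : Function.Bijective τ₀ :=
    ⟨τ₀.injective, Finite.injective_iff_surjective.mp τ₀.injective⟩
  let τ : RingAut F := RingEquiv.ofBijective τ₀ hbij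
  have hτa : ∀ a, τ a = a ^ (p ^ (f / 2)) := hτ₀
  have hτ2 : ∀ a, τ (τ a) = a := by
    intro a
    rw [hτa, hτa]
    exact Cfsg.Agent.Helper44.conj_conj hK a
  have hτ1 : τ ≠ 1 := by
    intro h1
    obtain ⟨x, hx⟩ := Cfsg.Agent.Helper44.exists_pow_ne hK
    apply hx
    rw [← hτa, h1]
    rfl
  have h2 := lang_involution_unique p f hF σ τ hσ (lang_orderOf_two τ hτ2 hτ1)
  intro a
  rw [h2, hτa]

end Invol

end Cfsg.Agent.Helper44.PSLn
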