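import Cfsg.Agent.Helper44.LangF

set_option autoImplicit false

/-!
Helper library (helper44): centralisers and class splitting for field automorphisms
(`lang_field_class`) and involutory graph-field automorphisms (`lang_gf_class`) of `PSL_n(F)`.
-/

namespace Cfsg.Agent.Helper44.PSLn

open Matrix

universe u

section Final

variable {n : ℕ} {F : Type u} [Field F] [Fintype F]

theorem lang_card_units (p f : ℕ) (hF : Fintype.card F = p ^ f) : Nat.card Fˣ = p ^ f - 1 := by
  rw [Nat.card_units, Nat.card_eq_fintype_card, hF]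

/-- **field automorphisms of `PSL_n(F)` of prime order `r`**: `r ∣ f`, the centraliser in
`Inndiag` is `PGL_n(F₀)` with `|F₀| = p ^ (f / r)`, and the `Inndiag`-class splits into
`gcd(n, (p ^ f - 1) / (p ^ (f / r) - 1))` classes under the inner automorphisms -/
theorem lang_field_class (p f : ℕ) [Fact p.Prime] (hF : Fintype.card F = p ^ f) (hf : 1 ≤ f)
    (hn : 2 ≤ n) (x : MulAut (PSLn n F)) (hx : Cfsg.IsFieldAutClassPSL x) (r : ℕ)
    (hr : r.Prime) (hxr : orderOf x = r) (F₀ : Type*) [Field F₀] [Fintype F₀]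
    (hF₀ : Fintype.card F₀ = p ^ (f / r)) :
    r ∣ f ∧
      Nonempty (↥(Cfsg.inndiagPSL n F ⊓ Subgroup.centralizer {x})
        ≃* Matrix.ProjGenLinGroup (Fin n) F₀) ∧
      Cfsg.splitClassCount (Cfsg.inndiagPSL n F) (Cfsg.Inn (PSLn n F)) x
        = Nat.gcd n ((p ^ f - 1) / (p ^ (f / r) - 1)) := by
  obtain ⟨σ, h, hσ, hxe⟩ := lang_field_reduce p f hF hf hn x hx
  have hσr : orderOf σ = r := by
    rw [← hxr, hxe, lang_orderOf_conj, lang_orderOf_fAutN hn]
  refine ⟨(lang_card_fix p f hF σ r hσr hr.pos).1, ?_, ?_⟩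
  · obtain ⟨ι, hι⟩ := lang_exists_embedding p f hF σ r hσr hr.pos F₀ hF₀
    rw [hxe]
    have hιinj : Function.Injective ι := ι.injective
    have hmapcoe : ∀ γ : GL (Fin n) F₀,
        ((Matrix.GeneralLinearGroup.map ι γ : GL (Fin n) F) : Mn n F)
          = (γ : Matrix (Fin n) (Fin n) F₀).map ι := fun γ => rfl
    have ha : ∀ γ : GL (Fin n) F₀,
        Matrix.GeneralLinearGroup.map ι γ ∈ lang_cGL (fAutN σ : MulAut (PSLn n F)) := by
      intro γ
      rw [lang_cGL_field hn σ r hσr hr.pos]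
      refine ⟨1, _, one_ne_zero, ?_, by rw [one_smul]⟩
      rw [hmapcoe]
      ext i j
      exact (hι _).mpr ⟨_, rfl⟩
    have hb : ∀ g ∈ lang_cGL (fAutN σ : MulAut (PSLn n F)), ∃ (γ : GL (Fin n) F₀) (c : F),
        (g : Mn n F) = c • ((Matrix.GeneralLinearGroup.map ι γ : GL (Fin n) F) : Mn n F) := by
      intro g hg
      obtain ⟨c, g₀, hc, hfix, hge⟩ := (lang_cGL_field hn σ r hσr hr.pos g).mp hg
      have hex : ∀ i j, ∃ a : F₀, ι a = (g₀ : Mn n F) i j := by
        intro i j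
        exact (hι _).mp (congrFun (congrFun hfix i) j)
      choose M₀ hM₀ using hex
      have hmap : (Matrix.of M₀ : Matrix (Fin n) (Fin n) F₀).map ι = (g₀ : Mn n F) := by
        ext i j
        exact hM₀ i j
      have hdet : (Matrix.of M₀ : Matrix (Fin n) (Fin n) F₀).det ≠ 0 := by
        intro h0
        have h1 := RingHom.map_det ι (Matrix.of M₀ : Matrix (Fin n) (Fin n) F₀)
        rw [h0, map_zero] at h1
        have h2 : (g₀ : Mn n F).det = 0 := by
          rw [← hmap]
          exact h1.symm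
        apply (Matrix.GeneralLinearGroup.det g₀).ne_zero
        rw [Matrix.GeneralLinearGroup.val_det_apply]
        exact h2
      refine ⟨Matrix.GeneralLinearGroup.mkOfDetNeZero _ hdet, c, ?_⟩
      rw [hge, hmapcoe]
      congr 1
      exact hmap.symm
    have hN : ∀ γ : GL (Fin n) F₀, γ ∈ Subgroup.center (GL (Fin n) F₀) ↔
        ∃ c : F, ((Matrix.GeneralLinearGroup.map ι γ : GL (Fin n) F) : Mn n F)
          = c • (1 : Mn n F) := by
      intro γ
      rw [lang_center_iff, hmapcoe]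
      constructor
      · rintro ⟨c₀, hc₀⟩
        refine ⟨ι c₀, ?_⟩
        rw [hc₀]
        ext i j
        rw [Matrix.map_apply, Matrix.smul_apply, Matrix.smul_apply, Matrix.one_apply,
          Matrix.one_apply, smul_eq_mul, smul_eq_mul, map_mul]
        by_cases hij : i = j
        · rw [if_pos hij, if_pos hij, map_one]
        · rw [if_neg hij, if_neg hij, map_zero]
      · rintro ⟨c, hc⟩
        refine ⟨(γ : Matrix (Fin n) (Fin n) F₀) ⟨0, by omega⟩ ⟨0, by omega⟩, ?_⟩
        ext i j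
        have h1 := congrFun (congrFun hc i) j
        have h2 := congrFun (congrFun hc ⟨0, by omega⟩) ⟨0, by omega⟩
        rw [Matrix.map_apply, Matrix.smul_apply, Matrix.one_apply, smul_eq_mul] at h1 h2
        rw [if_pos rfl, mul_one] at h2
        rw [Matrix.smul_apply, Matrix.one_apply, smul_eq_mul]
        by_cases hij : i = j
        · rw [if_pos hij, mul_one] at h1
          rw [if_pos hij, mul_one]
          exact hιinj (h1.trans h2.symm)
        · rw [if_neg hij, mul_zero] at h1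
          rw [if_neg hij, mul_zero]
          exact hιinj (h1.trans (map_zero ι).symm)
    exact lang_centralizer_iso hn (Matrix.GeneralLinearGroup.map ι) (fAutN σ) h ha hb
      (Subgroup.center (GL (Fin n) F₀)) hN
  · rw [lang_split_count (by omega) x, hxe, lang_cGL_conj,
      lang_det_cGL_field hn σ r hσr hr.pos]
    have hdvd : Nat.card (lang_fixU σ) ∣ Nat.card Fˣ := Subgroup.card_subgroup_dvd_card _
    have hm : Nat.card (lang_fixU σ) * ((p ^ f - 1) / (p ^ (f / r) - 1)) = Nat.card Fˣ := by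
      rw [lang_card_fixU p f hF σ r hσr hr.pos, lang_card_units p f hF] at hdvd ⊢
      exact Nat.mul_div_cancel' hdvd
    exact lang_cyclic_index (lang_fixU σ) _ hm n

/-- **involutory graph-field automorphisms of `PSL_n(F)`, `n ≥ 3`**: `f` is even, they form one
`Inndiag`-class, the centraliser in `Inndiag` is `PGU_n`, and the class splits into
`gcd(n, p ^ (f / 2) - 1)` classes under the inner automorphisms -/
theorem lang_gf_class (p f : ℕ) [Fact p.Prime] (hF : Fintype.card F = p ^ f) (hf : 1 ≤ f)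
    (hn : 3 ≤ n) (x : MulAut (PSLn n F)) (hx : Cfsg.IsGraphFieldAutClassPSL x)
    (hx2 : orderOf x = 2) :
    Even f ∧
      (∀ y : MulAut (PSLn n F), Cfsg.IsGraphFieldAutClassPSL y → orderOf y = 2 →
        Cfsg.IsConjUnder (Cfsg.inndiagPSL n F) x y) ∧
      Nonempty (↥(Cfsg.inndiagPSL n F ⊓ Subgroup.centralizer {x})
        ≃* Cfsg.PGU n F (p ^ (f / 2))) ∧
      Cfsg.splitClassCount (Cfsg.inndiagPSL n F) (Cfsg.Inn (PSLn n F)) x
        = Nat.gcd n (p ^ (f / 2) - 1) := by
  have hn2 : 2 ≤ n := by omega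
  obtain ⟨-, σ, h, hσ, hxe⟩ := lang_graphfield_reduce p f hF hf hn2 x hx
  have hψ : orderOf (lang_gf σ : MulAut (PSLn n F)) = 2 := by
    rw [← hx2, hxe, lang_orderOf_conj]
  obtain ⟨-, hσ2⟩ := lang_gf_order hn σ 2 Nat.prime_two hψ
  have hσo : orderOf σ = 2 := lang_orderOf_two σ hσ2 hσ
  have hσq := lang_involution_eq_pow p f hF σ hσo
  refine ⟨?_, ?_, ?_, ?_⟩
  · exact even_iff_two_dvd.mpr (lang_card_fix p f hF σ 2 hσo (by norm_num)).1
  · intro y hy hy2
    obtain ⟨-, τ, h', hτ, hye⟩ := lang_graphfield_reduce p f hF hf hn2 y hy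
    have hψ' : orderOf (lang_gf τ : MulAut (PSLn n F)) = 2 := by
      rw [← hy2, hye, lang_orderOf_conj]
    obtain ⟨-, hτ2⟩ := lang_gf_order hn τ 2 Nat.prime_two hψ'
    have hστ : σ = τ := lang_involution_unique p f hF σ τ hσo (lang_orderOf_two τ hτ2 hτ)
    subst hστ
    refine ⟨dAutN h' * (dAutN h)⁻¹, ?_, ?_⟩
    · rw [← map_inv, ← map_mul]
      exact lang_dAutN_mem_inndiag _
    · rw [hye, hxe]
      group
  · rw [hxe]
    generalize p ^ (f / 2) = q at hσq
    have hsub : ∀ γ : ↥(Cfsg.GU n F q),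
        ((Cfsg.GU n F q).subtype γ : GL (Fin n) F) = (γ : GL (Fin n) F) := fun γ => rfl
    have ha : ∀ γ : ↥(Cfsg.GU n F q),
        (Cfsg.GU n F q).subtype γ ∈ lang_cGL (lang_gf σ : MulAut (PSLn n F)) := by
      intro γ
      rw [hsub, lang_cGL_gf hn2 σ hσ2 hσ]
      have h1 : ((γ : GL (Fin n) F) : Mn n F)ᵀ * ((γ : GL (Fin n) F) : Mn n F).map σ = 1 :=
        (lang_mem_GU σ q hσq (γ : GL (Fin n) F)).mp γ.2
      exact ⟨1, (γ : GL (Fin n) F), one_ne_zero, h1, (one_smul _ _).symm⟩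
    have hb : ∀ g ∈ lang_cGL (lang_gf σ : MulAut (PSLn n F)),
        ∃ (γ : ↥(Cfsg.GU n F q)) (c : F),
          (g : Mn n F) = c • (((Cfsg.GU n F q).subtype γ : GL (Fin n) F) : Mn n F) := by
      intro g hg
      obtain ⟨c, g₀, hc, hu, hge⟩ := (lang_cGL_gf hn2 σ hσ2 hσ g).mp hg
      have h1 : g₀ ∈ Cfsg.GU n F q := (lang_mem_GU σ q hσq g₀).mpr hu
      refine ⟨⟨g₀, h1⟩, c, ?_⟩
      rw [hsub]
      exact hge
    have hN : ∀ γ : ↥(Cfsg.GU n F q),
        γ ∈ (Cfsg.Geo.scalars (Fin n) F).subgroupOf (Cfsg.GU n F q) ↔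
          ∃ c : F, (((Cfsg.GU n F q).subtype γ : GL (Fin n) F) : Mn n F)
            = c • (1 : Mn n F) := by
      intro γ
      rw [Subgroup.mem_subgroupOf, Cfsg.Geo.mem_scalars_iff, hsub]
      constructor
      · rintro ⟨c, hc⟩
        exact ⟨c, hc⟩
      · rintro ⟨c, hc⟩
        exact ⟨Units.mk0 c (lang_smul_ne_zero (by omega) _ c hc), hc⟩
    exact lang_centralizer_iso hn2 (Cfsg.GU n F q).subtype (lang_gf σ) h ha hb
      ((Cfsg.Geo.scalars (Fin n) F).subgroupOf (Cfsg.GU n F q)) hN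
  · rw [lang_split_count (by omega) x, hxe, lang_cGL_conj, lang_det_cGL_gf hn2 σ hσ2 hσ]
    have hm : Nat.card (Units.map (lang_nmF σ 2)).ker * (p ^ (f / 2) - 1) = Nat.card Fˣ := by
      rw [← lang_card_fixU p f hF σ 2 hσo (by norm_num)]
      exact lang_card_norm_ker σ 2 hσo (by norm_num)
    exact lang_cyclic_index _ _ hm n

end Final

end Cfsg.Agent.Helper44.PSLn
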