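import Cfsg.Agent.Helper44.Herm

set_option autoImplicit false

/-!
Helper library (helper44): the hyperbolic quadratic form `quadFormPlus m F = Σ x_i y_i`,
its polar form with Gram matrix `Jp = [[0,1],[1,0]]`, and the determinant of an isometry in terms
of the rank of its lower-left block.
-/

namespace Cfsg.Agent.Helper44

open Matrix

section OPlus

variable {F : Type*} [Field F] {m : ℕ}

/-- Gram matrix of the polar form of `quadFormPlus`. -/
def Jp (m : ℕ) (F : Type*) [Field F] : Matrix (Fin m ⊕ Fin m) (Fin m ⊕ Fin m) F :=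
  Matrix.fromBlocks 0 1 1 0

theorem Jp_form (u v : Fin m ⊕ Fin m → F) :
    u ⬝ᵥ (Jp m F *ᵥ v) =
      ∑ i, (u (Sum.inl i) * v (Sum.inr i) + u (Sum.inr i) * v (Sum.inl i)) := by
  simp only [dotProduct, Matrix.mulVec, Fintype.sum_sum_type, Jp, Matrix.fromBlocks_apply₁₁,
    Matrix.fromBlocks_apply₁₂, Matrix.fromBlocks_apply₂₁, Matrix.fromBlocks_apply₂₂,
    Matrix.zero_apply, Matrix.one_apply, zero_mul, Finset.sum_const_zero,
    zero_add, add_zero, ite_mul, one_mul, Finset.sum_ite_eq, Finset.mem_univ, if_true]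
  rw [Finset.sum_add_distrib]

theorem quadFormPlus_add (u v : Fin m ⊕ Fin m → F) :
    Cfsg.quadFormPlus m F (u + v) =
      Cfsg.quadFormPlus m F u + Cfsg.quadFormPlus m F v + u ⬝ᵥ (Jp m F *ᵥ v) := by
  rw [Jp_form]
  simp only [Cfsg.quadFormPlus, Pi.add_apply]
  rw [← Finset.sum_add_distrib, ← Finset.sum_add_distrib]
  apply Finset.sum_congr rfl
  intro i _
  ring

theorem polar_of_isometry (G : Matrix (Fin m ⊕ Fin m) (Fin m ⊕ Fin m) F)
    (h : ∀ v, Cfsg.quadFormPlus m F (G *ᵥ v) = Cfsg.quadFormPlus m F v)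
    (u v : Fin m ⊕ Fin m → F) :
    (G *ᵥ u) ⬝ᵥ (Jp m F *ᵥ (G *ᵥ v)) = u ⬝ᵥ (Jp m F *ᵥ v) := by
  have h1 := h (u + v)
  rw [Matrix.mulVec_add, quadFormPlus_add, quadFormPlus_add, h u, h v] at h1
  exact add_left_cancel h1

theorem transpose_Jp_mul_of_isometry (G : Matrix (Fin m ⊕ Fin m) (Fin m ⊕ Fin m) F)
    (h : ∀ v, Cfsg.quadFormPlus m F (G *ᵥ v) = Cfsg.quadFormPlus m F v) :
    Gᵀ * Jp m F * G = Jp m F := by
  have e : ∀ u v : Fin m ⊕ Fin m → F,
      (G *ᵥ u) ⬝ᵥ (Jp m F *ᵥ (G *ᵥ v)) = u ⬝ᵥ ((Gᵀ * Jp m F * G) *ᵥ v) := by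
    intro u v
    rw [← Matrix.vecMul_transpose, ← Matrix.dotProduct_mulVec, Matrix.mulVec_mulVec,
      Matrix.mulVec_mulVec, Matrix.mul_assoc]
  ext i j
  have h1 := polar_of_isometry G h (Pi.single i 1) (Pi.single j 1)
  rw [e] at h1
  simpa using h1

theorem det_Jp : (Jp m F).det = (-1) ^ m := by
  have h1 : Jp m F * Matrix.fromBlocks 1 0 1 1 = Matrix.fromBlocks 1 1 1 0 := by
    rw [Jp, Matrix.fromBlocks_multiply]
    simp
  have h2 := congrArg Matrix.det h1
  rw [Matrix.det_mul, Matrix.det_fromBlocks_zero₁₂, Matrix.det_fromBlocks_one₁₁] at h2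
  simp only [Matrix.det_one, mul_one, zero_sub, Matrix.det_neg, Fintype.card_fin] at h2
  exact h2

/-- dimension drop when intersecting with the kernel of a functional not vanishing on `N` -/
theorem finrank_inf_ker {V : Type*} [AddCommGroup V] [Module F V] [FiniteDimensional F V]
    (N : Submodule F V) (ℓ : V →ₗ[F] F) (x : V) (hx : x ∈ N) (hℓ : ℓ x ≠ 0) :
    Module.finrank F ↥(N ⊓ LinearMap.ker ℓ) + 1 = Module.finrank F ↥N := by
  have hsup : (N ⊓ LinearMap.ker ℓ) ⊔ Submodule.span F {x} = N := by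
    apply le_antisymm
    · apply sup_le inf_le_left
      rw [Submodule.span_singleton_le_iff_mem]; exact hx
    · intro y hy
      rw [Submodule.mem_sup]
      refine ⟨y - (ℓ y / ℓ x) • x, ⟨N.sub_mem hy (N.smul_mem _ hx), ?_⟩, (ℓ y / ℓ x) • x,
        Submodule.smul_mem _ _ (Submodule.mem_span_singleton_self x), sub_add_cancel _ _⟩
      rw [SetLike.mem_coe, LinearMap.mem_ker, map_sub, map_smul, smul_eq_mul,
        div_mul_cancel₀ _ hℓ, sub_self]
  have hinf : (N ⊓ LinearMap.ker ℓ) ⊓ Submodule.span F {x} = ⊥ := by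
    rw [eq_bot_iff]
    rintro z ⟨⟨_, hz1⟩, hz2⟩
    obtain ⟨c, rfl⟩ := Submodule.mem_span_singleton.mp hz2
    rw [SetLike.mem_coe, LinearMap.mem_ker, map_smul, smul_eq_mul] at hz1
    have hc : c = 0 := (mul_eq_zero.mp hz1).resolve_right hℓ
    rw [hc, zero_smul]; exact Submodule.zero_mem _
  have hx0 : x ≠ 0 := by
    rintro rfl
    exact hℓ (map_zero ℓ)
  have h1 := Submodule.finrank_sup_add_finrank_inf_eq (N ⊓ LinearMap.ker ℓ) (Submodule.span F {x})
  rw [hsup, hinf, finrank_bot, add_zero, finrank_span_singleton hx0] at h1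
  exact h1.symm

/-- embedding of the first summand -/
def inlLin (m : ℕ) (F : Type*) [Field F] : (Fin m → F) →ₗ[F] (Fin m ⊕ Fin m → F) where
  toFun x := Sum.elim x 0
  map_add' x y := by funext a; cases a <;> simp
  map_smul' c x := by funext a; cases a <;> simp

theorem inlLin_apply (x : Fin m → F) : inlLin m F x = Sum.elim x 0 := rfl

theorem toBlocks₂₁_mulVec (G : Matrix (Fin m ⊕ Fin m) (Fin m ⊕ Fin m) F) (x : Fin m → F)
    (j : Fin m) : (G.toBlocks₂₁ *ᵥ x) j = (G *ᵥ Sum.elim x 0) (Sum.inr j) := by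
  simp [Matrix.mulVec, dotProduct, Fintype.sum_sum_type, Matrix.toBlocks₂₁]

theorem toBlocks₁₁_mulVec (G : Matrix (Fin m ⊕ Fin m) (Fin m ⊕ Fin m) F) (x : Fin m → F)
    (j : Fin m) : (G.toBlocks₁₁ *ᵥ x) j = (G *ᵥ Sum.elim x 0) (Sum.inl j) := by
  simp [Matrix.mulVec, dotProduct, Fintype.sum_sum_type, Matrix.toBlocks₁₁]

/-- swapping the coordinates `x_i` and `y_i` preserves the hyperbolic form -/
theorem quadFormPlus_comp_swap (i : Fin m) (u : Fin m ⊕ Fin m → F) :
    Cfsg.quadFormPlus m F (u ∘ Equiv.swap (Sum.inl i) (Sum.inr i)) = Cfsg.quadFormPlus m F u := by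
  simp only [Cfsg.quadFormPlus, Function.comp_apply]
  apply Finset.sum_congr rfl
  intro j _
  by_cases hj : j = i
  · subst hj
    rw [Equiv.swap_apply_left, Equiv.swap_apply_right, mul_comm]
  · rw [Equiv.swap_apply_of_ne_of_ne (by simp [hj]) (by simp),
      Equiv.swap_apply_of_ne_of_ne (by simp) (by simp [hj])]

/-- **Determinant of an isometry of the hyperbolic form**: `det G = (-1)^(m - k)` where `k` is the
nullity of the lower-left block. -/
theorem det_mul_pow_of_isometry (m : ℕ) : ∀ (k : ℕ) (G : Matrix (Fin m ⊕ Fin m) (Fin m ⊕ Fin m) F),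
    (∀ v, Cfsg.quadFormPlus m F (G *ᵥ v) = Cfsg.quadFormPlus m F v) → G.det ≠ 0 →
    Module.finrank F (LinearMap.ker (Matrix.mulVecLin G.toBlocks₂₁)) = k →
    G.det * (-1) ^ k = (-1) ^ m := by
  intro k
  induction k with
  | zero =>
    intro G hG hdet hk
    set A := G.toBlocks₁₁ with hA
    set B := G.toBlocks₁₂ with hB
    set C := G.toBlocks₂₁ with hC
    set D := G.toBlocks₂₂ with hD
    have hGb : G = Matrix.fromBlocks A B C D := (Matrix.fromBlocks_toBlocks G).symm
    have hker : LinearMap.ker (Matrix.mulVecLin C) = ⊥ := Submodule.finrank_eq_zero.mp hk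
    have hCinj : Function.Injective C.mulVec := LinearMap.ker_eq_bot.mp hker
    have hCu : IsUnit C := Matrix.mulVec_injective_iff_isUnit.mp hCinj
    haveI : Invertible C := hCu.invertible
    have hrel := transpose_Jp_mul_of_isometry G hG
    rw [hGb, Jp, Matrix.fromBlocks_transpose, Matrix.fromBlocks_multiply,
      Matrix.fromBlocks_multiply, Matrix.fromBlocks_inj] at hrel
    obtain ⟨r1, r2, -, -⟩ := hrel
    simp only [Matrix.mul_zero, Matrix.mul_one, zero_add, add_zero] at r1 r2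
    have hJG : Jp m F * G = Matrix.fromBlocks C D A B := by
      rw [hGb, Jp, Matrix.fromBlocks_multiply]
      simp
    have hdetJG : (Jp m F * G).det = 1 := by
      rw [hJG, Matrix.det_fromBlocks₁₁]
      have h3 : Cᵀ * (B - A * ⅟C * D) = 1 := by
        have h4 : Cᵀ * A = - (Aᵀ * C) := eq_neg_of_add_eq_zero_left r1
        rw [Matrix.mul_sub, ← Matrix.mul_assoc, ← Matrix.mul_assoc, h4, Matrix.neg_mul,
          Matrix.neg_mul, Matrix.mul_assoc Aᵀ, mul_invOf_self, Matrix.mul_one, sub_neg_eq_add, r2]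
      have h5 := congrArg Matrix.det h3
      rw [Matrix.det_mul, Matrix.det_transpose, Matrix.det_one] at h5
      exact h5
    rw [Matrix.det_mul, det_Jp] at hdetJG
    rw [pow_zero, mul_one]
    have h6 : ((-1 : F) ^ m) * ((-1) ^ m) = 1 := by rw [← mul_pow]; norm_num
    calc G.det = ((-1 : F) ^ m * (-1) ^ m) * G.det := by rw [h6, one_mul]
      _ = (-1) ^ m * ((-1) ^ m * G.det) := by ring
      _ = (-1) ^ m := by rw [hdetJG, mul_one]
  | succ k ih =>
    intro G hG hdet hk
    set C := G.toBlocks₂₁ with hC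
    have hpos : 0 < Module.finrank F (LinearMap.ker (Matrix.mulVecLin C)) := by
      rw [hk]; exact Nat.succ_pos k
    obtain ⟨⟨x₀, hx₀⟩, hx₀ne⟩ := Module.finrank_pos_iff_exists_ne_zero.mp hpos
    have hx₀0 : x₀ ≠ 0 := fun h => hx₀ne (Subtype.ext h)
    have hCx₀ : ∀ j, (G *ᵥ Sum.elim x₀ 0) (Sum.inr j) = 0 := by
      intro j
      rw [← toBlocks₂₁_mulVec]
      have h1 : C *ᵥ x₀ = 0 := hx₀
      rw [← hC, h1]; rfl
    have hGx₀ : G *ᵥ Sum.elim x₀ 0 ≠ 0 := by
      intro h
      have h1 := Matrix.eq_zero_of_mulVec_eq_zero hdet h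
      apply hx₀0
      funext a
      have := congrFun h1 (Sum.inl a)
      simpa using this
    obtain ⟨i, hi⟩ : ∃ i, (G *ᵥ Sum.elim x₀ 0) (Sum.inl i) ≠ 0 := by
      by_contra hcon
      push Not at hcon
      apply hGx₀
      funext a
      cases a with
      | inl a => exact hcon a
      | inr a => exact hCx₀ a
    set σ : Equiv.Perm (Fin m ⊕ Fin m) := Equiv.swap (Sum.inl i) (Sum.inr i) with hσ
    set G' := G.submatrix σ id with hG'
    have hG'v : ∀ v, G' *ᵥ v = (G *ᵥ v) ∘ σ := fun v => rfl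
    have hG'iso : ∀ v, Cfsg.quadFormPlus m F (G' *ᵥ v) = Cfsg.quadFormPlus m F v := fun v => by
      rw [hG'v, hσ, quadFormPlus_comp_swap, hG]
    have hdet' : G'.det = - G.det := by
      rw [hG', Matrix.det_permute, hσ, Equiv.Perm.sign_swap (by simp)]
      simp
    have hdet'0 : G'.det ≠ 0 := by rw [hdet']; exact neg_ne_zero.mpr hdet
    let ℓ : (Fin m → F) →ₗ[F] F :=
      (LinearMap.proj (Sum.inl i)) ∘ₗ (Matrix.mulVecLin G) ∘ₗ (inlLin m F)
    have hℓ : ∀ x, ℓ x = (G *ᵥ Sum.elim x 0) (Sum.inl i) := fun x => rfl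
    have hker : LinearMap.ker (Matrix.mulVecLin G'.toBlocks₂₁)
        = LinearMap.ker (Matrix.mulVecLin C) ⊓ LinearMap.ker ℓ := by
      ext x
      rw [Submodule.mem_inf, LinearMap.mem_ker, LinearMap.mem_ker, LinearMap.mem_ker,
        Matrix.mulVecLin_apply, Matrix.mulVecLin_apply, hℓ]
      constructor
      · intro hx
        have hx' : ∀ j, (G *ᵥ Sum.elim x 0) (σ (Sum.inr j)) = 0 := by
          intro j
          have h1 := congrFun hx j
          rw [toBlocks₂₁_mulVec, hG'v] at h1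
          exact h1
        have hxi : (G *ᵥ Sum.elim x 0) (Sum.inl i) = 0 := by
          have h1 := hx' i
          rwa [hσ, Equiv.swap_apply_right] at h1
        have hxj : ∀ j, j ≠ i → (G *ᵥ Sum.elim x 0) (Sum.inr j) = 0 := by
          intro j hj
          have h1 := hx' j
          rwa [hσ, Equiv.swap_apply_of_ne_of_ne (by simp) (by simp [hj])] at h1
        refine ⟨?_, hxi⟩
        have hpol := polar_of_isometry G hG (Sum.elim x₀ 0) (Sum.elim x 0)
        rw [Jp_form, Jp_form] at hpol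
        simp only [Sum.elim_inl, Sum.elim_inr, Pi.zero_apply, mul_zero, zero_mul, add_zero,
          Finset.sum_const_zero] at hpol
        rw [Finset.sum_eq_single i] at hpol
        · rw [hCx₀ i, zero_mul, add_zero] at hpol
          have hxi' := (mul_eq_zero.mp hpol).resolve_left hi
          funext j
          rw [toBlocks₂₁_mulVec]
          by_cases hj : j = i
          · subst hj; exact hxi'
          · exact hxj j hj
        · intro j _ hj
          rw [hxj j hj, hCx₀ j, mul_zero, zero_mul, add_zero]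
        · intro h; exact absurd (Finset.mem_univ i) h
      · rintro ⟨hx, hxi⟩
        funext j
        rw [toBlocks₂₁_mulVec, hG'v]
        show (G *ᵥ Sum.elim x 0) (σ (Sum.inr j)) = 0
        by_cases hj : j = i
        · subst hj; rw [hσ, Equiv.swap_apply_right]; exact hxi
        · rw [hσ, Equiv.swap_apply_of_ne_of_ne (by simp) (by simp [hj]), ← toBlocks₂₁_mulVec,
            ← hC, hx]; rfl
    have hfin : Module.finrank F (LinearMap.ker (Matrix.mulVecLin G'.toBlocks₂₁)) = k := by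
      rw [hker]
      have h1 := finrank_inf_ker (LinearMap.ker (Matrix.mulVecLin C)) ℓ x₀ hx₀
        (by rw [hℓ]; exact hi)
      omega
    have h7 := ih G' hG'iso hdet'0 hfin
    rw [hdet'] at h7
    rw [pow_succ, ← h7]; ring

end OPlus

end Cfsg.Agent.Helper44
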