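import Mathlib
import Cfsg.Agent.Helper5.SympSimple
import Cfsg.Agent.Helper13.SympGen

/-!
# Automorphisms of `PSp_{2m}(q)` (helper44), part A: the action on vectors, Siegel elements

The Siegel elements `ssg e w b : x ↦ x + f(x,e) w + f(x,w) e + b f(x,e) e` (`w ⟂ e`) of
`Sp_{2m}(F)` and their calculus, valid in every characteristic.
-/

set_option autoImplicit false
set_option linter.unusedSimpArgs false
set_option linter.unusedSectionVars false
set_option linter.unusedVariables false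

namespace Cfsg.Agent.Helper44.PSpn

open Matrix
open scoped Pointwise
open Cfsg.Agent.Helper13 (sympForm_add_left sympForm_add_right sympForm_smul_left
  sympForm_smul_right sympForm_swap sympForm_self sympForm_zero_left sympForm_zero_right
  sympForm_neg_left sympForm_neg_right sympForm_sub_left sympForm_sub_right)
open Cfsg.Agent.Helper5 (spTv spTv_mulVec sp_ext sp_sympForm sp_coe_one sp_mul_mulVec
  sp_inv_mulVec sp_mulVec_inv)

variable {F : Type*} [Field F] {m : ℕ}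

local notation "⟪" x ", " y "⟫" => Cfsg.sympForm m F x y

/-! ### the action on vectors -/

/-- the action of the symplectic group on vectors -/
def sact (g : Matrix.symplecticGroup (Fin m) F) (x : Fin m ⊕ Fin m → F) : Fin m ⊕ Fin m → F :=
  (g : Matrix (Fin m ⊕ Fin m) (Fin m ⊕ Fin m) F) *ᵥ x

theorem sact_one (x : Fin m ⊕ Fin m → F) : sact (1 : Matrix.symplecticGroup (Fin m) F) x = x := by
  unfold sact
  rw [sp_coe_one, Matrix.one_mulVec]

theorem sact_mul (g h : Matrix.symplecticGroup (Fin m) F) (x : Fin m ⊕ Fin m → F) :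
    sact (g * h) x = sact g (sact h x) := sp_mul_mulVec g h x

theorem sact_add (g : Matrix.symplecticGroup (Fin m) F) (x y : Fin m ⊕ Fin m → F) :
    sact g (x + y) = sact g x + sact g y := Matrix.mulVec_add _ _ _

theorem sact_sub (g : Matrix.symplecticGroup (Fin m) F) (x y : Fin m ⊕ Fin m → F) :
    sact g (x - y) = sact g x - sact g y := Matrix.mulVec_sub _ _ _

theorem sact_neg (g : Matrix.symplecticGroup (Fin m) F) (x : Fin m ⊕ Fin m → F) :
    sact g (-x) = -sact g x := Matrix.mulVec_neg _ _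

theorem sact_smul (g : Matrix.symplecticGroup (Fin m) F) (c : F) (x : Fin m ⊕ Fin m → F) :
    sact g (c • x) = c • sact g x := Matrix.mulVec_smul _ _ _

theorem sact_zero (g : Matrix.symplecticGroup (Fin m) F) : sact g (0 : Fin m ⊕ Fin m → F) = 0 :=
  Matrix.mulVec_zero _

theorem sact_form (g : Matrix.symplecticGroup (Fin m) F) (x y : Fin m ⊕ Fin m → F) :
    ⟪sact g x, sact g y⟫ = ⟪x, y⟫ := sp_sympForm g x y

theorem sact_inv_sact (g : Matrix.symplecticGroup (Fin m) F) (x : Fin m ⊕ Fin m → F) :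
    sact g⁻¹ (sact g x) = x := sp_inv_mulVec g x

theorem sact_sact_inv (g : Matrix.symplecticGroup (Fin m) F) (x : Fin m ⊕ Fin m → F) :
    sact g (sact g⁻¹ x) = x := sp_mulVec_inv g x

theorem sact_eq_iff (g h : Matrix.symplecticGroup (Fin m) F) :
    g = h ↔ ∀ x, sact g x = sact h x :=
  ⟨fun hgh x => by rw [hgh], fun hgh => sp_ext hgh⟩

theorem sact_ne_zero (g : Matrix.symplecticGroup (Fin m) F) (x : Fin m ⊕ Fin m → F)
    (hx : x ≠ 0) : sact g x ≠ 0 := by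
  intro h
  apply hx
  rw [← sact_inv_sact g x, h, sact_zero]

theorem sact_inv_fix (g : Matrix.symplecticGroup (Fin m) F) (v : Fin m ⊕ Fin m → F)
    (h : sact g v = v) : sact g⁻¹ v = v := by
  calc sact g⁻¹ v = sact g⁻¹ (sact g v) := by rw [h]
    _ = v := sact_inv_sact g v

theorem sact_tv (u : Fin m ⊕ Fin m → F) (c : F) (x : Fin m ⊕ Fin m → F) :
    sact (spTv m u c) x = x + (c * ⟪x, u⟫) • u := spTv_mulVec u c x

theorem sact_pow_scalar (z : Matrix.symplecticGroup (Fin m) F) (l : F) (v : Fin m ⊕ Fin m → F)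
    (hz : sact z v = l • v) (k : ℕ) : sact (z ^ k) v = l ^ k • v := by
  induction k with
  | zero => rw [pow_zero, pow_zero, sact_one, one_smul]
  | succ k ih => rw [pow_succ, sact_mul, hz, sact_smul, ih, smul_smul, pow_succ, mul_comm]

/-! ### form facts -/

theorem sf_swap_zero {x y : Fin m ⊕ Fin m → F} (h : ⟪x, y⟫ = 0) : ⟪y, x⟫ = 0 := by
  rw [sympForm_swap, h, neg_zero]

theorem sf_swap_one {x y : Fin m ⊕ Fin m → F} (h : ⟪x, y⟫ = 1) : ⟪y, x⟫ = -1 := by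
  rw [sympForm_swap, h]

theorem sf_swap_ne {x y : Fin m ⊕ Fin m → F} (h : ⟪x, y⟫ ≠ 0) : ⟪y, x⟫ ≠ 0 :=
  fun h' => h (sf_swap_zero h')

theorem sf_exists_partner (e : Fin m ⊕ Fin m → F) (he : e ≠ 0) :
    ∃ f : Fin m ⊕ Fin m → F, ⟪e, f⟫ = 1 := by
  obtain ⟨v, hv⟩ := Cfsg.Agent.Helper5.exists_sympForm_ne_zero e he
  exact ⟨(⟪e, v⟫)⁻¹ • v, by rw [sympForm_smul_right, inv_mul_cancel₀ hv]⟩

theorem sf_pow_char (p : ℕ) [Fact p.Prime] [CharP F p] (l : F) (k : ℕ) (h : l ^ (p ^ k) = 1) :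
    l = 1 := by
  have h1 : (l - 1) ^ (p ^ k) = 0 := by
    rw [sub_pow_char_pow, h, one_pow, sub_self]
  exact sub_eq_zero.1 ((pow_eq_zero_iff (pow_ne_zero k (Fact.out : p.Prime).ne_zero)).1 h1)

/-- double perp: a vector orthogonal to `e^⊥` is a multiple of `e` -/
theorem sf_double_perp (e v : Fin m ⊕ Fin m → F) (he0 : e ≠ 0)
    (hv : ∀ y : Fin m ⊕ Fin m → F, ⟪y, e⟫ = 0 → ⟪v, y⟫ = 0) : ∃ t : F, v = t • e := by
  obtain ⟨f, hef⟩ := sf_exists_partner e he0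
  have hfe := sf_swap_one hef
  refine ⟨⟪v, f⟫, ?_⟩
  have h0 : v - ⟪v, f⟫ • e = 0 := by
    apply Cfsg.Agent.Helper5.sympForm_nondeg_left
    intro x
    have hx0 : ⟪x + ⟪x, e⟫ • f, e⟫ = 0 := by
      rw [sympForm_add_left, sympForm_smul_left, hfe]; ring
    have h1 := hv _ hx0
    rw [sympForm_add_right, sympForm_smul_right] at h1
    rw [sympForm_sub_left, sympForm_smul_left, sympForm_swap e x]
    linear_combination h1
  exact sub_eq_zero.1 h0

/-! ### rank one matrices -/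

/-- the matrix of `x ↦ f(x, v) u` -/
def srk1 (u v : Fin m ⊕ Fin m → F) : Matrix (Fin m ⊕ Fin m) (Fin m ⊕ Fin m) F :=
  Matrix.vecMulVec u (Matrix.J (Fin m) F *ᵥ v)

theorem srk1_mulVec (u v x : Fin m ⊕ Fin m → F) : srk1 u v *ᵥ x = ⟪x, v⟫ • u := by
  unfold srk1
  rw [Matrix.vecMulVec_mulVec]
  have : (Matrix.J (Fin m) F *ᵥ v) ⬝ᵥ x = ⟪x, v⟫ := by
    rw [Cfsg.sympForm, dotProduct_comm]
  rw [this]
  funext i
  simp only [Pi.smul_apply, smul_eq_mul, MulOpposite.smul_eq_mul_unop, MulOpposite.unop_op]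
  ring

/-- an element of `Sp` from a matrix preserving the form -/
def mkSp (M : Matrix (Fin m ⊕ Fin m) (Fin m ⊕ Fin m) F)
    (hiso : ∀ x y, ⟪M *ᵥ x, M *ᵥ y⟫ = ⟪x, y⟫) : Matrix.symplecticGroup (Fin m) F :=
  ⟨M, (Cfsg.Agent.Helper13.mem_symplecticGroup_iff_sympForm M).2 hiso⟩

theorem sact_mkSp (M : Matrix (Fin m ⊕ Fin m) (Fin m ⊕ Fin m) F)
    (hiso : ∀ x y, ⟪M *ᵥ x, M *ᵥ y⟫ = ⟪x, y⟫) (x : Fin m ⊕ Fin m → F) :
    sact (mkSp M hiso) x = M *ᵥ x := rfl

theorem spTv_zero_right (u : Fin m ⊕ Fin m → F) : spTv m u (0 : F) = 1 := by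
  rw [sact_eq_iff]
  intro x
  rw [sact_tv, zero_mul, zero_smul, add_zero, sact_one]

/-! ### Siegel elements -/

/-- the matrix of `x ↦ x + f(x,e) w + f(x,w) e + b f(x,e) e` -/
def ssgM (e w : Fin m ⊕ Fin m → F) (b : F) : Matrix (Fin m ⊕ Fin m) (Fin m ⊕ Fin m) F :=
  1 + srk1 w e + srk1 e w + b • srk1 e e

theorem ssgM_mulVec (e w : Fin m ⊕ Fin m → F) (b : F) (x : Fin m ⊕ Fin m → F) :
    ssgM e w b *ᵥ x = x + ⟪x, e⟫ • w + ⟪x, w⟫ • e + (b * ⟪x, e⟫) • e := by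
  unfold ssgM
  rw [Matrix.add_mulVec, Matrix.add_mulVec, Matrix.add_mulVec, Matrix.one_mulVec,
    Matrix.smul_mulVec, srk1_mulVec, srk1_mulVec, srk1_mulVec, smul_smul]

theorem ssgM_form (e w : Fin m ⊕ Fin m → F) (b : F) (hwe : ⟪w, e⟫ = 0)
    (x y : Fin m ⊕ Fin m → F) : ⟪ssgM e w b *ᵥ x, ssgM e w b *ᵥ y⟫ = ⟪x, y⟫ := by
  rw [ssgM_mulVec, ssgM_mulVec]
  have hew := sf_swap_zero hwe
  simp only [sympForm_add_left, sympForm_add_right, sympForm_smul_left, sympForm_smul_right,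
    sympForm_self, hwe, hew]
  rw [sympForm_swap e y, sympForm_swap w y]
  ring

/-- the Siegel element `x ↦ x + f(x,e) w + f(x,w) e + b f(x,e) e` of `Sp` (trivial unless
`w ⟂ e`). -/
noncomputable def ssg (e w : Fin m ⊕ Fin m → F) (b : F) : Matrix.symplecticGroup (Fin m) F :=
  open Classical in
  if h : ⟪w, e⟫ = 0 then mkSp (ssgM e w b) (ssgM_form e w b h) else 1

theorem sact_ssg (e w : Fin m ⊕ Fin m → F) (b : F) (hwe : ⟪w, e⟫ = 0)
    (x : Fin m ⊕ Fin m → F) :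
    sact (ssg e w b) x = x + ⟪x, e⟫ • w + ⟪x, w⟫ • e + (b * ⟪x, e⟫) • e := by
  unfold ssg
  rw [dif_pos hwe, sact_mkSp]
  exact ssgM_mulVec e w b x

theorem ssg_of_not (e w : Fin m ⊕ Fin m → F) (b : F) (h : ¬ ⟪w, e⟫ = 0) : ssg e w b = 1 := by
  unfold ssg
  rw [dif_neg h]

theorem ssg_mul (e w w' : Fin m ⊕ Fin m → F) (b b' : F) (hwe : ⟪w, e⟫ = 0)
    (hwe' : ⟪w', e⟫ = 0) :
    ssg e w b * ssg e w' b' = ssg e (w + w') (b + b' + ⟪w', w⟫) := by
  have h1 : ⟪w + w', e⟫ = 0 := by rw [sympForm_add_left, hwe, hwe', add_zero]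
  have hew := sf_swap_zero hwe
  rw [sact_eq_iff]
  intro x
  rw [sact_mul, sact_ssg e w' b' hwe', sact_ssg e w b hwe, sact_ssg e (w + w') _ h1]
  simp only [sympForm_add_left, sympForm_add_right, sympForm_smul_left, sympForm_smul_right,
    sympForm_self, hwe, hwe', hew, mul_zero, add_zero]
  module

theorem ssg_zero (e : Fin m ⊕ Fin m → F) (b : F) : ssg e 0 b = spTv m e b := by
  rw [sact_eq_iff]
  intro x
  rw [sact_ssg e 0 b (sympForm_zero_left e), sact_tv, sympForm_zero_right]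
  module

theorem ssg_one (e : Fin m ⊕ Fin m → F) : ssg e 0 (0 : F) = 1 := by
  rw [ssg_zero, spTv_zero_right]

theorem ssg_conj (g : Matrix.symplecticGroup (Fin m) F) (e w : Fin m ⊕ Fin m → F) (b : F) :
    g * ssg e w b * g⁻¹ = ssg (sact g e) (sact g w) b := by
  by_cases h : ⟪w, e⟫ = 0
  · rw [sact_eq_iff]
    intro x
    rw [sact_mul, sact_mul, sact_ssg e w b h,
      sact_ssg (sact g e) (sact g w) b (by rw [sact_form]; exact h)]
    have h1 : ∀ y : Fin m ⊕ Fin m → F, ⟪sact g⁻¹ x, y⟫ = ⟪x, sact g y⟫ := by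
      intro y
      rw [← sact_form g (sact g⁻¹ x) y, sact_sact_inv]
    rw [h1, h1, sact_add, sact_add, sact_add, sact_smul, sact_smul, sact_smul, sact_sact_inv]
  · have h' : ¬ ⟪sact g w, sact g e⟫ = 0 := by rw [sact_form]; exact h
    rw [ssg_of_not e w b h, ssg_of_not _ _ b h']
    group

theorem ssg_smul_left (l : F) (e w : Fin m ⊕ Fin m → F) (b : F) (hwe : ⟪w, e⟫ = 0) :
    ssg (l • e) w b = ssg e (l • w) (l * l * b) := by
  have h1 : ⟪w, l • e⟫ = 0 := by rw [sympForm_smul_right, hwe, mul_zero]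
  have h2 : ⟪l • w, e⟫ = 0 := by rw [sympForm_smul_left, hwe, mul_zero]
  rw [sact_eq_iff]
  intro x
  rw [sact_ssg (l • e) w b h1, sact_ssg e (l • w) _ h2]
  simp only [sympForm_smul_right]
  module

theorem ssg_add_left (c : F) (e w : Fin m ⊕ Fin m → F) (b : F) (hwe : ⟪w, e⟫ = 0) :
    ssg e (w + c • e) b = ssg e w (b + 2 * c) := by
  have h1 : ⟪w + c • e, e⟫ = 0 := by
    rw [sympForm_add_left, sympForm_smul_left, hwe, sympForm_self]; ring
  rw [sact_eq_iff]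
  intro x
  rw [sact_ssg e _ b h1, sact_ssg e w _ hwe]
  simp only [sympForm_add_right, sympForm_smul_right]
  module

theorem ssg_inv (e w : Fin m ⊕ Fin m → F) (b : F) (hwe : ⟪w, e⟫ = 0) :
    (ssg e w b)⁻¹ = ssg e (-w) (-b) := by
  have h1 : ⟪-w, e⟫ = 0 := by rw [sympForm_neg_left, hwe, neg_zero]
  apply inv_eq_of_mul_eq_one_right
  rw [ssg_mul e w (-w) b (-b) hwe h1]
  have h3 : w + -w = 0 := by simp
  have h4 : b + -b + ⟪-w, w⟫ = 0 := by
    rw [sympForm_neg_left, sympForm_self]; ring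
  rw [h3, h4, ssg_one]

theorem ssg_mul_tv (e w : Fin m ⊕ Fin m → F) (b c : F) (hwe : ⟪w, e⟫ = 0) :
    ssg e w b * spTv m e c = ssg e w (b + c) := by
  rw [← ssg_zero, ssg_mul e w 0 b c hwe (sympForm_zero_left e), sympForm_zero_left, add_zero,
    add_zero]

theorem ssg_pow (e w : Fin m ⊕ Fin m → F) (b : F) (hwe : ⟪w, e⟫ = 0) (k : ℕ) :
    (ssg e w b) ^ k = ssg e (k • w) (k • b) := by
  induction k with
  | zero => rw [pow_zero, zero_smul, zero_smul, ssg_one]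
  | succ k ih =>
    have hkw : ⟪k • w, e⟫ = 0 := by
      rw [← Nat.cast_smul_eq_nsmul F, sympForm_smul_left, hwe, mul_zero]
    rw [pow_succ, ih, ssg_mul e (k • w) w _ _ hkw hwe, succ_nsmul, succ_nsmul,
      ← Nat.cast_smul_eq_nsmul F k w, sympForm_smul_right, sympForm_self, mul_zero, add_zero]

theorem ssg_pow_char (p : ℕ) [Fact p.Prime] [CharP F p] (e w : Fin m ⊕ Fin m → F) (b : F) :
    (ssg e w b) ^ p = 1 := by
  by_cases hwe : ⟪w, e⟫ = 0
  · rw [ssg_pow e w b hwe]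
    have h2 : (p : ℕ) • w = 0 := by
      rw [← Nat.cast_smul_eq_nsmul F, CharP.cast_eq_zero, zero_smul]
    have h3 : (p : ℕ) • b = 0 := by
      rw [nsmul_eq_mul, CharP.cast_eq_zero, zero_mul]
    rw [h2, h3, ssg_one]
  · rw [ssg_of_not e w b hwe, one_pow]

/-! ### the Siegel group -/

/-- the group of Siegel elements with centre `e` -/
def USg (e : Fin m ⊕ Fin m → F) : Subgroup (Matrix.symplecticGroup (Fin m) F) where
  carrier := {g | ∃ (w : Fin m ⊕ Fin m → F) (b : F), ⟪w, e⟫ = 0 ∧ g = ssg e w b}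
  one_mem' := ⟨0, 0, sympForm_zero_left e, (ssg_one e).symm⟩
  mul_mem' := by
    rintro a b ⟨w, c, hw, rfl⟩ ⟨w', c', hw', rfl⟩
    exact ⟨w + w', _, by rw [sympForm_add_left, hw, hw', add_zero], ssg_mul e w w' c c' hw hw'⟩
  inv_mem' := by
    rintro a ⟨w, c, hw, rfl⟩
    exact ⟨-w, -c, by rw [sympForm_neg_left, hw, neg_zero], ssg_inv e w c hw⟩

theorem mem_USg (e : Fin m ⊕ Fin m → F) (g : Matrix.symplecticGroup (Fin m) F) :
    g ∈ USg e ↔ ∃ (w : Fin m ⊕ Fin m → F) (b : F), ⟪w, e⟫ = 0 ∧ g = ssg e w b := Iff.rfl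

/-- the root subgroup of `v` -/
def sroot (v : Fin m ⊕ Fin m → F) : Subgroup (Matrix.symplecticGroup (Fin m) F) where
  carrier := {g | ∃ c : F, g = spTv m v c}
  one_mem' := ⟨0, (spTv_zero_right v).symm⟩
  mul_mem' := by
    rintro a b ⟨c, rfl⟩ ⟨c', rfl⟩
    exact ⟨c + c', Cfsg.Agent.Helper5.spTv_mul v c c'⟩
  inv_mem' := by
    rintro a ⟨c, rfl⟩
    refine ⟨-c, ?_⟩
    apply inv_eq_of_mul_eq_one_right
    rw [Cfsg.Agent.Helper5.spTv_mul, add_neg_cancel, spTv_zero_right]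

theorem mem_sroot (v : Fin m ⊕ Fin m → F) (g : Matrix.symplecticGroup (Fin m) F) :
    g ∈ sroot v ↔ ∃ c : F, g = spTv m v c := Iff.rfl

theorem sroot_le_USg (e : Fin m ⊕ Fin m → F) : sroot e ≤ USg e := by
  rintro g ⟨c, rfl⟩
  exact ⟨0, c, sympForm_zero_left e, (ssg_zero e c).symm⟩

theorem sroot_conj (g : Matrix.symplecticGroup (Fin m) F) (v : Fin m ⊕ Fin m → F) :
    MulAut.conj g • sroot v = sroot (sact g v) := by
  ext x
  rw [Subgroup.mem_smul_pointwise_iff_exists]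
  constructor
  · rintro ⟨t, ⟨c, rfl⟩, rfl⟩
    refine ⟨c, ?_⟩
    rw [MulAut.smul_def, MulAut.conj_apply, Cfsg.Agent.Helper5.spTv_conj]
    rfl
  · rintro ⟨c, rfl⟩
    refine ⟨spTv m v c, ⟨c, rfl⟩, ?_⟩
    rw [MulAut.smul_def, MulAut.conj_apply, Cfsg.Agent.Helper5.spTv_conj]
    rfl

theorem sroot_smul (l : F) (hl : l ≠ 0) (v : Fin m ⊕ Fin m → F) : sroot (l • v) = sroot v := by
  ext x
  constructor
  · rintro ⟨c, rfl⟩
    exact ⟨l * l * c, Cfsg.Agent.Helper5.spTv_smul l v c⟩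
  · rintro ⟨c, rfl⟩
    refine ⟨(l * l)⁻¹ * c, ?_⟩
    rw [Cfsg.Agent.Helper5.spTv_smul, ← mul_assoc, mul_inv_cancel₀ (mul_ne_zero hl hl), one_mul]

theorem USg_conj (g : Matrix.symplecticGroup (Fin m) F) (e : Fin m ⊕ Fin m → F) :
    MulAut.conj g • USg e = USg (sact g e) := by
  ext x
  rw [Subgroup.mem_smul_pointwise_iff_exists]
  constructor
  · rintro ⟨t, ⟨w, b, hw, rfl⟩, rfl⟩
    refine ⟨sact g w, b, by rw [sact_form]; exact hw, ?_⟩
    rw [MulAut.smul_def, MulAut.conj_apply, ssg_conj]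
  · rintro ⟨w, b, hw, rfl⟩
    refine ⟨ssg e (sact g⁻¹ w) b, ⟨sact g⁻¹ w, b, ?_, rfl⟩, ?_⟩
    · rw [← sact_form g, sact_sact_inv]; exact hw
    · rw [MulAut.smul_def, MulAut.conj_apply, ssg_conj, sact_sact_inv]

theorem USg_smul (l : F) (hl : l ≠ 0) (e : Fin m ⊕ Fin m → F) : USg (l • e) = USg e := by
  ext x
  constructor
  · rintro ⟨w, b, hw, rfl⟩
    have hw' : ⟪w, e⟫ = 0 := by
      rw [sympForm_smul_right] at hw
      rcases mul_eq_zero.1 hw with h | h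
      · exact absurd h hl
      · exact h
    exact ⟨l • w, l * l * b, by rw [sympForm_smul_left, hw', mul_zero], ssg_smul_left l e w b hw'⟩
  · rintro ⟨w, b, hw, rfl⟩
    have hw' : ⟪l⁻¹ • w, e⟫ = 0 := by rw [sympForm_smul_left, hw, mul_zero]
    refine ⟨l⁻¹ • w, (l * l)⁻¹ * b, by rw [sympForm_smul_right, hw', mul_zero], ?_⟩
    rw [ssg_smul_left l e _ _ hw', smul_smul, mul_inv_cancel₀ hl, one_smul, ← mul_assoc,
      mul_inv_cancel₀ (mul_ne_zero hl hl), one_mul]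

theorem USg_isPGroup (p : ℕ) [Fact p.Prime] [CharP F p] (e : Fin m ⊕ Fin m → F) :
    IsPGroup p (USg e) := by
  rintro ⟨g, w, b, hw, rfl⟩
  refine ⟨1, ?_⟩
  apply Subtype.ext
  rw [Subgroup.coe_pow, Subgroup.coe_one, pow_one]
  exact ssg_pow_char p e w b

/-- `USg e` is transitive on the hyperbolic partners of `e`. -/
theorem ssg_trans (e f f₂ : Fin m ⊕ Fin m → F) (hef : ⟪e, f⟫ = 1) (hef₂ : ⟪e, f₂⟫ = 1) :
    ∃ u ∈ USg e, sact u f = f₂ := by
  have hfe := sf_swap_one hef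
  have hfe₂ := sf_swap_one hef₂
  have h1 : ⟪f - f₂, e⟫ = 0 := by rw [sympForm_sub_left, hfe, hfe₂, sub_self]
  refine ⟨ssg e (f - f₂) (-⟪f, f₂⟫), ⟨_, _, h1, rfl⟩, ?_⟩
  rw [sact_ssg e _ _ h1, sympForm_sub_right, sympForm_self, hfe]
  module

end Cfsg.Agent.Helper44.PSpn
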