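import Mathlib
import Cfsg.Agent.Helper44.SpA

/-!
# Automorphisms of `PSp_{2m}(q)` (helper44), part B: centraliser of the Siegel group,
parameters, `p`-subgroups and Sylow subgroups of `Sp_{2m}(q)`
-/

set_option autoImplicit false
set_option linter.unusedSimpArgs false
set_option linter.unusedSectionVars false
set_option linter.unusedVariables false

namespace Cfsg.Agent.Helper44.PSpn

open Matrix
open scoped Pointwise
open Cfsg.Agent.Helper13 (sympForm_add_left sympForm_add_right sympForm_smul_left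
  sympForm_smul_right sympForm_swap sympForm_self sympForm_zero_left sympForm_zero_right
  sympForm_neg_left sympForm_neg_right sympForm_sub_left sympForm_sub_right)
open Cfsg.Agent.Helper5 (spTv spTv_mulVec sp_ext sp_sympForm sp_coe_one sp_mul_mulVec
  sp_inv_mulVec sp_mulVec_inv)

variable {F : Type*} [Field F] {m : ℕ}

local notation "⟪" x ", " y "⟫" => Cfsg.sympForm m F x y

/-- an element fixing `e` and centralising `USg e` is a transvection with centre `e`
(odd characteristic). -/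
theorem USg_centralizer_fix (h2 : (2 : F) ≠ 0) (e : Fin m ⊕ Fin m → F) (he0 : e ≠ 0)
    (z : Matrix.symplecticGroup (Fin m) F) (hz : ∀ u ∈ USg e, z * u = u * z)
    (hze : sact z e = e) : z ∈ sroot e := by
  obtain ⟨f, hef⟩ := sf_exists_partner e he0
  have hfe := sf_swap_one hef
  have key : ∀ y : Fin m ⊕ Fin m → F, ⟪y, e⟫ = 0 → sact z y = y := by
    intro y hy
    have h5 : ssg e (sact z y) 0 = ssg e y 0 := by
      have h := ssg_conj z e y 0
      rw [hze] at h
      rw [← h, hz _ ⟨y, 0, hy, rfl⟩, mul_inv_cancel_right]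
    have hzy : ⟪sact z y, e⟫ = 0 := by
      calc ⟪sact z y, e⟫ = ⟪sact z y, sact z e⟫ := by rw [hze]
        _ = 0 := by rw [sact_form]; exact hy
    have h9 : sact (ssg e (sact z y) 0) f = sact (ssg e y 0) f := by rw [h5]
    rw [sact_ssg e _ 0 hzy, sact_ssg e y 0 hy, hfe] at h9
    obtain ⟨c, hc⟩ : ∃ c : F, c = ⟪f, sact z y⟫ - ⟪f, y⟫ := ⟨_, rfl⟩
    have h10 : sact z y = y + c • e := by
      rw [hc]
      linear_combination (norm := module) -h9
    have h11 : ⟪f, sact z y⟫ = ⟪f, y⟫ + c * ⟪f, e⟫ := by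
      rw [h10, sympForm_add_right, sympForm_smul_right]
    rw [hfe] at h11
    have h12 : 2 * c = 0 := by linear_combination hc + h11
    have h13 : c = 0 := by
      rcases mul_eq_zero.1 h12 with h | h
      · exact absurd h h2
      · exact h
    rw [h10, h13, zero_smul, add_zero]
  obtain ⟨t, ht⟩ : ∃ t : F, sact z f - f = t • e := by
    apply sf_double_perp e _ he0
    intro y hy
    rw [sympForm_sub_left]
    have h1 : ⟪sact z f, y⟫ = ⟪f, y⟫ := by
      calc ⟪sact z f, y⟫ = ⟪sact z f, sact z y⟫ := by rw [key y hy]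
        _ = ⟪f, y⟫ := sact_form z f y
    rw [h1, sub_self]
  have hzf : sact z f = f + t • e := by linear_combination (norm := module) ht
  refine ⟨-t, ?_⟩
  rw [sact_eq_iff]
  intro x
  have hx0 : ⟪x + ⟪x, e⟫ • f, e⟫ = 0 := by
    rw [sympForm_add_left, sympForm_smul_left, hfe]; ring
  have h18 := key _ hx0
  have hxd : x = (x + ⟪x, e⟫ • f) + (-⟪x, e⟫) • f := by module
  rw [sact_tv]
  calc sact z x = sact z ((x + ⟪x, e⟫ • f) + (-⟪x, e⟫) • f) := by rw [← hxd]
    _ = (x + ⟪x, e⟫ • f) + (-⟪x, e⟫) • (f + t • e) := by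
      rw [sact_add, sact_smul, h18, hzf]
    _ = x + (-t * ⟪x, e⟫) • e := by module

/-- elements of `USg e` are parametrised by `w ⟂ e, f` and `b`. -/
theorem mem_USg_iff (e f : Fin m ⊕ Fin m → F) (hef : ⟪e, f⟫ = 1)
    (g : Matrix.symplecticGroup (Fin m) F) :
    g ∈ USg e ↔ ∃ (w : Fin m ⊕ Fin m → F) (b : F), ⟪w, e⟫ = 0 ∧ ⟪w, f⟫ = 0 ∧
      g = ssg e w b := by
  constructor
  · rintro ⟨y, b, hy, rfl⟩
    have hw : ⟪y - ⟪y, f⟫ • e, e⟫ = 0 := by
      rw [sympForm_sub_left, sympForm_smul_left, hy, sympForm_self]; ring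
    have hwf : ⟪y - ⟪y, f⟫ • e, f⟫ = 0 := by
      rw [sympForm_sub_left, sympForm_smul_left, hef]; ring
    refine ⟨_, b + 2 * ⟪y, f⟫, hw, hwf, ?_⟩
    rw [← ssg_add_left ⟪y, f⟫ e _ b hw]
    congr 1
    module
  · rintro ⟨w, b, hw, -, rfl⟩
    exact ⟨w, b, hw, rfl⟩

theorem ssg_apply_f (e f w : Fin m ⊕ Fin m → F) (b : F) (hef : ⟪e, f⟫ = 1)
    (hw : ⟪w, e⟫ = 0) (hwf : ⟪w, f⟫ = 0) : sact (ssg e w b) f = f - w - b • e := by
  rw [sact_ssg e w b hw, sf_swap_zero hwf, sf_swap_one hef]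
  module

theorem ssg_inj (e f w w' : Fin m ⊕ Fin m → F) (b b' : F) (hef : ⟪e, f⟫ = 1)
    (hw : ⟪w, e⟫ = 0) (hwf : ⟪w, f⟫ = 0) (hw' : ⟪w', e⟫ = 0) (hwf' : ⟪w', f⟫ = 0)
    (h : ssg e w b = ssg e w' b') : w = w' ∧ b = b' := by
  have h1 : sact (ssg e w b) f = sact (ssg e w' b') f := by rw [h]
  rw [ssg_apply_f e f w b hef hw hwf, ssg_apply_f e f w' b' hef hw' hwf'] at h1
  have h2 : w - w' = (b' - b) • e := by linear_combination (norm := module) -h1
  have h3 : ⟪w - w', f⟫ = ⟪(b' - b) • e, f⟫ := by rw [h2]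
  rw [sympForm_sub_left, hwf, hwf', sympForm_smul_left, hef] at h3
  have hbb : b = b' := by linear_combination h3
  refine ⟨?_, hbb⟩
  rw [hbb, sub_self, zero_smul] at h2
  exact sub_eq_zero.1 h2

theorem spTv_eq_point (v v' : Fin m ⊕ Fin m → F) (a a' : F) (hv0 : v ≠ 0) (ha : a ≠ 0)
    (h : spTv m v a = spTv m v' a') : ∃ l : F, l ≠ 0 ∧ v = l • v' := by
  obtain ⟨x, hx⟩ := sf_exists_partner v hv0
  have hxv := sf_swap_one hx
  have h1 : sact (spTv m v a) x = sact (spTv m v' a') x := by rw [h]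
  rw [sact_tv, sact_tv, hxv] at h1
  have h2 : v = (-a⁻¹ * (a' * ⟪x, v'⟫)) • v' := by
    have h3 : (a * -1) • v = (a' * ⟪x, v'⟫) • v' := add_left_cancel h1
    calc v = (-a⁻¹) • ((a * -1) • v) := by
          rw [smul_smul]
          have : -a⁻¹ * (a * -1) = 1 := by field_simp
          rw [this, one_smul]
      _ = (-a⁻¹ * (a' * ⟪x, v'⟫)) • v' := by rw [h3, smul_smul]
  refine ⟨_, ?_, h2⟩
  intro h0
  rw [h0, zero_smul] at h2
  exact hv0 h2

/-! ### `p`-subgroups -/

section Fin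

variable [Fintype F]

/-- a `p`-subgroup of `Sp` fixes a non-zero vector in every non-zero invariant subspace -/
theorem sp_fix_sub (p : ℕ) [Fact p.Prime] [CharP F p]
    (S : Subgroup (Matrix.symplecticGroup (Fin m) F))
    (hS : IsPGroup p S) (X : Submodule F (Fin m ⊕ Fin m → F))
    (hX : ∀ s ∈ S, ∀ x ∈ X, sact s x ∈ X) (hX0 : X ≠ ⊥) :
    ∃ x ∈ X, x ≠ 0 ∧ ∀ s ∈ S, sact s x = x := by
  classical
  letI : MulAction ↥S ↥X :=
    { smul := fun s x => ⟨sact (s : Matrix.symplecticGroup (Fin m) F) x.1, hX s.1 s.2 x.1 x.2⟩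
      one_smul := fun x => Subtype.ext (sact_one x.1)
      mul_smul := fun s t x => Subtype.ext (sact_mul s.1 t.1 x.1) }
  have hcard : p ∣ Nat.card ↥X := by
    obtain ⟨k, -, hk⟩ := FiniteField.card F p
    have h1 : Module.finrank F ↥X ≠ 0 := by
      intro h
      exact hX0 (Submodule.finrank_eq_zero.1 h)
    rw [Nat.card_eq_fintype_card, Module.card_eq_pow_finrank (K := F) (V := ↥X), hk, ← pow_mul]
    exact dvd_pow_self p (Nat.mul_ne_zero k.ne_zero h1)
  have h0 : (0 : ↥X) ∈ MulAction.fixedPoints ↥S ↥X := fun s => Subtype.ext (sact_zero s.1)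
  obtain ⟨b, hb, hne⟩ := hS.exists_fixed_point_of_prime_dvd_card_of_fixed_point ↥X hcard h0
  refine ⟨b.1, b.2, fun h => hne (Subtype.ext h.symm), fun s hs => ?_⟩
  exact congrArg Subtype.val (hb ⟨s, hs⟩)

/-- a `p`-subgroup of `Sp_{2m}(q)`, `m ≥ 1`, fixes a non-zero vector -/
theorem sp_fix_vec (p : ℕ) [Fact p.Prime] [CharP F p] (hm : 1 ≤ m)
    (S : Subgroup (Matrix.symplecticGroup (Fin m) F)) (hS : IsPGroup p S) :
    ∃ e : Fin m ⊕ Fin m → F, e ≠ 0 ∧ ∀ s ∈ S, sact s e = e := by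
  obtain ⟨v, -, hv0, hv⟩ := sp_fix_sub p S hS ⊤ (fun _ _ _ _ => Submodule.mem_top) (by
    intro h
    have h1 : (Pi.single (Sum.inl (⟨0, by omega⟩ : Fin m)) (1 : F) : Fin m ⊕ Fin m → F)
        ∈ (⊤ : Submodule F (Fin m ⊕ Fin m → F)) := Submodule.mem_top
    rw [h, Submodule.mem_bot] at h1
    have := congrFun h1 (Sum.inl ⟨0, by omega⟩)
    simp at this)
  exact ⟨v, hv0, hv⟩

end Fin

/-- central elements of `Sp` act as `±1` -/
theorem sp_center_scalar (z : Matrix.symplecticGroup (Fin m) F)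
    (hz : z ∈ Subgroup.center (Matrix.symplecticGroup (Fin m) F)) :
    ∃ l : F, l * l = 1 ∧ ∀ x, sact z x = l • x := by
  rcases (Cfsg.Agent.Helper5.sp_mem_center_iff z).1 hz with h | h
  · refine ⟨1, one_mul 1, fun x => ?_⟩
    unfold sact
    rw [h, Matrix.one_mulVec, one_smul]
  · refine ⟨-1, by ring, fun x => ?_⟩
    unfold sact
    rw [h, Matrix.neg_mulVec, Matrix.one_mulVec, neg_smul, one_smul]

theorem sp_scalar_center (z : Matrix.symplecticGroup (Fin m) F) (l : F) (hl : l * l = 1)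
    (hz : ∀ x, sact z x = l • x) :
    z ∈ Subgroup.center (Matrix.symplecticGroup (Fin m) F) := by
  rw [Subgroup.mem_center_iff]
  intro g
  rw [sact_eq_iff]
  intro x
  rw [sact_mul, sact_mul, hz, hz, sact_smul]

/-- central `p`-elements of `Sp` are trivial -/
theorem sp_center_p (p : ℕ) [Fact p.Prime] [CharP F p]
    (e : Fin m ⊕ Fin m → F) (he0 : e ≠ 0) (z : Matrix.symplecticGroup (Fin m) F)
    (hz : z ∈ Subgroup.center (Matrix.symplecticGroup (Fin m) F)) (k : ℕ)
    (hk : z ^ (p ^ k) = 1) : z = 1 := by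
  obtain ⟨l, -, hl⟩ := sp_center_scalar z hz
  have h1 := sact_pow_scalar z l e (hl e) (p ^ k)
  rw [hk, sact_one] at h1
  have h2 : (l ^ (p ^ k) - 1) • e = 0 := by rw [sub_smul, one_smul, ← h1, sub_self]
  have h3 : l ^ (p ^ k) = 1 := by
    rcases smul_eq_zero.1 h2 with h | h
    · linear_combination h
    · exact absurd h he0
  have h4 := sf_pow_char p l k h3
  rw [sact_eq_iff]
  intro x
  rw [hl x, h4, one_smul, sact_one]

/-- two `p`-elements of `Sp` with the same image in `PSp` are equal -/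
theorem sp_lift_unique (p : ℕ) [Fact p.Prime] [CharP F p]
    (e : Fin m ⊕ Fin m → F) (he0 : e ≠ 0) (x y : Matrix.symplecticGroup (Fin m) F)
    (hx : ∃ k : ℕ, x ^ (p ^ k) = 1) (hy : ∃ k : ℕ, y ^ (p ^ k) = 1)
    (h : (QuotientGroup.mk x : Cfsg.PSp m F) = QuotientGroup.mk y) : x = y := by
  obtain ⟨k, hk⟩ := hx
  obtain ⟨k', hk'⟩ := hy
  have hz : x⁻¹ * y ∈ Subgroup.center (Matrix.symplecticGroup (Fin m) F) := QuotientGroup.eq.1 h
  have hcomm : Commute x (x⁻¹ * y) := by
    rw [Subgroup.mem_center_iff] at hz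
    exact hz x
  have h1 : (x⁻¹ * y) ^ (p ^ (k + k')) = 1 := by
    have h2 : y = x * (x⁻¹ * y) := by group
    have h3 : y ^ (p ^ (k + k')) = 1 := by rw [pow_add, mul_comm, pow_mul, hk', one_pow]
    have h4 : x ^ (p ^ (k + k')) = 1 := by rw [pow_add, pow_mul, hk, one_pow]
    rw [h2, hcomm.mul_pow, h4, one_mul] at h3
    exact h3
  have h5 := sp_center_p p e he0 _ hz _ h1
  calc x = x * (x⁻¹ * y) := by rw [h5, mul_one]
    _ = y := by group

/-! ### Sylow subgroups -/

section Syl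

variable [Fintype F]

/-- a Sylow `p`-subgroup of `Sp` fixing the vector `e` contains the Siegel group of `e`, and
the root subgroup of `e` is central in it. -/
theorem sp_sylow_sub (p : ℕ) [Fact p.Prime] [CharP F p]
    (S : Sylow p (Matrix.symplecticGroup (Fin m) F)) (e : Fin m ⊕ Fin m → F)
    (hS : ∀ s ∈ S, sact s e = e) :
    USg e ≤ S ∧ ∀ z ∈ sroot e, z ∈ S ∧ ∀ s ∈ S, z * s = s * z := by
  have hU : USg e ≤ S := by
    have hnorm : (S : Subgroup (Matrix.symplecticGroup (Fin m) F))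
        ≤ Subgroup.normalizer (USg e) := by
      intro s hs
      have h1 := USg_conj s e
      rw [hS s hs] at h1
      rw [Subgroup.mem_normalizer_iff]
      intro u
      constructor
      · intro hu
        rw [← h1]
        exact Subgroup.smul_mem_pointwise_smul u (MulAut.conj s) _ hu
      · intro hu
        rw [← h1] at hu
        have h2 : s * u * s⁻¹ = MulAut.conj s • u := rfl
        rw [h2, Subgroup.smul_mem_pointwise_smul_iff] at hu
        exact hu
    have h3 := IsPGroup.to_sup_of_normal_right' S.isPGroup' (USg_isPGroup p e) hnorm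
    have h4 := S.is_maximal' h3 le_sup_left
    exact le_sup_right.trans_eq h4
  refine ⟨hU, ?_⟩
  rintro z ⟨c, rfl⟩
  refine ⟨hU (sroot_le_USg e ⟨c, rfl⟩), fun s hs => ?_⟩
  have h1 := Cfsg.Agent.Helper5.spTv_conj s e c
  have h1' : s * spTv m e c * s⁻¹ = spTv m e c := by
    rw [h1]
    congr 1
    exact hS s hs
  calc spTv m e c * s = (s * spTv m e c * s⁻¹) * s := by rw [h1']
    _ = s * spTv m e c := by group

/-- in odd characteristic the centre of a Sylow `p`-subgroup fixing `e` is the root subgroup of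
`e` -/
theorem sp_sylow_center (h2 : (2 : F) ≠ 0) (p : ℕ) [Fact p.Prime] [CharP F p]
    (S : Sylow p (Matrix.symplecticGroup (Fin m) F)) (e : Fin m ⊕ Fin m → F) (he0 : e ≠ 0)
    (hS : ∀ s ∈ S, sact s e = e) (z : Matrix.symplecticGroup (Fin m) F) :
    (z ∈ S ∧ ∀ s ∈ S, z * s = s * z) ↔ z ∈ sroot e := by
  obtain ⟨hU, hZ⟩ := sp_sylow_sub p S e hS
  constructor
  · rintro ⟨hzS, hz⟩
    exact USg_centralizer_fix h2 e he0 z (fun u hu => hz u (hU hu)) (hS z hzS)
  · intro hz
    exact hZ z hz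

end Syl

end Cfsg.Agent.Helper44.PSpn
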