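import Mathlib
import Cfsg.Agent.Helper44.SpB

/-!
# Automorphisms of `PSp_{2m}(q)` (helper44), part C: frames and the geometry of `W = ⟨e, f⟩^⊥`
-/

set_option autoImplicit false
set_option linter.unusedSimpArgs false
set_option linter.unusedSectionVars false
set_option linter.unusedVariables false

namespace Cfsg.Agent.Helper44.PSpn

open Matrix
open scoped Pointwise
open Cfsg.Agent.Helper13 (sympForm_add_left sympForm_add_right sympForm_smul_left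
  sympForm_smul_right sympForm_swap sympForm_self sympForm_zero_left sympForm_zero_right
  sympForm_neg_left sympForm_neg_right sympForm_sub_left sympForm_sub_right)
open Cfsg.Agent.Helper5 (spTv spTv_mulVec sp_ext sp_sympForm sp_coe_one sp_mul_mulVec
  sp_inv_mulVec sp_mulVec_inv)

variable {F : Type*} [Field F] {m : ℕ}

local notation "⟪" x ", " y "⟫" => Cfsg.sympForm m F x y

/-- two hyperbolic pairs `e, f` and `r, s`, orthogonal to each other -/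
structure SFrame (e f r s : Fin m ⊕ Fin m → F) : Prop where
  ef : Cfsg.sympForm m F e f = 1
  re : Cfsg.sympForm m F r e = 0
  rf : Cfsg.sympForm m F r f = 0
  se : Cfsg.sympForm m F s e = 0
  sf : Cfsg.sympForm m F s f = 0
  rs : Cfsg.sympForm m F r s = 1

theorem sf_single (a b : Fin m ⊕ Fin m) :
    ⟪(Pi.single a 1 : Fin m ⊕ Fin m → F), Pi.single b 1⟫ = Matrix.J (Fin m) F a b := by
  unfold Cfsg.sympForm
  rw [single_dotProduct, one_mul, Matrix.mulVec_single_one]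
  rfl

theorem exists_sframe (hm : 2 ≤ m) : ∃ e f r s : Fin m ⊕ Fin m → F, SFrame e f r s := by
  have h01 : (⟨0, by omega⟩ : Fin m) ≠ ⟨1, by omega⟩ := by
    intro h; have := congrArg Fin.val h; simp at this
  refine ⟨Pi.single (Sum.inr ⟨0, by omega⟩) 1, Pi.single (Sum.inl ⟨0, by omega⟩) 1,
    Pi.single (Sum.inr ⟨1, by omega⟩) 1, Pi.single (Sum.inl ⟨1, by omega⟩) 1, ?_⟩
  constructor
  · rw [sf_single]; simp [Matrix.J]
  · rw [sf_single]; simp [Matrix.J]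
  · rw [sf_single]; simp [Matrix.J, Matrix.one_apply, h01.symm]
  · rw [sf_single]; simp [Matrix.J, Matrix.one_apply, h01.symm]
  · rw [sf_single]; simp [Matrix.J]
  · rw [sf_single]; simp [Matrix.J]

section frame

variable {e f r s : Fin m ⊕ Fin m → F}

theorem SFrame.fe (hfr : SFrame e f r s) : ⟪f, e⟫ = -1 := sf_swap_one hfr.ef

theorem SFrame.sr (hfr : SFrame e f r s) : ⟪s, r⟫ = -1 := sf_swap_one hfr.rs

theorem SFrame.e_ne (hfr : SFrame e f r s) : e ≠ 0 := by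
  rintro rfl
  have := hfr.ef
  rw [sympForm_zero_left] at this
  exact zero_ne_one this

theorem SFrame.f_ne (hfr : SFrame e f r s) : f ≠ 0 := by
  rintro rfl
  have := hfr.ef
  rw [sympForm_zero_right] at this
  exact zero_ne_one this

theorem SFrame.r_ne (hfr : SFrame e f r s) : r ≠ 0 := by
  rintro rfl
  have := hfr.rs
  rw [sympForm_zero_left] at this
  exact zero_ne_one this

end frame

/-- the projection to `W = ⟨e, f⟩^⊥` -/
def wproj (e f x : Fin m ⊕ Fin m → F) : Fin m ⊕ Fin m → F :=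
  x - Cfsg.sympForm m F x f • e + Cfsg.sympForm m F x e • f

section W

variable {e f : Fin m ⊕ Fin m → F}

theorem wproj_e (hef : ⟪e, f⟫ = 1) (x : Fin m ⊕ Fin m → F) : ⟪wproj e f x, e⟫ = 0 := by
  unfold wproj
  rw [sympForm_add_left, sympForm_sub_left, sympForm_smul_left, sympForm_smul_left,
    sympForm_self, sf_swap_one hef]
  ring

theorem wproj_f (hef : ⟪e, f⟫ = 1) (x : Fin m ⊕ Fin m → F) : ⟪wproj e f x, f⟫ = 0 := by
  unfold wproj
  rw [sympForm_add_left, sympForm_sub_left, sympForm_smul_left, sympForm_smul_left,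
    sympForm_self, hef]
  ring

theorem wproj_decomp (x : Fin m ⊕ Fin m → F) :
    x = ⟪x, f⟫ • e + (-⟪x, e⟫) • f + wproj e f x := by
  unfold wproj
  module

theorem wproj_of_mem (x : Fin m ⊕ Fin m → F) (hxe : ⟪x, e⟫ = 0) (hxf : ⟪x, f⟫ = 0) :
    wproj e f x = x := by
  unfold wproj
  rw [hxe, hxf, zero_smul, zero_smul, sub_zero, add_zero]

theorem wproj_add (x y : Fin m ⊕ Fin m → F) :
    wproj e f (x + y) = wproj e f x + wproj e f y := by
  unfold wproj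
  rw [sympForm_add_left, sympForm_add_left]
  module

theorem wproj_smul (c : F) (x : Fin m ⊕ Fin m → F) :
    wproj e f (c • x) = c • wproj e f x := by
  unfold wproj
  rw [sympForm_smul_left, sympForm_smul_left]
  module

theorem sf_decomp (hef : ⟪e, f⟫ = 1) (x y : Fin m ⊕ Fin m → F) :
    ⟪x, y⟫ = ⟪x, e⟫ * ⟪y, f⟫ - ⟪x, f⟫ * ⟪y, e⟫ + ⟪wproj e f x, wproj e f y⟫ := by
  have hfe := sf_swap_one hef
  have hx := wproj_decomp (e := e) (f := f) x
  have hy := wproj_decomp (e := e) (f := f) y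
  have h1 := wproj_e hef x
  have h2 := wproj_f hef x
  have h3 := wproj_e hef y
  have h4 := wproj_f hef y
  have h3' := sf_swap_zero h3
  have h4' := sf_swap_zero h4
  calc ⟪x, y⟫ = ⟪⟪x, f⟫ • e + (-⟪x, e⟫) • f + wproj e f x,
        ⟪y, f⟫ • e + (-⟪y, e⟫) • f + wproj e f y⟫ := by rw [← hx, ← hy]
    _ = _ := by
      simp only [sympForm_add_left, sympForm_add_right, sympForm_smul_left, sympForm_smul_right,
        sympForm_self, hef, hfe, h1, h2, h3', h4']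
      ring

/-- `W` is non-degenerate -/
theorem W_nondeg (hef : ⟪e, f⟫ = 1) (w : Fin m ⊕ Fin m → F)
    (hwe : ⟪w, e⟫ = 0) (hwf : ⟪w, f⟫ = 0)
    (h : ∀ w' : Fin m ⊕ Fin m → F, ⟪w', e⟫ = 0 → ⟪w', f⟫ = 0 → ⟪w, w'⟫ = 0) : w = 0 := by
  apply Cfsg.Agent.Helper5.sympForm_nondeg_left
  intro x
  rw [sf_decomp hef w x, hwe, hwf, wproj_of_mem w hwe hwf, h _ (wproj_e hef x) (wproj_f hef x)]
  ring

/-- hyperbolic partners inside `W` -/
theorem W_partner (hef : ⟪e, f⟫ = 1) (r : Fin m ⊕ Fin m → F)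
    (hr0 : r ≠ 0) (hre : ⟪r, e⟫ = 0) (hrf : ⟪r, f⟫ = 0) :
    ∃ s : Fin m ⊕ Fin m → F, ⟪s, e⟫ = 0 ∧ ⟪s, f⟫ = 0 ∧ ⟪r, s⟫ = 1 := by
  obtain ⟨y, hry⟩ := sf_exists_partner r hr0
  refine ⟨wproj e f y, wproj_e hef y, wproj_f hef y, ?_⟩
  unfold wproj
  rw [sympForm_add_right, sympForm_sub_right, sympForm_smul_right, sympForm_smul_right, hre, hrf,
    hry]
  ring

/-- two non-zero vectors of `W` have a common non-neighbour in `W` -/
theorem W_common (hef : ⟪e, f⟫ = 1) (r₁ r₂ : Fin m ⊕ Fin m → F)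
    (hr₁0 : r₁ ≠ 0) (hr₁e : ⟪r₁, e⟫ = 0) (hr₁f : ⟪r₁, f⟫ = 0)
    (hr₂0 : r₂ ≠ 0) (hr₂e : ⟪r₂, e⟫ = 0) (hr₂f : ⟪r₂, f⟫ = 0) :
    ∃ c : Fin m ⊕ Fin m → F, ⟪c, e⟫ = 0 ∧ ⟪c, f⟫ = 0 ∧ ⟪r₁, c⟫ ≠ 0 ∧ ⟪r₂, c⟫ ≠ 0 := by
  obtain ⟨s₁, hs₁e, hs₁f, hrs₁⟩ := W_partner hef r₁ hr₁0 hr₁e hr₁f
  obtain ⟨s₂, hs₂e, hs₂f, hrs₂⟩ := W_partner hef r₂ hr₂0 hr₂e hr₂f
  by_cases h1 : ⟪r₂, s₁⟫ = 0
  swap
  · exact ⟨s₁, hs₁e, hs₁f, by rw [hrs₁]; exact one_ne_zero, h1⟩
  by_cases h2 : ⟪r₁, s₂⟫ = 0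
  swap
  · exact ⟨s₂, hs₂e, hs₂f, h2, by rw [hrs₂]; exact one_ne_zero⟩
  refine ⟨s₁ + s₂, ?_, ?_, ?_, ?_⟩
  · rw [sympForm_add_left, hs₁e, hs₂e, add_zero]
  · rw [sympForm_add_left, hs₁f, hs₂f, add_zero]
  · rw [sympForm_add_right, hrs₁, h2, add_zero]; exact one_ne_zero
  · rw [sympForm_add_right, h1, hrs₂, zero_add]; exact one_ne_zero

/-- irreducibility of the transvections of `W` on `W` -/
theorem W_irr (hef : ⟪e, f⟫ = 1) (X : Submodule F (Fin m ⊕ Fin m → F))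
    (hX : ∀ (r : Fin m ⊕ Fin m → F) (a : F), ⟪r, e⟫ = 0 → ⟪r, f⟫ = 0 →
      ∀ x ∈ X, sact (spTv m r a) x ∈ X)
    (w₀ : Fin m ⊕ Fin m → F) (hw₀ : w₀ ∈ X) (hw₀0 : w₀ ≠ 0) (hw₀e : ⟪w₀, e⟫ = 0)
    (hw₀f : ⟪w₀, f⟫ = 0)
    (w : Fin m ⊕ Fin m → F) (hwe : ⟪w, e⟫ = 0) (hwf : ⟪w, f⟫ = 0) : w ∈ X := by
  have move : ∀ (x r : Fin m ⊕ Fin m → F), x ∈ X → ⟪r, e⟫ = 0 → ⟪r, f⟫ = 0 → ⟪x, r⟫ ≠ 0 →
      r ∈ X := by
    intro x r hx hre hrf hxr
    have h1 := hX r 1 hre hrf x hx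
    rw [sact_tv] at h1
    have h2 : (1 * ⟪x, r⟫) • r ∈ X := by
      have := X.sub_mem h1 hx
      rwa [add_sub_cancel_left] at this
    have h3 := X.smul_mem (1 * ⟪x, r⟫)⁻¹ h2
    rwa [smul_smul, inv_mul_cancel₀ (mul_ne_zero one_ne_zero hxr), one_smul] at h3
  by_cases h : ⟪w₀, w⟫ = 0
  · obtain ⟨s₀, hs₀e, hs₀f, hs₀⟩ := W_partner hef w₀ hw₀0 hw₀e hw₀f
    have hs₀X : s₀ ∈ X := move w₀ s₀ hw₀ hs₀e hs₀f (by rw [hs₀]; exact one_ne_zero)
    have h1 : w + s₀ ∈ X := move w₀ (w + s₀) hw₀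
      (by rw [sympForm_add_left, hwe, hs₀e, add_zero])
      (by rw [sympForm_add_left, hwf, hs₀f, add_zero])
      (by rw [sympForm_add_right, h, hs₀, zero_add]; exact one_ne_zero)
    have := X.sub_mem h1 hs₀X
    rwa [add_sub_cancel_right] at this
  · exact move w₀ w hw₀ hwe hwf h

end W

/-- the orthogonal complement of a vector, as a submodule -/
def perpS (v : Fin m ⊕ Fin m → F) : Submodule F (Fin m ⊕ Fin m → F) where
  carrier := {x | Cfsg.sympForm m F x v = 0}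
  add_mem' := fun {a b} ha hb => by
    show Cfsg.sympForm m F (a + b) v = 0
    rw [sympForm_add_left, ha, hb, add_zero]
  zero_mem' := sympForm_zero_left v
  smul_mem' := fun c x hx => by
    show Cfsg.sympForm m F (c • x) v = 0
    rw [sympForm_smul_left, hx, mul_zero]

theorem mem_perpS (v x : Fin m ⊕ Fin m → F) : x ∈ perpS v ↔ ⟪x, v⟫ = 0 := Iff.rfl

end Cfsg.Agent.Helper44.PSpn
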