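import Mathlib
import Cfsg.Agent.Helper44.SpC

/-!
# Automorphisms of `PSp_{2m}(q)` (helper44), part D: root subgroups and Siegel groups in `PSp`

An automorphism of `PSp_{2m}(q)` fixing the image of `sroot e` fixes the image of the Siegel
group `USg e` (the intersection of the Sylow `p`-subgroups with that root subgroup in their
centre); in odd characteristic every automorphism permutes the images of the root subgroups
(centres of Sylow `p`-subgroups).
-/

set_option autoImplicit false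
set_option linter.unusedSimpArgs false
set_option linter.unusedSectionVars false
set_option linter.unusedVariables false

namespace Cfsg.Agent.Helper44.PSpn

open Matrix
open scoped Pointwise
open Cfsg.Agent.Helper13 (sympForm_add_left sympForm_add_right sympForm_smul_left
  sympForm_smul_right sympForm_swap sympForm_self sympForm_zero_left sympForm_zero_right
  sympForm_neg_left sympForm_neg_right sympForm_sub_left sympForm_sub_right)
open Cfsg.Agent.Helper5 (spTv spTv_mulVec sp_ext sp_sympForm sp_coe_one sp_mul_mulVec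
  sp_inv_mulVec sp_mulVec_inv)

section SylowLemmas

variable {G : Type*} [Group G]

theorem syl_conj_mem {p : ℕ} (g x : G) (P : Sylow p G) :
    x ∈ ((g • P : Sylow p G) : Subgroup G) ↔ ∃ s ∈ (P : Subgroup G), x = g * s * g⁻¹ := by
  rw [Sylow.smul_def, Sylow.pointwise_smul_def, Subgroup.mem_smul_pointwise_iff_exists]
  constructor
  · rintro ⟨s, hs, rfl⟩
    exact ⟨s, hs, rfl⟩
  · rintro ⟨s, hs, rfl⟩
    exact ⟨s, hs, rfl⟩

theorem syl_aut_mem {p : ℕ} (α : MulAut G) (x : G) (P : Sylow p G) :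
    x ∈ ((α • P : Sylow p G) : Subgroup G) ↔ ∃ s ∈ (P : Subgroup G), x = α s := by
  rw [Sylow.pointwise_smul_def, Subgroup.mem_smul_pointwise_iff_exists]
  constructor
  · rintro ⟨s, hs, rfl⟩
    exact ⟨s, hs, rfl⟩
  · rintro ⟨s, hs, rfl⟩
    exact ⟨s, hs, rfl⟩

theorem syl_pelem {p : ℕ} (P : Sylow p G) (x : G) (hx : x ∈ (P : Subgroup G)) :
    ∃ k : ℕ, x ^ (p ^ k) = 1 := by
  obtain ⟨k, hk⟩ := P.isPGroup' ⟨x, hx⟩
  refine ⟨k, ?_⟩
  have := congrArg Subtype.val hk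
  simpa using this

end SylowLemmas

variable {F : Type*} [Field F] {m : ℕ}

local notation "⟪" x ", " y "⟫" => Cfsg.sympForm m F x y

/-- the projection `Sp → PSp` -/
def prS : Matrix.symplecticGroup (Fin m) F →* Cfsg.PSp m F :=
  QuotientGroup.mk' (Subgroup.center (Matrix.symplecticGroup (Fin m) F))

theorem prS_surjective :
    Function.Surjective (prS : Matrix.symplecticGroup (Fin m) F →* Cfsg.PSp m F) :=
  QuotientGroup.mk'_surjective _

theorem prS_mk (x : Matrix.symplecticGroup (Fin m) F) :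
    prS x = (QuotientGroup.mk x : Cfsg.PSp m F) := rfl

/-- the image of a root subgroup in `PSp` -/
def Tb (v : Fin m ⊕ Fin m → F) : Subgroup (Cfsg.PSp m F) := (sroot v).map prS

/-- the image of a Siegel group in `PSp` -/
def Ub (e : Fin m ⊕ Fin m → F) : Subgroup (Cfsg.PSp m F) := (USg e).map prS

theorem mem_Tb (v : Fin m ⊕ Fin m → F) (x : Cfsg.PSp m F) :
    x ∈ Tb v ↔ ∃ t ∈ sroot v, prS t = x := Subgroup.mem_map

theorem mem_Ub (e : Fin m ⊕ Fin m → F) (x : Cfsg.PSp m F) :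
    x ∈ Ub e ↔ ∃ t ∈ USg e, prS t = x := Subgroup.mem_map

theorem tv_mem_Tb (v : Fin m ⊕ Fin m → F) (c : F) : prS (spTv m v c) ∈ Tb v :=
  Subgroup.mem_map_of_mem _ ⟨c, rfl⟩

theorem USg_pelem (p : ℕ) [Fact p.Prime] [CharP F p]
    (e : Fin m ⊕ Fin m → F) (x : Matrix.symplecticGroup (Fin m) F) (hx : x ∈ USg e) :
    ∃ k : ℕ, x ^ (p ^ k) = 1 := by
  obtain ⟨k, hk⟩ := USg_isPGroup p e ⟨x, hx⟩
  refine ⟨k, ?_⟩
  have := congrArg Subtype.val hk
  simpa using this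

theorem sroot_pelem (p : ℕ) [Fact p.Prime] [CharP F p]
    (e : Fin m ⊕ Fin m → F) (x : Matrix.symplecticGroup (Fin m) F) (hx : x ∈ sroot e) :
    ∃ k : ℕ, x ^ (p ^ k) = 1 :=
  USg_pelem p e x (sroot_le_USg e hx)

/-- equal images of root subgroups have proportional centres -/
theorem Tb_eq (p : ℕ) [Fact p.Prime] [CharP F p]
    (v v' : Fin m ⊕ Fin m → F) (hv0 : v ≠ 0) (h : Tb v = Tb v') :
    ∃ l : F, l ≠ 0 ∧ v = l • v' := by
  have h1 : prS (spTv m v 1) ∈ Tb v' := by rw [← h]; exact tv_mem_Tb v 1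
  obtain ⟨y, ⟨c, rfl⟩, hyx⟩ := (mem_Tb v' _).1 h1
  have h2 := sp_lift_unique p v hv0 _ _ (sroot_pelem p v' _ ⟨c, rfl⟩)
    (sroot_pelem p v _ ⟨1, rfl⟩) hyx
  exact spTv_eq_point v v' 1 c hv0 one_ne_zero h2.symm

/-- the image of the root subgroup of `e` is central in the Sylow subgroup `Sb` of `PSp` -/
def TZ (p : ℕ) (Sb : Sylow p (Cfsg.PSp m F)) (e : Fin m ⊕ Fin m → F) : Prop :=
  ∀ x ∈ Tb e, x ∈ (Sb : Subgroup (Cfsg.PSp m F)) ∧
    ∀ y ∈ (Sb : Subgroup (Cfsg.PSp m F)), x * y = y * x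

/-- the centre of the Sylow subgroup `Sb` of `PSp` is the image of the root subgroup of `e` -/
def ZIs (p : ℕ) (Sb : Sylow p (Cfsg.PSp m F)) (e : Fin m ⊕ Fin m → F) : Prop :=
  ∀ x : Cfsg.PSp m F,
    (x ∈ (Sb : Subgroup (Cfsg.PSp m F)) ∧ ∀ y ∈ (Sb : Subgroup (Cfsg.PSp m F)), x * y = y * x)
      ↔ x ∈ Tb e

section Fin

variable [Fintype F]

instance finite_Sp : Finite (Matrix.symplecticGroup (Fin m) F) :=
  Finite.of_injective (fun g : Matrix.symplecticGroup (Fin m) F =>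
    (g : Matrix (Fin m ⊕ Fin m) (Fin m ⊕ Fin m) F)) Subtype.val_injective

theorem sylow_bar (p : ℕ) [Fact p.Prime] [CharP F p]
    (S : Sylow p (Matrix.symplecticGroup (Fin m) F)) (e : Fin m ⊕ Fin m → F)
    (hS : ∀ s ∈ (S : Subgroup (Matrix.symplecticGroup (Fin m) F)), sact s e = e) :
    TZ p (S.mapSurjective prS_surjective) e ∧
      Ub e ≤ (S.mapSurjective prS_surjective : Subgroup (Cfsg.PSp m F)) := by
  obtain ⟨hU, hZ⟩ := sp_sylow_sub p S e hS
  constructor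
  · intro x hx
    obtain ⟨x₀, hx₀, rfl⟩ := (mem_Tb e x).1 hx
    obtain ⟨h1, h2⟩ := hZ x₀ hx₀
    refine ⟨by rw [Sylow.coe_mapSurjective]; exact Subgroup.mem_map_of_mem _ h1, fun y hy => ?_⟩
    rw [Sylow.coe_mapSurjective, Subgroup.mem_map] at hy
    obtain ⟨s, hs, rfl⟩ := hy
    rw [← map_mul, ← map_mul, h2 s hs]
  · rw [Sylow.coe_mapSurjective]
    exact Subgroup.map_mono hU

theorem sylow_bar_odd (h2 : (2 : F) ≠ 0) (p : ℕ) [Fact p.Prime] [CharP F p]
    (S : Sylow p (Matrix.symplecticGroup (Fin m) F)) (e : Fin m ⊕ Fin m → F) (he0 : e ≠ 0)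
    (hS : ∀ s ∈ (S : Subgroup (Matrix.symplecticGroup (Fin m) F)), sact s e = e) :
    ZIs p (S.mapSurjective prS_surjective) e := by
  have hZ := sp_sylow_center h2 p S e he0 hS
  intro x
  constructor
  · rintro ⟨hx, hc⟩
    rw [Sylow.coe_mapSurjective, Subgroup.mem_map] at hx
    obtain ⟨x₀, hx₀, rfl⟩ := hx
    have h1 : x₀ ∈ sroot e := by
      refine (hZ x₀).1 ⟨hx₀, fun s hs => ?_⟩
      have h2 := hc (prS s) (by
        rw [Sylow.coe_mapSurjective]; exact Subgroup.mem_map_of_mem _ hs)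
      apply sp_lift_unique p e he0 (x₀ * s) (s * x₀)
        (syl_pelem S _ (Subgroup.mul_mem _ hx₀ hs))
        (syl_pelem S _ (Subgroup.mul_mem _ hs hx₀))
      rw [← prS_mk, ← prS_mk, map_mul, map_mul]
      exact h2
    exact Subgroup.mem_map_of_mem _ h1
  · intro hx
    exact (sylow_bar p S e hS).1 x hx

/-- a Sylow subgroup of `Sp` whose image has the root subgroup of `e` in its centre fixes `e` -/
theorem fix_of_TZ (p : ℕ) [Fact p.Prime] [CharP F p]
    (S : Sylow p (Matrix.symplecticGroup (Fin m) F)) (e : Fin m ⊕ Fin m → F) (he0 : e ≠ 0)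
    (hZ : TZ p (S.mapSurjective prS_surjective) e)
    (s : Matrix.symplecticGroup (Fin m) F)
    (hs : s ∈ (S : Subgroup (Matrix.symplecticGroup (Fin m) F))) : sact s e = e := by
  have h1 := (hZ _ (tv_mem_Tb e 1)).2 (prS s) (by
    rw [Sylow.coe_mapSurjective]; exact Subgroup.mem_map_of_mem _ hs)
  have h2 : (QuotientGroup.mk (s * spTv m e 1 * s⁻¹) : Cfsg.PSp m F)
      = QuotientGroup.mk (spTv m e 1) := by
    rw [← prS_mk, ← prS_mk, map_mul, map_mul, ← h1, map_inv, mul_inv_cancel_right]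
  have hconj : s * spTv m e 1 * s⁻¹ = spTv m (sact s e) 1 :=
    Cfsg.Agent.Helper5.spTv_conj s e 1
  rw [hconj] at h2
  have h3 := sp_lift_unique p e he0 _ _ (sroot_pelem p _ _ ⟨1, rfl⟩)
    (sroot_pelem p e _ ⟨1, rfl⟩) h2
  obtain ⟨l, hl0, hl⟩ := spTv_eq_point (sact s e) e 1 1 (sact_ne_zero s e he0) one_ne_zero h3
  obtain ⟨k, hk⟩ := syl_pelem S s hs
  have h4 := sact_pow_scalar s l e hl (p ^ k)
  rw [hk, sact_one] at h4
  have h5 : (l ^ (p ^ k) - 1) • e = 0 := by rw [sub_smul, one_smul, ← h4, sub_self]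
  have h6 : l ^ (p ^ k) = 1 := by
    rcases smul_eq_zero.1 h5 with h | h
    · linear_combination h
    · exact absurd h he0
  rw [hl, sf_pow_char p l k h6, one_smul]

theorem Ub_le_of_TZ (p : ℕ) [Fact p.Prime] [CharP F p]
    (Sb : Sylow p (Cfsg.PSp m F)) (e : Fin m ⊕ Fin m → F) (he0 : e ≠ 0)
    (hZ : TZ p Sb e) : Ub e ≤ (Sb : Subgroup (Cfsg.PSp m F)) := by
  obtain ⟨S, rfl⟩ := Sylow.mapSurjective_surjective prS_surjective p Sb
  exact (sylow_bar p S e (fun s hs => fix_of_TZ p S e he0 hZ s hs)).2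

/-- a Sylow `p`-subgroup of `Sp` fixing a given non-zero vector -/
theorem exists_sylow_fix (p : ℕ) [Fact p.Prime] [CharP F p]
    (hm : 1 ≤ m) (v : Fin m ⊕ Fin m → F) (hv0 : v ≠ 0) :
    ∃ S : Sylow p (Matrix.symplecticGroup (Fin m) F),
      ∀ s ∈ (S : Subgroup (Matrix.symplecticGroup (Fin m) F)), sact s v = v := by
  obtain ⟨S₀⟩ := (Sylow.nonempty : Nonempty (Sylow p (Matrix.symplecticGroup (Fin m) F)))
  obtain ⟨e₀, he₀0, hfix⟩ := sp_fix_vec p hm (S₀ : Subgroup (Matrix.symplecticGroup (Fin m) F)) S₀.isPGroup'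
  obtain ⟨g, hg⟩ := Cfsg.Agent.Helper5.symp_transitive e₀ v he₀0 hv0
  have hg' : sact g e₀ = v := hg
  refine ⟨g • S₀, fun s hs => ?_⟩
  obtain ⟨t, ht, rfl⟩ := (syl_conj_mem g s S₀).1 hs
  rw [sact_mul, sact_mul, ← hg', sact_inv_sact, hfix t ht]

/-- **in odd characteristic every automorphism of `PSp` permutes the images of the root
subgroups** -/
theorem rel_exists_odd (h2 : (2 : F) ≠ 0) (p : ℕ) [Fact p.Prime] [CharP F p]
    (hm : 1 ≤ m) (α : MulAut (Cfsg.PSp m F))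
    (v : Fin m ⊕ Fin m → F) (hv0 : v ≠ 0) :
    ∃ v' : Fin m ⊕ Fin m → F, v' ≠ 0 ∧ (Tb v).map α.toMonoidHom = Tb v' := by
  obtain ⟨S₂, hS₂⟩ := exists_sylow_fix p hm v hv0
  have hZ₂ := sylow_bar_odd h2 p S₂ v hv0 hS₂
  obtain ⟨S₃, hS₃⟩ := Sylow.mapSurjective_surjective prS_surjective p
    (α • S₂.mapSurjective prS_surjective)
  obtain ⟨e₃, he₃0, hfix₃⟩ := sp_fix_vec p hm (S₃ : Subgroup (Matrix.symplecticGroup (Fin m) F)) S₃.isPGroup'
  have hZ₃ := sylow_bar_odd h2 p S₃ e₃ he₃0 hfix₃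
  rw [hS₃] at hZ₃
  refine ⟨e₃, he₃0, ?_⟩
  ext x
  rw [← hZ₃ x, Subgroup.mem_map]
  constructor
  · rintro ⟨y, hy, rfl⟩
    obtain ⟨hy1, hy2⟩ := (hZ₂ y).2 hy
    refine ⟨(syl_aut_mem α _ _).2 ⟨y, hy1, rfl⟩, fun z hz => ?_⟩
    obtain ⟨t, ht, rfl⟩ := (syl_aut_mem α _ _).1 hz
    show α y * α t = α t * α y
    rw [← map_mul, ← map_mul, hy2 t ht]
  · rintro ⟨hx1, hx2⟩
    obtain ⟨y, hy, rfl⟩ := (syl_aut_mem α _ _).1 hx1
    refine ⟨y, (hZ₂ y).1 ⟨hy, fun t ht => ?_⟩, rfl⟩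
    have h1 := hx2 (α t) ((syl_aut_mem α _ _).2 ⟨t, ht, rfl⟩)
    rw [← map_mul, ← map_mul] at h1
    exact α.injective h1

/-- auxiliary subgroup for `Ub_char` -/
def N0 (S₁ : Subgroup (Matrix.symplecticGroup (Fin m) F)) (e f : Fin m ⊕ Fin m → F) :
    Subgroup (Matrix.symplecticGroup (Fin m) F) where
  carrier := {y | sact y f = f ∧
    ∀ g : Matrix.symplecticGroup (Fin m) F, sact g e = e → g⁻¹ * y * g ∈ S₁}
  one_mem' := ⟨sact_one f, fun g _ => by rw [mul_one, inv_mul_cancel]; exact S₁.one_mem⟩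
  mul_mem' := by
    rintro a b ⟨ha1, ha2⟩ ⟨hb1, hb2⟩
    refine ⟨by rw [sact_mul, hb1, ha1], fun g hg => ?_⟩
    have h : g⁻¹ * (a * b) * g = (g⁻¹ * a * g) * (g⁻¹ * b * g) := by group
    rw [h]
    exact S₁.mul_mem (ha2 g hg) (hb2 g hg)
  inv_mem' := by
    rintro a ⟨ha1, ha2⟩
    refine ⟨sact_inv_fix a f ha1, fun g hg => ?_⟩
    have h : g⁻¹ * a⁻¹ * g = (g⁻¹ * a * g)⁻¹ := by group
    rw [h]
    exact S₁.inv_mem (ha2 g hg)

/-- the image of the Siegel group is the intersection of the Sylow subgroups having the image of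
the root subgroup in their centre -/
theorem Ub_char (p : ℕ) [Fact p.Prime] [CharP F p] (hm : 1 ≤ m)
    {e f r s : Fin m ⊕ Fin m → F} (hfr : SFrame e f r s) (x : Cfsg.PSp m F)
    (hx : ∀ Sb : Sylow p (Cfsg.PSp m F), TZ p Sb e →
      x ∈ (Sb : Subgroup (Cfsg.PSp m F))) : x ∈ Ub e := by
  have he0 := hfr.e_ne
  obtain ⟨S₁, hS₁⟩ := exists_sylow_fix p hm e he0
  obtain ⟨hZ₁, hU₁⟩ := sylow_bar p S₁ e hS₁
  obtain ⟨hUS, -⟩ := sp_sylow_sub p S₁ e hS₁
  have hx1 := hx _ hZ₁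
  rw [Sylow.coe_mapSurjective, Subgroup.mem_map] at hx1
  obtain ⟨x₀, hx₀, rfl⟩ := hx1
  have h3 : ∀ g : Matrix.symplecticGroup (Fin m) F, sact g e = e →
      g⁻¹ * x₀ * g ∈ (S₁ : Subgroup (Matrix.symplecticGroup (Fin m) F)) := by
    intro g hg
    have hfix : ∀ s ∈ ((g • S₁ : Sylow p (Matrix.symplecticGroup (Fin m) F)) :
        Subgroup (Matrix.symplecticGroup (Fin m) F)), sact s e = e := by
      intro s hs
      obtain ⟨t, ht, rfl⟩ := (syl_conj_mem g s S₁).1 hs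
      rw [sact_mul, sact_mul, sact_inv_fix g e hg, hS₁ t ht, hg]
    obtain ⟨hZg, -⟩ := sylow_bar p (g • S₁) e hfix
    have h4 := hx _ hZg
    rw [Sylow.coe_mapSurjective, Subgroup.mem_map] at h4
    obtain ⟨y, hy, hyx⟩ := h4
    have h5 : y = x₀ := sp_lift_unique p e he0 y x₀ (syl_pelem _ y hy)
      (syl_pelem _ x₀ hx₀) hyx
    rw [h5] at hy
    obtain ⟨t, ht, hxt⟩ := (syl_conj_mem g x₀ S₁).1 hy
    have h6 : g⁻¹ * x₀ * g = t := by rw [hxt]; group
    rw [h6]; exact ht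
  have hx₀e : sact x₀ e = e := hS₁ x₀ hx₀
  obtain ⟨u, hu, huf⟩ := ssg_trans e f (sact x₀ f) hfr.ef
    (by
      calc ⟪e, sact x₀ f⟫ = ⟪sact x₀ e, sact x₀ f⟫ := by rw [hx₀e]
        _ = 1 := by rw [sact_form]; exact hfr.ef)
  have hy₀ : u⁻¹ * x₀ ∈ N0 (S₁ : Subgroup (Matrix.symplecticGroup (Fin m) F)) e f := by
    refine ⟨?_, fun g hg => ?_⟩
    · rw [sact_mul, ← huf, sact_inv_sact]
    · have h7 : g⁻¹ * (u⁻¹ * x₀) * g = (g⁻¹ * u * g)⁻¹ * (g⁻¹ * x₀ * g) := by group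
      rw [h7]
      refine Subgroup.mul_mem _ (Subgroup.inv_mem _ (hUS ?_)) (h3 g hg)
      have h8 := USg_conj g⁻¹ e
      rw [sact_inv_fix g e hg] at h8
      rw [← h8]
      have h9 : g⁻¹ * u * g = MulAut.conj g⁻¹ • u := by
        rw [MulAut.smul_def, MulAut.conj_apply, inv_inv]
      rw [h9]
      exact Subgroup.smul_mem_pointwise_smul _ _ _ hu
  have hN0le : N0 (S₁ : Subgroup (Matrix.symplecticGroup (Fin m) F)) e f
      ≤ (S₁ : Subgroup (Matrix.symplecticGroup (Fin m) F)) := by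
    intro y hy
    have := hy.2 1 (sact_one e)
    simpa using this
  have hN0p : IsPGroup p (N0 (S₁ : Subgroup (Matrix.symplecticGroup (Fin m) F)) e f) :=
    S₁.isPGroup'.to_le hN0le
  obtain ⟨w₀, hw₀W, hw₀0, hw₀fix⟩ := sp_fix_sub p _ hN0p (perpS e ⊓ perpS f) (by
      intro t ht y hy
      rw [Submodule.mem_inf, mem_perpS, mem_perpS] at hy ⊢
      have hse : sact t e = e := hS₁ t (hN0le ht)
      have hsf : sact t f = f := ht.1
      constructor
      · calc ⟪sact t y, e⟫ = ⟪sact t y, sact t e⟫ := by rw [hse]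
          _ = 0 := by rw [sact_form]; exact hy.1
      · calc ⟪sact t y, f⟫ = ⟪sact t y, sact t f⟫ := by rw [hsf]
          _ = 0 := by rw [sact_form]; exact hy.2) (by
      intro h
      have hd : r ∈ perpS e ⊓ perpS f := by
        rw [Submodule.mem_inf, mem_perpS, mem_perpS]; exact ⟨hfr.re, hfr.rf⟩
      rw [h, Submodule.mem_bot] at hd
      exact hfr.r_ne hd)
  let X : Submodule F (Fin m ⊕ Fin m → F) :=
    { carrier := {v | ∀ y ∈ N0 (S₁ : Subgroup (Matrix.symplecticGroup (Fin m) F)) e f,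
        sact y v = v}
      add_mem' := fun {a b} ha hb y hy => by rw [sact_add, ha y hy, hb y hy]
      zero_mem' := fun y _ => sact_zero y
      smul_mem' := fun c v hv y hy => by rw [sact_smul, hv y hy] }
  have hXW : ∀ w : Fin m ⊕ Fin m → F, ⟪w, e⟫ = 0 → ⟪w, f⟫ = 0 → w ∈ X := by
    intro w hwe hwf
    rw [Submodule.mem_inf, mem_perpS, mem_perpS] at hw₀W
    refine W_irr hfr.ef X ?_ w₀ hw₀fix hw₀0 hw₀W.1 hw₀W.2 w hwe hwf
    intro r' a hre hrf v hv y hy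
    have hke : sact (spTv m r' a) e = e := by
      rw [sact_tv, sf_swap_zero hre, mul_zero, zero_smul, add_zero]
    have hkf : sact (spTv m r' a) f = f := by
      rw [sact_tv, sf_swap_zero hrf, mul_zero, zero_smul, add_zero]
    have hk : (spTv m r' a)⁻¹ * y * spTv m r' a
        ∈ N0 (S₁ : Subgroup (Matrix.symplecticGroup (Fin m) F)) e f := by
      refine ⟨?_, fun g hg => ?_⟩
      · rw [sact_mul, sact_mul, hkf, hy.1, sact_inv_fix _ f hkf]
      · have h10 : g⁻¹ * ((spTv m r' a)⁻¹ * y * spTv m r' a) * g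
            = (spTv m r' a * g)⁻¹ * y * (spTv m r' a * g) := by group
        rw [h10]
        exact hy.2 _ (by rw [sact_mul, hg, hke])
    have h11 := hv _ hk
    rw [sact_mul, sact_mul] at h11
    calc sact y (sact (spTv m r' a) v)
        = sact (spTv m r' a) (sact (spTv m r' a)⁻¹ (sact y (sact (spTv m r' a) v))) := by
          rw [sact_sact_inv]
      _ = sact (spTv m r' a) v := by rw [h11]
  have hy₀1 : u⁻¹ * x₀ = 1 := by
    rw [sact_eq_iff]
    intro v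
    have hdec := wproj_decomp (e := e) (f := f) v
    have hye : sact (u⁻¹ * x₀) e = e := hS₁ _ (hN0le hy₀)
    have hyf : sact (u⁻¹ * x₀) f = f := hy₀.1
    rw [sact_one]
    calc sact (u⁻¹ * x₀) v
        = sact (u⁻¹ * x₀) (⟪v, f⟫ • e + (-⟪v, e⟫) • f + wproj e f v) := by rw [← hdec]
      _ = ⟪v, f⟫ • e + (-⟪v, e⟫) • f + wproj e f v := by
          rw [sact_add, sact_add, sact_smul, sact_smul, hye, hyf,
            hXW _ (wproj_e hfr.ef v) (wproj_f hfr.ef v) _ hy₀]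
      _ = v := hdec.symm
  have hxu : x₀ = u := by
    calc x₀ = u * (u⁻¹ * x₀) := by group
      _ = u := by rw [hy₀1, mul_one]
  rw [hxu]
  exact Subgroup.mem_map_of_mem _ hu

/-- an automorphism fixing the image of the root subgroup of `e` maps the image of the Siegel
group of `e` into itself -/
theorem Ub_map (p : ℕ) [Fact p.Prime] [CharP F p] (hm : 1 ≤ m)
    {e f r s : Fin m ⊕ Fin m → F} (hfr : SFrame e f r s)
    (α : MulAut (Cfsg.PSp m F)) (hα : (Tb e).map α.toMonoidHom = Tb e)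
    (x : Cfsg.PSp m F) (hx : x ∈ Ub e) : α x ∈ Ub e := by
  have he0 := hfr.e_ne
  apply Ub_char p hm hfr
  intro Sb hZ
  have h3 : ∀ z : Cfsg.PSp m F, α⁻¹ (α z) = z := by
    intro z
    rw [← MulAut.mul_apply, inv_mul_cancel, MulAut.one_apply]
  have hZ' : TZ p (α⁻¹ • Sb) e := by
    intro y hy
    have hαy : α y ∈ Tb e := by rw [← hα]; exact Subgroup.mem_map_of_mem _ hy
    obtain ⟨h1, h2⟩ := hZ (α y) hαy
    refine ⟨(syl_aut_mem α⁻¹ y Sb).2 ⟨α y, h1, (h3 y).symm⟩, fun z hz => ?_⟩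
    obtain ⟨t, ht, rfl⟩ := (syl_aut_mem α⁻¹ z Sb).1 hz
    have h4 := h2 t ht
    have h5 : y = α⁻¹ (α y) := (h3 y).symm
    rw [h5, ← map_mul, ← map_mul, h4]
  have h1 := Ub_le_of_TZ p (α⁻¹ • Sb) e he0 hZ' hx
  obtain ⟨t, ht, rfl⟩ := (syl_aut_mem α⁻¹ x Sb).1 h1
  have h2 : α (α⁻¹ t) = t := by
    rw [← MulAut.mul_apply, mul_inv_cancel, MulAut.one_apply]
  rw [h2]; exact ht

end Fin

end Cfsg.Agent.Helper44.PSpn
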