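import Mathlib
import Cfsg.Agent.Helper44.SpD

/-!
# Automorphisms of `PSp_{2m}(q)` (helper44), part E: the action of an automorphism on points and
the map induced on `W ≅ USg e / sroot e`
-/

set_option autoImplicit false
set_option linter.unusedSimpArgs false
set_option linter.unusedSectionVars false
set_option linter.unusedVariables false

namespace Cfsg.Agent.Helper44.PSpn

open Matrix
open scoped Pointwise
open Cfsg.Agent.Helper13 (sympForm_add_left sympForm_add_right sympForm_smul_left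
  sympForm_smul_right sympForm_swap sympForm_self sympForm_zero_left sympForm_zero_right
  sympForm_neg_left sympForm_neg_right sympForm_sub_left sympForm_sub_right)
open Cfsg.Agent.Helper5 (spTv spTv_mulVec sp_ext sp_sympForm sp_coe_one sp_mul_mulVec
  sp_inv_mulVec sp_mulVec_inv)

variable {F : Type*} [Field F] {m : ℕ}

local notation "⟪" x ", " y "⟫" => Cfsg.sympForm m F x y

theorem Tb_conj (x : Matrix.symplecticGroup (Fin m) F) (v : Fin m ⊕ Fin m → F) :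
    Tb (sact x v) = (Tb v).map (MulAut.conj (prS x)).toMonoidHom := by
  unfold Tb
  rw [← sroot_conj, Subgroup.map_map]
  ext y
  rw [Subgroup.mem_map, Subgroup.mem_map]
  constructor
  · rintro ⟨t, ht, rfl⟩
    rw [Subgroup.mem_smul_pointwise_iff_exists] at ht
    obtain ⟨t₀, ht₀, rfl⟩ := ht
    refine ⟨t₀, ht₀, ?_⟩
    show MulAut.conj (prS x) (prS t₀) = prS (MulAut.conj x • t₀)
    rw [MulAut.smul_def, MulAut.conj_apply, MulAut.conj_apply, map_mul, map_mul, map_inv]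
  · rintro ⟨t₀, ht₀, rfl⟩
    refine ⟨MulAut.conj x • t₀, Subgroup.smul_mem_pointwise_smul _ _ _ ht₀, ?_⟩
    show prS (MulAut.conj x • t₀) = MulAut.conj (prS x) (prS t₀)
    rw [MulAut.smul_def, MulAut.conj_apply, MulAut.conj_apply, map_mul, map_mul, map_inv]

theorem Tb_smul (l : F) (hl : l ≠ 0) (v : Fin m ⊕ Fin m → F) : Tb (l • v) = Tb v := by
  unfold Tb
  rw [sroot_smul l hl]

/-- equivariance of the action on points -/
theorem rel_conj (α : MulAut (Cfsg.PSp m F))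
    (x x' : Matrix.symplecticGroup (Fin m) F) (hL : α (prS x) = prS x')
    (v v' : Fin m ⊕ Fin m → F) (hv : (Tb v).map α.toMonoidHom = Tb v') :
    (Tb (sact x v)).map α.toMonoidHom = Tb (sact x' v') := by
  rw [Tb_conj, Tb_conj, ← hv, Subgroup.map_map, Subgroup.map_map]
  congr 1
  ext z
  show α (MulAut.conj (prS x) z) = MulAut.conj (prS x') (α z)
  rw [MulAut.conj_apply, MulAut.conj_apply, map_mul, map_mul, map_inv, hL]

theorem rel_inv (α : MulAut (Cfsg.PSp m F)) (v v' : Fin m ⊕ Fin m → F)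
    (hv : (Tb v).map α.toMonoidHom = Tb v') :
    (Tb v').map (α⁻¹).toMonoidHom = Tb v := by
  rw [← hv, Subgroup.map_map]
  have h : (α⁻¹).toMonoidHom.comp α.toMonoidHom = MonoidHom.id _ := by
    ext z
    show α⁻¹ (α z) = z
    rw [← MulAut.mul_apply, inv_mul_cancel, MulAut.one_apply]
  rw [h, Subgroup.map_id]

theorem rel_mul (α β : MulAut (Cfsg.PSp m F)) (v v' v'' : Fin m ⊕ Fin m → F)
    (hv : (Tb v).map α.toMonoidHom = Tb v') (hv' : (Tb v').map β.toMonoidHom = Tb v'') :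
    (Tb v).map (β * α).toMonoidHom = Tb v'' := by
  rw [← hv', ← hv, Subgroup.map_map]
  rfl

/-- lifts of elements fixing a point fix the image point -/
theorem lift_line (p : ℕ) [Fact p.Prime] [CharP F p] (α : MulAut (Cfsg.PSp m F))
    (v v' : Fin m ⊕ Fin m → F) (hv'0 : v' ≠ 0)
    (hα : (Tb v).map α.toMonoidHom = Tb v')
    (x x' : Matrix.symplecticGroup (Fin m) F) (hL : α (prS x) = prS x') (l : F) (hl : l ≠ 0)
    (hx : sact x v = l • v) : ∃ l' : F, l' ≠ 0 ∧ sact x' v' = l' • v' := by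
  have h1 := rel_conj α x x' hL v v' hα
  rw [hx, Tb_smul l hl, hα] at h1
  exact Tb_eq p (sact x' v') v' (sact_ne_zero x' v' hv'0) h1.symm

/-- root subgroups with orthogonal centres commute -/
theorem tv_comm_of_perp (v w : Fin m ⊕ Fin m → F) (c c' : F) (hvw : ⟪v, w⟫ = 0) :
    spTv m v c * spTv m w c' = spTv m w c' * spTv m v c := by
  have h1 : spTv m v c * spTv m w c' * (spTv m v c)⁻¹ = spTv m (sact (spTv m v c) w) c' :=
    Cfsg.Agent.Helper5.spTv_conj (spTv m v c) w c'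
  rw [sact_tv, sf_swap_zero hvw, mul_zero, zero_smul, add_zero] at h1
  calc spTv m v c * spTv m w c' = (spTv m v c * spTv m w c' * (spTv m v c)⁻¹) * spTv m v c := by
        group
    _ = spTv m w c' * spTv m v c := by rw [h1]

/-- the images of two root subgroups commute only if the centres are orthogonal -/
theorem perp_of_comm (p : ℕ) [Fact p.Prime] [CharP F p]
    (v w : Fin m ⊕ Fin m → F) (hv0 : v ≠ 0) (hw0 : w ≠ 0)
    (h : ∀ a ∈ Tb v, ∀ b ∈ Tb w, a * b = b * a) : ⟪v, w⟫ = 0 := by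
  have h1 := h (prS (spTv m v 1)) (tv_mem_Tb v 1) (prS (spTv m w 1)) (tv_mem_Tb w 1)
  have h2 : (QuotientGroup.mk (spTv m v 1 * spTv m w 1 * (spTv m v 1)⁻¹) : Cfsg.PSp m F)
      = QuotientGroup.mk (spTv m w 1) := by
    rw [← prS_mk, ← prS_mk, map_mul, map_mul, h1, map_inv, mul_inv_cancel_right]
  have hconj : spTv m v 1 * spTv m w 1 * (spTv m v 1)⁻¹ = spTv m (sact (spTv m v 1) w) 1 :=
    Cfsg.Agent.Helper5.spTv_conj (spTv m v 1) w 1
  rw [hconj] at h2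
  have h3 := sp_lift_unique p v hv0 _ _ (sroot_pelem p _ _ ⟨1, rfl⟩)
    (sroot_pelem p w _ ⟨1, rfl⟩) h2
  have h4 : sact (spTv m (sact (spTv m v 1) w) 1) w = sact (spTv m w 1) w := by rw [h3]
  rw [sact_tv, sact_tv, sact_tv, sympForm_self, mul_zero, zero_smul, add_zero] at h4
  have h5 : (1 * ⟪w, w + (1 * ⟪w, v⟫) • v⟫) • (w + (1 * ⟪w, v⟫) • v) = 0 := by
    have := h4
    rwa [add_eq_left] at this
  rw [sympForm_add_right, sympForm_smul_right, sympForm_self] at h5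
  by_contra hne
  have hwv : ⟪w, v⟫ ≠ 0 := sf_swap_ne hne
  rcases smul_eq_zero.1 h5 with h6 | h6
  · have : ⟪w, v⟫ * ⟪w, v⟫ = 0 := by linear_combination h6
    rcases mul_eq_zero.1 this with h7 | h7 <;> exact hwv h7
  · have h7 : ⟪w + (1 * ⟪w, v⟫) • v, v⟫ = 0 := by rw [h6, sympForm_zero_left]
    rw [sympForm_add_left, sympForm_smul_left, sympForm_self, mul_zero, add_zero] at h7
    exact hwv h7

/-- automorphisms preserve orthogonality of points -/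
theorem rel_perp (p : ℕ) [Fact p.Prime] [CharP F p]
    (α : MulAut (Cfsg.PSp m F)) (v v' w w' : Fin m ⊕ Fin m → F)
    (hv'0 : v' ≠ 0) (hw'0 : w' ≠ 0)
    (hαv : (Tb v).map α.toMonoidHom = Tb v') (hαw : (Tb w).map α.toMonoidHom = Tb w')
    (hvw : ⟪v, w⟫ = 0) : ⟪v', w'⟫ = 0 := by
  apply perp_of_comm p v' w' hv'0 hw'0
  intro a ha b hb
  rw [← hαv, Subgroup.mem_map] at ha
  rw [← hαw, Subgroup.mem_map] at hb
  obtain ⟨a₀, ha₀, rfl⟩ := ha
  obtain ⟨b₀, hb₀, rfl⟩ := hb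
  obtain ⟨s, ⟨c, rfl⟩, rfl⟩ := (mem_Tb v a₀).1 ha₀
  obtain ⟨t, ⟨c', rfl⟩, rfl⟩ := (mem_Tb w b₀).1 hb₀
  show α (prS (spTv m v c)) * α (prS (spTv m w c')) = α (prS (spTv m w c')) * α (prS (spTv m v c))
  rw [← map_mul, ← map_mul, ← map_mul, ← map_mul, tv_comm_of_perp v w c c' hvw]

/-- **normalisation**: after composing with an inner automorphism, an automorphism permuting the
images of the root subgroups fixes the images of the root subgroups of `e` and of `f`. -/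
theorem exists_normalize (p : ℕ) [Fact p.Prime] [CharP F p]
    {e f r s : Fin m ⊕ Fin m → F} (hfr : SFrame e f r s)
    (α : MulAut (Cfsg.PSp m F))
    (hrel : ∀ v : Fin m ⊕ Fin m → F, v ≠ 0 →
      ∃ v' : Fin m ⊕ Fin m → F, v' ≠ 0 ∧ (Tb v).map α.toMonoidHom = Tb v') :
    ∃ g : Matrix.symplecticGroup (Fin m) F,
      (Tb e).map (MulAut.conj (prS g) * α).toMonoidHom = Tb e ∧
      (Tb f).map (MulAut.conj (prS g) * α).toMonoidHom = Tb f := by
  have he0 := hfr.e_ne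
  have hf0 := hfr.f_ne
  obtain ⟨e', he'0, hαe⟩ := hrel e he0
  obtain ⟨f', hf'0, hαf⟩ := hrel f hf0
  have hef' : ⟪e', f'⟫ ≠ 0 := by
    intro h
    have h1 := rel_perp p α⁻¹ e' e f' f he0 hf0 (rel_inv α e e' hαe) (rel_inv α f f' hαf) h
    rw [hfr.ef] at h1
    exact one_ne_zero h1
  obtain ⟨g, -, hge, hgf⟩ := Cfsg.Agent.Helper13.sp_trans_pairs e' ((⟪e', f'⟫)⁻¹ • f') e f
    (by rw [sympForm_smul_right, inv_mul_cancel₀ hef']) hfr.ef
  have hge' : sact g e' = e := hge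
  have hgf' : sact g ((⟪e', f'⟫)⁻¹ • f') = f := hgf
  refine ⟨g, ?_, ?_⟩
  · have := rel_mul α (MulAut.conj (prS g)) e e' (sact g e') hαe (Tb_conj g e').symm
    rw [hge'] at this
    exact this
  · have h1 : (Tb f').map (MulAut.conj (prS g)).toMonoidHom = Tb f := by
      rw [← Tb_smul (⟪e', f'⟫)⁻¹ (inv_ne_zero hef') f', ← Tb_conj, hgf']
    exact rel_mul α (MulAut.conj (prS g)) f f' f hαf h1

/-! ### the map induced on `W` -/

/-- elements fixing the points `⟨e⟩`, `⟨f⟩` preserve `W` -/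
theorem W_sact (k : Matrix.symplecticGroup (Fin m) F) (e f : Fin m ⊕ Fin m → F) (a c : F)
    (y : Fin m ⊕ Fin m → F) (ha : a ≠ 0) (hc : c ≠ 0) (hke : sact k e = a • e)
    (hkf : sact k f = c • f) (hye : ⟪y, e⟫ = 0) (hyf : ⟪y, f⟫ = 0) :
    ⟪sact k y, e⟫ = 0 ∧ ⟪sact k y, f⟫ = 0 := by
  have h1 := sact_form k y e
  have h2 := sact_form k y f
  rw [hke, sympForm_smul_right, hye] at h1
  rw [hkf, sympForm_smul_right, hyf] at h2
  constructor
  · rcases mul_eq_zero.1 h1 with h | h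
    · exact absurd h ha
    · exact h
  · rcases mul_eq_zero.1 h2 with h | h
    · exact absurd h hc
    · exact h

/-- images of transvections are transvections -/
theorem exists_lift_tv (α : MulAut (Cfsg.PSp m F)) (v v' : Fin m ⊕ Fin m → F)
    (hv : (Tb v).map α.toMonoidHom = Tb v') (c : F) :
    ∃ c' : F, α (prS (spTv m v c)) = prS (spTv m v' c') := by
  have h1 : α (prS (spTv m v c)) ∈ Tb v' := by
    rw [← hv]
    exact Subgroup.mem_map_of_mem _ (tv_mem_Tb v c)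
  obtain ⟨t, ⟨c', rfl⟩, ht⟩ := (mem_Tb v' _).1 h1
  exact ⟨c', ht.symm⟩

section lifts

variable [Fintype F]

theorem exists_lift_ssg (p : ℕ) [Fact p.Prime] [CharP F p] (hm : 1 ≤ m)
    {e f r s : Fin m ⊕ Fin m → F} (hfr : SFrame e f r s) (α : MulAut (Cfsg.PSp m F))
    (hαe : (Tb e).map α.toMonoidHom = Tb e) (w : Fin m ⊕ Fin m → F) (b : F)
    (hwe : ⟪w, e⟫ = 0) :
    ∃ (w' : Fin m ⊕ Fin m → F) (b' : F), (⟪w', e⟫ = 0 ∧ ⟪w', f⟫ = 0) ∧
      α (prS (ssg e w b)) = prS (ssg e w' b') := by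
  have h1 := Ub_map p hm hfr α hαe (prS (ssg e w b))
    (Subgroup.mem_map_of_mem _ ⟨w, b, hwe, rfl⟩)
  obtain ⟨u', hu', hu⟩ := (mem_Ub e _).1 h1
  obtain ⟨w', b', h2, h3, rfl⟩ := (mem_USg_iff e f hfr.ef u').1 hu'
  exact ⟨w', b', ⟨h2, h3⟩, hu.symm⟩

/-- the map induced by `α` on `W` -/
noncomputable def Abar (e f : Fin m ⊕ Fin m → F) (α : MulAut (Cfsg.PSp m F))
    (w : Fin m ⊕ Fin m → F) : Fin m ⊕ Fin m → F :=
  open Classical in
  if h : ∃ w' : Fin m ⊕ Fin m → F, ∃ b b' : F,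
      (Cfsg.sympForm m F w e = 0 ∧ Cfsg.sympForm m F w f = 0) ∧
      (Cfsg.sympForm m F w' e = 0 ∧ Cfsg.sympForm m F w' f = 0) ∧
      α (prS (ssg e w b)) = prS (ssg e w' b') then Classical.choose h else 0

theorem Abar_eq (p : ℕ) [Fact p.Prime] [CharP F p] {e f r s : Fin m ⊕ Fin m → F}
    (hfr : SFrame e f r s) (α : MulAut (Cfsg.PSp m F))
    (hαe : (Tb e).map α.toMonoidHom = Tb e) (w w' : Fin m ⊕ Fin m → F) (b b' : F)
    (hw : ⟪w, e⟫ = 0 ∧ ⟪w, f⟫ = 0) (hw' : ⟪w', e⟫ = 0 ∧ ⟪w', f⟫ = 0)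
    (h : α (prS (ssg e w b)) = prS (ssg e w' b')) : Abar e f α w = w' := by
  have he0 := hfr.e_ne
  have hex : ∃ w' : Fin m ⊕ Fin m → F, ∃ b b' : F,
      (Cfsg.sympForm m F w e = 0 ∧ Cfsg.sympForm m F w f = 0) ∧
      (Cfsg.sympForm m F w' e = 0 ∧ Cfsg.sympForm m F w' f = 0) ∧
      α (prS (ssg e w b)) = prS (ssg e w' b') := ⟨w', b, b', hw, hw', h⟩
  unfold Abar
  rw [dif_pos hex]
  obtain ⟨b₁, b₁', h1, h2, h3⟩ := Classical.choose_spec hex
  have h4 := ssg_mul_tv e w b₁ (b - b₁) hw.1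
  obtain ⟨c', h5⟩ := exists_lift_tv α e e hαe (b - b₁)
  have h7 := ssg_mul_tv e (Classical.choose hex) b₁' c' h2.1
  have h8 : (QuotientGroup.mk (ssg e w' b') : Cfsg.PSp m F)
      = QuotientGroup.mk (ssg e (Classical.choose hex) (b₁' + c')) := by
    rw [← prS_mk, ← prS_mk, ← h, ← h7, map_mul, ← h3, ← h5, ← map_mul, ← map_mul, h4]
    congr 3
    ring
  have h9 := sp_lift_unique p e he0 _ _
    (USg_pelem p e _ ⟨w', b', hw'.1, rfl⟩)
    (USg_pelem p e _ ⟨_, _, h2.1, rfl⟩) h8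
  exact (ssg_inj e f _ _ _ _ hfr.ef hw'.1 hw'.2 h2.1 h2.2 h9).1.symm

theorem Abar_spec (p : ℕ) [Fact p.Prime] [CharP F p] (hm : 1 ≤ m)
    {e f r s : Fin m ⊕ Fin m → F} (hfr : SFrame e f r s) (α : MulAut (Cfsg.PSp m F))
    (hαe : (Tb e).map α.toMonoidHom = Tb e) (w : Fin m ⊕ Fin m → F) (b : F)
    (hwe : ⟪w, e⟫ = 0) (hwf : ⟪w, f⟫ = 0) :
    ∃ b' : F, (⟪Abar e f α w, e⟫ = 0 ∧ ⟪Abar e f α w, f⟫ = 0) ∧
      α (prS (ssg e w b)) = prS (ssg e (Abar e f α w) b') := by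
  obtain ⟨w', b', h1, h2⟩ := exists_lift_ssg p hm hfr α hαe w b hwe
  rw [Abar_eq p hfr α hαe w w' b b' ⟨hwe, hwf⟩ h1 h2]
  exact ⟨b', h1, h2⟩

theorem Abar_mem (p : ℕ) [Fact p.Prime] [CharP F p] (hm : 1 ≤ m)
    {e f r s : Fin m ⊕ Fin m → F} (hfr : SFrame e f r s) (α : MulAut (Cfsg.PSp m F))
    (hαe : (Tb e).map α.toMonoidHom = Tb e) (w : Fin m ⊕ Fin m → F)
    (hwe : ⟪w, e⟫ = 0) (hwf : ⟪w, f⟫ = 0) :
    ⟪Abar e f α w, e⟫ = 0 ∧ ⟪Abar e f α w, f⟫ = 0 := by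
  obtain ⟨b', h1, -⟩ := Abar_spec p hm hfr α hαe w 0 hwe hwf
  exact h1

theorem Abar_add (p : ℕ) [Fact p.Prime] [CharP F p] (hm : 1 ≤ m)
    {e f r s : Fin m ⊕ Fin m → F} (hfr : SFrame e f r s) (α : MulAut (Cfsg.PSp m F))
    (hαe : (Tb e).map α.toMonoidHom = Tb e) (w₁ w₂ : Fin m ⊕ Fin m → F)
    (hw₁e : ⟪w₁, e⟫ = 0) (hw₁f : ⟪w₁, f⟫ = 0) (hw₂e : ⟪w₂, e⟫ = 0) (hw₂f : ⟪w₂, f⟫ = 0) :
    Abar e f α (w₁ + w₂) = Abar e f α w₁ + Abar e f α w₂ := by
  obtain ⟨b₁', h1, h1'⟩ := Abar_spec p hm hfr α hαe w₁ 0 hw₁e hw₁f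
  obtain ⟨b₂', h2, h2'⟩ := Abar_spec p hm hfr α hαe w₂ 0 hw₂e hw₂f
  have h5 := ssg_mul e w₁ w₂ 0 0 hw₁e hw₂e
  have h8 := ssg_mul e _ _ b₁' b₂' h1.1 h2.1
  apply Abar_eq p hfr α hαe (w₁ + w₂) _ _ _
    ⟨by rw [sympForm_add_left, hw₁e, hw₂e, add_zero],
      by rw [sympForm_add_left, hw₁f, hw₂f, add_zero]⟩
    ⟨by rw [sympForm_add_left, h1.1, h2.1, add_zero],
      by rw [sympForm_add_left, h1.2, h2.2, add_zero]⟩
  rw [← h5, ← h8, map_mul, map_mul, map_mul, h1', h2']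

theorem Abar_zero (p : ℕ) [Fact p.Prime] [CharP F p] {e f r s : Fin m ⊕ Fin m → F}
    (hfr : SFrame e f r s) (α : MulAut (Cfsg.PSp m F))
    (hαe : (Tb e).map α.toMonoidHom = Tb e) : Abar e f α 0 = 0 := by
  have h0 : ⟪(0 : Fin m ⊕ Fin m → F), e⟫ = 0 ∧ ⟪(0 : Fin m ⊕ Fin m → F), f⟫ = 0 :=
    ⟨sympForm_zero_left _, sympForm_zero_left _⟩
  apply Abar_eq p hfr α hαe 0 0 0 0 h0 h0
  rw [ssg_one, map_one, map_one]

theorem Abar_inj (p : ℕ) [Fact p.Prime] [CharP F p] (hm : 1 ≤ m)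
    {e f r s : Fin m ⊕ Fin m → F} (hfr : SFrame e f r s) (α : MulAut (Cfsg.PSp m F))
    (hαe : (Tb e).map α.toMonoidHom = Tb e) (w : Fin m ⊕ Fin m → F)
    (hwe : ⟪w, e⟫ = 0) (hwf : ⟪w, f⟫ = 0) (h : Abar e f α w = 0) : w = 0 := by
  have he0 := hfr.e_ne
  obtain ⟨b', h1, h2⟩ := Abar_spec p hm hfr α hαe w 0 hwe hwf
  rw [h, ssg_zero] at h2
  have h3 : α (prS (ssg e w 0)) ∈ Tb e := by
    rw [h2]; exact tv_mem_Tb e b'
  rw [← hαe, Subgroup.mem_map] at h3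
  obtain ⟨t₀, ht₀, ht⟩ := h3
  have h4 : t₀ = prS (ssg e w 0) := α.injective ht
  obtain ⟨t, ⟨c, rfl⟩, ht'⟩ := (mem_Tb e t₀).1 ht₀
  rw [h4] at ht'
  have h5 := sp_lift_unique p e he0 _ _
    (sroot_pelem p e _ ⟨c, rfl⟩)
    (USg_pelem p e _ ⟨w, 0, hwe, rfl⟩) ht'
  rw [← ssg_zero] at h5
  exact (ssg_inj e f 0 w c 0 hfr.ef (sympForm_zero_left _) (sympForm_zero_left _)
    hwe hwf h5).1.symm

/-- equivariance of `Abar` under elements fixing the points `⟨e⟩` and `⟨f⟩` -/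
theorem Abar_conj (p : ℕ) [Fact p.Prime] [CharP F p] (hm : 1 ≤ m)
    {e f r s : Fin m ⊕ Fin m → F} (hfr : SFrame e f r s) (α : MulAut (Cfsg.PSp m F))
    (hαe : (Tb e).map α.toMonoidHom = Tb e)
    (l l' : Matrix.symplecticGroup (Fin m) F) (hL : α (prS l) = prS l')
    (lam kap lam' kap' : F)
    (hlam : lam ≠ 0) (hkap : kap ≠ 0) (hlam' : lam' ≠ 0) (hkap' : kap' ≠ 0)
    (hle : sact l e = lam • e) (hlf : sact l f = kap • f)
    (hle' : sact l' e = lam' • e) (hlf' : sact l' f = kap' • f)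
    (w : Fin m ⊕ Fin m → F) (hwe : ⟪w, e⟫ = 0) (hwf : ⟪w, f⟫ = 0) :
    Abar e f α (lam • sact l w) = lam' • sact l' (Abar e f α w) := by
  obtain ⟨b', h1, h2⟩ := Abar_spec p hm hfr α hαe w 0 hwe hwf
  obtain ⟨hlw1, hlw2⟩ := W_sact l e f lam kap w hlam hkap hle hlf hwe hwf
  obtain ⟨hlw1', hlw2'⟩ := W_sact l' e f lam' kap' _ hlam' hkap' hle' hlf' h1.1 h1.2
  have h5 := ssg_smul_left lam e (sact l w) 0 hlw1
  have h5' := ssg_smul_left lam' e (sact l' (Abar e f α w)) b' hlw1'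
  apply Abar_eq p hfr α hαe _ _ (lam * lam * 0) (lam' * lam' * b')
    ⟨by rw [sympForm_smul_left, hlw1, mul_zero], by rw [sympForm_smul_left, hlw2, mul_zero]⟩
    ⟨by rw [sympForm_smul_left, hlw1', mul_zero], by rw [sympForm_smul_left, hlw2', mul_zero]⟩
  rw [← h5, ← h5', ← hle, ← hle', ← ssg_conj, ← ssg_conj]
  simp only [map_mul, map_inv, hL, h2]

end lifts

end Cfsg.Agent.Helper44.PSpn
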