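import Mathlib
import Cfsg.Agent.Helper44.SpE

/-!
# Automorphisms of `PSp_{2m}(q)` (helper44), part F: torus elements; the induced map on `W` is
semilinear
-/

set_option autoImplicit false
set_option linter.unusedSimpArgs false
set_option linter.unusedSectionVars false
set_option linter.unusedVariables false

namespace Cfsg.Agent.Helper44.PSpn

open Matrix
open scoped Pointwise
open Cfsg.Agent.Helper13 (sympForm_add_left sympForm_add_right sympForm_smul_left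
  sympForm_smul_right sympForm_swap sympForm_self sympForm_zero_left sympForm_zero_right
  sympForm_neg_left sympForm_neg_right sympForm_sub_left sympForm_sub_right)
open Cfsg.Agent.Helper5 (spTv spTv_mulVec sp_ext sp_sympForm sp_coe_one sp_mul_mulVec
  sp_inv_mulVec sp_mulVec_inv)

variable {F : Type*} [Field F] {m : ℕ}

local notation "⟪" x ", " y "⟫" => Cfsg.sympForm m F x y

/-! ### torus elements -/

/-- the matrix of the hyperbolic rotation `e ↦ l e`, `f ↦ k f` -/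
def srotM (e f : Fin m ⊕ Fin m → F) (l k : F) : Matrix (Fin m ⊕ Fin m) (Fin m ⊕ Fin m) F :=
  1 + (l - 1) • srk1 e f - (k - 1) • srk1 f e

theorem srotM_mulVec (e f : Fin m ⊕ Fin m → F) (l k : F) (x : Fin m ⊕ Fin m → F) :
    srotM e f l k *ᵥ x = x + ((l - 1) * ⟪x, f⟫) • e - ((k - 1) * ⟪x, e⟫) • f := by
  unfold srotM
  rw [Matrix.sub_mulVec, Matrix.add_mulVec, Matrix.one_mulVec, Matrix.smul_mulVec,
    Matrix.smul_mulVec, srk1_mulVec, srk1_mulVec, smul_smul, smul_smul]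

theorem srotM_form (e f : Fin m ⊕ Fin m → F) (l k : F) (hef : ⟪e, f⟫ = 1) (hlk : l * k = 1)
    (x y : Fin m ⊕ Fin m → F) : ⟪srotM e f l k *ᵥ x, srotM e f l k *ᵥ y⟫ = ⟪x, y⟫ := by
  rw [srotM_mulVec, srotM_mulVec]
  have hfe := sf_swap_one hef
  simp only [sympForm_add_left, sympForm_add_right, sympForm_sub_left, sympForm_sub_right,
    sympForm_smul_left, sympForm_smul_right, sympForm_self, hef, hfe]
  rw [sympForm_swap e y, sympForm_swap f y]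
  linear_combination (⟪x, e⟫ * ⟪y, f⟫ - ⟪x, f⟫ * ⟪y, e⟫) * hlk

theorem exists_rot (e f : Fin m ⊕ Fin m → F) (l k : F) (hef : ⟪e, f⟫ = 1) (hlk : l * k = 1) :
    ∃ D : Matrix.symplecticGroup (Fin m) F,
      ∀ x, sact D x = x + ((l - 1) * ⟪x, f⟫) • e - ((k - 1) * ⟪x, e⟫) • f :=
  ⟨mkSp (srotM e f l k) (srotM_form e f l k hef hlk), fun x => srotM_mulVec e f l k x⟩

/-- torus elements: `e ↦ lam e`, `f ↦ lam' f`, `r ↦ kap r` -/
theorem exists_tor {e f r s : Fin m ⊕ Fin m → F} (hfr : SFrame e f r s)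
    (lam lam' kap kap' : F) (h1 : lam * lam' = 1) (h2 : kap * kap' = 1) :
    ∃ D : Matrix.symplecticGroup (Fin m) F, sact D e = lam • e ∧ sact D f = lam' • f ∧
      sact D r = kap • r := by
  obtain ⟨D₁, hD₁⟩ := exists_rot e f lam lam' hfr.ef h1
  obtain ⟨D₂, hD₂⟩ := exists_rot r s kap kap' hfr.rs h2
  have her := sf_swap_zero hfr.re
  have hes := sf_swap_zero hfr.se
  have hfr' := sf_swap_zero hfr.rf
  have hfs := sf_swap_zero hfr.sf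
  refine ⟨D₁ * D₂, ?_, ?_, ?_⟩
  · rw [sact_mul, hD₂, her, hes, mul_zero, mul_zero, zero_smul, zero_smul, add_zero, sub_zero,
      hD₁, hfr.ef, sympForm_self]
    module
  · rw [sact_mul, hD₂, hfr', hfs, mul_zero, mul_zero, zero_smul, zero_smul, add_zero, sub_zero,
      hD₁, hfr.fe, sympForm_self]
    module
  · rw [sact_mul, hD₂, hfr.rs, sympForm_self, mul_zero, zero_smul, sub_zero, hD₁]
    simp only [sympForm_add_left, sympForm_smul_left, hfr.re, hfr.rf, mul_zero, add_zero,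
      zero_smul, sub_zero]
    module

/-! ### semilinearity -/

/-- a map to a line which is additive and has all multipliers is given by a ring homomorphism -/
theorem sp_line_hom (r' : Fin m ⊕ Fin m → F) (hr' : r' ≠ 0)
    (B : F → Fin m ⊕ Fin m → F) (hB1 : B 1 = r') (hBadd : ∀ x y, B (x + y) = B x + B y)
    (hline : ∀ c, ∃ t : F, B c = t • r')
    (hmult : ∀ x : F, x ≠ 0 → ∃ μ : F, ∀ c, B (x * c) = μ • B c) :
    ∃ σ : F →+* F, ∀ c, B c = σ c • r' := by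
  choose θ hθ using hline
  have hinj : ∀ a b : F, a • r' = b • r' → a = b := by
    intro a b h
    have h1 : (a - b) • r' = 0 := by rw [sub_smul, h, sub_self]
    rcases smul_eq_zero.1 h1 with h2 | h2
    · exact sub_eq_zero.1 h2
    · exact absurd h2 hr'
  have h1 : θ 1 = 1 := by
    apply hinj
    rw [← hθ, hB1, one_smul]
  have hadd : ∀ x y, θ (x + y) = θ x + θ y := by
    intro x y
    apply hinj
    rw [← hθ, hBadd, hθ x, hθ y, add_smul]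
  have h0 : θ 0 = 0 := by
    have := hadd 0 0
    rw [add_zero] at this
    exact left_eq_add.1 this
  have hmul : ∀ x c : F, θ (x * c) = θ x * θ c := by
    intro x c
    by_cases hx : x = 0
    · rw [hx, zero_mul, h0, zero_mul]
    obtain ⟨μ, hμ⟩ := hmult x hx
    have h2 : ∀ c, θ (x * c) = μ * θ c := by
      intro c
      apply hinj
      rw [← hθ, hμ, hθ c, smul_smul]
    have h3 : θ x = μ := by
      have := h2 1
      rwa [mul_one, h1, mul_one] at this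
    rw [h2, h3]
  exact ⟨{ toFun := θ, map_one' := h1, map_mul' := hmul, map_zero' := h0, map_add' := hadd }, hθ⟩

section semi

variable [Fintype F]

/-- lifts of elements fixing the two points -/
theorem exists_lift_tor (p : ℕ) [Fact p.Prime] [CharP F p] {e f r s : Fin m ⊕ Fin m → F}
    (hfr : SFrame e f r s) (α : MulAut (Cfsg.PSp m F))
    (hαe : (Tb e).map α.toMonoidHom = Tb e) (hαf : (Tb f).map α.toMonoidHom = Tb f)
    (l : Matrix.symplecticGroup (Fin m) F) (lam kap : F) (hlam : lam ≠ 0) (hkap : kap ≠ 0)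
    (hle : sact l e = lam • e) (hlf : sact l f = kap • f) :
    ∃ (l' : Matrix.symplecticGroup (Fin m) F) (lam' kap' : F), lam' ≠ 0 ∧ kap' ≠ 0 ∧
      α (prS l) = prS l' ∧ sact l' e = lam' • e ∧ sact l' f = kap' • f := by
  obtain ⟨l', hl'⟩ := prS_surjective (α (prS l))
  obtain ⟨lam', h1, h2⟩ := lift_line p α e e hfr.e_ne hαe l l' hl'.symm lam hlam hle
  obtain ⟨kap', h3, h4⟩ := lift_line p α f f hfr.f_ne hαf l l' hl'.symm kap hkap hlf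
  exact ⟨l', lam', kap', h1, h3, hl'.symm, h2, h4⟩

/-- the transvection relation -/
theorem Abar_tv (p : ℕ) [Fact p.Prime] [CharP F p] (hm : 1 ≤ m)
    {e f r s : Fin m ⊕ Fin m → F} (hfr : SFrame e f r s) (α : MulAut (Cfsg.PSp m F))
    (hαe : (Tb e).map α.toMonoidHom = Tb e)
    (r₁ r₁' : Fin m ⊕ Fin m → F) (hre : ⟪r₁, e⟫ = 0) (hrf : ⟪r₁, f⟫ = 0)
    (hr'e : ⟪r₁', e⟫ = 0) (hr'f : ⟪r₁', f⟫ = 0)
    (hα : (Tb r₁).map α.toMonoidHom = Tb r₁') (a : F) :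
    ∃ a' : F, ∀ w : Fin m ⊕ Fin m → F, ⟪w, e⟫ = 0 → ⟪w, f⟫ = 0 →
      Abar e f α ((a * ⟪w, r₁⟫) • r₁) = (a' * ⟪Abar e f α w, r₁'⟫) • r₁' := by
  obtain ⟨a', h1⟩ := exists_lift_tv α r₁ r₁' hα a
  refine ⟨a', fun w hwe hwf => ?_⟩
  have h2 := Abar_conj p hm hfr α hαe (spTv m r₁ a) (spTv m r₁' a') h1 1 1 1 1
    one_ne_zero one_ne_zero one_ne_zero one_ne_zero
    (by rw [sact_tv, sf_swap_zero hre, mul_zero, zero_smul, add_zero, one_smul])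
    (by rw [sact_tv, sf_swap_zero hrf, mul_zero, zero_smul, add_zero, one_smul])
    (by rw [sact_tv, sf_swap_zero hr'e, mul_zero, zero_smul, add_zero, one_smul])
    (by rw [sact_tv, sf_swap_zero hr'f, mul_zero, zero_smul, add_zero, one_smul])
    w hwe hwf
  rw [one_smul, one_smul, sact_tv, sact_tv,
    Abar_add p hm hfr α hαe w _ hwe hwf (by rw [sympForm_smul_left, hre, mul_zero])
      (by rw [sympForm_smul_left, hrf, mul_zero])] at h2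
  exact add_left_cancel h2

/-- the image of a line of `W` -/
theorem Abar_line (p : ℕ) [Fact p.Prime] [CharP F p] (hm : 1 ≤ m)
    {e f r s : Fin m ⊕ Fin m → F} (hfr : SFrame e f r s) (α : MulAut (Cfsg.PSp m F))
    (hrel : ∀ v : Fin m ⊕ Fin m → F, v ≠ 0 →
      ∃ v' : Fin m ⊕ Fin m → F, v' ≠ 0 ∧ (Tb v).map α.toMonoidHom = Tb v')
    (hαe : (Tb e).map α.toMonoidHom = Tb e) (hαf : (Tb f).map α.toMonoidHom = Tb f)
    (r₁ : Fin m ⊕ Fin m → F) (hr0 : r₁ ≠ 0) (hre : ⟪r₁, e⟫ = 0) (hrf : ⟪r₁, f⟫ = 0) :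
    Abar e f α r₁ ≠ 0 ∧
    (Tb r₁).map α.toMonoidHom = Tb (Abar e f α r₁) ∧
    ∀ c : F, ∃ t : F, Abar e f α (c • r₁) = t • Abar e f α r₁ := by
  have he0 := hfr.e_ne
  have hf0 := hfr.f_ne
  obtain ⟨r', hr'0, hα⟩ := hrel r₁ hr0
  have hr'e : ⟪r', e⟫ = 0 := rel_perp p α r₁ r' e e hr'0 he0 hα hαe hre
  have hr'f : ⟪r', f⟫ = 0 := rel_perp p α r₁ r' f f hr'0 hf0 hα hαf hrf
  obtain ⟨a', h1⟩ := Abar_tv p hm hfr α hαe r₁ r' hre hrf hr'e hr'f hα 1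
  obtain ⟨s₁, hse, hsf, hrs⟩ := W_partner hfr.ef r₁ hr0 hre hrf
  have hsr := sf_swap_one hrs
  have hline : ∀ c : F, ∃ t : F, Abar e f α (c • r₁) = t • r' := by
    intro c
    have h2 := h1 ((-c) • s₁) (by rw [sympForm_smul_left, hse, mul_zero])
      (by rw [sympForm_smul_left, hsf, mul_zero])
    have h3 : 1 * ⟪(-c) • s₁, r₁⟫ = c := by
      rw [sympForm_smul_left, hsr]; ring
    rw [h3] at h2
    exact ⟨_, h2⟩
  have hAr0 : Abar e f α r₁ ≠ 0 := fun h => hr0 (Abar_inj p hm hfr α hαe r₁ hre hrf h)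
  obtain ⟨t₁, ht₁⟩ := hline 1
  rw [one_smul] at ht₁
  have ht₁0 : t₁ ≠ 0 := by
    rintro rfl
    rw [zero_smul] at ht₁
    exact hAr0 ht₁
  refine ⟨hAr0, ?_, ?_⟩
  · rw [ht₁, Tb_smul t₁ ht₁0, hα]
  · intro c
    obtain ⟨t, ht⟩ := hline c
    refine ⟨t / t₁, ?_⟩
    rw [ht, ht₁, smul_smul, div_mul_cancel₀ t ht₁0]

/-- multipliers on a line of `W` -/
theorem Abar_mult (p : ℕ) [Fact p.Prime] [CharP F p] (hm : 1 ≤ m)
    {e f r s : Fin m ⊕ Fin m → F} (hfr : SFrame e f r s) (α : MulAut (Cfsg.PSp m F))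
    (hrel : ∀ v : Fin m ⊕ Fin m → F, v ≠ 0 →
      ∃ v' : Fin m ⊕ Fin m → F, v' ≠ 0 ∧ (Tb v).map α.toMonoidHom = Tb v')
    (hαe : (Tb e).map α.toMonoidHom = Tb e) (hαf : (Tb f).map α.toMonoidHom = Tb f)
    (r₁ : Fin m ⊕ Fin m → F) (hr0 : r₁ ≠ 0) (hre : ⟪r₁, e⟫ = 0) (hrf : ⟪r₁, f⟫ = 0)
    (x : F) (hx : x ≠ 0) :
    ∃ μ : F, ∀ c : F, Abar e f α ((x * c) • r₁) = μ • Abar e f α (c • r₁) := by
  obtain ⟨hAr0, hα, hline⟩ := Abar_line p hm hfr α hrel hαe hαf r₁ hr0 hre hrf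
  obtain ⟨s₁, hse, hsf, hrs⟩ := W_partner hfr.ef r₁ hr0 hre hrf
  have hfr₁ : SFrame e f r₁ s₁ := ⟨hfr.ef, hre, hrf, hse, hsf, hrs⟩
  obtain ⟨D, hDe, hDf, hDr⟩ := exists_tor hfr₁ 1 1 x x⁻¹ (one_mul 1) (mul_inv_cancel₀ hx)
  obtain ⟨D', lam', kap', hlam'0, hkap'0, hL, hD'e, hD'f⟩ := exists_lift_tor p hfr α hαe hαf
    D 1 1 one_ne_zero one_ne_zero hDe hDf
  obtain ⟨κ', hκ'0, hD'r⟩ := lift_line p α r₁ (Abar e f α r₁) hAr0 hα D D' hL x hx hDr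
  refine ⟨lam' * κ', fun c => ?_⟩
  have h1 := Abar_conj p hm hfr α hαe D D' hL 1 1 lam' kap' one_ne_zero one_ne_zero hlam'0
    hkap'0 hDe hDf hD'e hD'f (c • r₁)
    (by rw [sympForm_smul_left, hre, mul_zero]) (by rw [sympForm_smul_left, hrf, mul_zero])
  obtain ⟨t, ht⟩ := hline c
  rw [one_smul, sact_smul, hDr, smul_smul, ht, sact_smul, hD'r, smul_smul, smul_smul] at h1
  rw [ht, smul_smul]
  have e1 : x * c = c * x := mul_comm _ _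
  have e2 : lam' * κ' * t = lam' * t * κ' := by ring
  rw [e1, e2]; exact h1

/-- the field endomorphism attached to a line of `W` -/
theorem Abar_sigma (p : ℕ) [Fact p.Prime] [CharP F p] (hm : 1 ≤ m)
    {e f r s : Fin m ⊕ Fin m → F} (hfr : SFrame e f r s) (α : MulAut (Cfsg.PSp m F))
    (hrel : ∀ v : Fin m ⊕ Fin m → F, v ≠ 0 →
      ∃ v' : Fin m ⊕ Fin m → F, v' ≠ 0 ∧ (Tb v).map α.toMonoidHom = Tb v')
    (hαe : (Tb e).map α.toMonoidHom = Tb e) (hαf : (Tb f).map α.toMonoidHom = Tb f)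
    (r₁ : Fin m ⊕ Fin m → F) (hr0 : r₁ ≠ 0) (hre : ⟪r₁, e⟫ = 0) (hrf : ⟪r₁, f⟫ = 0) :
    ∃ σ : F →+* F, ∀ c : F, Abar e f α (c • r₁) = σ c • Abar e f α r₁ := by
  obtain ⟨hAr0, hα, hline⟩ := Abar_line p hm hfr α hrel hαe hαf r₁ hr0 hre hrf
  have hsm : ∀ c : F, ⟪c • r₁, e⟫ = 0 ∧ ⟪c • r₁, f⟫ = 0 := fun c =>
    ⟨by rw [sympForm_smul_left, hre, mul_zero], by rw [sympForm_smul_left, hrf, mul_zero]⟩
  refine sp_line_hom _ hAr0 (fun c => Abar e f α (c • r₁)) ?_ ?_ hline ?_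
  · show Abar e f α ((1 : F) • r₁) = _
    rw [one_smul]
  · intro x y
    show Abar e f α ((x + y) • r₁) = Abar e f α (x • r₁) + Abar e f α (y • r₁)
    rw [add_smul, Abar_add p hm hfr α hαe _ _ (hsm x).1 (hsm x).2 (hsm y).1 (hsm y).2]
  · intro x hx
    exact Abar_mult p hm hfr α hrel hαe hαf r₁ hr0 hre hrf x hx

/-- the form relation attached to a line of `W` -/
theorem Abar_form (p : ℕ) [Fact p.Prime] [CharP F p] (hm : 1 ≤ m)
    {e f r s : Fin m ⊕ Fin m → F} (hfr : SFrame e f r s) (α : MulAut (Cfsg.PSp m F))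
    (hrel : ∀ v : Fin m ⊕ Fin m → F, v ≠ 0 →
      ∃ v' : Fin m ⊕ Fin m → F, v' ≠ 0 ∧ (Tb v).map α.toMonoidHom = Tb v')
    (hαe : (Tb e).map α.toMonoidHom = Tb e) (hαf : (Tb f).map α.toMonoidHom = Tb f)
    (r₁ : Fin m ⊕ Fin m → F) (hr0 : r₁ ≠ 0) (hre : ⟪r₁, e⟫ = 0) (hrf : ⟪r₁, f⟫ = 0)
    (σ : F →+* F) (hσ : ∀ c : F, Abar e f α (c • r₁) = σ c • Abar e f α r₁) :
    ∃ C : F, C ≠ 0 ∧ ∀ w : Fin m ⊕ Fin m → F, ⟪w, e⟫ = 0 → ⟪w, f⟫ = 0 →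
      ⟪Abar e f α w, Abar e f α r₁⟫ = C * σ ⟪w, r₁⟫ := by
  obtain ⟨hAr0, hα, hline⟩ := Abar_line p hm hfr α hrel hαe hαf r₁ hr0 hre hrf
  obtain ⟨hAre, hArf⟩ := Abar_mem p hm hfr α hαe r₁ hre hrf
  obtain ⟨a', h1⟩ := Abar_tv p hm hfr α hαe r₁ (Abar e f α r₁) hre hrf hAre hArf hα 1
  obtain ⟨s₁, hse, hsf, hrs⟩ := W_partner hfr.ef r₁ hr0 hre hrf
  have hsr := sf_swap_one hrs
  have hinj : ∀ a b : F, a • Abar e f α r₁ = b • Abar e f α r₁ → a = b := by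
    intro a b h
    have h1 : (a - b) • Abar e f α r₁ = 0 := by rw [sub_smul, h, sub_self]
    rcases smul_eq_zero.1 h1 with h2 | h2
    · exact sub_eq_zero.1 h2
    · exact absurd h2 hAr0
  have h2 : ∀ w : Fin m ⊕ Fin m → F, ⟪w, e⟫ = 0 → ⟪w, f⟫ = 0 →
      σ ⟪w, r₁⟫ = a' * ⟪Abar e f α w, Abar e f α r₁⟫ := by
    intro w hwe hwf
    apply hinj
    rw [← h1 w hwe hwf, one_mul, hσ]
  have ha'0 : a' ≠ 0 := by
    rintro rfl
    have := h2 s₁ hse hsf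
    rw [hsr, zero_mul, map_neg, map_one] at this
    exact one_ne_zero (neg_eq_zero.1 this)
  refine ⟨a'⁻¹, inv_ne_zero ha'0, fun w hwe hwf => ?_⟩
  rw [h2 w hwe hwf, ← mul_assoc, inv_mul_cancel₀ ha'0, one_mul]

/-- consistency of the data of two non-orthogonal lines of `W` -/
theorem Abar_consist (p : ℕ) [Fact p.Prime] [CharP F p]
    {e f : Fin m ⊕ Fin m → F} (α : MulAut (Cfsg.PSp m F))
    (r₁ r₂ : Fin m ⊕ Fin m → F) (hr₁e : ⟪r₁, e⟫ = 0) (hr₁f : ⟪r₁, f⟫ = 0) (hr₂e : ⟪r₂, e⟫ = 0)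
    (hr₂f : ⟪r₂, f⟫ = 0) (h12 : ⟪r₁, r₂⟫ ≠ 0)
    (σ₁ σ₂ : F →+* F) (C₁ C₂ : F) (hC₂0 : C₂ ≠ 0)
    (hσ₁ : ∀ c : F, Abar e f α (c • r₁) = σ₁ c • Abar e f α r₁)
    (hP₁ : ∀ w : Fin m ⊕ Fin m → F, ⟪w, e⟫ = 0 → ⟪w, f⟫ = 0 →
      ⟪Abar e f α w, Abar e f α r₁⟫ = C₁ * σ₁ ⟪w, r₁⟫)
    (hP₂ : ∀ w : Fin m ⊕ Fin m → F, ⟪w, e⟫ = 0 → ⟪w, f⟫ = 0 →
      ⟪Abar e f α w, Abar e f α r₂⟫ = C₂ * σ₂ ⟪w, r₂⟫) :
    (∀ c, σ₁ c = σ₂ c) ∧ C₁ = C₂ := by
  have hne : σ₂ ⟪r₁, r₂⟫ ≠ 0 := (map_ne_zero σ₂).2 h12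
  have h1 := hP₂ r₁ hr₁e hr₁f
  have hσ : ∀ c, σ₁ c = σ₂ c := by
    intro c
    have h2 := hP₂ (c • r₁) (by rw [sympForm_smul_left, hr₁e, mul_zero])
      (by rw [sympForm_smul_left, hr₁f, mul_zero])
    rw [hσ₁, sympForm_smul_left, sympForm_smul_left, h1, map_mul] at h2
    have h3 : (σ₁ c - σ₂ c) * (C₂ * σ₂ ⟪r₁, r₂⟫) = 0 := by linear_combination h2
    rcases mul_eq_zero.1 h3 with h | h
    · exact sub_eq_zero.1 h
    · exact absurd h (mul_ne_zero hC₂0 hne)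
  refine ⟨hσ, ?_⟩
  have h4 := hP₁ r₂ hr₂e hr₂f
  rw [sympForm_swap (Abar e f α r₂) (Abar e f α r₁), h1, sympForm_swap r₂ r₁, map_neg, hσ] at h4
  have h6 : (C₂ - C₁) * σ₂ ⟪r₁, r₂⟫ = 0 := by linear_combination -h4
  rcases mul_eq_zero.1 h6 with h | h
  · exact (sub_eq_zero.1 h).symm
  · exact absurd h hne

/-- **the map induced on `W` is semilinear and a similitude** -/
theorem Abar_semilinear (p : ℕ) [Fact p.Prime] [CharP F p] (hm : 1 ≤ m)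
    {e f r s : Fin m ⊕ Fin m → F} (hfr : SFrame e f r s) (α : MulAut (Cfsg.PSp m F))
    (hrel : ∀ v : Fin m ⊕ Fin m → F, v ≠ 0 →
      ∃ v' : Fin m ⊕ Fin m → F, v' ≠ 0 ∧ (Tb v).map α.toMonoidHom = Tb v')
    (hαe : (Tb e).map α.toMonoidHom = Tb e) (hαf : (Tb f).map α.toMonoidHom = Tb f) :
    ∃ (σ : F ≃+* F) (ν : F), ν ≠ 0 ∧
      (∀ (c : F) (w : Fin m ⊕ Fin m → F), ⟪w, e⟫ = 0 → ⟪w, f⟫ = 0 →
        Abar e f α (c • w) = σ c • Abar e f α w) ∧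
      (∀ w w' : Fin m ⊕ Fin m → F, ⟪w, e⟫ = 0 → ⟪w, f⟫ = 0 → ⟪w', e⟫ = 0 → ⟪w', f⟫ = 0 →
        ⟪Abar e f α w, Abar e f α w'⟫ = ν * σ ⟪w, w'⟫) := by
  have hr₀0 := hfr.r_ne
  obtain ⟨σ, hσ⟩ := Abar_sigma p hm hfr α hrel hαe hαf r hr₀0 hfr.re hfr.rf
  obtain ⟨ν, hν0, hP⟩ := Abar_form p hm hfr α hrel hαe hαf r hr₀0 hfr.re hfr.rf σ hσ
  have key : ∀ r₁ : Fin m ⊕ Fin m → F, ⟪r₁, e⟫ = 0 → ⟪r₁, f⟫ = 0 →
      (∀ c : F, Abar e f α (c • r₁) = σ c • Abar e f α r₁) ∧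
      (∀ w : Fin m ⊕ Fin m → F, ⟪w, e⟫ = 0 → ⟪w, f⟫ = 0 →
        ⟪Abar e f α w, Abar e f α r₁⟫ = ν * σ ⟪w, r₁⟫) := by
    intro r₁ hre hrf
    by_cases hr0 : r₁ = 0
    · subst hr0
      constructor
      · intro c; rw [smul_zero, Abar_zero p hfr α hαe, smul_zero]
      · intro w _ _
        rw [Abar_zero p hfr α hαe, sympForm_zero_right, sympForm_zero_right, map_zero, mul_zero]
    obtain ⟨c, hce, hcf, hr₀c, hrc⟩ := W_common hfr.ef r r₁ hr₀0 hfr.re hfr.rf hr0 hre hrf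
    have hc0 : c ≠ 0 := by
      rintro rfl
      exact hrc (sympForm_zero_right _)
    obtain ⟨σc, hσc⟩ := Abar_sigma p hm hfr α hrel hαe hαf c hc0 hce hcf
    obtain ⟨νc, hνc0, hPc⟩ := Abar_form p hm hfr α hrel hαe hαf c hc0 hce hcf σc hσc
    obtain ⟨σr, hσr⟩ := Abar_sigma p hm hfr α hrel hαe hαf r₁ hr0 hre hrf
    obtain ⟨νr, hνr0, hPr⟩ := Abar_form p hm hfr α hrel hαe hαf r₁ hr0 hre hrf σr hσr
    obtain ⟨h1, h2⟩ := Abar_consist p α r c hfr.re hfr.rf hce hcf hr₀c σ σc ν νc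
      hνc0 hσ hP hPc
    obtain ⟨h3, h4⟩ := Abar_consist p α r₁ c hre hrf hce hcf hrc σr σc νr νc
      hνc0 hσr hPr hPc
    constructor
    · intro x; rw [hσr, h3, ← h1]
    · intro w hwe hwf; rw [hPr w hwe hwf, h3, ← h1, h4, ← h2]
  have hbij : Function.Bijective σ := ⟨σ.injective, Finite.injective_iff_surjective.1 σ.injective⟩
  refine ⟨RingEquiv.ofBijective σ hbij, ν, hν0, ?_, ?_⟩
  · intro c w hwe hwf
    exact (key w hwe hwf).1 c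
  · intro w w' hwe hwf hw'e hw'f
    exact (key w' hw'e hw'f).2 w hwe hwf

end semi

end Cfsg.Agent.Helper44.PSpn
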