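import Mathlib
import Cfsg.Agent.Helper44.SpF
import Cfsg.Prelude.Def_LieTypeDatum

/-!
# Automorphisms of `PSp_{2m}(q)` (helper44), part G: the automorphisms induced by semilinear
similitudes
-/

set_option autoImplicit false
set_option linter.unusedSimpArgs false
set_option linter.unusedSectionVars false
set_option linter.unusedVariables false

namespace Cfsg.Agent.Helper44.PSpn

open Matrix
open scoped Pointwise
open Cfsg.Agent.Helper13 (sympForm_add_left sympForm_add_right sympForm_smul_left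
  sympForm_smul_right sympForm_swap sympForm_self sympForm_zero_left sympForm_zero_right
  sympForm_neg_left sympForm_neg_right sympForm_sub_left sympForm_sub_right)
open Cfsg.Agent.Helper5 (spTv spTv_mulVec sp_ext sp_sympForm sp_coe_one sp_mul_mulVec
  sp_inv_mulVec sp_mulVec_inv)

variable {F : Type*} [Field F] {m : ℕ}

local notation "⟪" x ", " y "⟫" => Cfsg.sympForm m F x y

/-! ### field automorphisms on vectors -/

/-- a field automorphism applied to the coordinates of a vector -/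
def ssv (σ : RingAut F) (x : Fin m ⊕ Fin m → F) : Fin m ⊕ Fin m → F := fun i => σ (x i)

theorem ssv_apply (σ : RingAut F) (x : Fin m ⊕ Fin m → F) (i : Fin m ⊕ Fin m) :
    ssv σ x i = σ (x i) := rfl

theorem ssv_add (σ : RingAut F) (x y : Fin m ⊕ Fin m → F) :
    ssv σ (x + y) = ssv σ x + ssv σ y := by
  funext i; simp [ssv]

theorem ssv_sub (σ : RingAut F) (x y : Fin m ⊕ Fin m → F) :
    ssv σ (x - y) = ssv σ x - ssv σ y := by
  funext i; simp [ssv]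

theorem ssv_smul (σ : RingAut F) (c : F) (x : Fin m ⊕ Fin m → F) :
    ssv σ (c • x) = σ c • ssv σ x := by
  funext i; simp [ssv]

theorem ssv_zero (σ : RingAut F) : ssv σ (0 : Fin m ⊕ Fin m → F) = 0 := by
  funext i; simp [ssv]

theorem ssv_one (x : Fin m ⊕ Fin m → F) : ssv (1 : RingAut F) x = x := rfl

theorem ssv_inv (σ : RingAut F) (x : Fin m ⊕ Fin m → F) : ssv σ (ssv σ⁻¹ x) = x := by
  funext i
  show σ (σ⁻¹ (x i)) = x i
  rw [← RingAut.mul_apply, mul_inv_cancel, RingAut.one_apply]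

theorem ssv_inv' (σ : RingAut F) (x : Fin m ⊕ Fin m → F) : ssv σ⁻¹ (ssv σ x) = x := by
  funext i
  show σ⁻¹ (σ (x i)) = x i
  rw [← RingAut.mul_apply, inv_mul_cancel, RingAut.one_apply]

theorem ssv_mulVec (σ : RingAut F) (M : Matrix (Fin m ⊕ Fin m) (Fin m ⊕ Fin m) F)
    (x : Fin m ⊕ Fin m → F) : (M.map σ) *ᵥ ssv σ x = ssv σ (M *ᵥ x) := by
  funext i
  simp [ssv, Matrix.mulVec, dotProduct, map_sum, map_mul]

theorem form_ssv (σ : RingAut F) (x y : Fin m ⊕ Fin m → F) :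
    ⟪ssv σ x, ssv σ y⟫ = σ ⟪x, y⟫ := by
  rw [Cfsg.Agent.Helper13.sympForm_apply, Cfsg.Agent.Helper13.sympForm_apply, map_sum]
  refine Finset.sum_congr rfl fun i _ => ?_
  rw [map_sub, map_mul, map_mul]
  rfl

/-! ### the automorphisms of `Sp` -/

theorem gl_inv_mul (g : GL (Fin m ⊕ Fin m) F) :
    ((g⁻¹ : GL (Fin m ⊕ Fin m) F) : Matrix (Fin m ⊕ Fin m) (Fin m ⊕ Fin m) F)
      * (g : Matrix (Fin m ⊕ Fin m) (Fin m ⊕ Fin m) F) = 1 := by
  rw [← Units.val_mul, inv_mul_cancel, Units.val_one]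

theorem gl_mul_inv (g : GL (Fin m ⊕ Fin m) F) :
    (g : Matrix (Fin m ⊕ Fin m) (Fin m ⊕ Fin m) F)
      * ((g⁻¹ : GL (Fin m ⊕ Fin m) F) : Matrix (Fin m ⊕ Fin m) (Fin m ⊕ Fin m) F) = 1 := by
  rw [← Units.val_mul, mul_inv_cancel, Units.val_one]

theorem mem_GSp_iff (g : GL (Fin m ⊕ Fin m) F) :
    g ∈ Cfsg.GSp m F ↔ ∃ c : Fˣ, ∀ u v : Fin m ⊕ Fin m → F,
      ⟪(g : Matrix (Fin m ⊕ Fin m) (Fin m ⊕ Fin m) F) *ᵥ u,
        (g : Matrix (Fin m ⊕ Fin m) (Fin m ⊕ Fin m) F) *ᵥ v⟫ = (c : F) * ⟪u, v⟫ := Iff.rfl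

theorem conj_mem_sp (g : GL (Fin m ⊕ Fin m) F) (hg : g ∈ Cfsg.GSp m F)
    (s : Matrix.symplecticGroup (Fin m) F) :
    (g : Matrix (Fin m ⊕ Fin m) (Fin m ⊕ Fin m) F)
      * (s : Matrix (Fin m ⊕ Fin m) (Fin m ⊕ Fin m) F)
      * ((g⁻¹ : GL (Fin m ⊕ Fin m) F) : Matrix (Fin m ⊕ Fin m) (Fin m ⊕ Fin m) F)
      ∈ Matrix.symplecticGroup (Fin m) F := by
  rw [Cfsg.Agent.Helper13.mem_symplecticGroup_iff_sympForm]
  obtain ⟨c, hc⟩ := hg
  intro u v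
  rw [← Matrix.mulVec_mulVec, ← Matrix.mulVec_mulVec, ← Matrix.mulVec_mulVec,
    ← Matrix.mulVec_mulVec, hc, sp_sympForm]
  have h := hc (((g⁻¹ : GL (Fin m ⊕ Fin m) F) : Matrix (Fin m ⊕ Fin m) (Fin m ⊕ Fin m) F) *ᵥ u)
    (((g⁻¹ : GL (Fin m ⊕ Fin m) F) : Matrix (Fin m ⊕ Fin m) (Fin m ⊕ Fin m) F) *ᵥ v)
  rw [Matrix.mulVec_mulVec, Matrix.mulVec_mulVec, gl_mul_inv, Matrix.one_mulVec,
    Matrix.one_mulVec] at h
  exact h.symm

/-- conjugation by `g ∈ GSp` as a map of `Sp` -/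
def conjSpFun (g : ↥(Cfsg.GSp m F)) (s : Matrix.symplecticGroup (Fin m) F) :
    Matrix.symplecticGroup (Fin m) F :=
  ⟨((g : GL (Fin m ⊕ Fin m) F) : Matrix (Fin m ⊕ Fin m) (Fin m ⊕ Fin m) F)
      * (s : Matrix (Fin m ⊕ Fin m) (Fin m ⊕ Fin m) F)
      * (((g : GL (Fin m ⊕ Fin m) F)⁻¹ : GL (Fin m ⊕ Fin m) F) :
          Matrix (Fin m ⊕ Fin m) (Fin m ⊕ Fin m) F), conj_mem_sp _ g.2 s⟩

theorem conjSpFun_coe (g : ↥(Cfsg.GSp m F)) (s : Matrix.symplecticGroup (Fin m) F) :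
    ((conjSpFun g s : Matrix.symplecticGroup (Fin m) F) :
      Matrix (Fin m ⊕ Fin m) (Fin m ⊕ Fin m) F)
      = ((g : GL (Fin m ⊕ Fin m) F) : Matrix (Fin m ⊕ Fin m) (Fin m ⊕ Fin m) F)
        * (s : Matrix (Fin m ⊕ Fin m) (Fin m ⊕ Fin m) F)
        * (((g : GL (Fin m ⊕ Fin m) F)⁻¹ : GL (Fin m ⊕ Fin m) F) :
            Matrix (Fin m ⊕ Fin m) (Fin m ⊕ Fin m) F) := rfl

theorem conjSpFun_mul (g h : ↥(Cfsg.GSp m F)) (s : Matrix.symplecticGroup (Fin m) F) :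
    conjSpFun (g * h) s = conjSpFun g (conjSpFun h s) := by
  apply Subtype.ext
  rw [conjSpFun_coe, conjSpFun_coe, conjSpFun_coe, Subgroup.coe_mul, _root_.mul_inv_rev,
    Units.val_mul, Units.val_mul]
  simp only [Matrix.mul_assoc]

theorem conjSpFun_one (s : Matrix.symplecticGroup (Fin m) F) :
    conjSpFun (1 : ↥(Cfsg.GSp m F)) s = s := by
  apply Subtype.ext
  rw [conjSpFun_coe, Subgroup.coe_one, inv_one, Units.val_one, Matrix.one_mul, Matrix.mul_one]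

/-- conjugation by `g ∈ GSp` as an automorphism of `Sp` -/
def conjSp : ↥(Cfsg.GSp m F) →* MulAut (Matrix.symplecticGroup (Fin m) F) where
  toFun g :=
    { toFun := conjSpFun g
      invFun := conjSpFun g⁻¹
      left_inv := fun s => by rw [← conjSpFun_mul, inv_mul_cancel, conjSpFun_one]
      right_inv := fun s => by rw [← conjSpFun_mul, mul_inv_cancel, conjSpFun_one]
      map_mul' := fun s t => by
        apply Subtype.ext
        show ((g : GL (Fin m ⊕ Fin m) F) : Matrix (Fin m ⊕ Fin m) (Fin m ⊕ Fin m) F)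
            * ((s : Matrix (Fin m ⊕ Fin m) (Fin m ⊕ Fin m) F)
              * (t : Matrix (Fin m ⊕ Fin m) (Fin m ⊕ Fin m) F))
            * (((g : GL (Fin m ⊕ Fin m) F)⁻¹ : GL (Fin m ⊕ Fin m) F) :
                Matrix (Fin m ⊕ Fin m) (Fin m ⊕ Fin m) F)
          = (((g : GL (Fin m ⊕ Fin m) F) : Matrix (Fin m ⊕ Fin m) (Fin m ⊕ Fin m) F)
              * (s : Matrix (Fin m ⊕ Fin m) (Fin m ⊕ Fin m) F)
              * (((g : GL (Fin m ⊕ Fin m) F)⁻¹ : GL (Fin m ⊕ Fin m) F) :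
                  Matrix (Fin m ⊕ Fin m) (Fin m ⊕ Fin m) F))
            * (((g : GL (Fin m ⊕ Fin m) F) : Matrix (Fin m ⊕ Fin m) (Fin m ⊕ Fin m) F)
              * (t : Matrix (Fin m ⊕ Fin m) (Fin m ⊕ Fin m) F)
              * (((g : GL (Fin m ⊕ Fin m) F)⁻¹ : GL (Fin m ⊕ Fin m) F) :
                  Matrix (Fin m ⊕ Fin m) (Fin m ⊕ Fin m) F))
        have h1 := gl_inv_mul (g : GL (Fin m ⊕ Fin m) F)
        calc _ = ((g : GL (Fin m ⊕ Fin m) F) : Matrix (Fin m ⊕ Fin m) (Fin m ⊕ Fin m) F)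
              * (s : Matrix (Fin m ⊕ Fin m) (Fin m ⊕ Fin m) F)
              * ((((g : GL (Fin m ⊕ Fin m) F)⁻¹ : GL (Fin m ⊕ Fin m) F) :
                  Matrix (Fin m ⊕ Fin m) (Fin m ⊕ Fin m) F)
                * ((g : GL (Fin m ⊕ Fin m) F) : Matrix (Fin m ⊕ Fin m) (Fin m ⊕ Fin m) F))
              * (t : Matrix (Fin m ⊕ Fin m) (Fin m ⊕ Fin m) F)
              * (((g : GL (Fin m ⊕ Fin m) F)⁻¹ : GL (Fin m ⊕ Fin m) F) :
                  Matrix (Fin m ⊕ Fin m) (Fin m ⊕ Fin m) F) := by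
              rw [h1, Matrix.mul_one]
              simp only [Matrix.mul_assoc]
          _ = _ := by simp only [Matrix.mul_assoc] }
  map_one' := by
    apply MulEquiv.ext
    intro s
    exact conjSpFun_one s
  map_mul' g h := by
    apply MulEquiv.ext
    intro s
    exact conjSpFun_mul g h s

theorem conjSp_coe (g : ↥(Cfsg.GSp m F)) (s : Matrix.symplecticGroup (Fin m) F) :
    ((conjSp g s : Matrix.symplecticGroup (Fin m) F) :
      Matrix (Fin m ⊕ Fin m) (Fin m ⊕ Fin m) F)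
      = ((g : GL (Fin m ⊕ Fin m) F) : Matrix (Fin m ⊕ Fin m) (Fin m ⊕ Fin m) F)
        * (s : Matrix (Fin m ⊕ Fin m) (Fin m ⊕ Fin m) F)
        * (((g : GL (Fin m ⊕ Fin m) F)⁻¹ : GL (Fin m ⊕ Fin m) F) :
            Matrix (Fin m ⊕ Fin m) (Fin m ⊕ Fin m) F) := rfl

theorem map_mem_sp (σ : RingAut F) (s : Matrix.symplecticGroup (Fin m) F) :
    (s : Matrix (Fin m ⊕ Fin m) (Fin m ⊕ Fin m) F).map σ ∈ Matrix.symplecticGroup (Fin m) F := by
  rw [Cfsg.Agent.Helper13.mem_symplecticGroup_iff_sympForm]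
  intro u v
  rw [← ssv_inv σ u, ← ssv_inv σ v, ssv_mulVec, ssv_mulVec, form_ssv, form_ssv, sp_sympForm]

/-- a field automorphism as a map of `Sp` -/
def mapSpFun (σ : RingAut F) (s : Matrix.symplecticGroup (Fin m) F) :
    Matrix.symplecticGroup (Fin m) F :=
  ⟨(s : Matrix (Fin m ⊕ Fin m) (Fin m ⊕ Fin m) F).map σ, map_mem_sp σ s⟩

theorem mapSpFun_mul (σ τ : RingAut F) (s : Matrix.symplecticGroup (Fin m) F) :
    mapSpFun (σ * τ) s = mapSpFun σ (mapSpFun τ s) := rfl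

theorem mapSpFun_one (s : Matrix.symplecticGroup (Fin m) F) :
    mapSpFun (1 : RingAut F) s = s := rfl

/-- a field automorphism as an automorphism of `Sp` -/
def mapSp : RingAut F →* MulAut (Matrix.symplecticGroup (Fin m) F) where
  toFun σ :=
    { toFun := mapSpFun σ
      invFun := mapSpFun σ⁻¹
      left_inv := fun s => by rw [← mapSpFun_mul, inv_mul_cancel, mapSpFun_one]
      right_inv := fun s => by rw [← mapSpFun_mul, mul_inv_cancel, mapSpFun_one]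
      map_mul' := fun s t => by
        apply Subtype.ext
        show ((s : Matrix (Fin m ⊕ Fin m) (Fin m ⊕ Fin m) F)
            * (t : Matrix (Fin m ⊕ Fin m) (Fin m ⊕ Fin m) F)).map (σ : F →+* F)
          = (s : Matrix (Fin m ⊕ Fin m) (Fin m ⊕ Fin m) F).map (σ : F →+* F)
            * (t : Matrix (Fin m ⊕ Fin m) (Fin m ⊕ Fin m) F).map (σ : F →+* F)
        rw [Matrix.map_mul] }
  map_one' := by
    apply MulEquiv.ext
    intro s
    rfl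
  map_mul' σ τ := by
    apply MulEquiv.ext
    intro s
    rfl

theorem mapSp_coe (σ : RingAut F) (s : Matrix.symplecticGroup (Fin m) F) :
    ((mapSp σ s : Matrix.symplecticGroup (Fin m) F) :
      Matrix (Fin m ⊕ Fin m) (Fin m ⊕ Fin m) F)
      = (s : Matrix (Fin m ⊕ Fin m) (Fin m ⊕ Fin m) F).map σ := rfl

/-- an automorphism of `Sp` induces an automorphism of `PSp` -/
def quotAutS : MulAut (Matrix.symplecticGroup (Fin m) F) →* MulAut (Cfsg.PSp m F) where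
  toFun e := QuotientGroup.congr (Subgroup.center (Matrix.symplecticGroup (Fin m) F))
    (Subgroup.center (Matrix.symplecticGroup (Fin m) F)) e
    (Subgroup.characteristic_iff_map_eq.mp inferInstance e)
  map_one' := by
    apply MulEquiv.ext
    intro x
    obtain ⟨s, rfl⟩ := prS_surjective x
    rfl
  map_mul' e₁ e₂ := by
    apply MulEquiv.ext
    intro x
    obtain ⟨s, rfl⟩ := prS_surjective x
    rfl

theorem quotAutS_prS (e : MulAut (Matrix.symplecticGroup (Fin m) F))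
    (s : Matrix.symplecticGroup (Fin m) F) : quotAutS e (prS s) = prS (e s) := rfl

/-- the automorphism of `PSp` induced by conjugation with `g ∈ GSp` -/
def sD : ↥(Cfsg.GSp m F) →* MulAut (Cfsg.PSp m F) := quotAutS.comp conjSp

/-- the automorphism of `PSp` induced by a field automorphism -/
def sF : RingAut F →* MulAut (Cfsg.PSp m F) := quotAutS.comp mapSp

theorem sD_prS (g : ↥(Cfsg.GSp m F)) (s : Matrix.symplecticGroup (Fin m) F) :
    sD g (prS s) = prS (conjSp g s) := rfl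

theorem sF_prS (σ : RingAut F) (s : Matrix.symplecticGroup (Fin m) F) :
    (sF σ : MulAut (Cfsg.PSp m F)) (prS s) = prS (mapSp σ s) := rfl

/-! ### semilinear maps -/

/-- the semilinear map `x ↦ g σ(x)` -/
def semiV (g : GL (Fin m ⊕ Fin m) F) (σ : RingAut F) (x : Fin m ⊕ Fin m → F) :
    Fin m ⊕ Fin m → F :=
  (g : Matrix (Fin m ⊕ Fin m) (Fin m ⊕ Fin m) F) *ᵥ ssv σ x

theorem semiV_add (g : GL (Fin m ⊕ Fin m) F) (σ : RingAut F) (x y : Fin m ⊕ Fin m → F) :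
    semiV g σ (x + y) = semiV g σ x + semiV g σ y := by
  unfold semiV
  rw [ssv_add, Matrix.mulVec_add]

theorem semiV_sub (g : GL (Fin m ⊕ Fin m) F) (σ : RingAut F) (x y : Fin m ⊕ Fin m → F) :
    semiV g σ (x - y) = semiV g σ x - semiV g σ y := by
  unfold semiV
  rw [ssv_sub, Matrix.mulVec_sub]

theorem semiV_smul (g : GL (Fin m ⊕ Fin m) F) (σ : RingAut F) (c : F)
    (x : Fin m ⊕ Fin m → F) : semiV g σ (c • x) = σ c • semiV g σ x := by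
  unfold semiV
  rw [ssv_smul, Matrix.mulVec_smul]

theorem semiV_zero (g : GL (Fin m ⊕ Fin m) F) (σ : RingAut F) :
    semiV g σ (0 : Fin m ⊕ Fin m → F) = 0 := by
  unfold semiV
  rw [ssv_zero, Matrix.mulVec_zero]

theorem semiV_form (g : GL (Fin m ⊕ Fin m) F) (ν : F)
    (hν : ∀ u v : Fin m ⊕ Fin m → F,
      ⟪(g : Matrix (Fin m ⊕ Fin m) (Fin m ⊕ Fin m) F) *ᵥ u,
        (g : Matrix (Fin m ⊕ Fin m) (Fin m ⊕ Fin m) F) *ᵥ v⟫ = ν * ⟪u, v⟫)
    (σ : RingAut F) (x y : Fin m ⊕ Fin m → F) :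
    ⟪semiV g σ x, semiV g σ y⟫ = ν * σ ⟪x, y⟫ := by
  unfold semiV
  rw [hν, form_ssv]

theorem semiV_surj (g : GL (Fin m ⊕ Fin m) F) (σ : RingAut F) (y : Fin m ⊕ Fin m → F) :
    ∃ x : Fin m ⊕ Fin m → F, semiV g σ x = y := by
  refine ⟨ssv σ⁻¹ (((g⁻¹ : GL (Fin m ⊕ Fin m) F) :
    Matrix (Fin m ⊕ Fin m) (Fin m ⊕ Fin m) F) *ᵥ y), ?_⟩
  unfold semiV
  rw [ssv_inv, Matrix.mulVec_mulVec, gl_mul_inv, Matrix.one_mulVec]

theorem sact_semi (g : ↥(Cfsg.GSp m F)) (σ : RingAut F)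
    (s : Matrix.symplecticGroup (Fin m) F) (x : Fin m ⊕ Fin m → F) :
    sact (conjSp g (mapSp σ s)) (semiV (g : GL (Fin m ⊕ Fin m) F) σ x)
      = semiV (g : GL (Fin m ⊕ Fin m) F) σ (sact s x) := by
  unfold sact semiV
  rw [conjSp_coe, mapSp_coe, ← ssv_mulVec, Matrix.mulVec_mulVec, Matrix.mulVec_mulVec]
  congr 1
  rw [Matrix.mul_assoc, gl_inv_mul, Matrix.mul_one]

section transport

theorem semi_ssg (g : ↥(Cfsg.GSp m F)) (ν : F) (hν0 : ν ≠ 0)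
    (hν : ∀ u v : Fin m ⊕ Fin m → F,
      ⟪((g : GL (Fin m ⊕ Fin m) F) : Matrix (Fin m ⊕ Fin m) (Fin m ⊕ Fin m) F) *ᵥ u,
        ((g : GL (Fin m ⊕ Fin m) F) : Matrix (Fin m ⊕ Fin m) (Fin m ⊕ Fin m) F) *ᵥ v⟫
        = ν * ⟪u, v⟫)
    (σ : RingAut F) (e w : Fin m ⊕ Fin m → F) (b : F) (hwe : ⟪w, e⟫ = 0) :
    ⟪ν⁻¹ • semiV (g : GL (Fin m ⊕ Fin m) F) σ w, semiV (g : GL (Fin m ⊕ Fin m) F) σ e⟫ = 0 ∧
    conjSp g (mapSp σ (ssg e w b))
      = ssg (semiV (g : GL (Fin m ⊕ Fin m) F) σ e)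
          (ν⁻¹ • semiV (g : GL (Fin m ⊕ Fin m) F) σ w) (ν⁻¹ * σ b) := by
  have h2 : ⟪ν⁻¹ • semiV (g : GL (Fin m ⊕ Fin m) F) σ w,
      semiV (g : GL (Fin m ⊕ Fin m) F) σ e⟫ = 0 := by
    rw [sympForm_smul_left, semiV_form _ ν hν, hwe, map_zero, mul_zero, mul_zero]
  refine ⟨h2, ?_⟩
  rw [sact_eq_iff]
  intro y
  obtain ⟨x, rfl⟩ := semiV_surj (g : GL (Fin m ⊕ Fin m) F) σ y
  rw [sact_semi, sact_ssg e w b hwe, sact_ssg _ _ _ h2]
  have k1 : ∀ A : F, ν * A * ν⁻¹ = A := fun A => by field_simp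
  have k2 : ∀ A : F, ν⁻¹ * (ν * A) = A := fun A => by field_simp
  have k3 : ∀ A B : F, ν⁻¹ * B * (ν * A) = B * A := fun A B => by field_simp
  simp only [semiV_add, semiV_smul, sympForm_smul_right, semiV_form _ ν hν, smul_smul, k1, k2,
    k3, map_mul]

theorem semi_tv (g : ↥(Cfsg.GSp m F)) (ν : F) (hν0 : ν ≠ 0)
    (hν : ∀ u v : Fin m ⊕ Fin m → F,
      ⟪((g : GL (Fin m ⊕ Fin m) F) : Matrix (Fin m ⊕ Fin m) (Fin m ⊕ Fin m) F) *ᵥ u,
        ((g : GL (Fin m ⊕ Fin m) F) : Matrix (Fin m ⊕ Fin m) (Fin m ⊕ Fin m) F) *ᵥ v⟫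
        = ν * ⟪u, v⟫)
    (σ : RingAut F) (v : Fin m ⊕ Fin m → F) (a : F) :
    conjSp g (mapSp σ (spTv m v a))
      = spTv m (semiV (g : GL (Fin m ⊕ Fin m) F) σ v) (ν⁻¹ * σ a) := by
  obtain ⟨-, h4⟩ := semi_ssg g ν hν0 hν σ v 0 a (sympForm_zero_left _)
  rw [← ssg_zero, h4, semiV_zero, smul_zero, ssg_zero]

theorem GSp_mult (g : ↥(Cfsg.GSp m F)) : ∃ ν : F, ν ≠ 0 ∧ ∀ u v : Fin m ⊕ Fin m → F,
      ⟪((g : GL (Fin m ⊕ Fin m) F) : Matrix (Fin m ⊕ Fin m) (Fin m ⊕ Fin m) F) *ᵥ u,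
        ((g : GL (Fin m ⊕ Fin m) F) : Matrix (Fin m ⊕ Fin m) (Fin m ⊕ Fin m) F) *ᵥ v⟫
        = ν * ⟪u, v⟫ := by
  obtain ⟨c, hc⟩ := g.2
  exact ⟨c, c.ne_zero, hc⟩

theorem semi_Tb (g : ↥(Cfsg.GSp m F)) (σ : RingAut F) (v : Fin m ⊕ Fin m → F) :
    (Tb v).map (sD g * sF σ).toMonoidHom = Tb (semiV (g : GL (Fin m ⊕ Fin m) F) σ v) := by
  obtain ⟨ν, hν0, hν⟩ := GSp_mult g
  ext y
  rw [Subgroup.mem_map, mem_Tb]
  constructor
  · rintro ⟨t, ht, rfl⟩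
    obtain ⟨t₀, ⟨c, rfl⟩, rfl⟩ := (mem_Tb v t).1 ht
    refine ⟨spTv m (semiV (g : GL (Fin m ⊕ Fin m) F) σ v) (ν⁻¹ * σ c), ⟨_, rfl⟩, ?_⟩
    show prS _ = (sD g * sF σ : MulAut (Cfsg.PSp m F)) (prS (spTv m v c))
    rw [MulAut.mul_apply, sF_prS, sD_prS, semi_tv g ν hν0 hν]
  · rintro ⟨t₀, ⟨c, rfl⟩, rfl⟩
    refine ⟨prS (spTv m v (σ⁻¹ (ν * c))), tv_mem_Tb _ _, ?_⟩
    show (sD g * sF σ : MulAut (Cfsg.PSp m F)) (prS (spTv m v (σ⁻¹ (ν * c)))) = _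
    rw [MulAut.mul_apply, sF_prS, sD_prS, semi_tv g ν hν0 hν]
    congr 2
    have : σ (σ⁻¹ (ν * c)) = ν * c := by
      rw [← RingAut.mul_apply, mul_inv_cancel, RingAut.one_apply]
    rw [this, ← mul_assoc, inv_mul_cancel₀ hν0, one_mul]

theorem semi_matrix (σ : RingAut F) (Φ : (Fin m ⊕ Fin m → F) → (Fin m ⊕ Fin m → F))
    (hadd : ∀ x y, Φ (x + y) = Φ x + Φ y)
    (hsmul : ∀ (c : F) (x : Fin m ⊕ Fin m → F), Φ (c • x) = σ c • Φ x) :
    ∃ M : Matrix (Fin m ⊕ Fin m) (Fin m ⊕ Fin m) F, ∀ x, M *ᵥ ssv σ x = Φ x := by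
  classical
  refine ⟨Matrix.of (fun i j => Φ (Pi.single j 1) i), fun x => ?_⟩
  let Φ' : (Fin m ⊕ Fin m → F) →+ (Fin m ⊕ Fin m → F) := AddMonoidHom.mk' Φ hadd
  have h1 : Φ x = ∑ j, σ (x j) • Φ (Pi.single j 1) := by
    conv_lhs => rw [pi_eq_sum_univ' x]
    show Φ' (∑ j, x j • Pi.single j 1) = _
    rw [map_sum]
    refine Finset.sum_congr rfl fun j _ => ?_
    show Φ (x j • Pi.single j 1) = _
    rw [hsmul]
  rw [h1]
  funext i
  simp only [Matrix.mulVec, dotProduct, Matrix.of_apply, ssv_apply, Finset.sum_apply,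
    Pi.smul_apply, smul_eq_mul]
  exact Finset.sum_congr rfl fun j _ => mul_comm _ _

theorem exists_semi_GSp (σ : RingAut F)
    (Φ : (Fin m ⊕ Fin m → F) → (Fin m ⊕ Fin m → F))
    (hadd : ∀ x y, Φ (x + y) = Φ x + Φ y)
    (hsmul : ∀ (c : F) (x : Fin m ⊕ Fin m → F), Φ (c • x) = σ c • Φ x)
    (ν : F) (hν0 : ν ≠ 0) (hform : ∀ x y, ⟪Φ x, Φ y⟫ = ν * σ ⟪x, y⟫) :
    ∃ g : ↥(Cfsg.GSp m F), (∀ x, semiV (g : GL (Fin m ⊕ Fin m) F) σ x = Φ x) ∧
      ∀ u v : Fin m ⊕ Fin m → F,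
      ⟪((g : GL (Fin m ⊕ Fin m) F) : Matrix (Fin m ⊕ Fin m) (Fin m ⊕ Fin m) F) *ᵥ u,
        ((g : GL (Fin m ⊕ Fin m) F) : Matrix (Fin m ⊕ Fin m) (Fin m ⊕ Fin m) F) *ᵥ v⟫
        = ν * ⟪u, v⟫ := by
  classical
  obtain ⟨M, hM⟩ := semi_matrix σ Φ hadd hsmul
  have hpres : ∀ u v : Fin m ⊕ Fin m → F, ⟪M *ᵥ u, M *ᵥ v⟫ = ν * ⟪u, v⟫ := by
    intro u v
    have h := hform (ssv σ⁻¹ u) (ssv σ⁻¹ v)
    rw [← hM, ← hM, ssv_inv, ssv_inv, ← form_ssv, ssv_inv, ssv_inv] at h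
    exact h
  have hdet : M.det ≠ 0 := by
    intro h0
    obtain ⟨v, hv0, hv⟩ := Matrix.exists_mulVec_eq_zero_iff.2 h0
    obtain ⟨x, hx⟩ := Cfsg.Agent.Helper5.exists_sympForm_ne_zero v hv0
    apply hx
    have h1 := hpres v x
    rw [hv, sympForm_zero_left] at h1
    rcases mul_eq_zero.1 h1.symm with h | h
    · exact absurd h hν0
    · exact h
  refine ⟨⟨Matrix.GeneralLinearGroup.mkOfDetNeZero M hdet, ⟨Units.mk0 ν hν0, hpres⟩⟩,
    fun x => hM x, hpres⟩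

end transport

section main

variable [Fintype F]

/-- **the semilinear automorphism with the same action on `USg e / sroot e` as `α`** -/
theorem exists_semi_aut (p : ℕ) [Fact p.Prime] [CharP F p] (hm : 1 ≤ m)
    {e f r s : Fin m ⊕ Fin m → F} (hfr : SFrame e f r s) (α : MulAut (Cfsg.PSp m F))
    (hrel : ∀ v : Fin m ⊕ Fin m → F, v ≠ 0 →
      ∃ v' : Fin m ⊕ Fin m → F, v' ≠ 0 ∧ (Tb v).map α.toMonoidHom = Tb v')
    (hαe : (Tb e).map α.toMonoidHom = Tb e) (hαf : (Tb f).map α.toMonoidHom = Tb f) :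
    ∃ (g : ↥(Cfsg.GSp m F)) (σ : RingAut F),
      (Tb e).map (sD g * sF σ).toMonoidHom = Tb e ∧
      (Tb f).map (sD g * sF σ).toMonoidHom = Tb f ∧
      ∀ (w : Fin m ⊕ Fin m → F) (b : F), ⟪w, e⟫ = 0 → ⟪w, f⟫ = 0 → ∃ b' : F,
        (sD g * sF σ : MulAut (Cfsg.PSp m F)) (prS (ssg e w b))
          = prS (ssg e (Abar e f α w) b') := by
  obtain ⟨σ, ν, hν0, hsemi, hform⟩ := Abar_semilinear p hm hfr α hrel hαe hαf
  have hfe := hfr.fe
  have hef := hfr.ef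
  have hWe : ∀ x, ⟪wproj e f x, e⟫ = 0 := wproj_e hef
  have hWf : ∀ x, ⟪wproj e f x, f⟫ = 0 := wproj_f hef
  have hA : ∀ x, ⟪Abar e f α (wproj e f x), e⟫ = 0
      ∧ ⟪Abar e f α (wproj e f x), f⟫ = 0 :=
    fun x => Abar_mem p hm hfr α hαe _ (hWe x) (hWf x)
  obtain ⟨Φ, hΦ⟩ : ∃ Φ : (Fin m ⊕ Fin m → F) → (Fin m ⊕ Fin m → F), ∀ x, Φ x =
      (ν * σ ⟪x, f⟫) • e + (-σ ⟪x, e⟫) • f + Abar e f α (wproj e f x) := ⟨_, fun x => rfl⟩
  have hadd : ∀ x y, Φ (x + y) = Φ x + Φ y := by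
    intro x y
    rw [hΦ, hΦ, hΦ, sympForm_add_left, sympForm_add_left, map_add, map_add, wproj_add,
      Abar_add p hm hfr α hαe _ _ (hWe x) (hWf x) (hWe y) (hWf y)]
    module
  have hsmul : ∀ (c : F) (x : Fin m ⊕ Fin m → F), Φ (c • x) = σ c • Φ x := by
    intro c x
    rw [hΦ, hΦ, sympForm_smul_left, sympForm_smul_left, map_mul, map_mul, wproj_smul,
      hsemi c _ (hWe x) (hWf x)]
    module
  have hherm : ∀ x y, ⟪Φ x, Φ y⟫ = ν * σ ⟪x, y⟫ := by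
    intro x y
    obtain ⟨h1, h2⟩ := hA x
    obtain ⟨h3, h4⟩ := hA y
    have h3' := sf_swap_zero h3
    have h4' := sf_swap_zero h4
    rw [hΦ, hΦ, sf_decomp hef x y]
    simp only [sympForm_add_left, sympForm_add_right, sympForm_smul_left, sympForm_smul_right,
      sympForm_self, hef, hfe, h1, h2, h3', h4', hform _ _ (hWe x) (hWf x) (hWe y) (hWf y),
      map_mul, map_add, map_sub]
    ring
  obtain ⟨g, hg, hgν⟩ := exists_semi_GSp σ Φ hadd hsmul ν hν0 hherm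
  have hΦe : Φ e = ν • e := by
    have h0 : wproj e f e = 0 := by
      unfold wproj
      rw [hef, sympForm_self]
      module
    rw [hΦ, h0, Abar_zero p hfr α hαe, hef, sympForm_self]
    simp only [map_zero, map_one, neg_zero, mul_one, zero_smul, add_zero]
  have hΦf : Φ f = f := by
    have h0 : wproj e f f = 0 := by
      unfold wproj
      rw [sympForm_self, hfe]
      module
    rw [hΦ, h0, Abar_zero p hfr α hαe, sympForm_self, hfe]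
    simp only [map_zero, map_one, map_neg, neg_neg, mul_zero, zero_smul, add_zero, zero_add,
      one_smul]
  have hΦw : ∀ w, ⟪w, e⟫ = 0 → ⟪w, f⟫ = 0 → Φ w = Abar e f α w := by
    intro w hwe hwf
    rw [hΦ, wproj_of_mem w hwe hwf, hwe, hwf]
    simp only [map_zero, mul_zero, neg_zero, zero_smul, zero_add]
  refine ⟨g, σ, ?_, ?_, ?_⟩
  · rw [semi_Tb g σ e, hg, hΦe, Tb_smul ν hν0]
  · rw [semi_Tb g σ f, hg, hΦf]
  · intro w b hwe hwf
    obtain ⟨hAe, hAf⟩ := Abar_mem p hm hfr α hαe w hwe hwf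
    obtain ⟨h2, h4⟩ := semi_ssg g ν hν0 hgν σ e w b hwe
    simp only [hg] at h2 h4
    rw [hΦe, hΦw w hwe hwf] at h4
    have h6 : ⟪ν⁻¹ • Abar e f α w, e⟫ = 0 := by rw [sympForm_smul_left, hAe, mul_zero]
    have h7 : ssg (ν • e) (ν⁻¹ • Abar e f α w) (ν⁻¹ * σ b)
        = ssg e (Abar e f α w) (ν * ν * (ν⁻¹ * σ b)) := by
      rw [ssg_smul_left ν e (ν⁻¹ • Abar e f α w) (ν⁻¹ * σ b) h6, smul_smul,
        mul_inv_cancel₀ hν0, one_smul]
    refine ⟨ν * ν * (ν⁻¹ * σ b), ?_⟩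
    rw [MulAut.mul_apply, sF_prS, sD_prS, h4, h7]

end main

end Cfsg.Agent.Helper44.PSpn
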