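import Mathlib
import Cfsg.Agent.Helper44.SpG

/-!
# Automorphisms of `PSp_{2m}(q)` (helper44), part H: an automorphism which normalises the root
subgroups of `e`, `f` and acts trivially on `U_e / T_e` is trivial
-/

set_option autoImplicit false
set_option linter.unusedSimpArgs false
set_option linter.unusedSectionVars false
set_option linter.unusedVariables false

namespace Cfsg.Agent.Helper44.PSpn

open Matrix
open scoped Pointwise
open Cfsg.Agent.Helper13 (sympForm_add_left sympForm_add_right sympForm_smul_left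
  sympForm_smul_right sympForm_swap sympForm_self sympForm_zero_left sympForm_zero_right
  sympForm_neg_left sympForm_neg_right sympForm_sub_left sympForm_sub_right)
open Cfsg.Agent.Helper5 (spTv spTv_mulVec sp_ext sp_sympForm sp_coe_one sp_mul_mulVec
  sp_inv_mulVec sp_mulVec_inv)

variable {F : Type*} [Field F] {m : ℕ}

local notation "⟪" x ", " y "⟫" => Cfsg.sympForm m F x y

/-- the elements of `Sp` whose image is fixed by `β` -/
def fixS (β : MulAut (Cfsg.PSp m F)) : Subgroup (Matrix.symplecticGroup (Fin m) F) :=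
  MonoidHom.eqLocus (β.toMonoidHom.comp prS) prS

theorem mem_fixS (β : MulAut (Cfsg.PSp m F)) (x : Matrix.symplecticGroup (Fin m) F) :
    x ∈ fixS β ↔ β (prS x) = prS x := Iff.rfl

theorem prS_center (z : Matrix.symplecticGroup (Fin m) F)
    (hz : z ∈ Subgroup.center (Matrix.symplecticGroup (Fin m) F)) : prS z = 1 := by
  rw [prS_mk]
  exact (QuotientGroup.eq_one_iff _).2 hz

/-- two nonzero vectors have a common non-orthogonal vector -/
theorem sf_common (e v : Fin m ⊕ Fin m → F) (he0 : e ≠ 0) (hv0 : v ≠ 0) :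
    ∃ c : Fin m ⊕ Fin m → F, ⟪e, c⟫ ≠ 0 ∧ ⟪v, c⟫ ≠ 0 := by
  obtain ⟨f₁, hf₁⟩ := sf_exists_partner e he0
  obtain ⟨f₂, hf₂⟩ := sf_exists_partner v hv0
  by_cases h1 : ⟪v, f₁⟫ = 0
  · by_cases h2 : ⟪e, f₂⟫ = 0
    · refine ⟨f₁ + f₂, ?_, ?_⟩
      · rw [sympForm_add_right, hf₁, h2, add_zero]; exact one_ne_zero
      · rw [sympForm_add_right, hf₂, h1, zero_add]; exact one_ne_zero
    · exact ⟨f₂, h2, by rw [hf₂]; exact one_ne_zero⟩
  · exact ⟨f₁, by rw [hf₁]; exact one_ne_zero, h1⟩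

theorem weyl_apply {e f r s : Fin m ⊕ Fin m → F} (hfr : SFrame e f r s) (a b : F) :
    sact (spTv m e a * spTv m f b * spTv m e a) e = (1 - a * b) • e + b • f := by
  simp only [sact_mul, sact_tv, sympForm_add_left, sympForm_smul_left, sympForm_self, hfr.ef,
    hfr.fe, mul_zero, mul_one, zero_smul, add_zero]
  module

/-- `USg e` and `sroot f` generate `Sp` -/
theorem fix_top {e f r s : Fin m ⊕ Fin m → F} (hfr : SFrame e f r s)
    (S : Subgroup (Matrix.symplecticGroup (Fin m) F)) (hU : USg e ≤ S)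
    (hf : sroot f ≤ S) : S = ⊤ := by
  have case1 : ∀ v : Fin m ⊕ Fin m → F, ⟪e, v⟫ ≠ 0 → sroot v ≤ S := by
    intro v hev
    obtain ⟨u, hu, huf⟩ := ssg_trans e f (⟪e, v⟫⁻¹ • v) hfr.ef
      (by rw [sympForm_smul_right, inv_mul_cancel₀ hev])
    rw [← sroot_smul _ (inv_ne_zero hev) v, ← huf, ← sroot_conj]
    intro x hx
    rw [Subgroup.mem_smul_pointwise_iff_exists] at hx
    obtain ⟨t, ht, rfl⟩ := hx
    rw [MulAut.smul_def, MulAut.conj_apply]
    exact S.mul_mem (S.mul_mem (hU hu) (hf ht)) (S.inv_mem (hU hu))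
  rw [eq_top_iff, ← Cfsg.Agent.Helper5.spT_eq_top]
  unfold Cfsg.Agent.Helper5.spT
  rw [Subgroup.closure_le]
  rintro g ⟨v, c, rfl⟩
  show spTv m v c ∈ S
  by_cases hv0 : v = 0
  · rw [hv0, Cfsg.Agent.Helper5.spTv_zero_left]
    exact S.one_mem
  by_cases hev : ⟪e, v⟫ = 0
  · obtain ⟨c', hec, hvc⟩ := sf_common e v hfr.e_ne hv0
    have hcS := case1 c' hec
    have hg : spTv m c' 1 ∈ S := hcS ((mem_sroot _ _).2 ⟨1, rfl⟩)
    have hgv : ⟪e, sact (spTv m c' 1) v⟫ ≠ 0 := by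
      rw [sact_tv, sympForm_add_right, sympForm_smul_right, hev, zero_add, one_mul]
      exact mul_ne_zero hvc hec
    have h1 := case1 (sact (spTv m c' 1) v) hgv
    rw [← sroot_conj] at h1
    have h2 : MulAut.conj (spTv m c' 1) • spTv m v c ∈ MulAut.conj (spTv m c' 1) • sroot v :=
      Subgroup.smul_mem_pointwise_smul _ _ _ ((mem_sroot _ _).2 ⟨c, rfl⟩)
    have h3 := h1 h2
    rw [MulAut.smul_def, MulAut.conj_apply] at h3
    have h4 : spTv m v c = (spTv m c' 1)⁻¹ * (spTv m c' 1 * spTv m v c * (spTv m c' 1)⁻¹)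
        * spTv m c' 1 := by group
    rw [h4]
    exact S.mul_mem (S.mul_mem (S.inv_mem hg) h3) hg
  · exact case1 v hev ((mem_sroot _ _).2 ⟨c, rfl⟩)

section main

variable [Fintype F]

/-- Step 1: elements stabilising the lines of `e` and `f` are fixed -/
theorem fix_lev (p : ℕ) [Fact p.Prime] [CharP F p] (hm : 1 ≤ m)
    {e f r s : Fin m ⊕ Fin m → F} (hfr : SFrame e f r s) (β : MulAut (Cfsg.PSp m F))
    (hβe : (Tb e).map β.toMonoidHom = Tb e) (hβf : (Tb f).map β.toMonoidHom = Tb f)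
    (H : ∀ (w : Fin m ⊕ Fin m → F) (b : F), ⟪w, e⟫ = 0 → ⟪w, f⟫ = 0 → ∃ b' : F,
      β (prS (ssg e w b)) = prS (ssg e w b'))
    (D : Matrix.symplecticGroup (Fin m) F) (lam kap : F) (hlam : lam ≠ 0) (hkap : kap ≠ 0)
    (hDe : sact D e = lam • e) (hDf : sact D f = kap • f) : D ∈ fixS β := by
  have hA : ∀ w : Fin m ⊕ Fin m → F, ⟪w, e⟫ = 0 → ⟪w, f⟫ = 0 → Abar e f β w = w := by
    intro w hwe hwf
    obtain ⟨b', hb'⟩ := H w 0 hwe hwf
    exact Abar_eq p hfr β hβe w w 0 b' ⟨hwe, hwf⟩ ⟨hwe, hwf⟩ hb'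
  obtain ⟨D', lam', kap', hlam', hkap', hL, hD'e, hD'f⟩ :=
    exists_lift_tor p hfr β hβe hβf D lam kap hlam hkap hDe hDf
  have hW : ∀ w : Fin m ⊕ Fin m → F, ⟪w, e⟫ = 0 → ⟪w, f⟫ = 0 →
      lam • sact D w = lam' • sact D' w := by
    intro w hwe hwf
    have h1 := Abar_conj p hm hfr β hβe D D' hL lam kap lam' kap' hlam hkap hlam' hkap'
      hDe hDf hD'e hD'f w hwe hwf
    obtain ⟨h2, h3⟩ := W_sact D e f lam kap w hlam hkap hDe hDf hwe hwf
    rw [hA w hwe hwf, hA _ (by rw [sympForm_smul_left, h2, mul_zero])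
      (by rw [sympForm_smul_left, h3, mul_zero])] at h1
    exact h1
  have hlk : lam * kap = 1 := by
    have h1 := sact_form D e f
    rw [hDe, hDf, sympForm_smul_left, sympForm_smul_right, hfr.ef] at h1
    linear_combination h1
  have hlk' : lam' * kap' = 1 := by
    have h1 := sact_form D' e f
    rw [hD'e, hD'f, sympForm_smul_left, sympForm_smul_right, hfr.ef] at h1
    linear_combination h1
  have hsq : lam * lam = lam' * lam' := by
    have h1 := hW r hfr.re hfr.rf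
    have h2 := hW s hfr.se hfr.sf
    have h3 : ⟪lam • sact D r, lam • sact D s⟫ = ⟪lam' • sact D' r, lam' • sact D' s⟫ := by
      rw [h1, h2]
    rw [sympForm_smul_left, sympForm_smul_right, sympForm_smul_left, sympForm_smul_right,
      sact_form, sact_form, hfr.rs] at h3
    linear_combination h3
  have hx : kap' * lam = lam' * kap := by
    linear_combination kap * kap' * hsq - kap' * lam * hlk + lam' * kap * hlk'
  have key : ∀ y : Fin m ⊕ Fin m → F, sact D' y = (lam' * kap) • sact D y := by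
    intro y
    have hy := wproj_decomp (e := e) (f := f) y
    have h5 : sact D' (wproj e f y) = (lam' * kap) • sact D (wproj e f y) := by
      have h6 := hW _ (wproj_e hfr.ef y) (wproj_f hfr.ef y)
      calc sact D' (wproj e f y) = (kap' * lam') • sact D' (wproj e f y) := by
            rw [mul_comm, hlk', one_smul]
        _ = kap' • (lam' • sact D' (wproj e f y)) := by rw [smul_smul]
        _ = (kap' * lam) • sact D (wproj e f y) := by rw [← h6, smul_smul]
        _ = (lam' * kap) • sact D (wproj e f y) := by rw [hx]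
    have e1 : lam' * kap * lam = lam' := by linear_combination lam' * hlk
    have e2 : lam' * kap * kap = kap' := by linear_combination -kap * hx + kap' * hlk
    calc sact D' y = sact D' (⟪y, f⟫ • e + (-⟪y, e⟫) • f + wproj e f y) := by rw [← hy]
      _ = ⟪y, f⟫ • lam' • e + (-⟪y, e⟫) • kap' • f + (lam' * kap) • sact D (wproj e f y) := by
          rw [sact_add, sact_add, sact_smul, sact_smul, hD'e, hD'f, h5]
      _ = ⟪y, f⟫ • (lam' * kap * lam) • e + (-⟪y, e⟫) • (lam' * kap * kap) • f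
            + (lam' * kap) • sact D (wproj e f y) := by rw [e1, e2]
      _ = (lam' * kap) • (⟪y, f⟫ • lam • e + (-⟪y, e⟫) • kap • f + sact D (wproj e f y)) := by
          module
      _ = (lam' * kap) • sact D (⟪y, f⟫ • e + (-⟪y, e⟫) • f + wproj e f y) := by
          rw [sact_add, sact_add, sact_smul, sact_smul, hDe, hDf]
      _ = (lam' * kap) • sact D y := by rw [← hy]
  have hcen : D' * D⁻¹ ∈ Subgroup.center (Matrix.symplecticGroup (Fin m) F) := by
    apply sp_scalar_center _ (lam' * kap)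
    · linear_combination -(kap * kap) * hsq + (lam * kap + 1) * hlk
    · intro x
      rw [sact_mul, key, sact_sact_inv]
  rw [mem_fixS, hL]
  have h1 : D' = D' * D⁻¹ * D := by group
  rw [h1, map_mul, prS_center _ hcen, one_mul]

/-- uniqueness of the parameter `b` -/
theorem ssg_b_unique (p : ℕ) [Fact p.Prime] [CharP F p]
    {e f r s : Fin m ⊕ Fin m → F} (hfr : SFrame e f r s) (w : Fin m ⊕ Fin m → F) (b b' : F)
    (hwe : ⟪w, e⟫ = 0) (hwf : ⟪w, f⟫ = 0) (h : prS (ssg e w b) = prS (ssg e w b')) :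
    b = b' := by
  have h1 := sp_lift_unique p e hfr.e_ne _ _
    (USg_pelem p e _ ((mem_USg e _).2 ⟨w, b, hwe, rfl⟩))
    (USg_pelem p e _ ((mem_USg e _).2 ⟨w, b', hwe, rfl⟩)) (by rw [← prS_mk, ← prS_mk]; exact h)
  exact (ssg_inj e f w w b b' hfr.ef hwe hwf hwe hwf h1).2

/-- Step 2: `USg e` is fixed pointwise -/
theorem fix_USg (p : ℕ) [Fact p.Prime] [CharP F p] (hm : 1 ≤ m)
    {e f r s : Fin m ⊕ Fin m → F} (hfr : SFrame e f r s) (β : MulAut (Cfsg.PSp m F))
    (hβe : (Tb e).map β.toMonoidHom = Tb e) (hβf : (Tb f).map β.toMonoidHom = Tb f)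
    (H : ∀ (w : Fin m ⊕ Fin m → F) (b : F), ⟪w, e⟫ = 0 → ⟪w, f⟫ = 0 → ∃ b' : F,
      β (prS (ssg e w b)) = prS (ssg e w b')) : USg e ≤ fixS β := by
  have hef := hfr.ef
  have hT : ∀ (u : Fin m ⊕ Fin m → F) (a : F), ⟪u, e⟫ = 0 → ⟪u, f⟫ = 0 →
      spTv m u a ∈ fixS β := by
    intro u a hue huf
    refine fix_lev p hm hfr β hβe hβf H _ 1 1 one_ne_zero one_ne_zero ?_ ?_
    · rw [sact_tv, sf_swap_zero hue, mul_zero, zero_smul, add_zero, one_smul]
    · rw [sact_tv, sf_swap_zero huf, mul_zero, zero_smul, add_zero, one_smul]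
  -- commutators with transvections of `W` are fixed
  have key : ∀ (u w : Fin m ⊕ Fin m → F) (a : F), ⟪u, e⟫ = 0 → ⟪u, f⟫ = 0 → ⟪w, e⟫ = 0 →
      ⟪w, f⟫ = 0 → ssg e ((a * ⟪w, u⟫) • u) (-(a * ⟪w, u⟫ * ⟪w, u⟫)) ∈ fixS β := by
    intro u w a hue huf hwe hwf
    have hTf := (mem_fixS β _).1 (hT u a hue huf)
    obtain ⟨b', hb'⟩ := H w 0 hwe hwf
    have hTe : sact (spTv m u a) e = e := by
      rw [sact_tv, sf_swap_zero hue, mul_zero, zero_smul, add_zero]
    have hTw : sact (spTv m u a) w = w + (a * ⟪w, u⟫) • u := sact_tv u a w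
    have hTwe : ⟪w + (a * ⟪w, u⟫) • u, e⟫ = 0 := by
      rw [sympForm_add_left, sympForm_smul_left, hwe, hue, mul_zero, add_zero]
    have c1 : ∀ b : F, spTv m u a * ssg e w b * (spTv m u a)⁻¹
        = ssg e (w + (a * ⟪w, u⟫) • u) b := by
      intro b
      rw [ssg_conj, hTe, hTw]
    have h2 : β (prS (ssg e (w + (a * ⟪w, u⟫) • u) 0))
        = prS (ssg e (w + (a * ⟪w, u⟫) • u) b') := by
      rw [← c1 0, ← c1 b']
      simp only [map_mul, map_inv, hTf, hb']
    have c2 : ∀ b : F, ssg e (w + (a * ⟪w, u⟫) • u) b * (ssg e w b)⁻¹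
        = ssg e ((a * ⟪w, u⟫) • u) (-(a * ⟪w, u⟫ * ⟪w, u⟫)) := by
      intro b
      rw [ssg_inv e w b hwe, ssg_mul e _ _ b (-b) hTwe (by rw [sympForm_neg_left, hwe, neg_zero])]
      congr 1
      · module
      · rw [sympForm_neg_left, sympForm_add_right, sympForm_smul_right, sympForm_self]
        ring
    rw [mem_fixS, ← c2 0]
    have e1 : β (prS (ssg e (w + (a * ⟪w, u⟫) • u) 0 * (ssg e w 0)⁻¹))
        = β (prS (ssg e (w + (a * ⟪w, u⟫) • u) 0)) * (β (prS (ssg e w 0)))⁻¹ := by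
      simp only [map_mul, map_inv]
    rw [e1, h2, hb', c2 0, ← c2 b']
    simp only [map_mul, map_inv]
  -- all `ssg e u x` with `x ≠ 0` are fixed
  have hx : ∀ (u : Fin m ⊕ Fin m → F), u ≠ 0 → ⟪u, e⟫ = 0 → ⟪u, f⟫ = 0 → ∀ x : F, x ≠ 0 →
      ssg e u x ∈ fixS β := by
    intro u hu0 hue huf x hx0
    obtain ⟨w, hwe, hwf, huw⟩ := W_partner hef u hu0 hue huf
    have hwu : ⟪w, u⟫ = -1 := sf_swap_one huw
    have h1 := key u (x • w) (-x⁻¹) hue huf (by rw [sympForm_smul_left, hwe, mul_zero])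
      (by rw [sympForm_smul_left, hwf, mul_zero])
    have k1 : -x⁻¹ * ⟪x • w, u⟫ = 1 := by
      rw [sympForm_smul_left, hwu]
      field_simp
    have k2 : -(-x⁻¹ * ⟪x • w, u⟫ * ⟪x • w, u⟫) = x := by
      rw [k1, sympForm_smul_left, hwu]
      ring
    rw [k2, k1, one_smul] at h1
    exact h1
  have hall : ∀ (u : Fin m ⊕ Fin m → F), u ≠ 0 → ⟪u, e⟫ = 0 → ⟪u, f⟫ = 0 → ∀ x : F,
      ssg e u x ∈ fixS β := by
    intro u hu0 hue huf x
    by_cases hx0 : x = 0
    · rw [hx0]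
      obtain ⟨k, hk⟩ := H u 0 hue huf
      by_cases hk0 : k = 0
      · rw [mem_fixS, hk, hk0]
      · exfalso
        have h1 := (mem_fixS β _).1 (hx u hu0 hue huf k hk0)
        have h2 : β (prS (ssg e u k)) = β (prS (ssg e u 0)) := by rw [h1, hk]
        exact hk0 (ssg_b_unique p hfr u k 0 hue huf (β.injective h2))
    · exact hx u hu0 hue huf x hx0
  have htv : ∀ z : F, spTv m e z ∈ fixS β := by
    intro z
    have h1 := ssg_mul_tv e r 0 z hfr.re
    rw [zero_add] at h1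
    have h2 : spTv m e z = (ssg e r 0)⁻¹ * ssg e r z := by rw [← h1]; group
    rw [h2]
    exact (fixS β).mul_mem ((fixS β).inv_mem (hall r hfr.r_ne hfr.re hfr.rf 0))
      (hall r hfr.r_ne hfr.re hfr.rf z)
  intro g hg
  obtain ⟨w, b, hwe, hwf, rfl⟩ := (mem_USg_iff e f hef g).1 hg
  by_cases hw0 : w = 0
  · rw [hw0, ssg_zero]
    exact htv b
  · exact hall w hw0 hwe hwf b

/-- Step 3: the root subgroup of `f` is fixed pointwise -/
theorem fix_sroot_f (p : ℕ) [Fact p.Prime] [CharP F p]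
    {e f r s : Fin m ⊕ Fin m → F} (hfr : SFrame e f r s) (β : MulAut (Cfsg.PSp m F))
    (hβe : (Tb e).map β.toMonoidHom = Tb e) (hβf : (Tb f).map β.toMonoidHom = Tb f)
    (hA : ∀ c : F, spTv m e c ∈ fixS β) (b : F) : spTv m f b ∈ fixS β := by
  by_cases hb0 : b = 0
  · rw [hb0, spTv_zero_right]
    exact Subgroup.one_mem _
  have he0 := hfr.e_ne
  have hf0 := hfr.f_ne
  obtain ⟨b', hβ⟩ := exists_lift_tv β f f hβf b
  have hfixa := (mem_fixS β _).1 (hA b⁻¹)
  have hL : β (prS (spTv m e b⁻¹ * spTv m f b * spTv m e b⁻¹))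
      = prS (spTv m e b⁻¹ * spTv m f b' * spTv m e b⁻¹) := by
    simp only [map_mul, hfixa, hβ]
  have h1 := rel_conj β _ _ hL e e hβe
  rw [weyl_apply hfr b⁻¹ b] at h1
  have h0 : (1 - b⁻¹ * b) • e + b • f = b • f := by
    rw [inv_mul_cancel₀ hb0, sub_self, zero_smul, zero_add]
  rw [h0, Tb_smul b hb0, hβf] at h1
  obtain ⟨l, hl0, hl⟩ := Tb_eq p _ f (sact_ne_zero _ e he0) h1.symm
  rw [weyl_apply hfr b⁻¹ b'] at hl
  have h2 := congrArg (fun v => ⟪v, f⟫) hl
  simp only [sympForm_add_left, sympForm_smul_left, hfr.ef, sympForm_self, mul_one, mul_zero,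
    add_zero] at h2
  have hb'b : b' = b := by
    field_simp at h2
    linear_combination -h2
  rw [mem_fixS, hβ, hb'b]

/-- **Main Lemma**: an automorphism fixing the images of the root subgroups of `e` and `f` and
acting trivially on `USg e / sroot e` is trivial -/
theorem aut_eq_one (p : ℕ) [Fact p.Prime] [CharP F p] (hm : 1 ≤ m)
    {e f r s : Fin m ⊕ Fin m → F} (hfr : SFrame e f r s) (β : MulAut (Cfsg.PSp m F))
    (hβe : (Tb e).map β.toMonoidHom = Tb e) (hβf : (Tb f).map β.toMonoidHom = Tb f)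
    (H : ∀ (w : Fin m ⊕ Fin m → F) (b : F), ⟪w, e⟫ = 0 → ⟪w, f⟫ = 0 → ∃ b' : F,
      β (prS (ssg e w b)) = prS (ssg e w b')) : β = 1 := by
  have hU := fix_USg p hm hfr β hβe hβf H
  have hA : ∀ c : F, spTv m e c ∈ fixS β := fun c =>
    hU (sroot_le_USg e ((mem_sroot _ _).2 ⟨c, rfl⟩))
  have hf : sroot f ≤ fixS β := by
    intro x hx
    obtain ⟨b, rfl⟩ := (mem_sroot _ _).1 hx
    exact fix_sroot_f p hfr β hβe hβf hA b
  have htop := fix_top hfr (fixS β) hU hf
  apply MulEquiv.ext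
  intro y
  obtain ⟨x, rfl⟩ := prS_surjective y
  rw [MulAut.one_apply]
  exact (mem_fixS β x).1 (by rw [htop]; exact Subgroup.mem_top x)

end main

end Cfsg.Agent.Helper44.PSpn
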