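import Mathlib
import Cfsg.Agent.Helper44.SpH

/-!
# Automorphisms of `PSp_{2m}(q)` (helper44), part I: the decomposition `α = sD g * sF σ` for
automorphisms permuting the root subgroups
-/

set_option autoImplicit false
set_option linter.unusedSimpArgs false
set_option linter.unusedSectionVars false
set_option linter.unusedVariables false

namespace Cfsg.Agent.Helper44.PSpn

open Matrix
open scoped Pointwise
open Cfsg.Agent.Helper13 (sympForm_add_left sympForm_add_right sympForm_smul_left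
  sympForm_smul_right sympForm_swap sympForm_self sympForm_zero_left sympForm_zero_right
  sympForm_neg_left sympForm_neg_right sympForm_sub_left sympForm_sub_right)
open Cfsg.Agent.Helper5 (spTv spTv_mulVec sp_ext sp_sympForm sp_coe_one sp_mul_mulVec
  sp_inv_mulVec sp_mulVec_inv)

variable {F : Type*} [Field F] {m : ℕ}

local notation "⟪" x ", " y "⟫" => Cfsg.sympForm m F x y

/-- `Sp → GL` -/
def spToGL : Matrix.symplecticGroup (Fin m) F →* GL (Fin m ⊕ Fin m) F :=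
  (Units.map (Matrix.symplecticGroup (Fin m) F).subtype).comp toUnits.toMonoidHom

theorem spToGL_coe (s : Matrix.symplecticGroup (Fin m) F) :
    ((spToGL s : GL (Fin m ⊕ Fin m) F) : Matrix (Fin m ⊕ Fin m) (Fin m ⊕ Fin m) F)
      = (s : Matrix (Fin m ⊕ Fin m) (Fin m ⊕ Fin m) F) := rfl

theorem spToGL_mem (s : Matrix.symplecticGroup (Fin m) F) : spToGL s ∈ Cfsg.GSp m F := by
  rw [mem_GSp_iff]
  refine ⟨1, fun u v => ?_⟩
  rw [spToGL_coe, Units.val_one, one_mul]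
  exact sp_sympForm s u v

/-- an element of `Sp` as an element of `GSp` -/
def spGSp : Matrix.symplecticGroup (Fin m) F →* ↥(Cfsg.GSp m F) :=
  spToGL.codRestrict (Cfsg.GSp m F) spToGL_mem

theorem spGSp_coe (s : Matrix.symplecticGroup (Fin m) F) :
    ((spGSp s : ↥(Cfsg.GSp m F)) : GL (Fin m ⊕ Fin m) F) = spToGL s := rfl

theorem conj_prS (s : Matrix.symplecticGroup (Fin m) F) :
    MulAut.conj (prS s) = sD (spGSp s) := by
  apply MulEquiv.ext
  intro x
  obtain ⟨y, rfl⟩ := prS_surjective x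
  rw [MulAut.conj_apply, sD_prS, ← map_inv, ← map_mul, ← map_mul]
  congr 1

theorem semi_induced (g : ↥(Cfsg.GSp m F)) (σ : RingAut F) :
    Cfsg.IsInducedBySemilinearPSp (g : GL (Fin m ⊕ Fin m) F) σ (sD g * sF σ) := by
  intro s s' h
  show (sD g * sF σ : MulAut (Cfsg.PSp m F)) (prS s) = prS s'
  rw [MulAut.mul_apply, sF_prS, sD_prS]
  congr 1
  apply Subtype.ext
  rw [conjSp_coe, mapSp_coe, h]

theorem sD_innerDiag (g : ↥(Cfsg.GSp m F)) : Cfsg.IsInnerDiagonalAutPSp (sD g) := by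
  refine ⟨(g : GL (Fin m ⊕ Fin m) F), g.2, fun s s' h => ?_⟩
  show sD g (prS s) = prS s'
  rw [sD_prS]
  congr 1
  apply Subtype.ext
  rw [conjSp_coe, h]
  congr 2

theorem sF_fieldAut (σ : RingAut F) :
    Cfsg.IsStdFieldAutPSp σ (sF σ : MulAut (Cfsg.PSp m F)) := by
  intro s s' h
  show sF σ (prS s) = prS s'
  rw [sF_prS]
  congr 1
  apply Subtype.ext
  rw [mapSp_coe, h]

section main

variable [Fintype F]

/-- **every automorphism of `PSp_{2m}(q)` which permutes the root subgroups is induced by a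
semilinear similitude** -/
theorem aut_psp_of_rel (p : ℕ) [Fact p.Prime] [CharP F p] (hm : 2 ≤ m)
    (α : MulAut (Cfsg.PSp m F))
    (hrel : ∀ v : Fin m ⊕ Fin m → F, v ≠ 0 →
      ∃ v' : Fin m ⊕ Fin m → F, v' ≠ 0 ∧ (Tb v).map α.toMonoidHom = Tb v') :
    ∃ (g : ↥(Cfsg.GSp m F)) (σ : RingAut F), α = sD g * sF σ := by
  have hm1 : 1 ≤ m := by omega
  obtain ⟨e, f, r, s, hfr⟩ := exists_sframe (F := F) hm
  obtain ⟨g₀, hαe, hαf⟩ := exists_normalize p hfr α hrel
  have hrel' : ∀ v : Fin m ⊕ Fin m → F, v ≠ 0 → ∃ v' : Fin m ⊕ Fin m → F, v' ≠ 0 ∧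
      (Tb v).map (MulAut.conj (prS g₀) * α).toMonoidHom = Tb v' := by
    intro v hv0
    obtain ⟨v', hv'0, hv'⟩ := hrel v hv0
    exact ⟨sact g₀ v', sact_ne_zero _ _ hv'0,
      rel_mul α (MulAut.conj (prS g₀)) v v' _ hv' (Tb_conj g₀ v').symm⟩
  obtain ⟨g, σ, hγe, hγf, hγ⟩ := exists_semi_aut p hm1 hfr _ hrel' hαe hαf
  have hcomp : ∀ v : Fin m ⊕ Fin m → F,
      (Tb v).map ((sD g * sF σ)⁻¹ * (MulAut.conj (prS g₀) * α)).toMonoidHom
      = ((Tb v).map (MulAut.conj (prS g₀) * α).toMonoidHom).map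
          ((sD g * sF σ)⁻¹).toMonoidHom := by
    intro v
    rw [Subgroup.map_map]
    rfl
  have hγe' := rel_inv (sD g * sF σ) e e hγe
  have hγf' := rel_inv (sD g * sF σ) f f hγf
  have hβ : (sD g * sF σ)⁻¹ * (MulAut.conj (prS g₀) * α) = 1 := by
    apply aut_eq_one p hm1 hfr
    · rw [hcomp, hαe, hγe']
    · rw [hcomp, hαf, hγf']
    · intro w b hwe hwf
      obtain ⟨b₁, hmem, hα'⟩ := Abar_spec p hm1 hfr _ hαe w b hwe hwf
      obtain ⟨b₂, hγ'⟩ := hγ w b hwe hwf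
      have h1 := ssg_mul_tv e (Abar e f (MulAut.conj (prS g₀) * α) w) b₂ (b₁ - b₂) hmem.1
      have h2 : b₂ + (b₁ - b₂) = b₁ := by ring
      rw [h2] at h1
      obtain ⟨c', h3⟩ := exists_lift_tv (sD g * sF σ)⁻¹ e e hγe' (b₁ - b₂)
      have h4 := ssg_mul_tv e w b c' hwe
      refine ⟨b + c', ?_⟩
      rw [MulAut.mul_apply, hα', ← h1]
      simp only [map_mul]
      rw [h3, ← hγ', ← h4, map_mul]
      congr 1
      rw [← MulAut.mul_apply, inv_mul_cancel, MulAut.one_apply]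
  have h5 : MulAut.conj (prS g₀) * α = sD g * sF σ := (inv_mul_eq_one.1 hβ).symm
  refine ⟨(spGSp g₀)⁻¹ * g, σ, ?_⟩
  rw [map_mul, map_inv, ← conj_prS, mul_assoc, ← h5, inv_mul_cancel_left]

/-- if every automorphism permutes the root subgroups then `Aut(PSp) = PΓSp` -/
theorem gammaPSp_top_of_rel {F : Type*} [Field F] [Fintype F] {m : ℕ}
    (p : ℕ) [Fact p.Prime] [CharP F p] (hm : 2 ≤ m)
    (hrel : ∀ (α : MulAut (Cfsg.PSp m F)) (v : Fin m ⊕ Fin m → F), v ≠ 0 →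
      ∃ v' : Fin m ⊕ Fin m → F, v' ≠ 0 ∧ (Tb v).map α.toMonoidHom = Tb v') :
    Cfsg.gammaPSp m F = ⊤ := by
  rw [eq_top_iff]
  intro α _
  obtain ⟨g, σ, rfl⟩ := aut_psp_of_rel p hm α (hrel α)
  exact Subgroup.subset_closure ⟨(g : GL (Fin m ⊕ Fin m) F), σ, g.2, semi_induced g σ⟩

end main

end Cfsg.Agent.Helper44.PSpn
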