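import Mathlib
import Cfsg.Agent.Helper44.SpI
import Cfsg.Agent.Helper5.SympCenter
import Cfsg.Agent.S2680
import Cfsg.Agent.S2681
import Cfsg.Agent.S2682

/-!
# Automorphisms of `PSp_{2m}(q)` (helper44), part J: in characteristic `2` and rank `m ≥ 3` every
automorphism permutes the root subgroups (transvections are recognised by the order of their
centraliser)
-/

set_option autoImplicit false
set_option linter.unusedSimpArgs false
set_option linter.unusedSectionVars false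
set_option linter.unusedVariables false

namespace Cfsg.Agent.Helper44.PSpn

open Matrix
open scoped Pointwise
open Cfsg.Agent.Helper13 (sympForm_add_left sympForm_add_right sympForm_smul_left
  sympForm_smul_right sympForm_swap sympForm_self sympForm_zero_left sympForm_zero_right
  sympForm_neg_left sympForm_neg_right sympForm_sub_left sympForm_sub_right)
open Cfsg.Agent.Helper5 (spTv spTv_mulVec sp_ext sp_sympForm sp_coe_one sp_mul_mulVec
  sp_inv_mulVec sp_mulVec_inv)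

/-! ### arithmetic -/

theorem qpart_unique (q a b A B : ℕ) (hq0 : 0 < q) (hq : Even q) (hA : Odd A) (hB : Odd B)
    (h : q ^ a * A = q ^ b * B) : a = b ∧ A = B := by
  have key : ∀ a b A B : ℕ, Odd A → Odd B → a ≤ b → q ^ a * A = q ^ b * B → a = b ∧ A = B := by
    intro a b A B hA hB hab h
    obtain ⟨d, rfl⟩ := Nat.exists_eq_add_of_le hab
    rw [pow_add, mul_assoc] at h
    have h1 : A = q ^ d * B := Nat.eq_of_mul_eq_mul_left (pow_pos hq0 a) h
    by_cases hd : d = 0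
    · subst hd
      simpa using h1
    · exfalso
      have h2 : Even (q ^ d * B) := (hq.pow_of_ne_zero hd).mul_right B
      rw [← h1] at h2
      exact (Nat.not_even_iff_odd.2 hA) h2
  rcases le_total a b with hab | hab
  · exact key a b A B hA hB hab h
  · obtain ⟨h1, h2⟩ := key b a B A hB hA hab h.symm
    exact ⟨h1.symm, h2.symm⟩

theorem expo_b (j d : ℕ) :
    2 * (2 * j + 1 + d) * (2 * j + 1) - (3 * (2 * j + 1) ^ 2 - (2 * j + 1)) / 2
      + ((2 * j + 1 - 1) / 2) ^ 2 + ((2 * j + 1 + d) - (2 * j + 1)) ^ 2 + j * (j + 1)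
      = (2 * j + 1 + d) ^ 2 := by
  have h1 : (3 * (2 * j + 1) ^ 2 - (2 * j + 1)) / 2 = 6 * j ^ 2 + 5 * j + 1 := by
    have : 3 * (2 * j + 1) ^ 2 - (2 * j + 1) = 2 * (6 * j ^ 2 + 5 * j + 1) :=
      Nat.sub_eq_of_eq_add (by ring)
    rw [this, Nat.mul_div_cancel_left _ (by norm_num : 0 < 2)]
  have h2 : (2 * j + 1 - 1) / 2 = j := by omega
  have h3 : (2 * j + 1 + d) - (2 * j + 1) = d := by omega
  have h4 : 2 * (2 * j + 1 + d) * (2 * j + 1) - (6 * j ^ 2 + 5 * j + 1)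
      = 2 * j ^ 2 + 3 * j + 1 + 4 * d * j + 2 * d := Nat.sub_eq_of_eq_add (by ring)
  rw [h1, h2, h3, h4]
  ring

theorem expo_a (i d : ℕ) :
    2 * (2 * i + 2 + d) * (2 * i + 2) - (3 * (2 * i + 2) ^ 2 - (2 * i + 2)) / 2
      + ((2 * i + 2) / 2) ^ 2 + ((2 * i + 2 + d) - (2 * i + 2)) ^ 2 + i * (i + 1)
      = (2 * i + 2 + d) ^ 2 := by
  have h1 : (3 * (2 * i + 2) ^ 2 - (2 * i + 2)) / 2 = 6 * i ^ 2 + 11 * i + 5 := by
    have : 3 * (2 * i + 2) ^ 2 - (2 * i + 2) = 2 * (6 * i ^ 2 + 11 * i + 5) :=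
      Nat.sub_eq_of_eq_add (by ring)
    rw [this, Nat.mul_div_cancel_left _ (by norm_num : 0 < 2)]
  have h2 : (2 * i + 2) / 2 = i + 1 := by omega
  have h3 : (2 * i + 2 + d) - (2 * i + 2) = d := by omega
  have h4 : 2 * (2 * i + 2 + d) * (2 * i + 2) - (6 * i ^ 2 + 11 * i + 5)
      = 2 * i ^ 2 + 5 * i + 3 + 4 * d * i + 4 * d := Nat.sub_eq_of_eq_add (by ring)
  rw [h1, h2, h3, h4]
  ring

theorem expo_c (i d : ℕ) :
    2 * (2 * i + 2 + d) * (2 * i + 2) - (3 * (2 * i + 2) ^ 2 - 3 * (2 * i + 2)) / 2 - 1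
      + ((2 * i + 2 - 2) / 2) ^ 2 + ((2 * i + 2 + d) - (2 * i + 2)) ^ 2 + i * (i + 1)
      = (2 * i + 2 + d) ^ 2 := by
  have h1 : (3 * (2 * i + 2) ^ 2 - 3 * (2 * i + 2)) / 2 = 6 * i ^ 2 + 9 * i + 3 := by
    have : 3 * (2 * i + 2) ^ 2 - 3 * (2 * i + 2) = 2 * (6 * i ^ 2 + 9 * i + 3) :=
      Nat.sub_eq_of_eq_add (by ring)
    rw [this, Nat.mul_div_cancel_left _ (by norm_num : 0 < 2)]
  have h2 : (2 * i + 2 - 2) / 2 = i := by omega
  have h3 : (2 * i + 2 + d) - (2 * i + 2) = d := by omega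
  have h4 : 2 * (2 * i + 2 + d) * (2 * i + 2) - (6 * i ^ 2 + 9 * i + 3) - 1
      = 2 * i ^ 2 + 7 * i + 4 + 4 * d * i + 4 * d := by
    rw [Nat.sub_sub]
    exact Nat.sub_eq_of_eq_add (by ring)
  rw [h1, h2, h3, h4]
  ring

theorem expo_t (m : ℕ) (hm : 1 ≤ m) :
    2 * m * 1 - (3 * 1 ^ 2 - 1) / 2 + ((1 - 1) / 2) ^ 2 + (m - 1) ^ 2 = m ^ 2 := by
  obtain ⟨d, rfl⟩ : ∃ d, m = d + 1 := ⟨m - 1, by omega⟩
  have h := expo_b 0 d
  simp only [Nat.mul_zero, Nat.zero_add, Nat.zero_mul, Nat.add_zero] at h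
  rw [add_comm 1 d] at h
  exact h

/-- the odd part of the centraliser orders -/
def PP (q k : ℕ) : ℕ := ∏ i : Fin k, (q ^ (2 * ((i : ℕ) + 1)) - 1)

theorem PP_odd (q : ℕ) (hq0 : 0 < q) (hq : Even q) (k : ℕ) : Odd (PP q k) := by
  unfold PP
  apply Finset.prod_induction _ Odd (fun a b ha hb => ha.mul hb) odd_one
  intro i _
  have h1 : Even (q ^ (2 * ((i : ℕ) + 1))) := hq.pow_of_ne_zero (by omega)
  have h2 : 0 < q ^ (2 * ((i : ℕ) + 1)) := pow_pos hq0 _
  exact Nat.Even.sub_odd h2 h1 odd_one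

theorem PP_zero (q : ℕ) : PP q 0 = 1 := by
  unfold PP
  simp

theorem PP_succ (q k : ℕ) : PP q (k + 1) = PP q k * (q ^ (2 * (k + 1)) - 1) := by
  unfold PP
  rw [Fin.prod_univ_castSucc]
  simp

theorem card_form (q x y z A B : ℕ) :
    q ^ x * (q ^ y * A) * (q ^ z * B) = q ^ (x + y + z) * (A * B) := by
  ring

variable {F : Type*} [Field F] {m : ℕ}

local notation "⟪" x ", " y "⟫" => Cfsg.sympForm m F x y

/-! ### rank one -/

/-- a symplectic map of the form `x ↦ x + φ(x) v` is a transvection -/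
theorem sp_form_rank_one (g : Matrix.symplecticGroup (Fin m) F) (v : Fin m ⊕ Fin m → F)
    (hv0 : v ≠ 0) (φ : (Fin m ⊕ Fin m → F) → F) (h : ∀ x, sact g x = x + φ x • v) :
    g ∈ sroot v := by
  obtain ⟨f, hf⟩ := sf_exists_partner v hv0
  have key : ∀ x, φ x = -φ f * ⟪x, v⟫ := by
    intro x
    have h1 := sact_form g x f
    rw [h x, h f] at h1
    simp only [sympForm_add_left, sympForm_add_right, sympForm_smul_left, sympForm_smul_right,
      sympForm_self, hf, mul_zero, mul_one, add_zero] at h1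
    linear_combination h1
  rw [mem_sroot]
  refine ⟨-φ f, ?_⟩
  rw [sact_eq_iff]
  intro x
  rw [h x, sact_tv, key x]

theorem tv_sub_one_mulVec (v : Fin m ⊕ Fin m → F) (c : F) (x : Fin m ⊕ Fin m → F) :
    ((spTv m v c : Matrix (Fin m ⊕ Fin m) (Fin m ⊕ Fin m) F) - 1) *ᵥ x = (c * ⟪x, v⟫) • v := by
  rw [Matrix.sub_mulVec, Matrix.one_mulVec]
  have h := sact_tv v c x
  unfold sact at h
  rw [h, add_sub_cancel_left]

theorem rank_tv (v : Fin m ⊕ Fin m → F) (hv0 : v ≠ 0) :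
    ((spTv m v (1 : F) : Matrix (Fin m ⊕ Fin m) (Fin m ⊕ Fin m) F) - 1).rank = 1 := by
  obtain ⟨f, hf⟩ := sf_exists_partner v hv0
  have hfv := sf_swap_one hf
  unfold Matrix.rank
  have h1 : LinearMap.range
      ((spTv m v (1 : F) : Matrix (Fin m ⊕ Fin m) (Fin m ⊕ Fin m) F) - 1).mulVecLin
      = Submodule.span F {v} := by
    ext y
    rw [LinearMap.mem_range, Submodule.mem_span_singleton]
    constructor
    · rintro ⟨x, rfl⟩
      exact ⟨1 * ⟪x, v⟫, by rw [Matrix.mulVecLin_apply, tv_sub_one_mulVec]⟩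
    · rintro ⟨c, rfl⟩
      refine ⟨(-c) • f, ?_⟩
      rw [Matrix.mulVecLin_apply, tv_sub_one_mulVec, sympForm_smul_left, hfv]
      congr 1
      ring
  rw [h1]
  exact finrank_span_singleton hv0

theorem tv_of_rank_one (g : Matrix.symplecticGroup (Fin m) F)
    (h : ((g : Matrix (Fin m ⊕ Fin m) (Fin m ⊕ Fin m) F) - 1).rank = 1) :
    ∃ v : Fin m ⊕ Fin m → F, v ≠ 0 ∧ g ∈ sroot v := by
  unfold Matrix.rank at h
  rw [finrank_eq_one_iff'] at h
  obtain ⟨⟨v, hv⟩, hv0, hspan⟩ := h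
  have hv0' : v ≠ 0 := fun h0 => hv0 (Subtype.ext h0)
  have h2 : ∀ x : Fin m ⊕ Fin m → F, ∃ c : F,
      ((g : Matrix (Fin m ⊕ Fin m) (Fin m ⊕ Fin m) F) - 1) *ᵥ x = c • v := by
    intro x
    obtain ⟨c, hc⟩ := hspan ⟨((g : Matrix (Fin m ⊕ Fin m) (Fin m ⊕ Fin m) F) - 1) *ᵥ x,
      LinearMap.mem_range.2 ⟨x, rfl⟩⟩
    exact ⟨c, (congrArg Subtype.val hc).symm⟩
  choose φ hφ using h2
  refine ⟨v, hv0', sp_form_rank_one g v hv0' φ fun x => ?_⟩
  have h3 := hφ x
  rw [Matrix.sub_mulVec, Matrix.one_mulVec] at h3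
  unfold sact
  rw [← h3]
  abel

theorem ne_one_rank (g : Matrix.symplecticGroup (Fin m) F) (hg : g ≠ 1) :
    ((g : Matrix (Fin m ⊕ Fin m) (Fin m ⊕ Fin m) F) - 1).rank ≠ 0 := by
  intro h
  apply hg
  unfold Matrix.rank at h
  rw [Submodule.finrank_eq_zero] at h
  rw [sact_eq_iff]
  intro x
  have h1 : ((g : Matrix (Fin m ⊕ Fin m) (Fin m ⊕ Fin m) F) - 1).mulVecLin x ∈
      LinearMap.range ((g : Matrix (Fin m ⊕ Fin m) (Fin m ⊕ Fin m) F) - 1).mulVecLin :=
    LinearMap.mem_range.2 ⟨x, rfl⟩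
  rw [h, Submodule.mem_bot, Matrix.mulVecLin_apply, Matrix.sub_mulVec, Matrix.one_mulVec,
    sub_eq_zero] at h1
  rw [sact_one]
  exact h1

theorem rank_le_of_sq [CharP F 2] (g : Matrix.symplecticGroup (Fin m) F) (hg : g ^ 2 = 1) :
    ((g : Matrix (Fin m ⊕ Fin m) (Fin m ⊕ Fin m) F) - 1).rank ≤ m := by
  have h1 : (g : Matrix (Fin m ⊕ Fin m) (Fin m ⊕ Fin m) F)
      * (g : Matrix (Fin m ⊕ Fin m) (Fin m ⊕ Fin m) F) = 1 := by
    have h2 : g * g = 1 := by rw [← pow_two]; exact hg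
    have h3 := congrArg (fun x : Matrix.symplecticGroup (Fin m) F =>
      (x : Matrix (Fin m ⊕ Fin m) (Fin m ⊕ Fin m) F)) h2
    exact h3
  have h2F : (2 : F) = 0 := CharTwo.two_eq_zero
  have h4 : ((g : Matrix (Fin m ⊕ Fin m) (Fin m ⊕ Fin m) F) - 1)
      * ((g : Matrix (Fin m ⊕ Fin m) (Fin m ⊕ Fin m) F) - 1) = 0 := by
    rw [Matrix.sub_mul, Matrix.mul_sub, Matrix.mul_sub, h1, Matrix.mul_one, Matrix.one_mul,
      Matrix.one_mul]
    have h5 : (1 : Matrix (Fin m ⊕ Fin m) (Fin m ⊕ Fin m) F)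
        - (g : Matrix (Fin m ⊕ Fin m) (Fin m ⊕ Fin m) F)
        - ((g : Matrix (Fin m ⊕ Fin m) (Fin m ⊕ Fin m) F) - 1)
        = (2 : F) • ((1 : Matrix (Fin m ⊕ Fin m) (Fin m ⊕ Fin m) F)
          - (g : Matrix (Fin m ⊕ Fin m) (Fin m ⊕ Fin m) F)) := by
      rw [two_smul]; abel
    rw [h5, h2F, zero_smul]
  have h6 := Matrix.rank_add_rank_le_card_of_mul_eq_zero h4
  rw [Fintype.card_sum, Fintype.card_fin] at h6
  omega

/-! ### the centre of the centraliser of a transvection in characteristic two -/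

theorem fix_of_tv_comm [CharP F 2] (g : Matrix.symplecticGroup (Fin m) F)
    (u : Fin m ⊕ Fin m → F) (hu0 : u ≠ 0) (c : F) (hc : c ≠ 0)
    (h : g * spTv m u c = spTv m u c * g) : sact g u = u := by
  have h1 : g * spTv m u c * g⁻¹ = spTv m u c := by rw [h]; group
  rw [← ssg_zero, ssg_conj, sact_zero, ssg_zero, ssg_zero] at h1
  obtain ⟨l, hl0, hl⟩ := spTv_eq_point (sact g u) u c c (sact_ne_zero g u hu0) hc h1
  rw [hl, Cfsg.Agent.Helper5.spTv_smul] at h1
  obtain ⟨f, hf⟩ := sf_exists_partner u hu0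
  rw [← ssg_zero, ← ssg_zero] at h1
  have h2 := (ssg_inj u f 0 0 _ _ hf (sympForm_zero_left _) (sympForm_zero_left _)
    (sympForm_zero_left _) (sympForm_zero_left _) h1).2
  have h3 : l * l = 1 := by
    have : (l * l - 1) * c = 0 := by linear_combination h2
    rcases mul_eq_zero.1 this with h' | h'
    · linear_combination h'
    · exact absurd h' hc
  have h2F : (2 : F) = 0 := CharTwo.two_eq_zero
  have h4 : (l - 1) * (l - 1) = 0 := by linear_combination h3 - (l - 1) * h2F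
  have h5 : l = 1 := by
    rcases mul_eq_zero.1 h4 with h' | h' <;> linear_combination h'
  rw [hl, h5, one_smul]

theorem sroot_iff_ZC [CharP F 2] (v : Fin m ⊕ Fin m → F) (hv0 : v ≠ 0) (c : F) (hc : c ≠ 0)
    (z : Matrix.symplecticGroup (Fin m) F) :
    z ∈ sroot v ↔ ∀ y : Matrix.symplecticGroup (Fin m) F,
      y * spTv m v c = spTv m v c * y → z * y = y * z := by
  constructor
  · intro hz y hy
    obtain ⟨a, rfl⟩ := (mem_sroot _ _).1 hz
    have h1 := fix_of_tv_comm y v hv0 c hc hy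
    have h2 : y * spTv m v a * y⁻¹ = spTv m v a := by
      rw [← ssg_zero, ssg_conj, sact_zero, h1]
    calc spTv m v a * y = y * spTv m v a * y⁻¹ * y := by rw [h2]
      _ = y * spTv m v a := by group
  · intro hz
    have hfix : ∀ u : Fin m ⊕ Fin m → F, ⟪u, v⟫ = 0 → sact z u = u := by
      intro u huv
      by_cases hu0 : u = 0
      · rw [hu0, sact_zero]
      · have h1 := hz (spTv m u 1) (tv_comm_of_perp u v 1 c huv)
        exact fix_of_tv_comm z u hu0 1 one_ne_zero h1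
    have h2 : ∀ x : Fin m ⊕ Fin m → F, ∃ t : F, sact z x - x = t • v := by
      intro x
      apply sf_double_perp v _ hv0
      intro y hy
      rw [sympForm_sub_left]
      have h3 := sact_form z x y
      rw [hfix y hy] at h3
      rw [h3, sub_self]
    choose φ hφ using h2
    refine sp_form_rank_one z v hv0 φ fun x => ?_
    rw [← hφ x]
    abel

/-! ### centralisers under automorphisms -/

theorem card_centralizer_equiv {G : Type*} [Group G] (ψ : G ≃* G) (t : G) :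
    Nat.card ↥(Subgroup.centralizer ({ψ t} : Set G))
      = Nat.card ↥(Subgroup.centralizer ({t} : Set G)) := by
  symm
  apply Nat.card_congr
  refine Equiv.subtypeEquiv ψ.toEquiv fun a => ?_
  rw [Subgroup.mem_centralizer_singleton_iff, Subgroup.mem_centralizer_singleton_iff]
  show a * t = t * a ↔ ψ a * ψ t = ψ t * ψ a
  rw [← map_mul, ← map_mul, ψ.injective.eq_iff]

/-! ### involutions with the centraliser order of a transvection -/

theorem tv_sq [CharP F 2] (v : Fin m ⊕ Fin m → F) (c : F) : (spTv m v c) ^ 2 = 1 := by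
  rw [pow_two, Cfsg.Agent.Helper5.spTv_mul, CharTwo.add_self_eq_zero, spTv_zero_right]

theorem tv_ne_one (v : Fin m ⊕ Fin m → F) (hv0 : v ≠ 0) (c : F) (hc : c ≠ 0) :
    spTv m v c ≠ 1 := by
  intro h
  obtain ⟨f, hf⟩ := sf_exists_partner v hv0
  have h1 : sact (spTv m v c) f = sact 1 f := by rw [h]
  rw [sact_tv, sact_one, sf_swap_one hf] at h1
  have h2 : (c * -1) • v = 0 := by simpa using h1
  rcases smul_eq_zero.1 h2 with h3 | h3
  · exact hc (by linear_combination -h3)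
  · exact hv0 h3

section count

variable [Fintype F]

theorem invol_is_tv [CharP F 2] (hm : 3 ≤ m) (v : Fin m ⊕ Fin m → F) (hv0 : v ≠ 0)
    (t' : Matrix.symplecticGroup (Fin m) F) (ht' : t' ^ 2 = 1) (ht'1 : t' ≠ 1)
    (hcard : Nat.card ↥(Subgroup.centralizer ({t'} : Set (Matrix.symplecticGroup (Fin m) F)))
      = Nat.card ↥(Subgroup.centralizer
          ({spTv m v 1} : Set (Matrix.symplecticGroup (Fin m) F)))) :
    ((t' : Matrix (Fin m ⊕ Fin m) (Fin m ⊕ Fin m) F) - 1).rank = 1 := by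
  obtain ⟨q, hq⟩ : ∃ q, Fintype.card F = q := ⟨_, rfl⟩
  have hq2 : 2 ≤ q := by rw [← hq]; exact Fintype.one_lt_card
  have hq0 : 0 < q := by omega
  have hqe : Even q := by
    obtain ⟨n, -, hn⟩ := FiniteField.card F 2
    rw [← hq, hn]
    exact even_two.pow_of_ne_zero n.ne_zero
  have hPo := PP_odd q hq0 hqe
  have h1 : Nat.card ↥(Subgroup.centralizer
        ({spTv m v 1} : Set (Matrix.symplecticGroup (Fin m) F)))
      = q ^ (2 * m * 1 - (3 * 1 ^ 2 - 1) / 2) * (q ^ (((1 - 1) / 2) ^ 2) * PP q ((1 - 1) / 2))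
        * (q ^ ((m - 1) ^ 2) * PP q (m - 1)) :=
    Cfsg.Agent.S2680.result hq (spTv m v 1) (tv_sq v 1) (rank_tv v hv0) odd_one
  rw [card_form] at h1
  obtain ⟨s, hs⟩ : ∃ s, ((t' : Matrix (Fin m ⊕ Fin m) (Fin m ⊕ Fin m) F) - 1).rank = s :=
    ⟨_, rfl⟩
  have hsm : s ≤ m := by rw [← hs]; exact rank_le_of_sq t' ht'
  have hs0 : s ≠ 0 := by rw [← hs]; exact ne_one_rank t' ht'1
  rw [hs]
  have ht := expo_t m (by omega)
  have e1 : (1 - 1) / 2 = 0 := by norm_num
  have hP1 : PP q 1 = q ^ 2 - 1 := by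
    rw [show (1 : ℕ) = 0 + 1 from rfl, PP_succ, PP_zero]
    simp
  rcases Nat.even_or_odd s with hev | hodd
  · exfalso
    obtain ⟨i, hsi⟩ : ∃ i, s = 2 * i + 2 := by
      obtain ⟨k, hk⟩ := hev
      exact ⟨k - 1, by omega⟩
    obtain ⟨d, hmd⟩ : ∃ d, m = 2 * i + 2 + d := ⟨m - s, by omega⟩
    have hPd : 0 < PP q d := (hPo d).pos
    by_cases halt : ∀ x : Fin m ⊕ Fin m → F,
        ⟪x, (t' : Matrix (Fin m ⊕ Fin m) (Fin m ⊕ Fin m) F) *ᵥ x⟫ = 0
    · have h2 : Nat.card ↥(Subgroup.centralizer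
            ({t'} : Set (Matrix.symplecticGroup (Fin m) F)))
          = q ^ (2 * m * s - (3 * s ^ 2 - s) / 2) * (q ^ ((s / 2) ^ 2) * PP q (s / 2))
            * (q ^ ((m - s) ^ 2) * PP q (m - s)) :=
        Cfsg.Agent.S2681.result hq t' ht' ht'1 hs hev halt
      rw [card_form, hcard, h1] at h2
      obtain ⟨he, hA⟩ := qpart_unique q _ _ _ _ hq0 hqe ((hPo _).mul (hPo _))
        ((hPo _).mul (hPo _)) h2
      have h3 := expo_a i d
      rw [← hmd, ← hsi] at h3
      have hi : i * (i + 1) = 0 := by omega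
      have hi0 : i = 0 := by
        rcases Nat.mul_eq_zero.1 hi with h | h <;> omega
      subst hi0
      have e2 : s / 2 = 1 := by omega
      have e3 : m - s = d := by omega
      have e4 : m - 1 = d + 1 := by omega
      rw [e1, e2, e3, e4, PP_zero, PP_succ q d, hP1, one_mul] at hA
      have h5 : q ^ (2 * (d + 1)) - 1 = q ^ 2 - 1 :=
        Nat.eq_of_mul_eq_mul_left hPd (by rw [hA, mul_comm])
      have h6 : 1 ≤ q ^ (2 * (d + 1)) := Nat.one_le_pow _ _ hq0
      have h7 : 1 ≤ q ^ 2 := Nat.one_le_pow _ _ hq0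
      have h8 : q ^ (2 * (d + 1)) = q ^ 2 := by omega
      have h9 := Nat.pow_right_injective hq2 h8
      omega
    · push_neg at halt
      have h2 : Nat.card ↥(Subgroup.centralizer
            ({t'} : Set (Matrix.symplecticGroup (Fin m) F)))
          = q ^ (2 * m * s - (3 * s ^ 2 - 3 * s) / 2 - 1)
            * (q ^ (((s - 2) / 2) ^ 2) * PP q ((s - 2) / 2))
            * (q ^ ((m - s) ^ 2) * PP q (m - s)) :=
        Cfsg.Agent.S2682.result hq t' ht' hs hev halt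
      rw [card_form, hcard, h1] at h2
      obtain ⟨he, hA⟩ := qpart_unique q _ _ _ _ hq0 hqe ((hPo _).mul (hPo _))
        ((hPo _).mul (hPo _)) h2
      have h3 := expo_c i d
      rw [← hmd, ← hsi] at h3
      have hi : i * (i + 1) = 0 := by omega
      have hi0 : i = 0 := by
        rcases Nat.mul_eq_zero.1 hi with h | h <;> omega
      subst hi0
      have e2 : (s - 2) / 2 = 0 := by omega
      have e3 : m - s = d := by omega
      have e4 : m - 1 = d + 1 := by omega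
      rw [e1, e2, e3, e4, PP_zero, PP_succ q d, one_mul, one_mul] at hA
      have h5 : q ^ (2 * (d + 1)) - 1 = 1 :=
        Nat.eq_of_mul_eq_mul_left hPd (by rw [hA, mul_one])
      have h6 : q ^ 2 ≤ q ^ (2 * (d + 1)) := Nat.pow_le_pow_right hq0 (by omega)
      have h7 : 2 ^ 2 ≤ q ^ 2 := Nat.pow_le_pow_left hq2 2
      omega
  · obtain ⟨j, hsj⟩ := hodd
    obtain ⟨d, hmd⟩ : ∃ d, m = 2 * j + 1 + d := ⟨m - s, by omega⟩
    have h2 : Nat.card ↥(Subgroup.centralizer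
          ({t'} : Set (Matrix.symplecticGroup (Fin m) F)))
        = q ^ (2 * m * s - (3 * s ^ 2 - s) / 2)
          * (q ^ (((s - 1) / 2) ^ 2) * PP q ((s - 1) / 2))
          * (q ^ ((m - s) ^ 2) * PP q (m - s)) :=
      Cfsg.Agent.S2680.result hq t' ht' hs ⟨j, hsj⟩
    rw [card_form, hcard, h1] at h2
    obtain ⟨he, hA⟩ := qpart_unique q _ _ _ _ hq0 hqe ((hPo _).mul (hPo _))
      ((hPo _).mul (hPo _)) h2
    have h3 := expo_b j d
    rw [← hmd, ← hsj] at h3
    have hj : j * (j + 1) = 0 := by omega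
    have hj0 : j = 0 := by
      rcases Nat.mul_eq_zero.1 hj with h | h <;> omega
    omega

theorem prS_injective_char2 [CharP F 2] :
    Function.Injective (prS : Matrix.symplecticGroup (Fin m) F →* Cfsg.PSp m F) := by
  intro x y h
  rw [prS_mk, prS_mk] at h
  have h1 : x⁻¹ * y ∈ Subgroup.center (Matrix.symplecticGroup (Fin m) F) := QuotientGroup.eq.1 h
  rw [Cfsg.Agent.Helper5.sp_center_eq_bot CharTwo.two_eq_zero, Subgroup.mem_bot] at h1
  exact inv_mul_eq_one.1 h1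

/-- in characteristic two and rank at least three every automorphism permutes the root
subgroups -/
theorem rel_exists_even [CharP F 2] (hm : 3 ≤ m) (α : MulAut (Cfsg.PSp m F))
    (v : Fin m ⊕ Fin m → F) (hv0 : v ≠ 0) :
    ∃ v' : Fin m ⊕ Fin m → F, v' ≠ 0 ∧ (Tb v).map α.toMonoidHom = Tb v' := by
  let prSe : Matrix.symplecticGroup (Fin m) F ≃* Cfsg.PSp m F :=
    MulEquiv.ofBijective prS ⟨prS_injective_char2, prS_surjective⟩
  let ψ : Matrix.symplecticGroup (Fin m) F ≃* Matrix.symplecticGroup (Fin m) F :=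
    prSe.trans (α.trans prSe.symm)
  have hψ : ∀ x, prS (ψ x) = α (prS x) := by
    intro x
    show prSe (prSe.symm (α (prSe x))) = α (prS x)
    rw [MulEquiv.apply_symm_apply]
    rfl
  have ht'2 : (ψ (spTv m v 1)) ^ 2 = 1 := by rw [← map_pow, tv_sq, map_one]
  have ht'1 : ψ (spTv m v 1) ≠ 1 := by
    intro h
    exact tv_ne_one v hv0 1 one_ne_zero (ψ.injective (by rw [h, map_one]))
  have hrank := invol_is_tv hm v hv0 _ ht'2 ht'1 (card_centralizer_equiv ψ _)
  obtain ⟨v', hv'0, hmem⟩ := tv_of_rank_one _ hrank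
  obtain ⟨c', hc'⟩ := (mem_sroot _ _).1 hmem
  have hc'0 : c' ≠ 0 := by
    rintro rfl
    rw [spTv_zero_right] at hc'
    exact ht'1 hc'
  have hiff : ∀ z, z ∈ sroot v ↔ ψ z ∈ sroot v' := by
    intro z
    rw [sroot_iff_ZC v hv0 1 one_ne_zero, sroot_iff_ZC v' hv'0 c' hc'0, ← hc']
    constructor
    · intro h y hy
      obtain ⟨y₀, rfl⟩ := ψ.surjective y
      rw [← map_mul, ← map_mul] at hy ⊢
      rw [h y₀ (ψ.injective hy)]
    · intro h y hy
      apply ψ.injective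
      rw [map_mul, map_mul]
      exact h (ψ y) (by rw [← map_mul, ← map_mul, hy])
  refine ⟨v', hv'0, ?_⟩
  ext x
  rw [Subgroup.mem_map, mem_Tb]
  constructor
  · rintro ⟨y, hy, rfl⟩
    obtain ⟨z, hz, rfl⟩ := (mem_Tb v y).1 hy
    exact ⟨ψ z, (hiff z).1 hz, hψ z⟩
  · rintro ⟨z', hz', rfl⟩
    obtain ⟨z, rfl⟩ := ψ.surjective z'
    exact ⟨prS z, (mem_Tb v _).2 ⟨z, (hiff z).2 hz', rfl⟩, (hψ z).symm⟩

end count

end Cfsg.Agent.Helper44.PSpn
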