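import Mathlib
import Cfsg.Agent.Helper44.SpJ

/-!
# Automorphisms of `PSp_{2m}(q)` (helper44), part K: field automorphisms acting on `GSp`,
the multiplier, the kernel of `GSp → Aut(PSp)`
-/

set_option autoImplicit false
set_option linter.unusedSimpArgs false
set_option linter.unusedSectionVars false
set_option linter.unusedVariables false

namespace Cfsg.Agent.Helper44.PSpn

open Matrix
open scoped Pointwise
open Cfsg.Agent.Helper13 (sympForm_add_left sympForm_add_right sympForm_smul_left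
  sympForm_smul_right sympForm_swap sympForm_self sympForm_zero_left sympForm_zero_right
  sympForm_neg_left sympForm_neg_right sympForm_sub_left sympForm_sub_right)
open Cfsg.Agent.Helper5 (spTv spTv_mulVec sp_ext sp_sympForm sp_coe_one sp_mul_mulVec
  sp_inv_mulVec sp_mulVec_inv)

variable {F : Type*} [Field F] {m : ℕ}

local notation "⟪" x ", " y "⟫" => Cfsg.sympForm m F x y

/-! ### field automorphisms on `GSp` -/

theorem mapGL_mem_GSp (σ : RingAut F) (g : GL (Fin m ⊕ Fin m) F) (hg : g ∈ Cfsg.GSp m F) :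
    Matrix.GeneralLinearGroup.map (σ : F →+* F) g ∈ Cfsg.GSp m F := by
  rw [mem_GSp_iff] at hg ⊢
  obtain ⟨c, hc⟩ := hg
  refine ⟨Units.mk0 (σ (c : F)) ((map_ne_zero σ).2 c.ne_zero), fun u v => ?_⟩
  have hcoe : ((Matrix.GeneralLinearGroup.map (σ : F →+* F) g : GL (Fin m ⊕ Fin m) F) :
      Matrix (Fin m ⊕ Fin m) (Fin m ⊕ Fin m) F)
      = (g : Matrix (Fin m ⊕ Fin m) (Fin m ⊕ Fin m) F).map σ := rfl
  obtain ⟨u', rfl⟩ : ∃ u', ssv σ u' = u := ⟨_, ssv_inv σ u⟩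
  obtain ⟨v', rfl⟩ : ∃ v', ssv σ v' = v := ⟨_, ssv_inv σ v⟩
  rw [hcoe, ssv_mulVec, ssv_mulVec, form_ssv, form_ssv, hc, map_mul, Units.val_mk0]

/-- a field automorphism acting on `GSp` -/
def mapGSp (σ : RingAut F) : ↥(Cfsg.GSp m F) →* ↥(Cfsg.GSp m F) :=
  ((Matrix.GeneralLinearGroup.map (σ : F →+* F)).comp (Cfsg.GSp m F).subtype).codRestrict
    (Cfsg.GSp m F) (fun g => mapGL_mem_GSp σ _ g.2)

theorem mapGSp_coe (σ : RingAut F) (g : ↥(Cfsg.GSp m F)) :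
    (((mapGSp σ g : ↥(Cfsg.GSp m F)) : GL (Fin m ⊕ Fin m) F) :
      Matrix (Fin m ⊕ Fin m) (Fin m ⊕ Fin m) F)
      = ((g : GL (Fin m ⊕ Fin m) F) : Matrix (Fin m ⊕ Fin m) (Fin m ⊕ Fin m) F).map σ := rfl

theorem mapGSp_one (g : ↥(Cfsg.GSp m F)) : mapGSp (1 : RingAut F) g = g := by
  apply Subtype.ext
  apply Units.ext
  rw [mapGSp_coe]
  ext i j
  rfl

theorem mapGSp_mul (σ τ : RingAut F) (g : ↥(Cfsg.GSp m F)) :
    mapGSp (σ * τ) g = mapGSp σ (mapGSp τ g) := by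
  apply Subtype.ext
  apply Units.ext
  rw [mapGSp_coe, mapGSp_coe, mapGSp_coe]
  ext i j
  rfl

theorem sF_mul_sD (σ : RingAut F) (g : ↥(Cfsg.GSp m F)) :
    (sF σ : MulAut (Cfsg.PSp m F)) * sD g = sD (mapGSp σ g) * sF σ := by
  apply MulEquiv.ext
  intro x
  obtain ⟨s, rfl⟩ := prS_surjective x
  rw [MulAut.mul_apply, MulAut.mul_apply, sD_prS, sF_prS, sF_prS, sD_prS]
  congr 1
  apply Subtype.ext
  rw [mapSp_coe, conjSp_coe, conjSp_coe, mapSp_coe]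
  have h1 : (((mapGSp σ g : ↥(Cfsg.GSp m F)) : GL (Fin m ⊕ Fin m) F)⁻¹ :
      GL (Fin m ⊕ Fin m) F)
      = Matrix.GeneralLinearGroup.map (σ : F →+* F) ((g : GL (Fin m ⊕ Fin m) F)⁻¹) :=
    (map_inv (Matrix.GeneralLinearGroup.map (σ : F →+* F)) (g : GL (Fin m ⊕ Fin m) F)).symm
  rw [h1]
  show (((g : GL (Fin m ⊕ Fin m) F) : Matrix (Fin m ⊕ Fin m) (Fin m ⊕ Fin m) F)
      * (s : Matrix (Fin m ⊕ Fin m) (Fin m ⊕ Fin m) F)
      * (((g : GL (Fin m ⊕ Fin m) F)⁻¹ : GL (Fin m ⊕ Fin m) F) :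
          Matrix (Fin m ⊕ Fin m) (Fin m ⊕ Fin m) F)).map (σ : F →+* F)
    = ((g : GL (Fin m ⊕ Fin m) F) : Matrix (Fin m ⊕ Fin m) (Fin m ⊕ Fin m) F).map (σ : F →+* F)
      * (s : Matrix (Fin m ⊕ Fin m) (Fin m ⊕ Fin m) F).map (σ : F →+* F)
      * (((g : GL (Fin m ⊕ Fin m) F)⁻¹ : GL (Fin m ⊕ Fin m) F) :
          Matrix (Fin m ⊕ Fin m) (Fin m ⊕ Fin m) F).map (σ : F →+* F)
  rw [Matrix.map_mul, Matrix.map_mul]

theorem ssemi_mul (g g' : ↥(Cfsg.GSp m F)) (σ σ' : RingAut F) :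
    (sD g * sF σ : MulAut (Cfsg.PSp m F)) * (sD g' * sF σ')
      = sD (g * mapGSp σ g') * sF (σ * σ') := by
  rw [map_mul, map_mul, mul_assoc, ← mul_assoc (sF σ), sF_mul_sD]
  simp only [mul_assoc]

theorem ssemi_inv (g : ↥(Cfsg.GSp m F)) (σ : RingAut F) :
    (sD g * sF σ : MulAut (Cfsg.PSp m F))⁻¹ = sD (mapGSp σ⁻¹ g⁻¹) * sF σ⁻¹ := by
  rw [_root_.mul_inv_rev, ← map_inv, ← map_inv, sF_mul_sD]

/-! ### semilinear maps fixing all points -/

theorem exists_hyp_pair (hm : 1 ≤ m) : ∃ e f : Fin m ⊕ Fin m → F, ⟪e, f⟫ = 1 := by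
  have he0 : (Pi.single (Sum.inl (⟨0, hm⟩ : Fin m)) 1 : Fin m ⊕ Fin m → F) ≠ 0 := by
    intro h
    have := congrFun h (Sum.inl (⟨0, hm⟩ : Fin m))
    rw [Pi.single_eq_same] at this
    exact one_ne_zero this
  obtain ⟨f, hf⟩ := sf_exists_partner _ he0
  exact ⟨_, f, hf⟩

/-- a semilinear map fixing all points is a scalar -/
theorem semi_pt_scalar (e f : Fin m ⊕ Fin m → F) (hef : ⟪e, f⟫ = 1) (ρ : RingAut F)
    (Ψ : (Fin m ⊕ Fin m → F) → (Fin m ⊕ Fin m → F))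
    (hadd : ∀ x y, Ψ (x + y) = Ψ x + Ψ y)
    (hsmul : ∀ (c : F) (x : Fin m ⊕ Fin m → F), Ψ (c • x) = ρ c • Ψ x)
    (hpt : ∀ v : Fin m ⊕ Fin m → F, ∃ μ : F, Ψ v = μ • v) (hne : Ψ e ≠ 0) :
    ρ = 1 ∧ ∃ a : F, ∀ x, Ψ x = a • x := by
  obtain ⟨a, ha⟩ := hpt e
  have hfe := sf_swap_one hef
  have he0 : e ≠ 0 := by
    rintro rfl
    rw [sympForm_zero_left] at hef
    exact zero_ne_one hef
  have step : ∀ (b : Fin m ⊕ Fin m → F) (β : F), b ≠ 0 → Ψ b = β • b →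
      ∀ x, ⟪x, b⟫ ≠ 0 → Ψ x = β • x := by
    intro b β hb0 hb x hxb
    obtain ⟨μ, hμ⟩ := hpt x
    obtain ⟨μ₁, hμ₁⟩ := hpt (b + x)
    rw [hadd, hb, hμ] at hμ₁
    have h1 := congrArg (fun v => ⟪v, b⟫) hμ₁
    simp only [sympForm_add_left, sympForm_smul_left, sympForm_self, mul_zero, zero_add] at h1
    have h2 : μ = μ₁ := mul_right_cancel₀ hxb h1
    subst h2
    have h3 : (β - μ) • b = 0 := by
      have h4 : β • b + μ • x = μ • b + μ • x := by rw [hμ₁, smul_add]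
      rw [sub_smul, add_right_cancel h4, sub_self]
    rcases smul_eq_zero.1 h3 with h | h
    · rw [hμ, ← sub_eq_zero.1 h]
    · exact absurd h hb0
  have hf : Ψ f = a • f := step e a he0 ha f (by rw [hfe]; exact neg_ne_zero.2 one_ne_zero)
  have hall : ∀ x, Ψ x = a • x := by
    intro x
    by_cases h1 : ⟪x, e⟫ = 0
    · have h2 := step e a he0 ha (x + f)
        (by rw [sympForm_add_left, h1, hfe, zero_add]; exact neg_ne_zero.2 one_ne_zero)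
      rw [hadd, hf] at h2
      have h3 : Ψ x + a • f = a • x + a • f := by rw [h2, smul_add]
      exact add_right_cancel h3
    · exact step e a he0 ha x h1
  have ha0 : a ≠ 0 := by
    rintro rfl
    rw [zero_smul] at ha
    exact hne ha
  refine ⟨?_, a, hall⟩
  apply RingEquiv.ext
  intro c
  have h1 := hsmul c e
  rw [hall, hall, smul_smul, smul_smul] at h1
  have h3 : (a * c - ρ c * a) • e = 0 := by rw [sub_smul, h1, sub_self]
  rcases smul_eq_zero.1 h3 with h | h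
  · have h4 : a * (c - ρ c) = 0 := by linear_combination h
    rcases mul_eq_zero.1 h4 with h5 | h5
    · exact absurd h5 ha0
    · rw [RingAut.one_apply]
      exact (sub_eq_zero.1 h5).symm
  · exact absurd h he0

theorem gl_mulVec_ne_zero (g : GL (Fin m ⊕ Fin m) F) (v : Fin m ⊕ Fin m → F) (hv : v ≠ 0) :
    (g : Matrix (Fin m ⊕ Fin m) (Fin m ⊕ Fin m) F) *ᵥ v ≠ 0 := by
  intro h
  apply hv
  have h1 : ((g⁻¹ : GL (Fin m ⊕ Fin m) F) : Matrix (Fin m ⊕ Fin m) (Fin m ⊕ Fin m) F) *ᵥ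
      ((g : Matrix (Fin m ⊕ Fin m) (Fin m ⊕ Fin m) F) *ᵥ v) = v := by
    rw [Matrix.mulVec_mulVec, gl_inv_mul, Matrix.one_mulVec]
  rw [← h1, h, Matrix.mulVec_zero]

theorem ssv_ne_zero (σ : RingAut F) (v : Fin m ⊕ Fin m → F) (hv : v ≠ 0) : ssv σ v ≠ 0 := by
  intro h
  apply hv
  rw [← ssv_inv' σ v, h, ssv_zero]

section fin

variable [Fintype F]

/-- a diagonal automorphism equal to a field automorphism is trivial -/
theorem sD_eq_sF (p : ℕ) [Fact p.Prime] [CharP F p] (hm : 1 ≤ m) (g : ↥(Cfsg.GSp m F))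
    (σ : RingAut F) (h : sD g = (sF σ : MulAut (Cfsg.PSp m F))) :
    σ = 1 ∧ ∃ a : F, ∀ x : Fin m ⊕ Fin m → F,
      ((g : GL (Fin m ⊕ Fin m) F) : Matrix (Fin m ⊕ Fin m) (Fin m ⊕ Fin m) F) *ᵥ x = a • x := by
  obtain ⟨e, f, hef⟩ := exists_hyp_pair (F := F) hm
  have he0 : e ≠ 0 := by
    rintro rfl
    rw [sympForm_zero_left] at hef
    exact zero_ne_one hef
  obtain ⟨h1, a, h2⟩ := semi_pt_scalar e f hef σ⁻¹
    (fun x => ssv σ⁻¹ (((g : GL (Fin m ⊕ Fin m) F) :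
      Matrix (Fin m ⊕ Fin m) (Fin m ⊕ Fin m) F) *ᵥ x))
    (fun x y => by rw [Matrix.mulVec_add, ssv_add])
    (fun c x => by rw [Matrix.mulVec_smul, ssv_smul])
    (by
      intro v
      by_cases hv0 : v = 0
      · exact ⟨0, by rw [hv0, Matrix.mulVec_zero, ssv_zero, smul_zero]⟩
      have e1 := semi_Tb g 1 v
      have e2 := semi_Tb (1 : ↥(Cfsg.GSp m F)) σ v
      rw [map_one, mul_one, h] at e1
      rw [map_one, one_mul, e1] at e2
      have e3 : semiV ((g : ↥(Cfsg.GSp m F)) : GL (Fin m ⊕ Fin m) F) 1 v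
          = ((g : GL (Fin m ⊕ Fin m) F) : Matrix (Fin m ⊕ Fin m) (Fin m ⊕ Fin m) F) *ᵥ v := by
        unfold semiV
        rw [ssv_one]
      have e4 : semiV (((1 : ↥(Cfsg.GSp m F)) : GL (Fin m ⊕ Fin m) F)) σ v = ssv σ v := by
        unfold semiV
        rw [OneMemClass.coe_one, Units.val_one, Matrix.one_mulVec]
      rw [e3, e4] at e2
      obtain ⟨l, hl0, hl⟩ := Tb_eq p _ _ (gl_mulVec_ne_zero _ v hv0) e2
      exact ⟨σ⁻¹ l, by rw [hl, ssv_smul, ssv_inv']⟩)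
    (ssv_ne_zero _ _ (gl_mulVec_ne_zero _ e he0))
  have hσ : σ = 1 := by
    rw [← inv_inv σ, h1, inv_one]
  refine ⟨hσ, a, fun x => ?_⟩
  have h3 := h2 x
  rw [h1, ssv_one] at h3
  exact h3

end fin

/-! ### scalars and the multiplier -/

theorem scalar_mem_GSp (a : Fˣ) :
    Matrix.GeneralLinearGroup.scalar (Fin m ⊕ Fin m) a ∈ Cfsg.GSp m F := by
  rw [mem_GSp_iff]
  refine ⟨a * a, fun u v => ?_⟩
  have h1 : ∀ x : Fin m ⊕ Fin m → F,
      ((Matrix.GeneralLinearGroup.scalar (Fin m ⊕ Fin m) a : GL (Fin m ⊕ Fin m) F) :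
        Matrix (Fin m ⊕ Fin m) (Fin m ⊕ Fin m) F) *ᵥ x = (a : F) • x := by
    intro x
    show Matrix.diagonal (fun _ => (a : F)) *ᵥ x = _
    funext i
    rw [Matrix.mulVec_diagonal, Pi.smul_apply, smul_eq_mul]
  rw [h1, h1, sympForm_smul_left, sympForm_smul_right, Units.val_mul, mul_assoc]

/-- scalar matrices in `GSp` -/
noncomputable def scalarGSp : Fˣ →* ↥(Cfsg.GSp m F) :=
  (Matrix.GeneralLinearGroup.scalar (Fin m ⊕ Fin m)).codRestrict (Cfsg.GSp m F) scalar_mem_GSp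

theorem scalarGSp_coe (a : Fˣ) :
    (((scalarGSp a : ↥(Cfsg.GSp m F)) : GL (Fin m ⊕ Fin m) F) :
      Matrix (Fin m ⊕ Fin m) (Fin m ⊕ Fin m) F) = Matrix.diagonal (fun _ => (a : F)) := rfl

theorem scalarGSp_mulVec (a : Fˣ) (x : Fin m ⊕ Fin m → F) :
    (((scalarGSp a : ↥(Cfsg.GSp m F)) : GL (Fin m ⊕ Fin m) F) :
      Matrix (Fin m ⊕ Fin m) (Fin m ⊕ Fin m) F) *ᵥ x = (a : F) • x := by
  rw [scalarGSp_coe]
  funext i
  rw [Matrix.mulVec_diagonal, Pi.smul_apply, smul_eq_mul]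

theorem sD_scalarGSp (a : Fˣ) : sD (scalarGSp a : ↥(Cfsg.GSp m F)) = 1 := by
  apply MulEquiv.ext
  intro x
  obtain ⟨s, rfl⟩ := prS_surjective x
  rw [sD_prS, MulAut.one_apply]
  congr 1
  rw [sact_eq_iff]
  intro y
  have h1 : ∀ z : Fin m ⊕ Fin m → F,
      ((((scalarGSp a : ↥(Cfsg.GSp m F)) : GL (Fin m ⊕ Fin m) F)⁻¹ : GL (Fin m ⊕ Fin m) F) :
        Matrix (Fin m ⊕ Fin m) (Fin m ⊕ Fin m) F) *ᵥ
      ((((scalarGSp a : ↥(Cfsg.GSp m F)) : GL (Fin m ⊕ Fin m) F) :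
        Matrix (Fin m ⊕ Fin m) (Fin m ⊕ Fin m) F) *ᵥ z) = z := by
    intro z
    rw [Matrix.mulVec_mulVec, gl_inv_mul, Matrix.one_mulVec]
  unfold sact
  rw [conjSp_coe, ← Matrix.mulVec_mulVec, ← Matrix.mulVec_mulVec, scalarGSp_mulVec,
    ← Matrix.mulVec_smul]
  congr 1
  rw [← Matrix.mulVec_smul, ← scalarGSp_mulVec a, h1]

theorem eq_scalarGSp (g : ↥(Cfsg.GSp m F)) (a : Fˣ)
    (ha : ∀ x : Fin m ⊕ Fin m → F,
      ((g : GL (Fin m ⊕ Fin m) F) : Matrix (Fin m ⊕ Fin m) (Fin m ⊕ Fin m) F) *ᵥ x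
        = (a : F) • x) : g = scalarGSp a := by
  apply Subtype.ext
  apply Units.ext
  apply Cfsg.Agent.Helper13.mulVec_ext
  intro x
  rw [ha, scalarGSp_mulVec]

/-- the multiplier of a similitude -/
noncomputable def multF (g : ↥(Cfsg.GSp m F)) : Fˣ := Classical.choose ((mem_GSp_iff _).1 g.2)

theorem multF_spec (g : ↥(Cfsg.GSp m F)) (u v : Fin m ⊕ Fin m → F) :
    ⟪((g : GL (Fin m ⊕ Fin m) F) : Matrix (Fin m ⊕ Fin m) (Fin m ⊕ Fin m) F) *ᵥ u,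
      ((g : GL (Fin m ⊕ Fin m) F) : Matrix (Fin m ⊕ Fin m) (Fin m ⊕ Fin m) F) *ᵥ v⟫
      = (multF g : F) * ⟪u, v⟫ := Classical.choose_spec ((mem_GSp_iff _).1 g.2) u v

theorem multF_unique (hm : 1 ≤ m) (g : ↥(Cfsg.GSp m F)) (c : F)
    (h : ∀ u v : Fin m ⊕ Fin m → F,
      ⟪((g : GL (Fin m ⊕ Fin m) F) : Matrix (Fin m ⊕ Fin m) (Fin m ⊕ Fin m) F) *ᵥ u,
        ((g : GL (Fin m ⊕ Fin m) F) : Matrix (Fin m ⊕ Fin m) (Fin m ⊕ Fin m) F) *ᵥ v⟫
        = c * ⟪u, v⟫) : (multF g : F) = c := by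
  obtain ⟨e, f, hef⟩ := exists_hyp_pair (F := F) hm
  have h1 := multF_spec g e f
  rw [h e f, hef, mul_one, mul_one] at h1
  exact h1.symm

/-- the multiplier homomorphism -/
noncomputable def multGSp (hm : 1 ≤ m) : ↥(Cfsg.GSp m F) →* Fˣ where
  toFun := multF
  map_one' := Units.ext (multF_unique hm 1 1 (fun u v => by
    rw [OneMemClass.coe_one, Units.val_one, Matrix.one_mulVec, Matrix.one_mulVec, one_mul]))
  map_mul' g h := Units.ext (multF_unique hm (g * h) _ (fun u v => by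
    rw [Subgroup.coe_mul, Units.val_mul, ← Matrix.mulVec_mulVec, ← Matrix.mulVec_mulVec,
      multF_spec, multF_spec, Units.val_mul, mul_assoc]))

theorem multGSp_spec (hm : 1 ≤ m) (g : ↥(Cfsg.GSp m F)) (u v : Fin m ⊕ Fin m → F) :
    ⟪((g : GL (Fin m ⊕ Fin m) F) : Matrix (Fin m ⊕ Fin m) (Fin m ⊕ Fin m) F) *ᵥ u,
      ((g : GL (Fin m ⊕ Fin m) F) : Matrix (Fin m ⊕ Fin m) (Fin m ⊕ Fin m) F) *ᵥ v⟫
      = (multGSp hm g : F) * ⟪u, v⟫ := multF_spec g u v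

theorem multGSp_unique (hm : 1 ≤ m) (g : ↥(Cfsg.GSp m F)) (c : F)
    (h : ∀ u v : Fin m ⊕ Fin m → F,
      ⟪((g : GL (Fin m ⊕ Fin m) F) : Matrix (Fin m ⊕ Fin m) (Fin m ⊕ Fin m) F) *ᵥ u,
        ((g : GL (Fin m ⊕ Fin m) F) : Matrix (Fin m ⊕ Fin m) (Fin m ⊕ Fin m) F) *ᵥ v⟫
        = c * ⟪u, v⟫) : (multGSp hm g : F) = c := multF_unique hm g c h

theorem multGSp_scalarGSp (hm : 1 ≤ m) (a : Fˣ) :
    multGSp hm (scalarGSp a : ↥(Cfsg.GSp m F)) = a * a := by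
  apply Units.ext
  apply multGSp_unique
  intro u v
  rw [scalarGSp_mulVec, scalarGSp_mulVec, sympForm_smul_left, sympForm_smul_right,
    Units.val_mul, mul_assoc]

theorem multGSp_spGSp (hm : 1 ≤ m) (s : Matrix.symplecticGroup (Fin m) F) :
    multGSp hm (spGSp s) = 1 := by
  apply Units.ext
  apply multGSp_unique
  intro u v
  rw [Units.val_one, one_mul]
  exact sp_sympForm s u v

theorem multGSp_eq_one_iff (hm : 1 ≤ m) (g : ↥(Cfsg.GSp m F)) :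
    multGSp hm g = 1 ↔ ∃ s : Matrix.symplecticGroup (Fin m) F, spGSp s = g := by
  constructor
  · intro h
    have h1 : ((g : GL (Fin m ⊕ Fin m) F) : Matrix (Fin m ⊕ Fin m) (Fin m ⊕ Fin m) F)
        ∈ Matrix.symplecticGroup (Fin m) F := by
      rw [Cfsg.Agent.Helper13.mem_symplecticGroup_iff_sympForm]
      intro u v
      rw [multGSp_spec hm, h, Units.val_one, one_mul]
    refine ⟨⟨_, h1⟩, ?_⟩
    apply Subtype.ext
    apply Units.ext
    rfl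
  · rintro ⟨s, rfl⟩
    exact multGSp_spGSp hm s

theorem multGSp_mapGSp (hm : 1 ≤ m) (σ : RingAut F) (g : ↥(Cfsg.GSp m F)) :
    (multGSp hm (mapGSp σ g) : F) = σ (multGSp hm g : F) := by
  apply multGSp_unique
  intro u v
  obtain ⟨u', rfl⟩ : ∃ u', ssv σ u' = u := ⟨_, ssv_inv σ u⟩
  obtain ⟨v', rfl⟩ : ∃ v', ssv σ v' = v := ⟨_, ssv_inv σ v⟩
  rw [mapGSp_coe, ssv_mulVec, ssv_mulVec, form_ssv, form_ssv, multGSp_spec hm, map_mul]

section fin2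

variable [Fintype F]

/-- the kernel of `GSp → Aut(PSp)` consists of the scalars -/
theorem sD_eq_one_iff (p : ℕ) [Fact p.Prime] [CharP F p] (hm : 1 ≤ m) (g : ↥(Cfsg.GSp m F)) :
    (sD g : MulAut (Cfsg.PSp m F)) = 1 ↔ ∃ a : Fˣ, g = scalarGSp a := by
  constructor
  · intro h
    obtain ⟨-, a, ha⟩ := sD_eq_sF p hm g 1 (by rw [h, map_one])
    obtain ⟨e, f, hef⟩ := exists_hyp_pair (F := F) hm
    have ha0 : a ≠ 0 := by
      rintro rfl
      have h1 := multGSp_spec hm g e f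
      rw [ha, zero_smul, sympForm_zero_left, hef, mul_one] at h1
      exact (multGSp hm g).ne_zero h1.symm
    exact ⟨Units.mk0 a ha0, eq_scalarGSp g _ (fun x => by rw [ha, Units.val_mk0])⟩
  · rintro ⟨a, rfl⟩
    exact sD_scalarGSp a

theorem sD_eq_iff (p : ℕ) [Fact p.Prime] [CharP F p] (hm : 1 ≤ m) (g g' : ↥(Cfsg.GSp m F)) :
    (sD g : MulAut (Cfsg.PSp m F)) = sD g' ↔ ∃ a : Fˣ, g' = g * scalarGSp a := by
  constructor
  · intro h
    have h1 : (sD (g⁻¹ * g') : MulAut (Cfsg.PSp m F)) = 1 := by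
      rw [map_mul, map_inv, h, inv_mul_cancel]
    obtain ⟨a, ha⟩ := (sD_eq_one_iff p hm _).1 h1
    exact ⟨a, by rw [← ha, mul_inv_cancel_left]⟩
  · rintro ⟨a, rfl⟩
    rw [map_mul, sD_scalarGSp, mul_one]

theorem sF_injective (p : ℕ) [Fact p.Prime] [CharP F p] (hm : 1 ≤ m) :
    Function.Injective (sF : RingAut F →* MulAut (Cfsg.PSp m F)) := by
  rw [injective_iff_map_eq_one]
  intro σ h
  exact (sD_eq_sF p hm 1 σ (by rw [map_one, h])).1

theorem orderOf_sF (p : ℕ) [Fact p.Prime] [CharP F p] (hm : 1 ≤ m) (σ : RingAut F) :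
    orderOf (sF σ : MulAut (Cfsg.PSp m F)) = orderOf σ :=
  orderOf_injective sF (sF_injective p hm) σ

end fin2

end Cfsg.Agent.Helper44.PSpn
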