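import Mathlib
import Cfsg.Agent.Helper44.SpK
import Cfsg.Agent.Helper44.LangG

/-!
# Field automorphisms of `PSp_{2m}(q)` (helper44), part L: `Inndiag = sD.range`, normality,
powers of semilinear automorphisms, class splitting
-/

set_option autoImplicit false
set_option linter.unusedSimpArgs false
set_option linter.unusedSectionVars false
set_option linter.unusedVariables false

namespace Cfsg.Agent.Helper44.PSpn

open Matrix
open scoped Pointwise
open Cfsg.Agent.Helper13 (sympForm_add_left sympForm_add_right sympForm_smul_left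
  sympForm_smul_right sympForm_swap sympForm_self sympForm_zero_left sympForm_zero_right
  sympForm_neg_left sympForm_neg_right sympForm_sub_left sympForm_sub_right)
open Cfsg.Agent.Helper5 (spTv spTv_mulVec sp_ext sp_sympForm sp_coe_one sp_mul_mulVec
  sp_inv_mulVec sp_mulVec_inv)

/-! ### generalities on conjugation -/

theorem isConjUnder_conj {X : Type*} [Group X] (H : Subgroup X) (a : X)
    (hH : ∀ h ∈ H, a * h * a⁻¹ ∈ H) (hH' : ∀ h ∈ H, a⁻¹ * h * a ∈ H) (x y : X) :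
    Cfsg.IsConjUnder H x y ↔ Cfsg.IsConjUnder H (a * x * a⁻¹) (a * y * a⁻¹) := by
  constructor
  · rintro ⟨h, hh, rfl⟩
    exact ⟨a * h * a⁻¹, hH h hh, by group⟩
  · rintro ⟨h, hh, hy⟩
    refine ⟨a⁻¹ * h * a, hH' h hh, ?_⟩
    have h1 : y = a⁻¹ * (a * y * a⁻¹) * a := by group
    rw [h1, hy]
    group

theorem splitCount_conj {X : Type*} [Group X] (H K : Subgroup X) (a : X)
    (hH : ∀ h ∈ H, a * h * a⁻¹ ∈ H) (hH' : ∀ h ∈ H, a⁻¹ * h * a ∈ H)
    (hK : ∀ k ∈ K, a * k * a⁻¹ ∈ K) (hK' : ∀ k ∈ K, a⁻¹ * k * a ∈ K) (x : X) :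
    Cfsg.splitClassCount H K (a * x * a⁻¹) = Cfsg.splitClassCount H K x := by
  unfold Cfsg.splitClassCount
  symm
  apply Nat.card_congr
  refine Quot.congr (Equiv.subtypeEquiv (MulAut.conj a).toEquiv
    (fun y => isConjUnder_conj H a hH hH' x y)) ?_
  intro y z
  exact isConjUnder_conj K a hK hK' y.1 z.1

theorem centralizer_conj_iso {X : Type*} [Group X] (H : Subgroup X) (a : X)
    (hH : ∀ h ∈ H, a * h * a⁻¹ ∈ H) (hH' : ∀ h ∈ H, a⁻¹ * h * a ∈ H) (x : X) :
    Nonempty (↥(H ⊓ Subgroup.centralizer {a * x * a⁻¹}) ≃* ↥(H ⊓ Subgroup.centralizer {x})) := by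
  have h1 : (H ⊓ Subgroup.centralizer {x}).map (MulAut.conj a).toMonoidHom
      = H ⊓ Subgroup.centralizer {a * x * a⁻¹} := by
    ext y
    rw [Subgroup.mem_map, Subgroup.mem_inf, Subgroup.mem_centralizer_singleton_iff]
    constructor
    · rintro ⟨z, hz, rfl⟩
      rw [Subgroup.mem_inf, Subgroup.mem_centralizer_singleton_iff] at hz
      refine ⟨hH z hz.1, ?_⟩
      show a * z * a⁻¹ * (a * x * a⁻¹) = a * x * a⁻¹ * (a * z * a⁻¹)
      have e1 : a * z * a⁻¹ * (a * x * a⁻¹) = a * (z * x) * a⁻¹ := by group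
      have e2 : a * x * a⁻¹ * (a * z * a⁻¹) = a * (x * z) * a⁻¹ := by group
      rw [e1, e2, hz.2]
    · rintro ⟨hy, hc⟩
      refine ⟨a⁻¹ * y * a, ?_, ?_⟩
      · rw [Subgroup.mem_inf, Subgroup.mem_centralizer_singleton_iff]
        refine ⟨hH' y hy, ?_⟩
        have e1 : a⁻¹ * y * a * x = a⁻¹ * (y * (a * x * a⁻¹)) * a := by group
        have e2 : x * (a⁻¹ * y * a) = a⁻¹ * ((a * x * a⁻¹) * y) * a := by group
        rw [e1, e2, hc]
      · show a * (a⁻¹ * y * a) * a⁻¹ = y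
        group
  exact ⟨((MulEquiv.subgroupCongr h1.symm).trans
    ((MulAut.conj a).subgroupMap (H ⊓ Subgroup.centralizer {x})).symm)⟩

theorem conj_mulAut {G : Type*} [Group G] (φ : MulAut G) (g : G) :
    φ * MulAut.conj g * φ⁻¹ = MulAut.conj (φ g) := by
  apply MulEquiv.ext
  intro x
  rw [MulAut.mul_apply, MulAut.mul_apply, MulAut.conj_apply, MulAut.conj_apply, map_mul,
    map_mul, map_inv, ← MulAut.mul_apply, mul_inv_cancel, MulAut.one_apply]

variable {F : Type*} [Field F] {m : ℕ}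

local notation "⟪" x ", " y "⟫" => Cfsg.sympForm m F x y

/-! ### the inner-diagonal group -/

/-- `Inndiag(PSp_{2m}(q))` is the image of `GSp_{2m}(q)` -/
theorem slang_inndiag_eq :
    Cfsg.inndiagPSp m F = (sD : ↥(Cfsg.GSp m F) →* MulAut (Cfsg.PSp m F)).range := by
  unfold Cfsg.inndiagPSp Cfsg.autSubgroupOf
  have h : {β : MulAut (Cfsg.PSp m F) | Cfsg.IsInnerDiagonalAutPSp β}
      = ((sD : ↥(Cfsg.GSp m F) →* MulAut (Cfsg.PSp m F)).range :
          Set (MulAut (Cfsg.PSp m F))) := by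
    ext β
    constructor
    · rintro ⟨g, hg, hgs⟩
      refine ⟨⟨g, hg⟩, ?_⟩
      apply MulEquiv.ext
      intro x
      obtain ⟨s, rfl⟩ := prS_surjective x
      rw [sD_prS]
      refine (hgs s (conjSp ⟨g, hg⟩ s) ?_).symm
      rw [conjSp_coe]
      congr 2
    · rintro ⟨g, rfl⟩
      exact sD_innerDiag g
  rw [h, Subgroup.closure_eq]

theorem slang_mem_inndiag (δ : MulAut (Cfsg.PSp m F)) :
    δ ∈ Cfsg.inndiagPSp m F ↔ ∃ g : ↥(Cfsg.GSp m F), sD g = δ := by
  rw [slang_inndiag_eq]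
  exact MonoidHom.mem_range

theorem slang_sD_mem_inndiag (g : ↥(Cfsg.GSp m F)) :
    (sD g : MulAut (Cfsg.PSp m F)) ∈ Cfsg.inndiagPSp m F :=
  (slang_mem_inndiag _).mpr ⟨g, rfl⟩

theorem slang_mem_inn (α : MulAut (Cfsg.PSp m F)) :
    α ∈ Cfsg.Inn (Cfsg.PSp m F)
      ↔ ∃ s : Matrix.symplecticGroup (Fin m) F, sD (spGSp s) = α := by
  constructor
  · rintro ⟨x, rfl⟩
    obtain ⟨s, rfl⟩ := prS_surjective x
    exact ⟨s, (conj_prS s).symm⟩
  · rintro ⟨s, rfl⟩
    exact ⟨prS s, conj_prS s⟩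

theorem slang_eq_sF_of_std (σ : RingAut F) (β : MulAut (Cfsg.PSp m F))
    (h : Cfsg.IsStdFieldAutPSp σ β) : β = sF σ := by
  apply MulEquiv.ext
  intro x
  obtain ⟨s, rfl⟩ := prS_surjective x
  rw [sF_prS]
  exact h s (mapSp σ s) (mapSp_coe σ s)

/-! ### a diagonal similitude with given multiplier -/

/-- the diagonal matrix `diag(u, …, u, 1, …, 1)` -/
def multDiagGL (u : Fˣ) : GL (Fin m ⊕ Fin m) F :=
  ⟨Matrix.diagonal (Sum.elim (fun _ => (u : F)) (fun _ => 1)),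
    Matrix.diagonal (Sum.elim (fun _ => ((u⁻¹ : Fˣ) : F)) (fun _ => 1)),
    by
      rw [Matrix.diagonal_mul_diagonal, ← Matrix.diagonal_one]
      congr 1
      funext i
      rcases i with i | i <;> simp,
    by
      rw [Matrix.diagonal_mul_diagonal, ← Matrix.diagonal_one]
      congr 1
      funext i
      rcases i with i | i <;> simp⟩

theorem multDiagGL_mulVec (u : Fˣ) (x : Fin m ⊕ Fin m → F) (i : Fin m ⊕ Fin m) :
    ((multDiagGL u : GL (Fin m ⊕ Fin m) F) : Matrix (Fin m ⊕ Fin m) (Fin m ⊕ Fin m) F).mulVec x i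
      = Sum.elim (fun _ => (u : F)) (fun _ => 1) i * x i :=
  Matrix.mulVec_diagonal _ _ _

theorem multDiagGL_form (u : Fˣ) (x y : Fin m ⊕ Fin m → F) :
    ⟪((multDiagGL u : GL (Fin m ⊕ Fin m) F) : Matrix (Fin m ⊕ Fin m) (Fin m ⊕ Fin m) F) *ᵥ x,
      ((multDiagGL u : GL (Fin m ⊕ Fin m) F) : Matrix (Fin m ⊕ Fin m) (Fin m ⊕ Fin m) F) *ᵥ y⟫
      = (u : F) * ⟪x, y⟫ := by
  rw [Cfsg.Agent.Helper13.sympForm_apply, Cfsg.Agent.Helper13.sympForm_apply, Finset.mul_sum]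
  refine Finset.sum_congr rfl fun i _ => ?_
  rw [multDiagGL_mulVec, multDiagGL_mulVec, multDiagGL_mulVec, multDiagGL_mulVec]
  simp only [Sum.elim_inl, Sum.elim_inr]
  ring

/-- the similitude `diag(u, …, u, 1, …, 1)` -/
def multDiag (u : Fˣ) : ↥(Cfsg.GSp m F) :=
  ⟨multDiagGL u, (mem_GSp_iff _).2 ⟨u, multDiagGL_form u⟩⟩

theorem multGSp_multDiag (hm : 1 ≤ m) (u : Fˣ) :
    multGSp hm (multDiag u : ↥(Cfsg.GSp m F)) = u :=
  Units.ext (multGSp_unique hm _ _ (multDiagGL_form u))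

theorem mapGSp_multDiag (σ : RingAut F) (u : Fˣ) (hu : σ (u : F) = u) :
    mapGSp σ (multDiag u : ↥(Cfsg.GSp m F)) = multDiag u := by
  apply Subtype.ext
  apply Units.ext
  rw [mapGSp_coe]
  show (Matrix.diagonal (Sum.elim (fun _ => (u : F)) (fun _ => 1))).map σ
    = Matrix.diagonal (Sum.elim (fun _ => (u : F)) (fun _ => 1))
  ext i j
  rw [Matrix.map_apply, Matrix.diagonal_apply]
  split_ifs with h
  · rcases i with i | i
    · exact hu
    · exact map_one σ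
  · exact map_zero σ

/-- powers of a semilinear automorphism -/
theorem slang_semi_pow (g : ↥(Cfsg.GSp m F)) (σ : RingAut F) (k : ℕ) :
    ∃ gk : ↥(Cfsg.GSp m F),
      ((gk : GL (Fin m ⊕ Fin m) F) : Matrix (Fin m ⊕ Fin m) (Fin m ⊕ Fin m) F)
          = PSLn.twR (RingHom.mapMatrix (σ : F →+* F))
              ((g : GL (Fin m ⊕ Fin m) F) : Matrix (Fin m ⊕ Fin m) (Fin m ⊕ Fin m) F) k ∧
        (sD g * sF σ : MulAut (Cfsg.PSp m F)) ^ k = sD gk * sF (σ ^ k) := by
  induction k with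
  | zero => exact ⟨1, rfl, by rw [pow_zero, pow_zero, map_one, map_one, one_mul]⟩
  | succ k ih =>
    obtain ⟨gk, hgk, hpow⟩ := ih
    refine ⟨g * mapGSp σ gk, ?_, ?_⟩
    · rw [PSLn.twR_succ, ← hgk]
      rfl
    · rw [pow_succ', hpow, ssemi_mul, pow_succ']

/-- the similitudes inducing automorphisms commuting with `x` -/
noncomputable def slang_cGSp (x : MulAut (Cfsg.PSp m F)) : Subgroup ↥(Cfsg.GSp m F) :=
  (Subgroup.centralizer {x}).comap sD

theorem slang_mem_cGSp (x : MulAut (Cfsg.PSp m F)) (g : ↥(Cfsg.GSp m F)) :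
    g ∈ slang_cGSp x ↔ sD g * x = x * sD g := by
  unfold slang_cGSp
  rw [Subgroup.mem_comap, Subgroup.mem_centralizer_iff]
  constructor
  · intro h
    exact (h x rfl).symm
  · intro h y hy
    rw [Set.mem_singleton_iff] at hy
    subst hy
    exact h.symm

/-- **class splitting**: the number of `Inn`-classes in the `Inndiag`-class of `x` is the index
of the group of multipliers of the similitudes commuting with `x` -/
theorem slang_split_count (hm : 1 ≤ m) (x : MulAut (Cfsg.PSp m F)) :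
    Cfsg.splitClassCount (Cfsg.inndiagPSp m F) (Cfsg.Inn (Cfsg.PSp m F)) x
      = ((slang_cGSp x).map (multGSp hm)).index := by
  set A : Subgroup Fˣ := (slang_cGSp x).map (multGSp hm) with hA
  have hex : ∀ y : {y : MulAut (Cfsg.PSp m F) //
      Cfsg.IsConjUnder (Cfsg.inndiagPSp m F) x y},
      ∃ g : ↥(Cfsg.GSp m F), y.1 = sD g * x * (sD g)⁻¹ := by
    rintro ⟨y, h, hh, rfl⟩
    obtain ⟨g, rfl⟩ := (slang_mem_inndiag h).mp hh
    exact ⟨g, rfl⟩
  choose gy hgy using hex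
  let fq : {y : MulAut (Cfsg.PSp m F) // Cfsg.IsConjUnder (Cfsg.inndiagPSp m F) x y}
      → Fˣ ⧸ A := fun y => QuotientGroup.mk (multGSp hm (gy y))
  have key : ∀ (y : {y : MulAut (Cfsg.PSp m F) //
      Cfsg.IsConjUnder (Cfsg.inndiagPSp m F) x y})
      (g : ↥(Cfsg.GSp m F)), y.1 = sD g * x * (sD g)⁻¹ →
      fq y = QuotientGroup.mk (multGSp hm g) := by
    intro y g hg
    show (QuotientGroup.mk (multGSp hm (gy y)) : Fˣ ⧸ A) = _
    rw [QuotientGroup.eq, ← map_inv, ← map_mul]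
    refine ⟨(gy y)⁻¹ * g, ?_, rfl⟩
    rw [SetLike.mem_coe, slang_mem_cGSp, map_mul, map_inv]
    have h1 := (hgy y).symm.trans hg
    calc (sD (gy y))⁻¹ * sD g * x
        = (sD (gy y))⁻¹ * (sD g * x * (sD g)⁻¹) * sD g := by group
      _ = (sD (gy y))⁻¹ * (sD (gy y) * x * (sD (gy y))⁻¹) * sD g := by rw [h1]
      _ = x * ((sD (gy y))⁻¹ * sD g) := by group
  have hI : ∀ y z : {y : MulAut (Cfsg.PSp m F) //
      Cfsg.IsConjUnder (Cfsg.inndiagPSp m F) x y},
      Cfsg.IsConjUnder (Cfsg.Inn (Cfsg.PSp m F)) y.1 z.1 → fq y = fq z := by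
    rintro y z ⟨k, hk, hz⟩
    obtain ⟨s, rfl⟩ := (slang_mem_inn k).mp hk
    have h1 : z.1 = sD (spGSp s * gy y) * x * (sD (spGSp s * gy y))⁻¹ := by
      rw [hz, hgy y, map_mul]
      group
    rw [key z _ h1, map_mul, multGSp_spGSp, one_mul]
  have hII : ∀ y z : {y : MulAut (Cfsg.PSp m F) //
      Cfsg.IsConjUnder (Cfsg.inndiagPSp m F) x y},
      fq y = fq z → Cfsg.IsConjUnder (Cfsg.Inn (Cfsg.PSp m F)) y.1 z.1 := by
    intro y z hyz
    have h1 : (multGSp hm (gy y))⁻¹ * multGSp hm (gy z) ∈ A := QuotientGroup.eq.mp hyz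
    obtain ⟨c, hc, hdet⟩ := h1
    rw [SetLike.mem_coe, slang_mem_cGSp] at hc
    set t : ↥(Cfsg.GSp m F) := gy z * c⁻¹ * (gy y)⁻¹ with ht
    have hdt : multGSp hm t = 1 := by
      rw [ht, map_mul, map_mul, map_inv, map_inv, hdet]
      rw [_root_.mul_inv_rev, inv_inv, mul_inv_cancel_left, mul_inv_cancel]
    obtain ⟨s, hs⟩ := (multGSp_eq_one_iff hm t).1 hdt
    refine ⟨sD t, (slang_mem_inn _).mpr ⟨s, by rw [hs]⟩, ?_⟩
    have hc' : (sD c)⁻¹ * x * sD c = x := by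
      rw [mul_assoc, ← hc, ← mul_assoc, inv_mul_cancel, one_mul]
    rw [hgy z, hgy y, ht, map_mul, map_mul, map_inv, map_inv]
    calc sD (gy z) * x * (sD (gy z))⁻¹
        = sD (gy z) * ((sD c)⁻¹ * x * sD c) * (sD (gy z))⁻¹ := by rw [hc']
      _ = sD (gy z) * (sD c)⁻¹ * (sD (gy y))⁻¹
            * (sD (gy y) * x * (sD (gy y))⁻¹)
            * (sD (gy z) * (sD c)⁻¹ * (sD (gy y))⁻¹)⁻¹ := by group
  have hIII : Function.Surjective fq := by
    intro a
    obtain ⟨u, rfl⟩ := QuotientGroup.mk_surjective a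
    have hu : multGSp hm (multDiag u : ↥(Cfsg.GSp m F)) = u := multGSp_multDiag hm u
    exact ⟨⟨sD (multDiag u) * x * (sD (multDiag u))⁻¹, sD (multDiag u),
      slang_sD_mem_inndiag _, rfl⟩, by rw [key _ _ rfl, hu]⟩
  unfold Cfsg.splitClassCount
  show _ = Nat.card (Fˣ ⧸ A)
  apply Nat.card_eq_of_bijective (Quot.lift fq hI)
  constructor
  · intro a b
    induction a using Quot.ind with
    | _ y =>
      induction b using Quot.ind with
      | _ z =>
        intro h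
        exact Quot.sound (hII y z h)
  · intro a
    obtain ⟨y, rfl⟩ := hIII a
    exact ⟨Quot.mk _ y, rfl⟩

end Cfsg.Agent.Helper44.PSpn
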