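import Mathlib
import Cfsg.Agent.Helper44.SpL
import Cfsg.Agent.Helper97.SpSFFinal

/-!
# Field automorphisms of `PSp_{2m}(q)` (helper44), part M: normality of `Inndiag`,
Lang–Steinberg for `GSp`, the coset statement
-/

set_option autoImplicit false
set_option linter.unusedSimpArgs false
set_option linter.unusedSectionVars false
set_option linter.unusedVariables false

namespace Cfsg.Agent.Helper44.PSpn

open Matrix
open scoped Pointwise
open Cfsg.Agent.Helper13 (sympForm_add_left sympForm_add_right sympForm_smul_left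
  sympForm_smul_right sympForm_swap sympForm_self sympForm_zero_left sympForm_zero_right
  sympForm_neg_left sympForm_neg_right sympForm_sub_left sympForm_sub_right)
open Cfsg.Agent.Helper5 (spTv spTv_mulVec sp_ext sp_sympForm sp_coe_one sp_mul_mulVec
  sp_inv_mulVec sp_mulVec_inv)

universe u

variable {F : Type u} [Field F] {m : ℕ}

local notation "⟪" x ", " y "⟫" => Cfsg.sympForm m F x y

/-! ### matrix lemmas on the index type `Fin m ⊕ Fin m` -/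

theorem smat_map_smul (σ : RingAut F) (c : F) (G : Matrix (Fin m ⊕ Fin m) (Fin m ⊕ Fin m) F) :
    (c • G).map σ = σ c • G.map σ := by
  ext i j
  simp

theorem smat_map_one (σ : RingAut F) :
    (1 : Matrix (Fin m ⊕ Fin m) (Fin m ⊕ Fin m) F).map σ = 1 := by
  ext i j
  rw [Matrix.map_apply, Matrix.one_apply]
  by_cases hij : i = j
  · rw [if_pos hij, map_one]
  · rw [if_neg hij, map_zero]

theorem smat_map_mul (σ : RingAut F) (A B : Matrix (Fin m ⊕ Fin m) (Fin m ⊕ Fin m) F) :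
    (A * B).map σ = A.map σ * B.map σ :=
  Matrix.map_mul (f := (σ : F →+* F))

theorem smat_map_map_one (G : Matrix (Fin m ⊕ Fin m) (Fin m ⊕ Fin m) F) :
    G.map (1 : RingAut F) = G := by
  ext i j
  rfl

theorem smat_twR_smul (σ : RingAut F) (μ : F) (G : Matrix (Fin m ⊕ Fin m) (Fin m ⊕ Fin m) F)
    (k : ℕ) :
    PSLn.twR (RingHom.mapMatrix (σ : F →+* F)) (μ • G) k
      = PSLn.twR (σ : F →+* F) μ k • PSLn.twR (RingHom.mapMatrix (σ : F →+* F)) G k := by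
  induction k with
  | zero => rw [PSLn.twR_zero, PSLn.twR_zero, PSLn.twR_zero, one_smul]
  | succ k ih =>
    rw [PSLn.twR_succ, PSLn.twR_succ, PSLn.twR_succ, ih]
    show (μ • G) * ((PSLn.twR (σ : F →+* F) μ k
      • PSLn.twR (RingHom.mapMatrix (σ : F →+* F)) G k).map σ) = _
    rw [smat_map_smul, Matrix.smul_mul, Matrix.mul_smul, smul_smul]
    rfl

theorem smat_iter_mapMatrix (σ : RingAut F) (i : ℕ)
    (c : Matrix (Fin m ⊕ Fin m) (Fin m ⊕ Fin m) F) :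
    (⇑(RingHom.mapMatrix (σ : F →+* F) :
      Matrix (Fin m ⊕ Fin m) (Fin m ⊕ Fin m) F →+* _))^[i] c = c.map (σ ^ i) := by
  induction i with
  | zero =>
    ext k l
    rfl
  | succ i ih =>
    rw [Function.iterate_succ_apply', ih, pow_succ']
    ext k l
    rfl

theorem smat_smul_one_inj (hm : 1 ≤ m) (a b : F)
    (h : a • (1 : Matrix (Fin m ⊕ Fin m) (Fin m ⊕ Fin m) F) = b • 1) : a = b := by
  have h1 := congrFun (congrFun h (Sum.inl ⟨0, hm⟩)) (Sum.inl ⟨0, hm⟩)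
  simpa using h1

/-- Hilbert 90 for matrices indexed by `Fin m ⊕ Fin m` -/
theorem slang_h90_matrix (σ : RingAut F) (r : ℕ) (hr : orderOf σ = r) (hr0 : 0 < r)
    (G : Matrix (Fin m ⊕ Fin m) (Fin m ⊕ Fin m) F)
    (hG : PSLn.twR (RingHom.mapMatrix (σ : F →+* F)) G r = 1) :
    ∃ b : Matrix (Fin m ⊕ Fin m) (Fin m ⊕ Fin m) F, IsUnit b ∧ G * b.map σ = b := by
  let e : Fin m ⊕ Fin m ≃ Fin (m + m) := finSumFinEquiv
  have htw : ∀ k, PSLn.twR (RingHom.mapMatrix (σ : F →+* F)) (G.submatrix e.symm e.symm) k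
      = (PSLn.twR (RingHom.mapMatrix (σ : F →+* F)) G k).submatrix e.symm e.symm := by
    intro k
    induction k with
    | zero => rw [PSLn.twR_zero, PSLn.twR_zero, Matrix.submatrix_one_equiv]
    | succ k ih =>
      rw [PSLn.twR_succ, PSLn.twR_succ, ih, RingHom.mapMatrix_apply, RingHom.mapMatrix_apply,
        ← Matrix.submatrix_map, Matrix.submatrix_mul_equiv]
  obtain ⟨b', hb'U, hb'⟩ := PSLn.lang_h90_matrix σ r hr hr0 (G.submatrix e.symm e.symm)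
    (by rw [htw, hG, Matrix.submatrix_one_equiv])
  refine ⟨b'.submatrix e e, ?_, ?_⟩
  · rw [Matrix.isUnit_iff_isUnit_det] at hb'U ⊢
    rwa [Matrix.det_submatrix_equiv_self]
  · have h1 : G = (G.submatrix e.symm e.symm).submatrix e e := by
      rw [Matrix.submatrix_submatrix]
      simp
    have h2 : (G.submatrix e.symm e.symm).submatrix e e * (b'.submatrix e e).map σ
        = b'.submatrix e e := by
      rw [← Matrix.submatrix_map, Matrix.submatrix_mul_equiv, hb']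
    rw [← h1] at h2
    exact h2

/-! ### normality of the inner-diagonal group -/

section normal

variable [Fintype F]

/-- in characteristic two every inner-diagonal automorphism is inner -/
theorem slang_char2_inn [CharP F 2] (hm : 1 ≤ m) (g : ↥(Cfsg.GSp m F)) :
    ∃ s : Matrix.symplecticGroup (Fin m) F,
      (sD (spGSp s) : MulAut (Cfsg.PSp m F)) = sD g := by
  have hsurj : Function.Surjective (frobenius F 2) :=
    Finite.surjective_of_injective (frobenius_inj F 2)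
  obtain ⟨μ, hμ⟩ := hsurj (multGSp hm g : F)
  rw [frobenius_def] at hμ
  have hμ0 : μ ≠ 0 := by
    rintro rfl
    rw [zero_pow two_ne_zero] at hμ
    exact (multGSp hm g).ne_zero hμ.symm
  have h1 : multGSp hm (g * scalarGSp (Units.mk0 μ hμ0)⁻¹) = 1 := by
    rw [map_mul, multGSp_scalarGSp]
    apply Units.ext
    rw [Units.val_mul, Units.val_mul, Units.val_inv_eq_inv_val, Units.val_mk0, Units.val_one,
      ← hμ]
    field_simp
  obtain ⟨s, hs⟩ := (multGSp_eq_one_iff hm _).1 h1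
  exact ⟨s, by rw [hs, map_mul, sD_scalarGSp, mul_one]⟩

/-- `Inndiag(PSp_{2m}(q))` is normal in the automorphism group -/
theorem slang_inndiag_normal (p : ℕ) [Fact p.Prime] [CharP F p] (hm : 2 ≤ m)
    (α δ : MulAut (Cfsg.PSp m F)) (hδ : δ ∈ Cfsg.inndiagPSp m F) :
    α * δ * α⁻¹ ∈ Cfsg.inndiagPSp m F := by
  obtain ⟨g, rfl⟩ := (slang_mem_inndiag δ).1 hδ
  by_cases hp : p = 2
  · subst hp
    obtain ⟨s, hs⟩ := slang_char2_inn (by omega) g
    rw [← hs, ← conj_prS, conj_mulAut]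
    obtain ⟨s', hs'⟩ := prS_surjective (α (prS s))
    rw [← hs', conj_prS]
    exact slang_sD_mem_inndiag _
  · have h2 : (2 : F) ≠ 0 := by
      intro h
      have h1 : ((2 : ℕ) : F) = 0 := by exact_mod_cast h
      have h3 := (CharP.cast_eq_zero_iff F p 2).1 h1
      exact hp ((Nat.prime_dvd_prime_iff_eq Fact.out Nat.prime_two).1 h3)
    obtain ⟨h, τ, rfl⟩ := aut_psp_of_rel p hm α
      (fun v hv => rel_exists_odd h2 p (by omega) α v hv)
    have e1 : sD h * sF τ * sD g * (sD h * sF τ : MulAut (Cfsg.PSp m F))⁻¹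
        = sD (h * mapGSp τ g * h⁻¹) := by
      rw [map_mul, map_mul, map_inv]
      calc sD h * sF τ * sD g * (sD h * sF τ : MulAut (Cfsg.PSp m F))⁻¹
          = sD h * (sF τ * sD g) * (sF τ)⁻¹ * (sD h)⁻¹ := by group
        _ = sD h * (sD (mapGSp τ g) * sF τ) * (sF τ)⁻¹ * (sD h)⁻¹ := by rw [sF_mul_sD]
        _ = sD h * sD (mapGSp τ g) * (sD h)⁻¹ := by group
    rw [e1]
    exact slang_sD_mem_inndiag _

theorem slang_inndiag_normal' (p : ℕ) [Fact p.Prime] [CharP F p] (hm : 2 ≤ m)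
    (α δ : MulAut (Cfsg.PSp m F)) (hδ : δ ∈ Cfsg.inndiagPSp m F) :
    α⁻¹ * δ * α ∈ Cfsg.inndiagPSp m F := by
  have h := slang_inndiag_normal p hm α⁻¹ δ hδ
  rwa [inv_inv] at h

end normal

/-! ### Lang–Steinberg for `GSp` -/

theorem slang_twR_mult (hm : 1 ≤ m) (g : ↥(Cfsg.GSp m F)) (σ : RingAut F) (k : ℕ) :
    ∃ gk : ↥(Cfsg.GSp m F),
      ((gk : GL (Fin m ⊕ Fin m) F) : Matrix (Fin m ⊕ Fin m) (Fin m ⊕ Fin m) F)
          = PSLn.twR (RingHom.mapMatrix (σ : F →+* F))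
              ((g : GL (Fin m ⊕ Fin m) F) : Matrix (Fin m ⊕ Fin m) (Fin m ⊕ Fin m) F) k ∧
      (multGSp hm gk : F) = PSLn.twR (σ : F →+* F) (multGSp hm g : F) k := by
  induction k with
  | zero => exact ⟨1, rfl, by rw [map_one, Units.val_one, PSLn.twR_zero]⟩
  | succ k ih =>
    obtain ⟨gk, hgk, hmult⟩ := ih
    refine ⟨g * mapGSp σ gk, ?_, ?_⟩
    · rw [PSLn.twR_succ, ← hgk]
      rfl
    · rw [map_mul, Units.val_mul, multGSp_mapGSp, hmult, PSLn.twR_succ]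
      rfl

section lang

variable [Fintype F]

/-- **Hilbert 90 for the conformal symplectic group** -/
theorem slang_h90_GSp (p f : ℕ) [Fact p.Prime] (hF : Fintype.card F = p ^ f) (hm : 1 ≤ m)
    (σ : RingAut F) (r : ℕ) (hr : orderOf σ = r) (hr0 : 0 < r) (g : ↥(Cfsg.GSp m F))
    (hN : PSLn.twR (RingHom.mapMatrix (σ : F →+* F))
      ((g : GL (Fin m ⊕ Fin m) F) : Matrix (Fin m ⊕ Fin m) (Fin m ⊕ Fin m) F) r = 1) :
    ∃ k : ↥(Cfsg.GSp m F), g * mapGSp σ k = k := by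
  -- the multiplier has norm one
  obtain ⟨gr, hgr, hmult⟩ := slang_twR_mult hm g σ r
  have hgr1 : gr = 1 := by
    apply Subtype.ext
    apply Units.ext
    rw [hgr, hN]
    rfl
  rw [hgr1, map_one, Units.val_one] at hmult
  obtain ⟨β, hβ0, hβ⟩ := PSLn.lang_h90_scalar σ r hr hr0 (multGSp hm g : F) hmult.symm
  have hν0 : (multGSp hm g : F) ≠ 0 := (multGSp hm g).ne_zero
  obtain ⟨b, hbU, hb⟩ := slang_h90_matrix σ r hr hr0 _ hN
  obtain ⟨bg, hbg⟩ := hbU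
  obtain ⟨-, K₀, hK₀, -⟩ := PSLn.lang_card_fix p f hF σ r hr hr0
  have hP : Cfsg.Geo.IsFormRationalStructure (Cfsg.sympForm m F) K₀ β⁻¹ bg := by
    intro u v hu hv
    rw [hK₀]
    have hu' : ssv σ u = u := by
      funext i
      exact (hK₀ _).1 (hu i)
    have hv' : ssv σ v = v := by
      funext i
      exact (hK₀ _).1 (hv i)
    have h1 : ⟪b *ᵥ u, b *ᵥ v⟫ = (multGSp hm g : F) * σ ⟪b *ᵥ u, b *ᵥ v⟫ := by
      conv_lhs => rw [← hb, ← Matrix.mulVec_mulVec, ← Matrix.mulVec_mulVec, multGSp_spec hm]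
      conv_lhs => rw [← hu', ← hv', ssv_mulVec, ssv_mulVec, form_ssv]
    rw [hbg, map_mul, map_inv₀]
    have h2 : σ ⟪b *ᵥ u, b *ᵥ v⟫ = (multGSp hm g : F)⁻¹ * ⟪b *ᵥ u, b *ᵥ v⟫ := by
      conv_rhs => rw [h1]
      rw [← mul_assoc, inv_mul_cancel₀ hν0, one_mul]
    rw [h2, ← hβ]
    have hσβ : σ β ≠ 0 := (map_ne_zero σ).2 hβ0
    rw [map_mul]
    have hσσ : σ (σ β) ≠ 0 := (map_ne_zero σ).2 hσβ
    have hσν : σ (multGSp hm g : F) ≠ 0 := (map_ne_zero σ).2 hν0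
    have h3 : σ (multGSp hm g : F) * σ (σ β) = σ β := by rw [← map_mul, hβ]
    field_simp
    linear_combination (-⟪b *ᵥ u, b *ᵥ v⟫) * h3
  obtain ⟨A, hA, hAf⟩ := Cfsg.Agent.Helper97.SpSF.exists_rat_darboux K₀ bg β⁻¹
    (inv_ne_zero hβ0) hP
  obtain ⟨A₀, rfl⟩ := hA
  have hAσ : ((Matrix.GeneralLinearGroup.map (K₀.subtype : K₀ →+* F) A₀ :
      GL (Fin m ⊕ Fin m) F) : Matrix (Fin m ⊕ Fin m) (Fin m ⊕ Fin m) F).map σ
      = ((Matrix.GeneralLinearGroup.map (K₀.subtype : K₀ →+* F) A₀ :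
      GL (Fin m ⊕ Fin m) F) : Matrix (Fin m ⊕ Fin m) (Fin m ⊕ Fin m) F) := by
    ext i j
    exact (hK₀ _).1 ((A₀ : Matrix (Fin m ⊕ Fin m) (Fin m ⊕ Fin m) K₀) i j).2
  have hkmem : bg * Matrix.GeneralLinearGroup.map (K₀.subtype : K₀ →+* F) A₀ ∈ Cfsg.GSp m F :=
    (mem_GSp_iff _).2 ⟨Units.mk0 β⁻¹⁻¹ (inv_ne_zero (inv_ne_zero hβ0)), hAf⟩
  refine ⟨⟨_, hkmem⟩, ?_⟩
  apply Subtype.ext
  apply Units.ext
  show ((g : GL (Fin m ⊕ Fin m) F) : Matrix (Fin m ⊕ Fin m) (Fin m ⊕ Fin m) F)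
      * ((bg : Matrix (Fin m ⊕ Fin m) (Fin m ⊕ Fin m) F)
          * ((Matrix.GeneralLinearGroup.map (K₀.subtype : K₀ →+* F) A₀ :
              GL (Fin m ⊕ Fin m) F) : Matrix (Fin m ⊕ Fin m) (Fin m ⊕ Fin m) F)).map σ
      = (bg : Matrix (Fin m ⊕ Fin m) (Fin m ⊕ Fin m) F)
          * ((Matrix.GeneralLinearGroup.map (K₀.subtype : K₀ →+* F) A₀ :
              GL (Fin m ⊕ Fin m) F) : Matrix (Fin m ⊕ Fin m) (Fin m ⊕ Fin m) F)
  rw [smat_map_mul, hAσ, ← Matrix.mul_assoc, hbg, hb]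

/-- **Lang–Steinberg for field automorphisms of `PSp_{2m}(q)`** -/
theorem slang_field_std (p f : ℕ) [Fact p.Prime] [CharP F p] (hF : Fintype.card F = p ^ f)
    (hm : 1 ≤ m) (σ : RingAut F) (r : ℕ) (hr : orderOf σ = r) (hr0 : 0 < r)
    (g : ↥(Cfsg.GSp m F)) (hy : (sD g * sF σ : MulAut (Cfsg.PSp m F)) ^ r = 1) :
    ∃ k : ↥(Cfsg.GSp m F),
      (sD g * sF σ : MulAut (Cfsg.PSp m F)) = sD k * sF σ * (sD k)⁻¹ := by
  obtain ⟨gr, hgr, hpow⟩ := slang_semi_pow g σ r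
  have hσr : σ ^ r = 1 := by rw [← hr, pow_orderOf_eq_one]
  rw [hy, hσr, map_one, mul_one] at hpow
  obtain ⟨c, hc⟩ := (sD_eq_one_iff p hm gr).1 hpow.symm
  have hT : PSLn.twR (RingHom.mapMatrix (σ : F →+* F))
      ((g : GL (Fin m ⊕ Fin m) F) : Matrix (Fin m ⊕ Fin m) (Fin m ⊕ Fin m) F) r
        = (c : F) • (1 : Matrix (Fin m ⊕ Fin m) (Fin m ⊕ Fin m) F) := by
    rw [← hgr, hc, scalarGSp_coe, Matrix.smul_one_eq_diagonal]
  have hc0 : (c : F) ≠ 0 := c.ne_zero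
  have hσc : σ (c : F) = c := by
    have h1 : PSLn.twR (RingHom.mapMatrix (σ : F →+* F))
        ((g : GL (Fin m ⊕ Fin m) F) : Matrix (Fin m ⊕ Fin m) (Fin m ⊕ Fin m) F) (r + 1)
        = ((g : GL (Fin m ⊕ Fin m) F) : Matrix (Fin m ⊕ Fin m) (Fin m ⊕ Fin m) F)
          * (PSLn.twR (RingHom.mapMatrix (σ : F →+* F))
              ((g : GL (Fin m ⊕ Fin m) F) : Matrix (Fin m ⊕ Fin m) (Fin m ⊕ Fin m) F) r).map σ :=
      rfl
    have h2 := PSLn.twR_succ' (RingHom.mapMatrix (σ : F →+* F))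
      ((g : GL (Fin m ⊕ Fin m) F) : Matrix (Fin m ⊕ Fin m) (Fin m ⊕ Fin m) F) r
    rw [h1, hT, smat_iter_mapMatrix, hσr, smat_map_map_one, smat_map_smul, smat_map_one,
      Matrix.mul_smul, mul_one, Matrix.smul_mul, one_mul] at h2
    have h3 := congrArg (fun M => M * (((g : GL (Fin m ⊕ Fin m) F)⁻¹ : GL (Fin m ⊕ Fin m) F) :
      Matrix (Fin m ⊕ Fin m) (Fin m ⊕ Fin m) F)) h2
    simp only [Matrix.smul_mul, gl_mul_inv] at h3
    exact smat_smul_one_inj hm _ _ h3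
  obtain ⟨μ, hμ0, hμ⟩ := PSLn.lang_norm_surj σ r hr hr0 (c : F)⁻¹ (inv_ne_zero hc0)
    (by rw [map_inv₀, hσc])
  have hg'coe : (((scalarGSp (Units.mk0 μ hμ0) * g : ↥(Cfsg.GSp m F)) :
      GL (Fin m ⊕ Fin m) F) : Matrix (Fin m ⊕ Fin m) (Fin m ⊕ Fin m) F)
      = μ • ((g : GL (Fin m ⊕ Fin m) F) : Matrix (Fin m ⊕ Fin m) (Fin m ⊕ Fin m) F) := by
    show (((scalarGSp (Units.mk0 μ hμ0) : ↥(Cfsg.GSp m F)) : GL (Fin m ⊕ Fin m) F) :
      Matrix (Fin m ⊕ Fin m) (Fin m ⊕ Fin m) F)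
      * ((g : GL (Fin m ⊕ Fin m) F) : Matrix (Fin m ⊕ Fin m) (Fin m ⊕ Fin m) F) = _
    rw [scalarGSp_coe, ← Matrix.smul_one_eq_diagonal, Matrix.smul_mul, Matrix.one_mul]
    rfl
  have hT' : PSLn.twR (RingHom.mapMatrix (σ : F →+* F))
      (((scalarGSp (Units.mk0 μ hμ0) * g : ↥(Cfsg.GSp m F)) : GL (Fin m ⊕ Fin m) F) :
        Matrix (Fin m ⊕ Fin m) (Fin m ⊕ Fin m) F) r = 1 := by
    rw [hg'coe, smat_twR_smul, hμ, hT, smul_smul, inv_mul_cancel₀ hc0, one_smul]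
  obtain ⟨k, hk⟩ := slang_h90_GSp p f hF hm σ r hr hr0 _ hT'
  refine ⟨k, ?_⟩
  have h4 : (sD g : MulAut (Cfsg.PSp m F)) = sD (scalarGSp (Units.mk0 μ hμ0) * g) := by
    rw [map_mul, sD_scalarGSp, one_mul]
  have h5 : scalarGSp (Units.mk0 μ hμ0) * g = k * (mapGSp σ k)⁻¹ := eq_mul_inv_of_mul_eq hk
  have h6 : ((sD (mapGSp σ k))⁻¹ * sF σ : MulAut (Cfsg.PSp m F)) = sF σ * (sD k)⁻¹ := by
    calc ((sD (mapGSp σ k))⁻¹ * sF σ : MulAut (Cfsg.PSp m F))
        = (sD (mapGSp σ k))⁻¹ * (sF σ * sD k) * (sD k)⁻¹ := by group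
      _ = (sD (mapGSp σ k))⁻¹ * (sD (mapGSp σ k) * sF σ) * (sD k)⁻¹ := by rw [sF_mul_sD]
      _ = sF σ * (sD k)⁻¹ := by group
  rw [h4, h5, map_mul, map_inv, mul_assoc, h6, mul_assoc]

/-- a field automorphism is conjugate in `Aut` to a standard one -/
theorem slang_field_reduce (x : MulAut (Cfsg.PSp m F)) (hx : Cfsg.IsFieldAutClassPSp x) :
    ∃ (α : MulAut (Cfsg.PSp m F)) (σ : RingAut F), σ ≠ 1 ∧ α * x * α⁻¹ = sF σ := by
  obtain ⟨α, σ, hσ, hstd⟩ := hx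
  exact ⟨α, σ, hσ, slang_eq_sF_of_std σ _ hstd⟩

/-- **the coset statement for field automorphisms of `PSp_{2m}(q)`** -/
theorem slang_coset_conj (hm : 2 ≤ m) (x δ : MulAut (Cfsg.PSp m F))
    (hx : Cfsg.IsFieldAutClassPSp x) (r : ℕ) (hr : r.Prime) (hxr : orderOf x = r)
    (hδ : δ ∈ Cfsg.inndiagPSp m F) :
    orderOf (δ * x) = r ↔ Cfsg.IsConjUnder (Cfsg.inndiagPSp m F) x (δ * x) := by
  obtain ⟨p, hchar, n, hp, hF⟩ := FiniteField.card' F
  haveI : Fact p.Prime := ⟨hp⟩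
  haveI : CharP F p := hchar
  have hm1 : 1 ≤ m := by omega
  constructor
  · intro ho
    obtain ⟨α, σ, hσ, hα⟩ := slang_field_reduce x hx
    have hσr : orderOf σ = r := by
      rw [← orderOf_sF p hm1 σ, ← hα, PSLn.lang_orderOf_conj, hxr]
    obtain ⟨g, hg⟩ := (slang_mem_inndiag _).1 (slang_inndiag_normal p hm α δ hδ)
    have h1 : sD g * sF σ = α * (δ * x) * α⁻¹ := by
      rw [hg, ← hα]
      group
    have hy : (sD g * sF σ : MulAut (Cfsg.PSp m F)) ^ r = 1 := by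
      rw [h1, ← ho, ← PSLn.lang_orderOf_conj α (δ * x)]
      exact pow_orderOf_eq_one _
    obtain ⟨k, hk⟩ := slang_field_std p n hF hm1 σ r hσr hr.pos g hy
    refine ⟨α⁻¹ * sD k * α, slang_inndiag_normal' p hm α _ (slang_sD_mem_inndiag k), ?_⟩
    have h2 : δ * x = α⁻¹ * (sD g * sF σ) * α := by rw [h1]; group
    rw [h2, hk, ← hα]
    group
  · rintro ⟨h, -, heq⟩
    rw [heq, PSLn.lang_orderOf_conj, hxr]

end lang

end Cfsg.Agent.Helper44.PSpn
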