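import Mathlib
import Cfsg.Agent.Helper44.SpM

/-!
# Field automorphisms of `PSp_{2m}(q)` (helper44), part N: centralisers and class splitting
-/

set_option autoImplicit false
set_option linter.unusedSimpArgs false
set_option linter.unusedSectionVars false
set_option linter.unusedVariables false

namespace Cfsg.Agent.Helper44.PSpn

open Matrix
open scoped Pointwise
open Cfsg.Agent.Helper13 (sympForm_add_left sympForm_add_right sympForm_smul_left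
  sympForm_smul_right sympForm_swap sympForm_self sympForm_zero_left sympForm_zero_right
  sympForm_neg_left sympForm_neg_right sympForm_sub_left sympForm_sub_right)
open Cfsg.Agent.Helper5 (spTv spTv_mulVec sp_ext sp_sympForm sp_coe_one sp_mul_mulVec
  sp_inv_mulVec sp_mulVec_inv)

universe u v

/-! ### arithmetic -/

theorem slang_geom_mod_two (q₀ r : ℕ) (hr : 0 < r) :
    (∑ i ∈ Finset.range r, q₀ ^ i) % 2 = if q₀ % 2 = 0 then 1 else r % 2 := by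
  split_ifs with h
  · obtain ⟨k, rfl⟩ : ∃ k, r = k + 1 := ⟨r - 1, by omega⟩
    rw [Finset.sum_range_succ', pow_zero]
    have h1 : (∑ i ∈ Finset.range k, q₀ ^ (i + 1)) % 2 = 0 := by
      rw [Finset.sum_nat_mod]
      have h2 : ∀ i ∈ Finset.range k, q₀ ^ (i + 1) % 2 = 0 := by
        intro i _
        rw [Nat.pow_mod, h, zero_pow (Nat.succ_ne_zero i)]
        rfl
      rw [Finset.sum_eq_zero h2]
      rfl
    omega
  · have h1 : q₀ % 2 = 1 := by omega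
    rw [Finset.sum_nat_mod]
    have h2 : ∀ i ∈ Finset.range r, q₀ ^ i % 2 = 1 := by
      intro i _
      rw [Nat.pow_mod, h1, one_pow]
      rfl
    rw [Finset.sum_congr rfl h2, Finset.sum_const, Finset.card_range, smul_eq_mul, mul_one]

theorem slang_gcd_arith (p f r : ℕ) (hp : p.Prime) (hr0 : 0 < r) (hrf : r ∣ f) (hf : 1 ≤ f) :
    Nat.gcd 2 ((p ^ f - 1) / (p ^ (f / r) - 1)) = Nat.gcd (Nat.gcd 2 (p ^ f - 1)) r := by
  obtain ⟨k, rfl⟩ := hrf
  have hk : 1 ≤ k := by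
    rcases Nat.eq_zero_or_pos k with h | h
    · subst h
      simp at hf
    · exact h
  have e1 : r * k / r = k := Nat.mul_div_cancel_left k hr0
  rw [e1]
  have hq2 : 2 ≤ p ^ k := le_trans hp.two_le (Nat.le_self_pow (by omega) p)
  have e2 : p ^ (r * k) = (p ^ k) ^ r := by rw [← pow_mul, mul_comm]
  rw [e2, ← Nat.geomSum_eq hq2 r]
  have hS := slang_geom_mod_two (p ^ k) r hr0
  have hgcd : ∀ n : ℕ, Nat.gcd 2 n = Nat.gcd (n % 2) 2 := fun n => Nat.gcd_rec 2 n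
  rw [hgcd (∑ i ∈ Finset.range r, (p ^ k) ^ i), hS]
  by_cases hpe : p ^ k % 2 = 0
  · rw [if_pos hpe]
    have h1 : ((p ^ k) ^ r - 1) % 2 = 1 := by
      have h2 : (p ^ k) ^ r % 2 = 0 := by
        rw [Nat.pow_mod, hpe, zero_pow (by omega)]
        rfl
      have h3 : 1 ≤ (p ^ k) ^ r := Nat.one_le_pow _ _ (by omega)
      omega
    rw [hgcd ((p ^ k) ^ r - 1), h1]
    simp
  · rw [if_neg hpe]
    have h0 : p ^ k % 2 = 1 := by omega
    have h1 : ((p ^ k) ^ r - 1) % 2 = 0 := by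
      have h2 : (p ^ k) ^ r % 2 = 1 := by
        rw [Nat.pow_mod, h0, one_pow]
        rfl
      omega
    rw [hgcd ((p ^ k) ^ r - 1), h1, Nat.gcd_zero_left, hgcd r]

variable {F : Type u} [Field F] {m : ℕ}

local notation "⟪" x ", " y "⟫" => Cfsg.sympForm m F x y

/-! ### more matrix lemmas -/

theorem smat_map_pow_smul (σ : RingAut F) (lam : F)
    (G : Matrix (Fin m ⊕ Fin m) (Fin m ⊕ Fin m) F) (h : G.map σ = lam • G) (k : ℕ) :
    G.map (σ ^ k) = PSLn.twR (σ : F →+* F) lam k • G := by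
  induction k with
  | zero =>
    rw [pow_zero, PSLn.twR_zero, one_smul]
    exact smat_map_map_one G
  | succ k ih =>
    have h1 : G.map (σ ^ (k + 1)) = (G.map (σ ^ k)).map σ := by
      rw [pow_succ']
      ext i j
      rfl
    rw [h1, ih, smat_map_smul, h, smul_smul, PSLn.twR_succ]
    congr 1
    exact mul_comm _ _

theorem sD_eq_one_iff' [Fintype F] (p : ℕ) [Fact p.Prime] [CharP F p] (hm : 1 ≤ m)
    (g : ↥(Cfsg.GSp m F)) :
    (sD g : MulAut (Cfsg.PSp m F)) = 1 ↔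
      ∃ c : F, ((g : GL (Fin m ⊕ Fin m) F) : Matrix (Fin m ⊕ Fin m) (Fin m ⊕ Fin m) F)
        = c • (1 : Matrix (Fin m ⊕ Fin m) (Fin m ⊕ Fin m) F) := by
  rw [sD_eq_one_iff p hm]
  constructor
  · rintro ⟨a, rfl⟩
    exact ⟨(a : F), by rw [scalarGSp_coe, Matrix.smul_one_eq_diagonal]⟩
  · rintro ⟨c, hc⟩
    have hc0 : c ≠ 0 := by
      rintro rfl
      obtain ⟨e, f, hef⟩ := exists_hyp_pair (F := F) hm
      have he0 : e ≠ 0 := by
        rintro rfl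
        rw [sympForm_zero_left] at hef
        exact zero_ne_one hef
      apply gl_mulVec_ne_zero (g : GL (Fin m ⊕ Fin m) F) e he0
      rw [hc, zero_smul, Matrix.zero_mulVec]
    refine ⟨Units.mk0 c hc0, eq_scalarGSp g _ fun x => ?_⟩
    rw [hc, Matrix.smul_mulVec, Matrix.one_mulVec, Units.val_mk0]

/-! ### the subfield group -/

section theta

variable {F₀ : Type v} [Field F₀]

theorem sform_map (ι : F₀ →+* F) (u v : Fin m ⊕ Fin m → F₀) :
    Cfsg.sympForm m F (fun i => ι (u i)) (fun i => ι (v i))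
      = ι (Cfsg.sympForm m F₀ u v) := by
  rw [Cfsg.Agent.Helper13.sympForm_apply, Cfsg.Agent.Helper13.sympForm_apply, map_sum]
  refine Finset.sum_congr rfl fun i _ => ?_
  rw [map_sub, map_mul, map_mul]

theorem smat_map_mulVec (ι : F₀ →+* F) (M : Matrix (Fin m ⊕ Fin m) (Fin m ⊕ Fin m) F₀)
    (u : Fin m ⊕ Fin m → F₀) :
    (M.map ι) *ᵥ (fun i => ι (u i)) = fun i => ι ((M *ᵥ u) i) := by
  funext i
  exact (RingHom.map_mulVec ι M u i).symm

theorem single_map (ι : F₀ →+* F) (a : Fin m ⊕ Fin m) :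
    (Pi.single a 1 : Fin m ⊕ Fin m → F)
      = fun i => ι ((Pi.single a 1 : Fin m ⊕ Fin m → F₀) i) := by
  funext i
  by_cases h : i = a
  · subst h
    rw [Pi.single_eq_same, Pi.single_eq_same, map_one]
  · rw [Pi.single_eq_of_ne h, Pi.single_eq_of_ne h, map_zero]

theorem slang_iota_mem_GSp (ι : F₀ →+* F) (γ : GL (Fin m ⊕ Fin m) F₀)
    (hγ : γ ∈ Cfsg.GSp m F₀) : Matrix.GeneralLinearGroup.map ι γ ∈ Cfsg.GSp m F := by
  obtain ⟨c, hc⟩ := (mem_GSp_iff γ).1 hγ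
  rw [mem_GSp_iff]
  refine ⟨Units.mk0 (ι (c : F₀)) ((map_ne_zero ι).2 c.ne_zero), fun x y => ?_⟩
  have hcoe : ((Matrix.GeneralLinearGroup.map ι γ : GL (Fin m ⊕ Fin m) F) :
      Matrix (Fin m ⊕ Fin m) (Fin m ⊕ Fin m) F)
      = (γ : Matrix (Fin m ⊕ Fin m) (Fin m ⊕ Fin m) F₀).map ι := rfl
  rw [hcoe, Units.val_mk0]
  apply Cfsg.Agent.Helper97.SpSF.sf_gram_ext
  intro a b
  rw [single_map ι a, single_map ι b, smat_map_mulVec, smat_map_mulVec, sform_map, sform_map,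
    hc, map_mul]

/-- the embedding of the conformal symplectic group over a subfield -/
noncomputable def slang_theta (ι : F₀ →+* F) : ↥(Cfsg.GSp m F₀) →* ↥(Cfsg.GSp m F) :=
  ((Matrix.GeneralLinearGroup.map ι).comp (Subgroup.subtype _)).codRestrict (Cfsg.GSp m F)
    (fun γ => slang_iota_mem_GSp ι γ.1 γ.2)

theorem slang_theta_coe (ι : F₀ →+* F) (γ : ↥(Cfsg.GSp m F₀)) :
    (((slang_theta ι γ : ↥(Cfsg.GSp m F)) : GL (Fin m ⊕ Fin m) F) :
      Matrix (Fin m ⊕ Fin m) (Fin m ⊕ Fin m) F)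
      = ((γ : GL (Fin m ⊕ Fin m) F₀) : Matrix (Fin m ⊕ Fin m) (Fin m ⊕ Fin m) F₀).map ι := rfl

theorem slang_theta_fixed (σ : RingAut F) (ι : F₀ →+* F)
    (hι : ∀ x, σ x = x ↔ x ∈ Set.range ι) (γ : ↥(Cfsg.GSp m F₀)) :
    mapGSp σ (slang_theta ι γ) = slang_theta ι γ := by
  apply Subtype.ext
  apply Units.ext
  rw [mapGSp_coe, slang_theta_coe]
  ext i j
  exact (hι _).mpr ⟨_, rfl⟩

theorem slang_theta_surj (hm : 1 ≤ m) (σ : RingAut F) (ι : F₀ →+* F)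
    (hι : ∀ x, σ x = x ↔ x ∈ Set.range ι) (g₀ : ↥(Cfsg.GSp m F))
    (hfix : mapGSp σ g₀ = g₀) : ∃ γ : ↥(Cfsg.GSp m F₀), slang_theta ι γ = g₀ := by
  have hfix' : ((g₀ : GL (Fin m ⊕ Fin m) F) : Matrix (Fin m ⊕ Fin m) (Fin m ⊕ Fin m) F).map σ
      = ((g₀ : GL (Fin m ⊕ Fin m) F) : Matrix (Fin m ⊕ Fin m) (Fin m ⊕ Fin m) F) :=
    congrArg (fun k : ↥(Cfsg.GSp m F) =>
      ((k : GL (Fin m ⊕ Fin m) F) : Matrix (Fin m ⊕ Fin m) (Fin m ⊕ Fin m) F)) hfix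
  have hex : ∀ i j, ∃ a : F₀, ι a
      = ((g₀ : GL (Fin m ⊕ Fin m) F) : Matrix (Fin m ⊕ Fin m) (Fin m ⊕ Fin m) F) i j :=
    fun i j => (hι _).mp (congrFun (congrFun hfix' i) j)
  choose M₀f hM₀f using hex
  obtain ⟨M₀, hM₀⟩ : ∃ M₀ : Matrix (Fin m ⊕ Fin m) (Fin m ⊕ Fin m) F₀, M₀.map ι
      = ((g₀ : GL (Fin m ⊕ Fin m) F) : Matrix (Fin m ⊕ Fin m) (Fin m ⊕ Fin m) F) :=
    ⟨Matrix.of M₀f, by ext i j; exact hM₀f i j⟩
  have hdet : M₀.det ≠ 0 := by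
    intro h0
    have h1 := RingHom.map_det ι M₀
    rw [h0, map_zero] at h1
    have h2 : ((g₀ : GL (Fin m ⊕ Fin m) F) :
        Matrix (Fin m ⊕ Fin m) (Fin m ⊕ Fin m) F).det = 0 := by
      rw [← hM₀]
      exact h1.symm
    apply (Matrix.GeneralLinearGroup.det (g₀ : GL (Fin m ⊕ Fin m) F)).ne_zero
    rw [Matrix.GeneralLinearGroup.val_det_apply]
    exact h2
  -- the multiplier lies in the subfield
  have hνσ : σ (multGSp hm g₀ : F) = (multGSp hm g₀ : F) := by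
    rw [← multGSp_mapGSp, hfix]
  obtain ⟨ν₀, hν₀⟩ := (hι _).mp hνσ
  have hν₀0 : ν₀ ≠ 0 := by
    rintro rfl
    rw [map_zero] at hν₀
    exact (multGSp hm g₀).ne_zero hν₀.symm
  have hmem : Matrix.GeneralLinearGroup.mkOfDetNeZero M₀ hdet ∈ Cfsg.GSp m F₀ := by
    rw [mem_GSp_iff]
    refine ⟨Units.mk0 ν₀ hν₀0, fun x y => ?_⟩
    apply ι.injective
    show ι (Cfsg.sympForm m F₀ (M₀ *ᵥ x) (M₀ *ᵥ y)) = ι (ν₀ * Cfsg.sympForm m F₀ x y)
    rw [← sform_map, ← smat_map_mulVec, ← smat_map_mulVec, hM₀, multGSp_spec hm, map_mul,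
      ← sform_map, hν₀]
  refine ⟨⟨_, hmem⟩, ?_⟩
  apply Subtype.ext
  apply Units.ext
  exact hM₀

/-- the kernel of `GSp_{2m}(q₀) → Aut(PSp_{2m}(q))` consists of the scalar matrices -/
theorem slang_theta_ker [Fintype F] (p : ℕ) [Fact p.Prime] [CharP F p] (hm : 1 ≤ m)
    (ι : F₀ →+* F) (γ : ↥(Cfsg.GSp m F₀)) :
    γ ∈ (Cfsg.Geo.scalars (Fin m ⊕ Fin m) F₀).subgroupOf (Cfsg.GSp m F₀)
      ↔ (sD (slang_theta ι γ) : MulAut (Cfsg.PSp m F)) = 1 := by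
  have hιinj : Function.Injective ι := ι.injective
  rw [Subgroup.mem_subgroupOf, Cfsg.Geo.mem_scalars_iff, sD_eq_one_iff' p hm, slang_theta_coe]
  constructor
  · rintro ⟨c₀, hc₀⟩
    refine ⟨ι (c₀ : F₀), ?_⟩
    rw [hc₀]
    ext i j
    rw [Matrix.map_apply, Matrix.smul_apply, Matrix.smul_apply, Matrix.one_apply,
      Matrix.one_apply, smul_eq_mul, smul_eq_mul, map_mul]
    by_cases hij : i = j
    · rw [if_pos hij, if_pos hij, map_one]
    · rw [if_neg hij, if_neg hij, map_zero]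
  · rintro ⟨c, hc⟩
    have hsc : ((γ : GL (Fin m ⊕ Fin m) F₀) : Matrix (Fin m ⊕ Fin m) (Fin m ⊕ Fin m) F₀)
        = (((γ : GL (Fin m ⊕ Fin m) F₀) : Matrix (Fin m ⊕ Fin m) (Fin m ⊕ Fin m) F₀)
            (Sum.inl ⟨0, hm⟩) (Sum.inl ⟨0, hm⟩))
          • (1 : Matrix (Fin m ⊕ Fin m) (Fin m ⊕ Fin m) F₀) := by
      ext i j
      have h1 := congrFun (congrFun hc i) j
      have h2 := congrFun (congrFun hc (Sum.inl ⟨0, hm⟩)) (Sum.inl ⟨0, hm⟩)
      rw [Matrix.map_apply, Matrix.smul_apply, Matrix.one_apply, smul_eq_mul] at h1 h2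
      rw [if_pos rfl, mul_one] at h2
      rw [Matrix.smul_apply, Matrix.one_apply, smul_eq_mul]
      by_cases hij : i = j
      · rw [if_pos hij, mul_one] at h1
        rw [if_pos hij, mul_one]
        exact hιinj (h1.trans h2.symm)
      · rw [if_neg hij, mul_zero] at h1
        rw [if_neg hij, mul_zero]
        exact hιinj (h1.trans (map_zero ι).symm)
    have hc₀0 : ((γ : GL (Fin m ⊕ Fin m) F₀) : Matrix (Fin m ⊕ Fin m) (Fin m ⊕ Fin m) F₀)
            (Sum.inl ⟨0, hm⟩) (Sum.inl ⟨0, hm⟩) ≠ 0 := by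
      intro h0
      rw [h0, zero_smul] at hsc
      have h3 : ((γ : GL (Fin m ⊕ Fin m) F₀) : Matrix (Fin m ⊕ Fin m) (Fin m ⊕ Fin m) F₀)
          * (((γ : GL (Fin m ⊕ Fin m) F₀)⁻¹ : GL (Fin m ⊕ Fin m) F₀) :
            Matrix (Fin m ⊕ Fin m) (Fin m ⊕ Fin m) F₀) = 1 := by
        rw [← Units.val_mul, mul_inv_cancel, Units.val_one]
      rw [hsc, zero_mul] at h3
      have h4 := congrFun (congrFun h3 (Sum.inl ⟨0, hm⟩)) (Sum.inl ⟨0, hm⟩)
      simp at h4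
    exact ⟨Units.mk0 _ hc₀0, hsc⟩

end theta

/-! ### the centraliser of a standard field automorphism -/

section cent

variable [Fintype F]

/-- the similitudes commuting with a standard field automorphism: scalar multiples of
similitudes fixed by `σ` -/
theorem slang_cGSp_field (p : ℕ) [Fact p.Prime] [CharP F p] (hm : 1 ≤ m) (σ : RingAut F)
    (r : ℕ) (hr : orderOf σ = r) (hr0 : 0 < r) (g : ↥(Cfsg.GSp m F)) :
    g ∈ slang_cGSp (sF σ : MulAut (Cfsg.PSp m F)) ↔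
      ∃ (c : Fˣ) (g₀ : ↥(Cfsg.GSp m F)), mapGSp σ g₀ = g₀ ∧ g = scalarGSp c * g₀ := by
  rw [slang_mem_cGSp]
  constructor
  · intro h
    rw [sF_mul_sD] at h
    have h1 : (sD g : MulAut (Cfsg.PSp m F)) = sD (mapGSp σ g) := mul_right_cancel h
    obtain ⟨ε, hε⟩ := (sD_eq_iff p hm g (mapGSp σ g)).mp h1
    have hlam : ((g : GL (Fin m ⊕ Fin m) F) : Matrix (Fin m ⊕ Fin m) (Fin m ⊕ Fin m) F).map σ
        = (ε : F) • ((g : GL (Fin m ⊕ Fin m) F) : Matrix (Fin m ⊕ Fin m) (Fin m ⊕ Fin m) F) := by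
      rw [← mapGSp_coe, hε]
      show ((g : GL (Fin m ⊕ Fin m) F) : Matrix (Fin m ⊕ Fin m) (Fin m ⊕ Fin m) F)
        * (((scalarGSp ε : ↥(Cfsg.GSp m F)) : GL (Fin m ⊕ Fin m) F) :
          Matrix (Fin m ⊕ Fin m) (Fin m ⊕ Fin m) F) = _
      rw [scalarGSp_coe, ← Matrix.smul_one_eq_diagonal, Matrix.mul_smul, Matrix.mul_one]
    have hσr : σ ^ r = 1 := by rw [← hr, pow_orderOf_eq_one]
    have h2 := smat_map_pow_smul σ _ _ hlam r
    rw [hσr, smat_map_map_one] at h2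
    have h3 : PSLn.twR (σ : F →+* F) (ε : F) r = 1 := by
      have h4 := congrArg (fun M => M * (((g : GL (Fin m ⊕ Fin m) F)⁻¹ : GL (Fin m ⊕ Fin m) F) :
        Matrix (Fin m ⊕ Fin m) (Fin m ⊕ Fin m) F)) h2
      simp only [Matrix.smul_mul, gl_mul_inv] at h4
      have h5 : (1 : F) • (1 : Matrix (Fin m ⊕ Fin m) (Fin m ⊕ Fin m) F)
          = PSLn.twR (σ : F →+* F) (ε : F) r
            • (1 : Matrix (Fin m ⊕ Fin m) (Fin m ⊕ Fin m) F) := by
        rw [one_smul]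
        exact h4
      exact (smat_smul_one_inj hm _ _ h5).symm
    obtain ⟨b, hb0, hb⟩ := PSLn.lang_h90_scalar σ r hr hr0 (ε : F) h3
    refine ⟨(Units.mk0 b hb0)⁻¹, scalarGSp (Units.mk0 b hb0) * g, ?_, ?_⟩
    · apply Subtype.ext
      apply Units.ext
      have hsg : (((scalarGSp (Units.mk0 b hb0) * g : ↥(Cfsg.GSp m F)) :
          GL (Fin m ⊕ Fin m) F) : Matrix (Fin m ⊕ Fin m) (Fin m ⊕ Fin m) F)
          = b • ((g : GL (Fin m ⊕ Fin m) F) : Matrix (Fin m ⊕ Fin m) (Fin m ⊕ Fin m) F) := by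
        show (((scalarGSp (Units.mk0 b hb0) : ↥(Cfsg.GSp m F)) : GL (Fin m ⊕ Fin m) F) :
          Matrix (Fin m ⊕ Fin m) (Fin m ⊕ Fin m) F)
          * ((g : GL (Fin m ⊕ Fin m) F) : Matrix (Fin m ⊕ Fin m) (Fin m ⊕ Fin m) F) = _
        rw [scalarGSp_coe, ← Matrix.smul_one_eq_diagonal, Matrix.smul_mul, Matrix.one_mul]
        rfl
      rw [mapGSp_coe, hsg, smat_map_smul, hlam, smul_smul, mul_comm, hb]
    · rw [← mul_assoc, ← map_mul, inv_mul_cancel, map_one, one_mul]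
  · rintro ⟨c, g₀, hfix, rfl⟩
    rw [map_mul, sD_scalarGSp, one_mul, sF_mul_sD, hfix]

/-- the multipliers of the similitudes commuting with a standard field automorphism -/
theorem slang_mult_cGSp_field (p : ℕ) [Fact p.Prime] [CharP F p] (hm : 1 ≤ m) (σ : RingAut F)
    (r : ℕ) (hr : orderOf σ = r) (hr0 : 0 < r) :
    (slang_cGSp (sF σ : MulAut (Cfsg.PSp m F))).map (multGSp hm)
      = PSLn.lang_fixU σ ⊔ (powMonoidHom 2 : Fˣ →* Fˣ).range := by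
  apply le_antisymm
  · rintro u ⟨g, hg, rfl⟩
    obtain ⟨c, g₀, hfix, rfl⟩ := (slang_cGSp_field p hm σ r hr hr0 g).1 hg
    rw [map_mul, multGSp_scalarGSp, mul_comm]
    apply Subgroup.mul_mem_sup
    · rw [PSLn.lang_mem_fixU, ← multGSp_mapGSp, hfix]
    · exact ⟨c, by rw [powMonoidHom_apply, pow_two]⟩
  · apply sup_le
    · intro u hu
      rw [PSLn.lang_mem_fixU] at hu
      refine ⟨multDiag u, ?_, multGSp_multDiag hm u⟩
      rw [SetLike.mem_coe, slang_cGSp_field p hm σ r hr hr0]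
      exact ⟨1, multDiag u, mapGSp_multDiag σ u hu, by rw [map_one, one_mul]⟩
    · rintro u ⟨a, rfl⟩
      refine ⟨scalarGSp a, ?_, ?_⟩
      · rw [SetLike.mem_coe, slang_cGSp_field p hm σ r hr hr0]
        exact ⟨a, 1, map_one _, by rw [mul_one]⟩
      · rw [multGSp_scalarGSp, powMonoidHom_apply, pow_two]

end cent

/-- the centraliser in `Inndiag` of `x₀` is the image of a group `Γ` mapping onto the
centraliser of `x₀` in `GSp` modulo scalars -/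
theorem slang_centralizer_iso {Γ : Type v} [Group Γ] (θ : Γ →* ↥(Cfsg.GSp m F))
    (x₀ : MulAut (Cfsg.PSp m F))
    (ha : ∀ γ, θ γ ∈ slang_cGSp x₀)
    (hb : ∀ g ∈ slang_cGSp x₀, ∃ γ : Γ, (sD g : MulAut (Cfsg.PSp m F)) = sD (θ γ))
    (N : Subgroup Γ) [N.Normal]
    (hN : ∀ γ, γ ∈ N ↔ (sD (θ γ) : MulAut (Cfsg.PSp m F)) = 1) :
    Nonempty (↥(Cfsg.inndiagPSp m F ⊓ Subgroup.centralizer {x₀}) ≃* Γ ⧸ N) := by
  let Θ₀ : Γ →* MulAut (Cfsg.PSp m F) := sD.comp θ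
  have hΘ₀ : ∀ γ, Θ₀ γ = sD (θ γ) := fun γ => rfl
  have hmem : ∀ γ, Θ₀ γ ∈ Cfsg.inndiagPSp m F ⊓ Subgroup.centralizer {x₀} := by
    intro γ
    refine Subgroup.mem_inf.mpr ⟨slang_sD_mem_inndiag _, ?_⟩
    rw [Subgroup.mem_centralizer_iff]
    intro y hy
    rw [Set.mem_singleton_iff] at hy
    subst hy
    exact ((slang_mem_cGSp y (θ γ)).mp (ha γ)).symm
  let Θ : Γ →* ↥(Cfsg.inndiagPSp m F ⊓ Subgroup.centralizer {x₀}) :=
    Θ₀.codRestrict _ hmem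
  have hker : Θ.ker = N := by
    ext γ
    rw [MonoidHom.mem_ker, hN]
    constructor
    · intro h
      exact congrArg Subtype.val h
    · intro h
      apply Subtype.ext
      exact h
  have hsurj : Function.Surjective Θ := by
    rintro ⟨y, hy⟩
    obtain ⟨hy1, hy2⟩ := Subgroup.mem_inf.mp hy
    obtain ⟨g, rfl⟩ := (slang_mem_inndiag y).mp hy1
    rw [Subgroup.mem_centralizer_iff] at hy2
    have h1 := hy2 x₀ rfl
    have h2 : g ∈ slang_cGSp x₀ := (slang_mem_cGSp x₀ g).2 h1.symm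
    obtain ⟨γ, hγ⟩ := hb _ h2
    refine ⟨γ, ?_⟩
    apply Subtype.ext
    show Θ₀ γ = sD g
    rw [hΘ₀, ← hγ]
  exact ⟨((QuotientGroup.quotientMulEquivOfEq hker.symm).trans
    (QuotientGroup.quotientKerEquivOfSurjective Θ hsurj)).symm⟩

/-- **field automorphisms of `PSp_{2m}(q)` of prime order `r`** -/
theorem slang_field_class [Fintype F] (p f : ℕ) [Fact p.Prime]
    (hF : Fintype.card F = p ^ f) (hf : 1 ≤ f) (hm : 2 ≤ m)
    (x : MulAut (Cfsg.PSp m F)) (hx : Cfsg.IsFieldAutClassPSp x) (r : ℕ) (hr : r.Prime)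
    (hxr : orderOf x = r) (F₀ : Type v) [Field F₀] [Fintype F₀]
    (hF₀ : Fintype.card F₀ = p ^ (f / r)) :
    r ∣ f ∧
      Nonempty (↥(Cfsg.inndiagPSp m F ⊓ Subgroup.centralizer {x}) ≃* Cfsg.PGSp m F₀) ∧
      Cfsg.splitClassCount (Cfsg.inndiagPSp m F) (Cfsg.Inn (Cfsg.PSp m F)) x
        = Nat.gcd (Nat.gcd 2 (p ^ f - 1)) r := by
  haveI : CharP F p := Cfsg.Agent.Helper44.charP_of_card p f hF
  have hm1 : 1 ≤ m := by omega
  obtain ⟨α, σ, hσ, hα⟩ := slang_field_reduce x hx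
  have hσr : orderOf σ = r := by
    rw [← orderOf_sF p hm1 σ, ← hα, PSLn.lang_orderOf_conj, hxr]
  have hx' : x = α⁻¹ * sF σ * α⁻¹⁻¹ := by
    rw [← hα]
    group
  have hrf := (PSLn.lang_card_fix p f hF σ r hσr hr.pos).1
  have hH : ∀ h ∈ Cfsg.inndiagPSp m F, α⁻¹ * h * α⁻¹⁻¹ ∈ Cfsg.inndiagPSp m F :=
    fun h hh => slang_inndiag_normal p hm α⁻¹ h hh
  have hH' : ∀ h ∈ Cfsg.inndiagPSp m F, α⁻¹⁻¹ * h * α⁻¹ ∈ Cfsg.inndiagPSp m F := by
    intro h hh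
    rw [inv_inv]
    exact slang_inndiag_normal p hm α h hh
  have hK : ∀ k ∈ Cfsg.Inn (Cfsg.PSp m F), α⁻¹ * k * α⁻¹⁻¹ ∈ Cfsg.Inn (Cfsg.PSp m F) :=
    fun k hk => (Cfsg.innNormal (Cfsg.PSp m F)).conj_mem k hk α⁻¹
  have hK' : ∀ k ∈ Cfsg.Inn (Cfsg.PSp m F), α⁻¹⁻¹ * k * α⁻¹ ∈ Cfsg.Inn (Cfsg.PSp m F) := by
    intro k hk
    have h1 := (Cfsg.innNormal (Cfsg.PSp m F)).conj_mem k hk α⁻¹⁻¹
    rwa [inv_inv] at h1 ⊢
  refine ⟨hrf, ?_, ?_⟩
  · obtain ⟨ι, hι⟩ := PSLn.lang_exists_embedding p f hF σ r hσr hr.pos F₀ hF₀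
    obtain ⟨e1⟩ := centralizer_conj_iso (Cfsg.inndiagPSp m F) α⁻¹ hH hH' (sF σ)
    obtain ⟨e2⟩ := slang_centralizer_iso (slang_theta ι) (sF σ : MulAut (Cfsg.PSp m F))
      (by
        intro γ
        rw [slang_cGSp_field p hm1 σ r hσr hr.pos]
        exact ⟨1, _, slang_theta_fixed σ ι hι γ, by rw [map_one, one_mul]⟩)
      (by
        intro g hg
        obtain ⟨c, g₀, hfix, rfl⟩ := (slang_cGSp_field p hm1 σ r hσr hr.pos g).mp hg
        obtain ⟨γ, hγ⟩ := slang_theta_surj hm1 σ ι hι g₀ hfix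
        exact ⟨γ, by rw [hγ, map_mul, sD_scalarGSp, one_mul]⟩)
      ((Cfsg.Geo.scalars (Fin m ⊕ Fin m) F₀).subgroupOf (Cfsg.GSp m F₀))
      (fun γ => slang_theta_ker p hm1 ι γ)
    rw [hx']
    exact ⟨e1.trans e2⟩
  · rw [hx', splitCount_conj _ _ α⁻¹ hH hH' hK hK' (sF σ), slang_split_count hm1,
      slang_mult_cGSp_field p hm1 σ r hσr hr.pos]
    have hdvd : Nat.card (PSLn.lang_fixU σ) ∣ Nat.card Fˣ := Subgroup.card_subgroup_dvd_card _
    have hmm : Nat.card (PSLn.lang_fixU σ) * ((p ^ f - 1) / (p ^ (f / r) - 1))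
        = Nat.card Fˣ := by
      rw [PSLn.lang_card_fixU p f hF σ r hσr hr.pos, PSLn.lang_card_units p f hF] at hdvd ⊢
      exact Nat.mul_div_cancel' hdvd
    rw [PSLn.lang_cyclic_index (PSLn.lang_fixU σ) _ hmm 2]
    exact slang_gcd_arith p f r Fact.out hr.pos hrf hf

end Cfsg.Agent.Helper44.PSpn
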