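import Mathlib
import Cfsg.Agent.Helper44.SpN
import Cfsg.Agent.Helper5.Symp

/-!
# `PSp_4(2^f)` (helper44), part P: transvections against alternating involutions

In `Sp_4(F)`, `F` finite of characteristic `2`, the involutions whose centraliser has the order
of the centraliser of a transvection are the transvections and the "alternating" involutions
(`f(x, z x) = 0` for all `x`); each of the two kinds is one conjugacy class.  Hence an
automorphism either preserves the transvections or swaps the two classes, and automorphisms of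
odd order, or fixing a transvection, permute the root subgroups.
-/

set_option autoImplicit false
set_option linter.unusedSimpArgs false
set_option linter.unusedSectionVars false
set_option linter.unusedVariables false

namespace Cfsg.Agent.Helper44.PSpn

open Matrix
open scoped Pointwise
open Cfsg.Agent.Helper13 (sympForm_add_left sympForm_add_right sympForm_smul_left
  sympForm_smul_right sympForm_swap sympForm_self sympForm_zero_left sympForm_zero_right
  sympForm_neg_left sympForm_neg_right sympForm_sub_left sympForm_sub_right)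
open Cfsg.Agent.Helper5 (spTv spTv_mulVec sp_ext sp_sympForm sp_coe_one sp_mul_mulVec
  sp_inv_mulVec sp_mulVec_inv)

variable {F : Type*} [Field F] {m : ℕ}

local notation "⟪" x ", " y "⟫" => Cfsg.sympForm m F x y

/-! ### moving vectors by transvections -/

theorem tv_move (u v : Fin m ⊕ Fin m → F) (h : ⟪u, v⟫ ≠ 0) :
    sact (spTv m (u - v) (⟪u, v⟫⁻¹)) u = v := by
  rw [sact_tv, sympForm_sub_right, sympForm_self, zero_sub, mul_neg, inv_mul_cancel₀ h,
    neg_one_smul]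
  abel

theorem tv_fix (a x : Fin m ⊕ Fin m → F) (c : F) (h : ⟪x, a⟫ = 0) :
    sact (spTv m a c) x = x := by
  rw [sact_tv, h, mul_zero, zero_smul, add_zero]

/-- the Siegel elements `ssg e w b` with `w ≠ 0` in `⟨e, f⟩^⊥` are conjugate -/
theorem ssg_conj_exists (e f w e' f' w' : Fin m ⊕ Fin m → F) (hef : ⟪e, f⟫ = 1)
    (hwe : ⟪w, e⟫ = 0) (hwf : ⟪w, f⟫ = 0) (hw0 : w ≠ 0) (hef' : ⟪e', f'⟫ = 1)
    (hwe' : ⟪w', e'⟫ = 0) (hwf' : ⟪w', f'⟫ = 0) (hw0' : w' ≠ 0) (b : F) :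
    ∃ g : Matrix.symplecticGroup (Fin m) F, g * ssg e w b * g⁻¹ = ssg e' w' b := by
  obtain ⟨A, -, hAe, hAf⟩ := Cfsg.Agent.Helper13.sp_trans_pairs e f e' f' hef hef'
  have hAe' : sact A e = e' := hAe
  have hAf' : sact A f = f' := hAf
  have h1e : ⟪sact A w, e'⟫ = 0 := by rw [← hAe', sact_form]; exact hwe
  have h1f : ⟪sact A w, f'⟫ = 0 := by rw [← hAf', sact_form]; exact hwf
  have h10 : sact A w ≠ 0 := sact_ne_zero A w hw0
  obtain ⟨c, hce, hcf, hc1, hc2⟩ := W_common hef' (sact A w) w' h10 h1e h1f hw0' hwe' hwf'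
  have hc2' : ⟪c, w'⟫ ≠ 0 := sf_swap_ne hc2
  refine ⟨spTv m (c - w') (⟪c, w'⟫⁻¹) * spTv m (sact A w - c) (⟪sact A w, c⟫⁻¹) * A, ?_⟩
  have e1 : sact (spTv m (sact A w - c) (⟪sact A w, c⟫⁻¹)) e' = e' :=
    tv_fix _ _ _ (by rw [sympForm_sub_right, sf_swap_zero h1e, sf_swap_zero hce, sub_zero])
  have e2 : sact (spTv m (c - w') (⟪c, w'⟫⁻¹)) e' = e' :=
    tv_fix _ _ _ (by rw [sympForm_sub_right, sf_swap_zero hce, sf_swap_zero hwe', sub_zero])
  have e3 : sact (spTv m (sact A w - c) (⟪sact A w, c⟫⁻¹)) (sact A w) = c := tv_move _ _ hc1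
  have e4 : sact (spTv m (c - w') (⟪c, w'⟫⁻¹)) c = w' := tv_move _ _ hc2'
  rw [ssg_conj, sact_mul, sact_mul, sact_mul, sact_mul, hAe', e1, e2, e3, e4]

/-! ### frames span in dimension four -/

theorem sframe_sep2 {e f r s : Fin 2 ⊕ Fin 2 → F} (hfr : SFrame e f r s)
    (u : Fin 2 ⊕ Fin 2 → F) (he : Cfsg.sympForm 2 F u e = 0) (hf : Cfsg.sympForm 2 F u f = 0)
    (hr : Cfsg.sympForm 2 F u r = 0) (hs : Cfsg.sympForm 2 F u s = 0) : u = 0 := by
  have hli : LinearIndependent F ![e, f, r, s] := by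
    rw [Fintype.linearIndependent_iff]
    intro g hg
    rw [Fin.sum_univ_four] at hg
    have hg' : g 0 • e + g 1 • f + g 2 • r + g 3 • s = 0 := hg
    have h0 : g 0 = 0 := by
      have h1 := congrArg (fun x => Cfsg.sympForm 2 F x f) hg'
      simp only [sympForm_add_left, sympForm_smul_left, hfr.ef, hfr.rf, hfr.sf, sympForm_self,
        sympForm_zero_left, mul_one, mul_zero, add_zero] at h1
      exact h1
    have h1 : g 1 = 0 := by
      have h1 := congrArg (fun x => Cfsg.sympForm 2 F x e) hg'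
      simp only [sympForm_add_left, sympForm_smul_left, hfr.fe, hfr.re, hfr.se, sympForm_self,
        sympForm_zero_left, mul_one, mul_zero, add_zero, zero_add, mul_neg, neg_eq_zero] at h1
      exact h1
    have h2 : g 2 = 0 := by
      have h1 := congrArg (fun x => Cfsg.sympForm 2 F x s) hg'
      simp only [sympForm_add_left, sympForm_smul_left, hfr.rs, sf_swap_zero hfr.se,
        sf_swap_zero hfr.sf, sympForm_self,
        sympForm_zero_left, mul_one, mul_zero, add_zero, zero_add] at h1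
      exact h1
    have h3 : g 3 = 0 := by
      have h1 := congrArg (fun x => Cfsg.sympForm 2 F x r) hg'
      simp only [sympForm_add_left, sympForm_smul_left, hfr.sr, sf_swap_zero hfr.re,
        sf_swap_zero hfr.rf, sympForm_self,
        sympForm_zero_left, mul_one, mul_zero, add_zero, zero_add, mul_neg, neg_eq_zero] at h1
      exact h1
    intro i
    fin_cases i
    · exact h0
    · exact h1
    · exact h2
    · exact h3
  have hspan : Submodule.span F (Set.range ![e, f, r, s]) = ⊤ := by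
    apply hli.span_eq_top_of_card_eq_finrank'
    rw [Module.finrank_fintype_fun_eq_card]
    simp
  apply Cfsg.Agent.Helper13.sympForm_sep
  intro y
  have hy : y ∈ Submodule.span F (Set.range ![e, f, r, s]) := by
    rw [hspan]; exact Submodule.mem_top
  induction hy using Submodule.span_induction with
  | mem x hx =>
    obtain ⟨i, rfl⟩ := hx
    fin_cases i
    · exact he
    · exact hf
    · exact hr
    · exact hs
  | zero => exact sympForm_zero_right _
  | add x y _ _ hx hy => rw [sympForm_add_right, hx, hy, add_zero]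
  | smul a x _ hx => rw [sympForm_smul_right, hx, mul_zero]

/-! ### alternating involutions in dimension four, characteristic two -/

/-- an involution of `Sp_4(F)`, `char F = 2`, with `f(x, z x) = 0` for all `x` is a Siegel
element `ssg e w 0` -/
theorem alt_invol_form [CharP F 2] (z : Matrix.symplecticGroup (Fin 2) F) (hz2 : z ^ 2 = 1)
    (hz1 : z ≠ 1) (halt : ∀ x : Fin 2 ⊕ Fin 2 → F, Cfsg.sympForm 2 F x (sact z x) = 0) :
    ∃ e f w : Fin 2 ⊕ Fin 2 → F, Cfsg.sympForm 2 F e f = 1 ∧ Cfsg.sympForm 2 F w e = 0 ∧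
      Cfsg.sympForm 2 F w f = 0 ∧ w ≠ 0 ∧ z = ssg e w 0 := by
  have hzz : ∀ x, sact z (sact z x) = x := by
    intro x
    rw [← sact_mul, ← pow_two, hz2, sact_one]
  -- symmetry
  have hsym0 : ∀ x y : Fin 2 ⊕ Fin 2 → F,
      Cfsg.sympForm 2 F x (sact z y) + Cfsg.sympForm 2 F y (sact z x) = 0 := by
    intro x y
    have h1 := halt (x + y)
    rw [sact_add, sympForm_add_left, sympForm_add_right, sympForm_add_right, halt x, halt y]
      at h1
    linear_combination h1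
  have hzsym : ∀ x y : Fin 2 ⊕ Fin 2 → F,
      Cfsg.sympForm 2 F (sact z x) y = Cfsg.sympForm 2 F x (sact z y) := by
    intro x y
    rw [sympForm_swap (sact z x) y]
    linear_combination -(hsym0 x y)
  -- a vector moved by z
  have hex : ∃ x₀ : Fin 2 ⊕ Fin 2 → F, sact z x₀ + x₀ ≠ 0 := by
    by_contra hcon
    push_neg at hcon
    apply hz1
    rw [sact_eq_iff]
    intro x
    rw [sact_one]
    exact CharTwo.add_eq_zero.1 (hcon x)
  obtain ⟨x₀, hx₀⟩ := hex
  set e := sact z x₀ + x₀ with he_def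
  obtain ⟨f, hef⟩ := sf_exists_partner e hx₀
  set w := sact z f + f with hw_def
  have hze : sact z e = e := by
    rw [he_def, sact_add, hzz, add_comm]
  have hzw : sact z w = w := by
    rw [hw_def, sact_add, hzz, add_comm]
  have hzf : sact z f = w + f := by
    rw [hw_def, add_assoc, CharTwo.add_self_eq_zero, add_zero]
  have hwe : Cfsg.sympForm 2 F w e = 0 := by
    have h1 : Cfsg.sympForm 2 F (sact z f) e = Cfsg.sympForm 2 F f e := by
      rw [hzsym, hze]
    rw [hw_def, sympForm_add_left, h1, CharTwo.add_self_eq_zero]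
  have hwf : Cfsg.sympForm 2 F w f = 0 := by
    rw [hw_def, sympForm_add_left, sympForm_self, add_zero, sympForm_swap, halt f, neg_zero]
  have hx₀e : Cfsg.sympForm 2 F x₀ e = 0 := by
    rw [he_def, sympForm_add_right, sympForm_self, add_zero, halt x₀]
  have hwx : Cfsg.sympForm 2 F w x₀ = 1 := by
    have h1 : Cfsg.sympForm 2 F (sact z f) x₀ = Cfsg.sympForm 2 F f (sact z x₀) := hzsym f x₀
    have h2 : Cfsg.sympForm 2 F f e = 1 := by
      rw [sf_swap_one hef, CharTwo.neg_eq]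
    rw [hw_def, sympForm_add_left, h1, ← sympForm_add_right, ← he_def, h2]
  have hw0 : w ≠ 0 := by
    intro h
    rw [h, sympForm_zero_left] at hwx
    exact zero_ne_one hwx
  -- the frame
  set x₁ := x₀ + Cfsg.sympForm 2 F x₀ f • e with hx₁_def
  have hzx₁ : sact z x₁ = e + x₁ := by
    rw [hx₁_def, sact_add, sact_smul, hze]
    have h1 : sact z x₀ = e + x₀ := by
      rw [he_def, add_assoc, CharTwo.add_self_eq_zero, add_zero]
    rw [h1]
    abel
  have hfr : SFrame e f w x₁ := by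
    refine ⟨hef, hwe, hwf, ?_, ?_, ?_⟩
    · rw [hx₁_def, sympForm_add_left, sympForm_smul_left, sympForm_self, hx₀e, mul_zero, add_zero]
    · rw [hx₁_def, sympForm_add_left, sympForm_smul_left, hef, mul_one, CharTwo.add_self_eq_zero]
    · rw [hx₁_def, sympForm_add_right, sympForm_smul_right, hwe, mul_zero, add_zero, hwx]
  refine ⟨e, f, w, hef, hwe, hwf, hw0, ?_⟩
  rw [sact_eq_iff]
  intro x
  rw [sact_ssg e w 0 hwe]
  have key : ∀ y : Fin 2 ⊕ Fin 2 → F,
      Cfsg.sympForm 2 F (sact z x - (x + Cfsg.sympForm 2 F x e • w + Cfsg.sympForm 2 F x w • e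
        + (0 * Cfsg.sympForm 2 F x e) • e)) y
      = Cfsg.sympForm 2 F x (sact z y) - Cfsg.sympForm 2 F x y
        - Cfsg.sympForm 2 F x e * Cfsg.sympForm 2 F w y
        - Cfsg.sympForm 2 F x w * Cfsg.sympForm 2 F e y := by
    intro y
    rw [sympForm_sub_left, sympForm_add_left, sympForm_add_left, sympForm_add_left,
      sympForm_smul_left, sympForm_smul_left, sympForm_smul_left, hzsym]
    ring
  have hfin := sframe_sep2 hfr _ (by
      rw [key, hze, sympForm_self, hwe]; ring) (by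
      rw [key, hzf, sympForm_add_right, hwf, hef]; ring) (by
      rw [key, hzw, sympForm_self, sf_swap_zero hwe]; ring) (by
      rw [key, hzx₁, sympForm_add_right, hfr.rs, sf_swap_zero hfr.se]; ring)
  exact sub_eq_zero.1 hfin

/-! ### the two kinds of elements -/

/-- transvections with coefficient one -/
def IsTvE (z : Matrix.symplecticGroup (Fin m) F) : Prop :=
  ∃ v : Fin m ⊕ Fin m → F, v ≠ 0 ∧ z = spTv m v 1

/-- alternating involutions -/
def IsAltE (z : Matrix.symplecticGroup (Fin m) F) : Prop :=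
  z ^ 2 = 1 ∧ z ≠ 1 ∧ ∀ x : Fin m ⊕ Fin m → F, ⟪x, sact z x⟫ = 0

theorem tv_not_alt (v : Fin m ⊕ Fin m → F) (hv0 : v ≠ 0) (c : F) (hc : c ≠ 0) :
    ¬ ∀ x : Fin m ⊕ Fin m → F, ⟪x, sact (spTv m v c) x⟫ = 0 := by
  intro halt
  obtain ⟨f, hf⟩ := sf_exists_partner v hv0
  have h1 := halt f
  rw [sact_tv, sympForm_add_right, sympForm_self, zero_add, sympForm_smul_right,
    sf_swap_one hf] at h1
  apply hc
  linear_combination h1

theorem tvE_not_altE (z : Matrix.symplecticGroup (Fin m) F) (h : IsTvE z) : ¬ IsAltE z := by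
  obtain ⟨v, hv0, rfl⟩ := h
  rintro ⟨-, -, halt⟩
  exact tv_not_alt v hv0 1 one_ne_zero halt

theorem tvE_conj (g z : Matrix.symplecticGroup (Fin m) F) (h : IsTvE z) :
    IsTvE (g * z * g⁻¹) := by
  obtain ⟨v, hv0, rfl⟩ := h
  exact ⟨sact g v, sact_ne_zero g v hv0, Cfsg.Agent.Helper5.spTv_conj g v 1⟩

theorem tvE_conj_exists (z z' : Matrix.symplecticGroup (Fin m) F) (h : IsTvE z)
    (h' : IsTvE z') : ∃ g : Matrix.symplecticGroup (Fin m) F, g * z * g⁻¹ = z' := by
  obtain ⟨v, hv0, rfl⟩ := h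
  obtain ⟨v', hv0', rfl⟩ := h'
  obtain ⟨g, hg⟩ := Cfsg.Agent.Helper5.symp_transitive v v' hv0 hv0'
  exact ⟨g, by rw [Cfsg.Agent.Helper5.spTv_conj, hg]⟩

theorem altE_conj_exists [CharP F 2] (z z' : Matrix.symplecticGroup (Fin 2) F) (h : IsAltE z)
    (h' : IsAltE z') : ∃ g : Matrix.symplecticGroup (Fin 2) F, g * z * g⁻¹ = z' := by
  obtain ⟨e, f, w, hef, hwe, hwf, hw0, rfl⟩ := alt_invol_form z h.1 h.2.1 h.2.2
  obtain ⟨e', f', w', hef', hwe', hwf', hw0', rfl⟩ := alt_invol_form z' h'.1 h'.2.1 h'.2.2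
  exact ssg_conj_exists e f w e' f' w' hef hwe hwf hw0 hef' hwe' hwf' hw0' 0

theorem altE_rank [CharP F 2] (z : Matrix.symplecticGroup (Fin 2) F) (h : IsAltE z) :
    ((z : Matrix (Fin 2 ⊕ Fin 2) (Fin 2 ⊕ Fin 2) F) - 1).rank = 2 := by
  obtain ⟨hz2, hz1, halt⟩ := h
  have h1 := rank_le_of_sq z hz2
  have h2 := ne_one_rank z hz1
  have h3 : ((z : Matrix (Fin 2 ⊕ Fin 2) (Fin 2 ⊕ Fin 2) F) - 1).rank ≠ 1 := by
    intro h
    obtain ⟨v, hv0, hmem⟩ := tv_of_rank_one z h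
    obtain ⟨c, rfl⟩ := (mem_sroot _ _).1 hmem
    have hc0 : c ≠ 0 := by
      rintro rfl
      exact hz1 (spTv_zero_right v)
    exact tv_not_alt v hv0 c hc0 halt
  omega

/-! ### arithmetic of the centraliser orders -/

theorem PP_one (q : ℕ) : PP q 1 = q ^ 2 - 1 := by
  rw [show (1 : ℕ) = 0 + 1 from rfl, PP_succ, PP_zero]
  simp

theorem arith_tv2 (q : ℕ) :
    q ^ (2 * 2 * 1 - (3 * 1 ^ 2 - 1) / 2) * (q ^ (((1 - 1) / 2) ^ 2) * PP q ((1 - 1) / 2))
      * (q ^ ((2 - 1) ^ 2) * PP q (2 - 1)) = q ^ 4 * (q ^ 2 - 1) := by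
  have e1 : 2 * 2 * 1 - (3 * 1 ^ 2 - 1) / 2 = 3 := by norm_num
  have e2 : (1 - 1) / 2 = 0 := by norm_num
  have e3 : 2 - 1 = 1 := by norm_num
  rw [e1, e2, e3, PP_zero, PP_one]
  ring

theorem arith_alt2 (q : ℕ) :
    q ^ (2 * 2 * 2 - (3 * 2 ^ 2 - 2) / 2) * (q ^ ((2 / 2) ^ 2) * PP q (2 / 2))
      * (q ^ ((2 - 2) ^ 2) * PP q (2 - 2)) = q ^ 4 * (q ^ 2 - 1) := by
  have e1 : 2 * 2 * 2 - (3 * 2 ^ 2 - 2) / 2 = 3 := by norm_num
  have e2 : 2 / 2 = 1 := by norm_num
  have e3 : 2 - 2 = 0 := by norm_num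
  rw [e1, e2, e3, PP_zero, PP_one]
  ring

theorem arith_c2 (q : ℕ) :
    q ^ (2 * 2 * 2 - (3 * 2 ^ 2 - 3 * 2) / 2 - 1)
      * (q ^ (((2 - 2) / 2) ^ 2) * PP q ((2 - 2) / 2))
      * (q ^ ((2 - 2) ^ 2) * PP q (2 - 2)) = q ^ 4 := by
  have e1 : 2 * 2 * 2 - (3 * 2 ^ 2 - 3 * 2) / 2 - 1 = 4 := by norm_num
  have e2 : (2 - 2) / 2 = 0 := by norm_num
  have e3 : 2 - 2 = 0 := by norm_num
  rw [e1, e2, e3, PP_zero]
  ring

section count2

variable [Fintype F]

theorem card_cent_tvE [CharP F 2] (z : Matrix.symplecticGroup (Fin 2) F) (h : IsTvE z) :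
    Nat.card ↥(Subgroup.centralizer ({z} : Set (Matrix.symplecticGroup (Fin 2) F)))
      = Fintype.card F ^ 4 * (Fintype.card F ^ 2 - 1) := by
  obtain ⟨v, hv0, rfl⟩ := h
  rw [← arith_tv2]
  exact Cfsg.Agent.S2680.result rfl (spTv 2 v 1) (tv_sq v 1) (rank_tv v hv0) odd_one

theorem card_cent_altE [CharP F 2] (z : Matrix.symplecticGroup (Fin 2) F) (h : IsAltE z) :
    Nat.card ↥(Subgroup.centralizer ({z} : Set (Matrix.symplecticGroup (Fin 2) F)))
      = Fintype.card F ^ 4 * (Fintype.card F ^ 2 - 1) := by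
  have hr := altE_rank z h
  obtain ⟨hz2, hz1, halt⟩ := h
  rw [← arith_alt2]
  exact Cfsg.Agent.S2681.result rfl z hz2 hz1 hr even_two halt

theorem invol_type2 [CharP F 2] (z : Matrix.symplecticGroup (Fin 2) F) (hz2 : z ^ 2 = 1)
    (hz1 : z ≠ 1)
    (hcard : Nat.card ↥(Subgroup.centralizer ({z} : Set (Matrix.symplecticGroup (Fin 2) F)))
      = Fintype.card F ^ 4 * (Fintype.card F ^ 2 - 1)) :
    IsTvE z ∨ IsAltE z := by
  have hq2 : 2 ≤ Fintype.card F := Fintype.one_lt_card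
  have h1 := rank_le_of_sq z hz2
  have h2 := ne_one_rank z hz1
  by_cases halt : ∀ x : Fin 2 ⊕ Fin 2 → F, Cfsg.sympForm 2 F x (sact z x) = 0
  · exact Or.inr ⟨hz2, hz1, halt⟩
  · left
    have hr : ((z : Matrix (Fin 2 ⊕ Fin 2) (Fin 2 ⊕ Fin 2) F) - 1).rank = 1 := by
      by_contra hne
      have hr2 : ((z : Matrix (Fin 2 ⊕ Fin 2) (Fin 2 ⊕ Fin 2) F) - 1).rank = 2 := by omega
      push_neg at halt
      have h3 := Cfsg.Agent.S2682.result rfl z hz2 hr2 even_two halt
      rw [hcard] at h3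
      have h4 := h3.trans (arith_c2 (Fintype.card F))
      have h5 : 0 < Fintype.card F ^ 4 := pow_pos (by omega) 4
      have h6 : Fintype.card F ^ 2 - 1 = 1 := by
        apply Nat.eq_of_mul_eq_mul_left h5
        rw [h4, mul_one]
      have h7 : 2 ^ 2 ≤ Fintype.card F ^ 2 := Nat.pow_le_pow_left hq2 2
      omega
    obtain ⟨v, hv0, hmem⟩ := tv_of_rank_one z hr
    obtain ⟨c, rfl⟩ := (mem_sroot _ _).1 hmem
    have hc0 : c ≠ 0 := by
      rintro rfl
      exact hz1 (spTv_zero_right v)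
    obtain ⟨d, hd⟩ := FiniteField.isSquare_of_char_two (ringChar.eq F 2) c
    have hd0 : d ≠ 0 := by
      rintro rfl
      exact hc0 (by rw [hd, mul_zero])
    refine ⟨d • v, smul_ne_zero hd0 hv0, ?_⟩
    rw [Cfsg.Agent.Helper5.spTv_smul, mul_one, ← hd]

theorem aut_type2 [CharP F 2] (ψ : MulAut (Matrix.symplecticGroup (Fin 2) F))
    (z : Matrix.symplecticGroup (Fin 2) F) (h : IsTvE z ∨ IsAltE z) :
    IsTvE (ψ z) ∨ IsAltE (ψ z) := by
  have hz : z ^ 2 = 1 ∧ z ≠ 1 ∧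
      Nat.card ↥(Subgroup.centralizer ({z} : Set (Matrix.symplecticGroup (Fin 2) F)))
        = Fintype.card F ^ 4 * (Fintype.card F ^ 2 - 1) := by
    rcases h with h | h
    · have hc := card_cent_tvE z h
      obtain ⟨v, hv0, rfl⟩ := h
      exact ⟨tv_sq v 1, tv_ne_one v hv0 1 one_ne_zero, hc⟩
    · exact ⟨h.1, h.2.1, card_cent_altE z h⟩
  apply invol_type2
  · rw [← map_pow, hz.1, map_one]
  · intro h1
    exact hz.2.1 (ψ.injective (by rw [h1, map_one]))
  · rw [card_centralizer_equiv ψ z]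
    exact hz.2.2

theorem aut_tv_all (ψ : MulAut (Matrix.symplecticGroup (Fin m) F))
    (z₀ : Matrix.symplecticGroup (Fin m) F) (h₀ : IsTvE z₀) (h₀' : IsTvE (ψ z₀))
    (z : Matrix.symplecticGroup (Fin m) F) (h : IsTvE z) : IsTvE (ψ z) := by
  obtain ⟨g, rfl⟩ := tvE_conj_exists z₀ z h₀ h
  rw [map_mul, map_mul, map_inv]
  exact tvE_conj (ψ g) (ψ z₀) h₀'

theorem single_ne_zero2 : (Pi.single (Sum.inl 0) 1 : Fin 2 ⊕ Fin 2 → F) ≠ 0 := by
  intro h0
  have h1 := congrFun h0 (Sum.inl 0)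
  simp at h1

theorem aut_swap2 [CharP F 2] (ψ : MulAut (Matrix.symplecticGroup (Fin 2) F))
    (hbad : ∀ z, IsTvE z → IsAltE (ψ z)) (z : Matrix.symplecticGroup (Fin 2) F)
    (h : IsAltE z) : IsTvE (ψ z) := by
  rcases aut_type2 ψ z (Or.inr h) with h1 | h1
  · exact h1
  · exfalso
    have ht₀ : IsTvE (spTv 2 (Pi.single (Sum.inl 0) 1 : Fin 2 ⊕ Fin 2 → F) 1) :=
      ⟨_, single_ne_zero2, rfl⟩
    obtain ⟨k, hk⟩ := altE_conj_exists _ (ψ z) (hbad _ ht₀) h1
    obtain ⟨g, rfl⟩ := ψ.surjective k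
    have h2 : ψ (g * spTv 2 (Pi.single (Sum.inl 0) 1 : Fin 2 ⊕ Fin 2 → F) 1 * g⁻¹) = ψ z := by
      rw [map_mul, map_mul, map_inv]
      exact hk
    have h3 := ψ.injective h2
    exact tvE_not_altE z (by rw [← h3]; exact tvE_conj g _ ht₀) h

theorem aut_dich2 [CharP F 2] (ψ : MulAut (Matrix.symplecticGroup (Fin 2) F)) :
    (∀ z, IsTvE z → IsTvE (ψ z)) ∨
      ((∀ z, IsTvE z → IsAltE (ψ z)) ∧ (∀ z, IsAltE z → IsTvE (ψ z))) := by
  by_cases hex : ∃ z₀, IsTvE z₀ ∧ IsTvE (ψ z₀)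
  · obtain ⟨z₀, h₀, h₀'⟩ := hex
    exact Or.inl (aut_tv_all ψ z₀ h₀ h₀')
  · push_neg at hex
    have hbad : ∀ z, IsTvE z → IsAltE (ψ z) := by
      intro z hz
      rcases aut_type2 ψ z (Or.inl hz) with h1 | h1
      · exact absurd h1 (hex z hz)
      · exact h1
    exact Or.inr ⟨hbad, aut_swap2 ψ hbad⟩

theorem aut_odd2 [CharP F 2] (ψ : MulAut (Matrix.symplecticGroup (Fin 2) F)) (k : ℕ)
    (hk : Odd k) (hψ : ψ ^ k = 1) : ∀ z, IsTvE z → IsTvE (ψ z) := by
  rcases aut_dich2 ψ with h | ⟨h1, h2⟩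
  · exact h
  · exfalso
    have key : ∀ j : ℕ, ∀ z, IsTvE z → IsAltE ((ψ ^ (2 * j + 1)) z) := by
      intro j
      induction j with
      | zero =>
        intro z hz
        rw [mul_zero, zero_add, pow_one]
        exact h1 z hz
      | succ j ih =>
        intro z hz
        have e1 : ψ ^ (2 * (j + 1) + 1) = ψ * (ψ * ψ ^ (2 * j + 1)) := by
          rw [← pow_succ', ← pow_succ']
          congr 1
        rw [e1, MulAut.mul_apply, MulAut.mul_apply]
        exact h1 _ (h2 _ (ih z hz))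
    obtain ⟨j, rfl⟩ := hk
    have ht₀ : IsTvE (spTv 2 (Pi.single (Sum.inl 0) 1 : Fin 2 ⊕ Fin 2 → F) 1) :=
      ⟨_, single_ne_zero2, rfl⟩
    have h3 := key j _ ht₀
    rw [hψ, MulAut.one_apply] at h3
    exact tvE_not_altE _ ht₀ h3

end count2

/-! ### back to `PSp` -/

section back2

variable [Fintype F]

/-- in characteristic two the projection is an isomorphism -/
noncomputable def prSe2 [CharP F 2] : Matrix.symplecticGroup (Fin m) F ≃* Cfsg.PSp m F :=
  MulEquiv.ofBijective prS ⟨prS_injective_char2, prS_surjective⟩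

/-- the automorphism of `Sp` lifting an automorphism of `PSp` (characteristic two) -/
noncomputable def liftAut2 [CharP F 2] :
    MulAut (Cfsg.PSp m F) ≃* MulAut (Matrix.symplecticGroup (Fin m) F) :=
  MulAut.congr prSe2.symm

theorem prS_liftAut2 [CharP F 2] (α : MulAut (Cfsg.PSp m F))
    (x : Matrix.symplecticGroup (Fin m) F) : prS (liftAut2 α x) = α (prS x) := by
  show prSe2 (prSe2.symm (α (prSe2 x))) = α (prS x)
  rw [MulEquiv.apply_symm_apply]
  rfl

theorem rel_of_tvE [CharP F 2] (α : MulAut (Cfsg.PSp m F))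
    (hgood : ∀ z, IsTvE z → IsTvE (liftAut2 α z)) (v : Fin m ⊕ Fin m → F) (hv0 : v ≠ 0) :
    ∃ v' : Fin m ⊕ Fin m → F, v' ≠ 0 ∧ (Tb v).map α.toMonoidHom = Tb v' := by
  obtain ⟨v', hv'0, hc'⟩ := hgood (spTv m v 1) ⟨v, hv0, rfl⟩
  have hiff : ∀ z, z ∈ sroot v ↔ liftAut2 α z ∈ sroot v' := by
    intro z
    rw [sroot_iff_ZC v hv0 1 one_ne_zero, sroot_iff_ZC v' hv'0 1 one_ne_zero, ← hc']
    constructor
    · intro h y hy
      obtain ⟨y₀, rfl⟩ := (liftAut2 α).surjective y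
      rw [← map_mul, ← map_mul] at hy ⊢
      rw [h y₀ ((liftAut2 α).injective hy)]
    · intro h y hy
      apply (liftAut2 α).injective
      rw [map_mul, map_mul]
      exact h (liftAut2 α y) (by rw [← map_mul, ← map_mul, hy])
  refine ⟨v', hv'0, ?_⟩
  ext x
  rw [Subgroup.mem_map, mem_Tb]
  constructor
  · rintro ⟨y, hy, rfl⟩
    obtain ⟨z, hz, rfl⟩ := (mem_Tb v y).1 hy
    exact ⟨liftAut2 α z, (hiff z).1 hz, prS_liftAut2 α z⟩
  · rintro ⟨z', hz', rfl⟩
    obtain ⟨z, rfl⟩ := (liftAut2 α).surjective z'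
    exact ⟨prS z, (mem_Tb v _).2 ⟨z, (hiff z).2 hz', rfl⟩, (prS_liftAut2 α z).symm⟩

/-- an automorphism of odd order of `PSp_4(2^f)` permutes the root subgroups -/
theorem rel_of_odd_order [CharP F 2] (α : MulAut (Cfsg.PSp 2 F)) (k : ℕ)
    (hk : Odd k) (hα : α ^ k = 1) (v : Fin 2 ⊕ Fin 2 → F) (hv0 : v ≠ 0) :
    ∃ v' : Fin 2 ⊕ Fin 2 → F, v' ≠ 0 ∧ (Tb v).map α.toMonoidHom = Tb v' :=
  rel_of_tvE α (aut_odd2 (liftAut2 α) k hk (by rw [← map_pow, hα, map_one])) v hv0

/-- an automorphism of `PSp_4(2^f)` fixing a transvection permutes the root subgroups -/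
theorem rel_of_fix_tv [CharP F 2] (α : MulAut (Cfsg.PSp 2 F))
    (v₀ : Fin 2 ⊕ Fin 2 → F) (hv₀ : v₀ ≠ 0)
    (hfix : α (prS (spTv 2 v₀ 1)) = prS (spTv 2 v₀ 1)) (v : Fin 2 ⊕ Fin 2 → F) (hv0 : v ≠ 0) :
    ∃ v' : Fin 2 ⊕ Fin 2 → F, v' ≠ 0 ∧ (Tb v).map α.toMonoidHom = Tb v' := by
  have h1 : liftAut2 α (spTv 2 v₀ 1) = spTv 2 v₀ 1 :=
    prS_injective_char2 (by rw [prS_liftAut2, hfix])
  exact rel_of_tvE α (aut_tv_all (liftAut2 α) (spTv 2 v₀ 1) ⟨v₀, hv₀, rfl⟩
    (by rw [h1]; exact ⟨v₀, hv₀, rfl⟩)) v hv0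

end back2

end Cfsg.Agent.Helper44.PSpn
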