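import Mathlib
import Cfsg.Agent.Helper44.SpP

/-!
# Field automorphisms of `PSp_{2m}(q)` (helper44), part Q: the fixed points of a field
automorphism

For a field automorphism `σ` the fixed points of `sF σ` on `PSp_{2m}(F)` contain the image of
`Sp_{2m}(F₀)`, `F₀` the fixed field.  A subgroup of the fixed points which is normalised by all
of them and has order prime to `p` is trivial as soon as `p` divides the order of the group of
fixed points (`p` not the characteristic).  An automorphism `g σ'` fixing the fixed points is a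
power of the field automorphism.
-/

set_option autoImplicit false
set_option linter.unusedSimpArgs false
set_option linter.unusedSectionVars false
set_option linter.unusedVariables false

namespace Cfsg.Agent.Helper44.PSpn

open Matrix
open scoped Pointwise
open scoped commutatorElement
open Cfsg.Agent.Helper13 (sympForm_add_left sympForm_add_right sympForm_smul_left
  sympForm_smul_right sympForm_swap sympForm_self sympForm_zero_left sympForm_zero_right
  sympForm_neg_left sympForm_neg_right sympForm_sub_left sympForm_sub_right)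
open Cfsg.Agent.Helper5 (spTv spTv_mulVec sp_ext sp_sympForm sp_coe_one sp_mul_mulVec
  sp_inv_mulVec sp_mulVec_inv)

universe u v

variable {F : Type u} [Field F] {m : ℕ}

local notation "⟪" x ", " y "⟫" => Cfsg.sympForm m F x y

/-! ### the fixed field of an automorphism -/

/-- the fixed field of a field automorphism -/
def fixF (σ : RingAut F) : Subfield F where
  carrier := {x | σ x = x}
  mul_mem' := fun {a b} (ha : σ a = a) (hb : σ b = b) => by
    show σ (a * b) = a * b
    rw [map_mul, ha, hb]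
  one_mem' := map_one σ
  add_mem' := fun {a b} (ha : σ a = a) (hb : σ b = b) => by
    show σ (a + b) = a + b
    rw [map_add, ha, hb]
  zero_mem' := map_zero σ
  neg_mem' := fun {a} (ha : σ a = a) => by
    show σ (-a) = -a
    rw [map_neg, ha]
  inv_mem' := fun a (ha : σ a = a) => by
    show σ a⁻¹ = a⁻¹
    rw [map_inv₀, ha]

theorem fixF_range (σ : RingAut F) (x : F) : σ x = x ↔ x ∈ Set.range (fixF σ).subtype := by
  constructor
  · intro h
    exact ⟨⟨x, h⟩, rfl⟩
  · rintro ⟨y, rfl⟩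
    exact y.2

/-- an automorphism fixing the fixed field of `σ` is a power of `σ` (Artin) -/
theorem mem_zpowers_of_fix [Fintype F] (σ τ : RingAut F) (h : ∀ c, σ c = c → τ c = c) :
    τ ∈ Subgroup.zpowers σ := by
  classical
  let Z : Subgroup (RingAut F) := Subgroup.zpowers σ
  haveI : Finite (RingAut F) :=
    Finite.of_injective (fun τ : RingAut F => (τ : F → F)) DFunLike.coe_injective
  haveI : Fintype Z := Fintype.ofFinite Z
  haveI : FaithfulSMul Z F := ⟨fun {g g'} h => Subtype.ext (RingEquiv.ext h)⟩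
  let τa : F →ₐ[FixedPoints.subfield Z F] F :=
    { (τ : F →+* F) with
      commutes' := fun x => by
        show τ (x : F) = (x : F)
        exact h _ (x.2 ⟨σ, Subgroup.mem_zpowers σ⟩) }
  obtain ⟨g, hg⟩ := (FixedPoints.toAlgHom_bijective Z F).2 τa
  have h1 : (g : RingAut F) = τ := by
    apply RingEquiv.ext
    intro x
    exact congrArg (fun φ : F →ₐ[FixedPoints.subfield Z F] F => φ x) hg
  rw [← h1]
  exact g.2

/-! ### basis vectors -/

theorem psingle_ne_zero (a : Fin m ⊕ Fin m) : (Pi.single a 1 : Fin m ⊕ Fin m → F) ≠ 0 := by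
  intro h0
  have h1 := congrFun h0 a
  rw [Pi.single_eq_same] at h1
  exact one_ne_zero h1

theorem ppair_ne_zero (a b : Fin m ⊕ Fin m) (hab : a ≠ b) :
    (Pi.single a 1 + Pi.single b 1 : Fin m ⊕ Fin m → F) ≠ 0 := by
  intro h0
  have h1 := congrFun h0 a
  rw [Pi.add_apply, Pi.single_eq_same, Pi.single_eq_of_ne hab, add_zero] at h1
  exact one_ne_zero h1

theorem ssv_single (σ : RingAut F) (a : Fin m ⊕ Fin m) :
    ssv σ (Pi.single a 1 : Fin m ⊕ Fin m → F) = Pi.single a 1 := by
  funext i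
  rw [ssv_apply]
  by_cases h : i = a
  · subst h
    rw [Pi.single_eq_same, map_one]
  · rw [Pi.single_eq_of_ne h, map_zero]

/-- a matrix fixing the coordinate lines and the lines of the sums of two basis vectors is
scalar -/
theorem mat_scalar_of_lines (hm : 1 ≤ m) (M : Matrix (Fin m ⊕ Fin m) (Fin m ⊕ Fin m) F)
    (h1 : ∀ a : Fin m ⊕ Fin m, ∃ l : F,
      M *ᵥ (Pi.single a 1) = l • (Pi.single a 1 : Fin m ⊕ Fin m → F))
    (h2 : ∀ a b : Fin m ⊕ Fin m, a ≠ b → ∃ l : F,
      M *ᵥ (Pi.single a 1 + Pi.single b 1)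
        = l • (Pi.single a 1 + Pi.single b 1 : Fin m ⊕ Fin m → F)) :
    ∃ l : F, ∀ x : Fin m ⊕ Fin m → F, M *ᵥ x = l • x := by
  choose lam hlam using h1
  have heq : ∀ a b, lam a = lam b := by
    intro a b
    by_cases hab : a = b
    · rw [hab]
    · obtain ⟨μ, hμ⟩ := h2 a b hab
      rw [Matrix.mulVec_add, hlam a, hlam b] at hμ
      have ha := congrFun hμ a
      have hb := congrFun hμ b
      simp only [Pi.add_apply, Pi.smul_apply, Pi.single_eq_same, Pi.single_eq_of_ne hab,
        Pi.single_eq_of_ne (Ne.symm hab), smul_eq_mul, mul_one, mul_zero, add_zero,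
        zero_add] at ha hb
      rw [ha, hb]
  refine ⟨lam (Sum.inl ⟨0, hm⟩), fun x => ?_⟩
  have hM : ∀ i a, M i a = lam a * (Pi.single a 1 : Fin m ⊕ Fin m → F) i := by
    intro i a
    have h := congrFun (hlam a) i
    rw [Matrix.mulVec_single_one] at h
    simpa using h
  funext i
  rw [Matrix.mulVec, dotProduct, Finset.sum_eq_single i]
  · rw [hM, Pi.single_eq_same, mul_one, heq i (Sum.inl ⟨0, hm⟩), Pi.smul_apply, smul_eq_mul]
  · intro b _ hb
    rw [hM, Pi.single_eq_of_ne (Ne.symm hb), mul_zero, zero_mul]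
  · intro h
    exact absurd (Finset.mem_univ i) h

/-! ### field automorphisms and transvections -/

theorem sact_mapSp (σ : RingAut F) (s : Matrix.symplecticGroup (Fin m) F)
    (x : Fin m ⊕ Fin m → F) : sact (mapSp σ s) (ssv σ x) = ssv σ (sact s x) := by
  unfold sact
  rw [mapSp_coe, ssv_mulVec]

theorem mapSp_tv (σ : RingAut F) (v : Fin m ⊕ Fin m → F) (a : F) :
    mapSp σ (spTv m v a) = spTv m (ssv σ v) (σ a) := by
  rw [sact_eq_iff]
  intro y
  rw [← ssv_inv σ y, sact_mapSp, sact_tv, sact_tv, ssv_add, ssv_smul, map_mul, form_ssv]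

theorem central_comm_conj {G : Type*} [Group G] (s t z : G) (hz : z ∈ Subgroup.center G) :
    (s * z) * t * (s * z)⁻¹ = s * t * s⁻¹ := by
  rw [Subgroup.mem_center_iff] at hz
  have h1 : z * t = t * z := (hz t).symm
  rw [_root_.mul_inv_rev, mul_assoc s z t, h1]
  group

/-! ### the symplectic group over a subfield -/

section emb

variable {F₀ : Type v} [Field F₀]

theorem spI_mem (ι : F₀ →+* F) (s : Matrix.symplecticGroup (Fin m) F₀) :
    (s : Matrix (Fin m ⊕ Fin m) (Fin m ⊕ Fin m) F₀).map ι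
      ∈ Matrix.symplecticGroup (Fin m) F := by
  rw [Cfsg.Agent.Helper13.mem_symplecticGroup_iff_sympForm]
  intro x y
  have h := Cfsg.Agent.Helper97.SpSF.sf_gram_ext
    ((s : Matrix (Fin m ⊕ Fin m) (Fin m ⊕ Fin m) F₀).map ι) 1 (fun a b => by
      rw [single_map ι a, single_map ι b, smat_map_mulVec, smat_map_mulVec, sform_map,
        sform_map, sp_sympForm, one_mul]) x y
  rw [h, one_mul]

/-- entrywise embedding of `Sp` over a subfield -/
def spI (ι : F₀ →+* F) :
    Matrix.symplecticGroup (Fin m) F₀ →* Matrix.symplecticGroup (Fin m) F where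
  toFun s := ⟨(s : Matrix (Fin m ⊕ Fin m) (Fin m ⊕ Fin m) F₀).map ι, spI_mem ι s⟩
  map_one' := by
    apply Subtype.ext
    show (1 : Matrix (Fin m ⊕ Fin m) (Fin m ⊕ Fin m) F₀).map ι = 1
    exact Matrix.map_one _ (map_zero ι) (map_one ι)
  map_mul' s t := by
    apply Subtype.ext
    show ((s : Matrix (Fin m ⊕ Fin m) (Fin m ⊕ Fin m) F₀)
        * (t : Matrix (Fin m ⊕ Fin m) (Fin m ⊕ Fin m) F₀)).map ι
      = (s : Matrix (Fin m ⊕ Fin m) (Fin m ⊕ Fin m) F₀).map ι
        * (t : Matrix (Fin m ⊕ Fin m) (Fin m ⊕ Fin m) F₀).map ι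
    exact Matrix.map_mul

theorem spI_coe (ι : F₀ →+* F) (s : Matrix.symplecticGroup (Fin m) F₀) :
    ((spI ι s : Matrix.symplecticGroup (Fin m) F) : Matrix (Fin m ⊕ Fin m) (Fin m ⊕ Fin m) F)
      = (s : Matrix (Fin m ⊕ Fin m) (Fin m ⊕ Fin m) F₀).map ι := rfl

theorem spI_fixed (σ : RingAut F) (ι : F₀ →+* F) (hι : ∀ x, σ x = x ↔ x ∈ Set.range ι)
    (s : Matrix.symplecticGroup (Fin m) F₀) : mapSp σ (spI ι s) = spI ι s := by
  apply Subtype.ext
  rw [mapSp_coe, spI_coe]
  ext i j
  exact (hι _).mpr ⟨_, rfl⟩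

theorem spI_surj (σ : RingAut F) (ι : F₀ →+* F) (hι : ∀ x, σ x = x ↔ x ∈ Set.range ι)
    (s : Matrix.symplecticGroup (Fin m) F) (hfix : mapSp σ s = s) :
    ∃ s₀ : Matrix.symplecticGroup (Fin m) F₀, spI ι s₀ = s := by
  have hfix' : (s : Matrix (Fin m ⊕ Fin m) (Fin m ⊕ Fin m) F).map σ
      = (s : Matrix (Fin m ⊕ Fin m) (Fin m ⊕ Fin m) F) := congrArg Subtype.val hfix
  have hex : ∀ i j, ∃ a : F₀, ι a = (s : Matrix (Fin m ⊕ Fin m) (Fin m ⊕ Fin m) F) i j :=
    fun i j => (hι _).mp (congrFun (congrFun hfix' i) j)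
  choose M₀f hM₀f using hex
  have hM₀ : (Matrix.of M₀f).map ι = (s : Matrix (Fin m ⊕ Fin m) (Fin m ⊕ Fin m) F) := by
    ext i j
    exact hM₀f i j
  have hmem : Matrix.of M₀f ∈ Matrix.symplecticGroup (Fin m) F₀ := by
    rw [Cfsg.Agent.Helper13.mem_symplecticGroup_iff_sympForm]
    intro x y
    apply ι.injective
    rw [← sform_map, ← smat_map_mulVec, ← smat_map_mulVec, hM₀, sp_sympForm, sform_map]
  exact ⟨⟨_, hmem⟩, Subtype.ext hM₀⟩

theorem spI_center (ι : F₀ →+* F) (z₀ : Matrix.symplecticGroup (Fin m) F₀)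
    (hz : z₀ ∈ Subgroup.center (Matrix.symplecticGroup (Fin m) F₀)) :
    spI ι z₀ ∈ Subgroup.center (Matrix.symplecticGroup (Fin m) F) := by
  rw [Cfsg.Agent.Helper5.sp_mem_center_iff] at hz ⊢
  rw [spI_coe]
  rcases hz with h | h
  · left
    rw [h]
    exact Matrix.map_one _ (map_zero ι) (map_one ι)
  · right
    rw [h]
    ext i j
    by_cases hij : i = j
    · subst hij
      simp
    · simp [Matrix.one_apply_ne hij]

end emb

/-! ### normal subgroups of the group of fixed points -/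

/-- a subgroup of the fixed points of a field automorphism, normalised by all fixed points and of
order prime to `p`, is trivial when the fixed points contain an element of order `p ≠ char` -/
theorem fix_normal_trivial (p : ℕ) [Fact p.Prime] (r : ℕ) [Fact r.Prime] [CharP F r]
    (hpr : p ≠ r) (hm : 2 ≤ m) (σ : RingAut F) (M : Subgroup (Cfsg.PSp m F))
    (hMnorm : ∀ c : Cfsg.PSp m F, (sF σ : MulAut (Cfsg.PSp m F)) c = c →
      ∀ k ∈ M, c * k * c⁻¹ ∈ M)
    (hMfix : ∀ k ∈ M, (sF σ : MulAut (Cfsg.PSp m F)) k = k)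
    (hMcop : (Nat.card M).Coprime p)
    (hp : ∃ c : Cfsg.PSp m F, (sF σ : MulAut (Cfsg.PSp m F)) c = c ∧ orderOf c = p) :
    M = ⊥ := by
  classical
  have hι : ∀ x, σ x = x ↔ x ∈ Set.range (fixF σ).subtype := fixF_range σ
  haveI : CharP ↥(fixF σ) r := RingHom.charP (fixF σ).subtype (fixF σ).subtype_injective r
  have hm1 : 1 ≤ m := by omega
  let π : Matrix.symplecticGroup (Fin m) ↥(fixF σ) →* Cfsg.PSp m F :=
    prS.comp (spI (fixF σ).subtype)
  have hπ : ∀ s₀, π s₀ = prS (spI (fixF σ).subtype s₀) := fun s₀ => rfl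
  have hπfix : ∀ s₀, (sF σ : MulAut (Cfsg.PSp m F)) (π s₀) = π s₀ := by
    intro s₀
    rw [hπ, sF_prS, spI_fixed σ _ hι]
  have hdefect : ∀ s : Matrix.symplecticGroup (Fin m) F,
      (sF σ : MulAut (Cfsg.PSp m F)) (prS s) = prS s →
      ∃ z ∈ Subgroup.center (Matrix.symplecticGroup (Fin m) F), mapSp σ s = s * z := by
    intro s hs
    rw [sF_prS, prS_mk, prS_mk] at hs
    exact ⟨s⁻¹ * mapSp σ s, QuotientGroup.eq.1 hs.symm, by group⟩
  let N₀ : Subgroup (Matrix.symplecticGroup (Fin m) ↥(fixF σ)) := M.comap π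
  haveI hN₀ : N₀.Normal := ⟨fun n hn g => by
    show π (g * n * g⁻¹) ∈ M
    rw [map_mul, map_mul, map_inv]
    exact hMnorm (π g) (hπfix g) (π n) hn⟩
  rcases Cfsg.Agent.Helper5.sp_normal_le_center_or_commutator_le N₀ with hcase | hcase
  · -- `N₀` central: `M` centralises the transvections over the prime field
    rw [eq_bot_iff]
    intro k hk
    rw [Subgroup.mem_bot]
    obtain ⟨s, rfl⟩ := prS_surjective k
    obtain ⟨z, hz, hsz⟩ := hdefect s (hMfix _ hk)
    obtain ⟨e₀, f₀, hef₀⟩ := exists_hyp_pair (F := F) hm1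
    have he₀ : e₀ ≠ 0 := by
      rintro rfl
      rw [sympForm_zero_left] at hef₀
      exact zero_ne_one hef₀
    have hcomm : ∀ t : Matrix.symplecticGroup (Fin m) F, mapSp σ t = t →
        (∃ j : ℕ, t ^ (r ^ j) = 1) → s * t = t * s := by
      intro t ht htp
      have hu : mapSp σ (s * t * s⁻¹ * t⁻¹) = s * t * s⁻¹ * t⁻¹ := by
        rw [map_mul, map_mul, map_mul, map_inv, map_inv, ht, hsz, central_comm_conj s t z hz]
      obtain ⟨u₀, hu₀⟩ := spI_surj σ _ hι _ hu
      have hu₀M : u₀ ∈ N₀ := by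
        show π u₀ ∈ M
        rw [hπ, hu₀]
        have h1 : prS t * (prS s)⁻¹ * (prS t)⁻¹ ∈ M :=
          hMnorm (prS t) (by rw [sF_prS, ht]) _ (M.inv_mem hk)
        have h2 := M.mul_mem hk h1
        have h3 : prS (s * t * s⁻¹ * t⁻¹) = prS s * (prS t * (prS s)⁻¹ * (prS t)⁻¹) := by
          rw [map_mul, map_mul, map_mul, map_inv, map_inv]
          group
        rw [h3]
        exact h2
      have hc : s * t * s⁻¹ * t⁻¹ ∈ Subgroup.center (Matrix.symplecticGroup (Fin m) F) := by
        rw [← hu₀]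
        exact spI_center _ u₀ (hcase hu₀M)
      have h4 : prS (s * t * s⁻¹) = prS t := by
        have h5 := prS_center _ hc
        rw [map_mul, map_inv] at h5
        exact mul_inv_eq_one.1 h5
      have h6 : s * t * s⁻¹ = t := by
        obtain ⟨j, hj⟩ := htp
        exact sp_lift_unique r e₀ he₀ (s * t * s⁻¹) t
          ⟨j, by rw [conj_pow, hj, mul_one, mul_inv_cancel]⟩ ⟨j, hj⟩
          (by rw [← prS_mk, ← prS_mk]; exact h4)
      calc s * t = s * t * s⁻¹ * s := by group
        _ = t * s := by rw [h6]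
    have htv : ∀ v : Fin m ⊕ Fin m → F, ssv σ v = v → v ≠ 0 → ∃ l : F,
        (s : Matrix (Fin m ⊕ Fin m) (Fin m ⊕ Fin m) F) *ᵥ v = l • v := by
      intro v hv hv0
      have h1 : s * spTv m v 1 = spTv m v 1 * s :=
        hcomm _ (by rw [mapSp_tv, hv, map_one])
          (sroot_pelem r v _ ((mem_sroot _ _).2 ⟨1, rfl⟩))
      have h3 := Cfsg.Agent.Helper5.spTv_conj s v 1
      rw [h1, mul_inv_cancel_right] at h3
      obtain ⟨l, -, hl⟩ := spTv_eq_point
        ((s : Matrix (Fin m ⊕ Fin m) (Fin m ⊕ Fin m) F) *ᵥ v) v 1 1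
        (sact_ne_zero s v hv0) one_ne_zero h3.symm
      exact ⟨l, hl⟩
    obtain ⟨l, hl⟩ := mat_scalar_of_lines hm1
      (s : Matrix (Fin m ⊕ Fin m) (Fin m ⊕ Fin m) F)
      (fun a => htv _ (ssv_single σ a) (psingle_ne_zero a))
      (fun a b hab => htv _ (by rw [ssv_add, ssv_single, ssv_single]) (ppair_ne_zero a b hab))
    have hl' : ∀ x, sact s x = l • x := hl
    have hl2 : l * l = 1 := by
      have h1 := sact_form s e₀ f₀
      rw [hl' e₀, hl' f₀, sympForm_smul_left, sympForm_smul_right, hef₀] at h1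
      linear_combination h1
    exact prS_center s (sp_scalar_center s l hl2 hl')
  · -- `N₀` contains the commutator subgroup: an element of order `p` lies in `M`
    exfalso
    have hpow : ∀ c₀ : Matrix.symplecticGroup (Fin m) ↥(fixF σ), c₀ ^ r ∈ N₀ := by
      intro c₀
      have hcm : ∀ a b : Matrix.symplecticGroup (Fin m) ↥(fixF σ),
          Commute (QuotientGroup.mk' N₀ a) (QuotientGroup.mk' N₀ b) := by
        intro a b
        show QuotientGroup.mk' N₀ a * QuotientGroup.mk' N₀ b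
          = QuotientGroup.mk' N₀ b * QuotientGroup.mk' N₀ a
        rw [← map_mul, ← map_mul]
        show ((a * b : Matrix.symplecticGroup (Fin m) ↥(fixF σ)) :
            Matrix.symplecticGroup (Fin m) ↥(fixF σ) ⧸ N₀) = ((b * a :
            Matrix.symplecticGroup (Fin m) ↥(fixF σ)) : _ ⧸ N₀)
        apply QuotientGroup.eq.2
        apply hcase
        have h1 : (a * b)⁻¹ * (b * a) = ⁅b⁻¹, a⁻¹⁆ := by
          rw [commutatorElement_def]
          group
        rw [h1]
        exact Subgroup.commutator_mem_commutator (Subgroup.mem_top _) (Subgroup.mem_top _)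
      have hall : ∀ g ∈ Subgroup.closure {g : Matrix.symplecticGroup (Fin m) ↥(fixF σ) |
          ∃ (u : Fin m ⊕ Fin m → ↥(fixF σ)) (c : ↥(fixF σ)), g = spTv m u c},
          (QuotientGroup.mk' N₀ g) ^ r = 1 := by
        intro g hg
        induction hg using Subgroup.closure_induction with
        | mem x hx =>
          obtain ⟨u, c, rfl⟩ := hx
          rw [← map_pow, ← ssg_zero, ssg_pow_char r, map_one]
        | one => rw [map_one, one_pow]
        | mul x y _ _ hx hy => rw [map_mul, (hcm x y).mul_pow, hx, hy, one_mul]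
        | inv x _ hx => rw [map_inv, inv_pow, hx, inv_one]
      have h2 := hall c₀ (by
        have h3 := Cfsg.Agent.Helper5.spT_eq_top (m := m) (F := ↥(fixF σ))
        rw [Cfsg.Agent.Helper5.spT] at h3
        rw [h3]
        exact Subgroup.mem_top _)
      rw [← map_pow] at h2
      exact (QuotientGroup.eq_one_iff _).1 h2
    have hex : ∃ c₀ : Matrix.symplecticGroup (Fin m) ↥(fixF σ), orderOf (π c₀) = p := by
      by_cases hp2 : p = 2
      · refine ⟨⟨Matrix.J (Fin m) ↥(fixF σ), SymplecticGroup.J_mem (Fin m) ↥(fixF σ)⟩, ?_⟩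
        rw [hp2]
        apply orderOf_eq_prime
        · rw [← map_pow, hπ]
          apply prS_center
          apply spI_center
          rw [Cfsg.Agent.Helper5.sp_mem_center_iff]
          right
          rw [pow_two]
          exact Matrix.J_squared (Fin m) ↥(fixF σ)
        · intro h1
          rw [hπ] at h1
          have h2 : spI (fixF σ).subtype (⟨Matrix.J (Fin m) ↥(fixF σ),
              SymplecticGroup.J_mem (Fin m) ↥(fixF σ)⟩ : Matrix.symplecticGroup (Fin m) ↥(fixF σ))
              ∈ Subgroup.center (Matrix.symplecticGroup (Fin m) F) := by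
            rw [prS_mk] at h1
            exact (QuotientGroup.eq_one_iff _).1 h1
          rw [Cfsg.Agent.Helper5.sp_mem_center_iff, spI_coe] at h2
          have h3 : ((Matrix.J (Fin m) ↥(fixF σ)).map (fixF σ).subtype)
              (Sum.inl ⟨0, hm1⟩) (Sum.inl ⟨0, hm1⟩) = 0 := by
            simp [Matrix.J, Matrix.map_apply]
          rcases h2 with h2 | h2
          · rw [h2, Matrix.one_apply_eq] at h3
            exact one_ne_zero h3
          · rw [h2, Matrix.neg_apply, Matrix.one_apply_eq] at h3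
            exact one_ne_zero (neg_eq_zero.1 h3)
      · obtain ⟨c, hc, hcp⟩ := hp
        obtain ⟨s, rfl⟩ := prS_surjective c
        obtain ⟨z, hz, hsz⟩ := hdefect s hc
        have hzz : z * z = 1 := by
          rw [Cfsg.Agent.Helper5.sp_mem_center_iff] at hz
          apply Subtype.ext
          show (z : Matrix (Fin m ⊕ Fin m) (Fin m ⊕ Fin m) F)
            * (z : Matrix (Fin m ⊕ Fin m) (Fin m ⊕ Fin m) F) = 1
          rcases hz with h | h <;> rw [h] <;> simp
        have hfix2 : mapSp σ (s * s) = s * s := by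
          rw [map_mul, hsz]
          have h1 : z * s = s * z := ((Subgroup.mem_center_iff.1 hz) s).symm
          calc s * z * (s * z) = s * (z * s) * z := by group
            _ = s * (s * z) * z := by rw [h1]
            _ = s * s * (z * z) := by group
            _ = s * s := by rw [hzz, mul_one]
        obtain ⟨c₀, hc₀⟩ := spI_surj σ _ hι _ hfix2
        refine ⟨c₀, ?_⟩
        rw [hπ, hc₀, map_mul, ← pow_two]
        have hcop : (orderOf (prS s)).Coprime 2 := by
          rw [hcp]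
          exact (Nat.coprime_primes Fact.out Nat.prime_two).2 hp2
        rw [hcop.orderOf_pow, hcp]
    obtain ⟨c₀, hc₀⟩ := hex
    have h1 : (π c₀) ^ r ∈ M := by
      have h3 : π (c₀ ^ r) ∈ M := hpow c₀
      rw [map_pow] at h3
      exact h3
    have hcop : (orderOf (π c₀)).Coprime r := by
      rw [hc₀]
      exact (Nat.coprime_primes Fact.out Fact.out).2 hpr
    have h2 : orderOf ((π c₀) ^ r) = p := by rw [hcop.orderOf_pow, hc₀]
    have h3 : p ∣ Nat.card M := by
      have h4 : orderOf (⟨(π c₀) ^ r, h1⟩ : M) ∣ Nat.card M := orderOf_dvd_natCard _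
      rw [Subgroup.orderOf_mk, h2] at h4
      exact h4
    exact (Nat.Prime.coprime_iff_not_dvd Fact.out).1 hMcop.symm h3

/-! ### automorphisms fixing the fixed points -/

/-- a semilinear automorphism fixing the transvections over the fixed field of `σ` is a field
automorphism fixing that field -/
theorem semi_fix_sub (r : ℕ) [Fact r.Prime] [CharP F r] (hm : 1 ≤ m) (g : ↥(Cfsg.GSp m F))
    (τ σ : RingAut F)
    (hfix : ∀ (v : Fin m ⊕ Fin m → F) (c : F), ssv σ v = v → σ c = c →
      (sD g * sF τ : MulAut (Cfsg.PSp m F)) (prS (spTv m v c)) = prS (spTv m v c)) :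
    (sD g : MulAut (Cfsg.PSp m F)) = 1 ∧ ∀ c : F, σ c = c → τ c = c := by
  have hν := multGSp_spec hm g
  have hν0 : (multGSp hm g : F) ≠ 0 := (multGSp hm g).ne_zero
  have himg : ∀ (v : Fin m ⊕ Fin m → F) (c : F), ssv σ v = v → σ c = c →
      spTv m (semiV (g : GL (Fin m ⊕ Fin m) F) τ v) ((multGSp hm g : F)⁻¹ * τ c)
        = spTv m v c := by
    intro v c hv hc
    have h1 := hfix v c hv hc
    rw [MulAut.mul_apply, sF_prS, sD_prS, semi_tv g _ hν0 hν] at h1
    by_cases hv0 : v = 0
    · subst hv0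
      rw [semiV_zero, Cfsg.Agent.Helper5.spTv_zero_left, Cfsg.Agent.Helper5.spTv_zero_left]
    · exact sp_lift_unique r v hv0 _ _ (sroot_pelem r _ _ ((mem_sroot _ _).2 ⟨_, rfl⟩))
        (sroot_pelem r _ _ ((mem_sroot _ _).2 ⟨_, rfl⟩))
        (by rw [← prS_mk, ← prS_mk]; exact h1)
  have hline : ∀ v : Fin m ⊕ Fin m → F, ssv σ v = v → ssv τ v = v → v ≠ 0 →
      ∃ l : F, ((g : GL (Fin m ⊕ Fin m) F) : Matrix (Fin m ⊕ Fin m) (Fin m ⊕ Fin m) F) *ᵥ v
        = l • v := by
    intro v hv hvτ hv0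
    have h1 := himg v 1 hv (map_one σ)
    have h2 : semiV (g : GL (Fin m ⊕ Fin m) F) τ v
        = ((g : GL (Fin m ⊕ Fin m) F) : Matrix (Fin m ⊕ Fin m) (Fin m ⊕ Fin m) F) *ᵥ v := by
      unfold semiV
      rw [hvτ]
    rw [h2] at h1
    have hgv : ((g : GL (Fin m ⊕ Fin m) F) : Matrix (Fin m ⊕ Fin m) (Fin m ⊕ Fin m) F) *ᵥ v
        ≠ 0 := gl_mulVec_ne_zero _ v hv0
    have hc0 : (multGSp hm g : F)⁻¹ * τ 1 ≠ 0 := by
      rw [map_one, mul_one]
      exact inv_ne_zero hν0
    obtain ⟨l, -, hl⟩ := spTv_eq_point _ v _ 1 hgv hc0 h1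
    exact ⟨l, hl⟩
  obtain ⟨l, hl⟩ := mat_scalar_of_lines hm
    ((g : GL (Fin m ⊕ Fin m) F) : Matrix (Fin m ⊕ Fin m) (Fin m ⊕ Fin m) F)
    (fun a => hline _ (ssv_single σ a) (ssv_single τ a) (psingle_ne_zero a))
    (fun a b hab => hline _ (by rw [ssv_add, ssv_single, ssv_single])
      (by rw [ssv_add, ssv_single, ssv_single]) (ppair_ne_zero a b hab))
  have hl0 : l ≠ 0 := by
    rintro rfl
    have h1 := hl (Pi.single (Sum.inl ⟨0, hm⟩) 1)
    rw [zero_smul] at h1
    exact gl_mulVec_ne_zero _ _ (psingle_ne_zero _) h1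
  have hg : g = scalarGSp (Units.mk0 l hl0) :=
    eq_scalarGSp g _ (by intro x; rw [Units.val_mk0]; exact hl x)
  have hD : (sD g : MulAut (Cfsg.PSp m F)) = 1 := by rw [hg, sD_scalarGSp]
  refine ⟨hD, fun c hc => ?_⟩
  have h1 := hfix (Pi.single (Sum.inl ⟨0, hm⟩) 1) c (ssv_single σ _) hc
  rw [hD, one_mul, sF_prS, mapSp_tv, ssv_single] at h1
  have h2 : spTv m (Pi.single (Sum.inl ⟨0, hm⟩) 1 : Fin m ⊕ Fin m → F) (τ c)
      = spTv m (Pi.single (Sum.inl ⟨0, hm⟩) 1) c :=
    sp_lift_unique r _ (psingle_ne_zero (Sum.inl ⟨0, hm⟩)) _ _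
      (sroot_pelem r _ _ ((mem_sroot _ _).2 ⟨_, rfl⟩))
      (sroot_pelem r _ _ ((mem_sroot _ _).2 ⟨_, rfl⟩)) (by rw [← prS_mk, ← prS_mk]; exact h1)
  by_contra hne
  have h3 : spTv m (Pi.single (Sum.inl ⟨0, hm⟩) 1 : Fin m ⊕ Fin m → F) (τ c - c) = 1 := by
    rw [sub_eq_add_neg, ← Cfsg.Agent.Helper5.spTv_mul, h2, Cfsg.Agent.Helper5.spTv_mul,
      add_neg_cancel, spTv_zero_right]
  exact tv_ne_one _ (psingle_ne_zero (Sum.inl ⟨0, hm⟩)) _ (sub_ne_zero.2 hne) h3

end Cfsg.Agent.Helper44.PSpn
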