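import Mathlib
import Cfsg.Agent.Helper44.SpQ
import Cfsg.Agent.Helper43.OrthStd
import Cfsg.Agent.Helper45.CenterForms

/-!
# Field automorphisms of `PΩ_{2m+1}(q)` (helper44), part A: Hilbert 90 for the conformal
orthogonal group in odd dimension

If `g` is a similarity of `x₀² + Σ xᵢ yᵢ` over a finite field `F` of odd characteristic and the
`σ`-twisted norm `g σ(g) ⋯ σ^{r-1}(g)` is `1` (`r` the order of `σ`), then `g = k σ(k)⁻¹` for a
similarity `k`.
-/

set_option autoImplicit false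
set_option linter.unusedSimpArgs false
set_option linter.unusedSectionVars false
set_option linter.unusedVariables false

namespace Cfsg.Agent.Helper44.POm

open Matrix

universe u

section gen

variable {F : Type u} [Field F] {ι : Type} [Fintype ι] [DecidableEq ι]

/-- applying a field automorphism to a vector -/
def fvec (σ : RingAut F) (x : ι → F) : ι → F := fun i => σ (x i)

theorem fvec_apply (σ : RingAut F) (x : ι → F) (i : ι) : fvec σ x i = σ (x i) := rfl

theorem fvec_inv (σ : RingAut F) (x : ι → F) : fvec σ (fvec σ⁻¹ x) = x := by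
  funext i
  show σ (σ⁻¹ (x i)) = x i
  exact RingEquiv.apply_symm_apply σ (x i)

theorem fvec_mulVec (σ : RingAut F) (M : Matrix ι ι F) (x : ι → F) :
    fvec σ (M *ᵥ x) = M.map σ *ᵥ fvec σ x := by
  funext i
  show σ ((M *ᵥ x) i) = _
  simp only [Matrix.mulVec, dotProduct, map_sum, map_mul, Matrix.map_apply, fvec]

/-- Hilbert 90 for matrices over an arbitrary finite index type -/
theorem h90_matrix (σ : RingAut F) (r : ℕ) (hr : orderOf σ = r) (hr0 : 0 < r)
    (G : Matrix ι ι F) (hG : PSLn.twR (RingHom.mapMatrix (σ : F →+* F)) G r = 1) :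
    ∃ b : Matrix ι ι F, IsUnit b ∧ G * b.map σ = b := by
  let e : ι ≃ Fin (Fintype.card ι) := Fintype.equivFin ι
  have htw : ∀ k, PSLn.twR (RingHom.mapMatrix (σ : F →+* F)) (G.submatrix e.symm e.symm) k
      = (PSLn.twR (RingHom.mapMatrix (σ : F →+* F)) G k).submatrix e.symm e.symm := by
    intro k
    induction k with
    | zero => rw [PSLn.twR_zero, PSLn.twR_zero, Matrix.submatrix_one_equiv]
    | succ k ih =>
      rw [PSLn.twR_succ, PSLn.twR_succ, ih, RingHom.mapMatrix_apply, RingHom.mapMatrix_apply,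
        ← Matrix.submatrix_map, Matrix.submatrix_mul_equiv]
  obtain ⟨b', hb'U, hb'⟩ := PSLn.lang_h90_matrix σ r hr hr0 (G.submatrix e.symm e.symm)
    (by rw [htw, hG, Matrix.submatrix_one_equiv])
  refine ⟨b'.submatrix e e, ?_, ?_⟩
  · rw [Matrix.isUnit_iff_isUnit_det] at hb'U ⊢
    rwa [Matrix.det_submatrix_equiv_self]
  · have h1 : G = (G.submatrix e.symm e.symm).submatrix e e := by
      rw [Matrix.submatrix_submatrix]
      simp
    have h2 : (G.submatrix e.symm e.symm).submatrix e e * (b'.submatrix e e).map σ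
        = b'.submatrix e e := by
      rw [← Matrix.submatrix_map, Matrix.submatrix_mul_equiv, hb']
    rw [← h1] at h2
    exact h2

end gen

/-! ### the odd-dimensional form -/

section odd

variable {F : Type u} [Field F] {m : ℕ}

/-- the index type of the odd-dimensional form -/
abbrev OI (m : ℕ) : Type := Unit ⊕ (Fin m ⊕ Fin m)

theorem qodd_fvec (σ : RingAut F) (v : OI m → F) :
    Cfsg.quadFormOdd m F (fvec σ v) = σ (Cfsg.quadFormOdd m F v) := by
  unfold Cfsg.quadFormOdd fvec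
  simp only [map_add, map_sum, map_mul, map_pow]

theorem qodd_single : Cfsg.quadFormOdd m F (Pi.single (Sum.inl ()) 1) = 1 := by
  unfold Cfsg.quadFormOdd
  simp

/-- the multiplier of the twisted powers of a similarity -/
theorem sim_twR (σ : RingAut F) (g : Matrix (OI m) (OI m) F) (c : F)
    (hc : ∀ v, Cfsg.quadFormOdd m F (g *ᵥ v) = c * Cfsg.quadFormOdd m F v) (k : ℕ)
    (v : OI m → F) :
    Cfsg.quadFormOdd m F (PSLn.twR (RingHom.mapMatrix (σ : F →+* F)) g k *ᵥ v)
      = PSLn.twR (σ : F →+* F) c k * Cfsg.quadFormOdd m F v := by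
  induction k generalizing v with
  | zero => rw [PSLn.twR_zero, PSLn.twR_zero, Matrix.one_mulVec, one_mul]
  | succ k ih =>
    rw [PSLn.twR_succ, PSLn.twR_succ, ← Matrix.mulVec_mulVec, hc, RingHom.mapMatrix_apply]
    have h1 : (PSLn.twR (RingHom.mapMatrix (σ : F →+* F)) g k).map (σ : F →+* F) *ᵥ v
        = fvec σ (PSLn.twR (RingHom.mapMatrix (σ : F →+* F)) g k *ᵥ fvec σ⁻¹ v) := by
      rw [fvec_mulVec, fvec_inv]
      rfl
    rw [h1, qodd_fvec, ih, map_mul, ← qodd_fvec, fvec_inv, mul_assoc]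
    rfl

/-- a rational structure on the odd-dimensional quadratic space is similar to the standard
one -/
theorem rat_odd [Finite F] (h2 : (2 : F) ≠ 0) (K₀ : Subfield F) (b : Matrix (OI m) (OI m) F)
    (hbU : IsUnit b) (lam : F) (hlam : lam ≠ 0)
    (hrat : ∀ v : OI m → K₀, lam * Cfsg.quadFormOdd m F (b *ᵥ fun i => (v i : F)) ∈ K₀) :
    ∃ (A : Matrix (OI m) (OI m) K₀) (d : K₀), IsUnit A ∧ d ≠ 0 ∧
      ∀ x : OI m → F, Cfsg.quadFormOdd m F ((b * A.map K₀.subtype) *ᵥ x)
        = lam⁻¹ * d * Cfsg.quadFormOdd m F x := by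
  classical
  let toF : (OI m → K₀) → (OI m → F) := fun v i => (v i : F)
  have toF_add : ∀ x y : OI m → K₀, toF (x + y) = toF x + toF y := fun x y => rfl
  have toF_smul : ∀ (a : K₀) (x : OI m → K₀), toF (a • x) = (a : F) • toF x := fun a x => rfl
  let f : (OI m → K₀) → K₀ := fun v =>
    ⟨lam * Cfsg.Agent.Helper43.oddQF m F (b *ᵥ toF v), hrat v⟩
  have hf : ∀ v, ((f v : K₀) : F) = lam * Cfsg.Agent.Helper43.oddQF m F (b *ᵥ toF v) :=
    fun v => rfl
  have hpol : ∀ x y : OI m → K₀, ((QuadraticMap.polar f x y : K₀) : F)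
      = lam * QuadraticMap.polar (Cfsg.Agent.Helper43.oddQF m F) (b *ᵥ toF x) (b *ᵥ toF y) := by
    intro x y
    unfold QuadraticMap.polar
    rw [Subfield.coe_sub, Subfield.coe_sub, hf, hf, hf, toF_add, Matrix.mulVec_add]
    ring
  let P₀ : QuadraticForm K₀ (OI m → K₀) := QuadraticMap.ofPolar f
    (by
      intro a x
      apply Subtype.ext
      rw [smul_eq_mul, Subfield.coe_mul, Subfield.coe_mul, hf, hf, toF_smul, Matrix.mulVec_smul,
        QuadraticMap.map_smul, smul_eq_mul]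
      ring)
    (by
      intro x x' y
      apply Subtype.ext
      rw [Subfield.coe_add, hpol, hpol, hpol, toF_add, Matrix.mulVec_add,
        QuadraticMap.polar_add_left, mul_add])
    (by
      intro a x y
      apply Subtype.ext
      rw [smul_eq_mul, Subfield.coe_mul, hpol, hpol, toF_smul, Matrix.mulVec_smul,
        QuadraticMap.polar_smul_left, smul_eq_mul]
      ring)
  have hP₀ : ∀ v, P₀ v = f v := fun v => rfl
  obtain ⟨bi, hbi1, hbi2⟩ : ∃ bi : Matrix (OI m) (OI m) F, bi * b = 1 ∧ b * bi = 1 := by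
    obtain ⟨u, hu⟩ := hbU
    exact ⟨((u⁻¹ : (Matrix (OI m) (OI m) F)ˣ) : Matrix (OI m) (OI m) F),
      by rw [← hu, Units.inv_mul], by rw [← hu, Units.mul_inv]⟩
  have hV : Module.finrank K₀ (OI m → K₀) = 2 * m + 1 := by
    rw [Module.finrank_fintype_fun_eq_card, Fintype.card_sum, Fintype.card_sum, Fintype.card_fin,
      Fintype.card_unit]
    ring
  have toF_single : ∀ j : OI m, toF (Pi.single j 1) = Pi.single j 1 := by
    intro j
    funext i
    show (((Pi.single j 1 : OI m → K₀) i : K₀) : F) = _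
    by_cases hij : i = j
    · subst hij
      rw [Pi.single_eq_same, Pi.single_eq_same]
      rfl
    · rw [Pi.single_eq_of_ne hij, Pi.single_eq_of_ne hij]
      rfl
  have hnd : Cfsg.Agent.Helper43.PolarNondeg P₀ := by
    intro v hv
    have h1 : ∀ w : OI m → K₀, QuadraticMap.polar (Cfsg.Agent.Helper43.oddQF m F)
        (b *ᵥ toF v) (b *ᵥ toF w) = 0 := by
      intro w
      have h3 : ((QuadraticMap.polar f v w : K₀) : F) = 0 := by
        have h4 : QuadraticMap.polar f v w = 0 := hv w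
        rw [h4]
        rfl
      rw [hpol] at h3
      rcases mul_eq_zero.1 h3 with h5 | h5
      · exact absurd h5 hlam
      · exact h5
    have hz2 : (QuadraticMap.polarBilin (Cfsg.Agent.Helper43.oddQF m F) (b *ᵥ toF v)) ∘ₗ
        (Matrix.mulVecLin b) = 0 := by
      apply (Pi.basisFun F (OI m)).ext
      intro j
      rw [Pi.basisFun_apply, LinearMap.comp_apply, Matrix.mulVecLin_apply, ← toF_single]
      exact h1 (Pi.single j 1)
    have h3 : b *ᵥ toF v = 0 := by
      apply Cfsg.Agent.Helper43.polarNondeg_of_nondegenerate _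
        (Cfsg.Agent.Helper45.oddQF_nondeg' m h2)
      intro z
      have h4 := LinearMap.congr_fun hz2 (bi *ᵥ z)
      rw [LinearMap.comp_apply, Matrix.mulVecLin_apply, Matrix.mulVec_mulVec, hbi2,
        Matrix.one_mulVec] at h4
      exact h4
    have h4 : toF v = 0 := by
      have h5 := congrArg (fun y => bi *ᵥ y) h3
      simp only [Matrix.mulVec_mulVec, hbi1, Matrix.one_mulVec, Matrix.mulVec_zero] at h5
      exact h5
    funext i
    apply Subtype.ext
    exact congrFun h4 i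
  obtain ⟨bs, d, hd0, hbs⟩ := Cfsg.Agent.Helper43.OrthStd.exists_basis_odd hV P₀ hnd
  let A₀ : Matrix (OI m) (OI m) K₀ := (Pi.basisFun K₀ (OI m)).toMatrix bs
  have hA₀ : ∀ x : OI m → K₀, A₀ *ᵥ x = bs.equivFun.symm x := by
    intro x
    funext i
    rw [Module.Basis.equivFun_symm_apply, Finset.sum_apply]
    show ∑ j, A₀ i j * x j = _
    apply Finset.sum_congr rfl
    intro j _
    rw [Pi.smul_apply, smul_eq_mul, mul_comm]
    rfl
  have hA₀U : IsUnit A₀ := by
    haveI : Invertible A₀ := Module.Basis.invertibleToMatrix (Pi.basisFun K₀ (OI m)) bs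
    exact isUnit_of_invertible A₀
  have hmap : ∀ x₀ : OI m → K₀, toF (A₀ *ᵥ x₀) = A₀.map K₀.subtype *ᵥ toF x₀ := by
    intro x₀
    funext i
    exact RingHom.map_mulVec K₀.subtype A₀ x₀ i
  have hq : ∀ x₀ : OI m → K₀, ((Cfsg.quadFormOdd m K₀ x₀ : K₀) : F)
      = Cfsg.quadFormOdd m F (toF x₀) := by
    intro x₀
    show K₀.subtype (Cfsg.quadFormOdd m K₀ x₀) = _
    unfold Cfsg.quadFormOdd
    simp only [map_add, map_sum, map_mul, map_pow]
    rfl
  have hkey : ∀ x₀ : OI m → K₀, Cfsg.quadFormOdd m F ((b * A₀.map K₀.subtype) *ᵥ toF x₀)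
      = lam⁻¹ * d * Cfsg.quadFormOdd m F (toF x₀) := by
    intro x₀
    have h1 := hbs (A₀ *ᵥ x₀)
    rw [hA₀ x₀, LinearEquiv.apply_symm_apply, ← hA₀ x₀, hP₀] at h1
    have h3 : ((f (A₀ *ᵥ x₀) : K₀) : F) = (d : F) * Cfsg.quadFormOdd m F (toF x₀) := by
      rw [h1, Subfield.coe_mul, hq]
    rw [hf, hmap, Matrix.mulVec_mulVec] at h3
    have h4 : Cfsg.Agent.Helper43.oddQF m F ((b * A₀.map K₀.subtype) *ᵥ toF x₀)
        = Cfsg.quadFormOdd m F ((b * A₀.map K₀.subtype) *ᵥ toF x₀) := rfl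
    rw [h4] at h3
    rw [mul_assoc, ← h3, ← mul_assoc, inv_mul_cancel₀ hlam, one_mul]
  refine ⟨A₀, d, hA₀U, hd0, ?_⟩
  intro x
  have hext := Cfsg.Agent.Helper43.OrthStd.quad_ext
    ((Cfsg.Agent.Helper43.oddQF m F).comp (Matrix.mulVecLin (b * A₀.map K₀.subtype)))
    ((lam⁻¹ * (d : F)) • Cfsg.Agent.Helper43.oddQF m F) (Pi.basisFun F (OI m))
    (by
      intro i
      rw [Pi.basisFun_apply, ← toF_single]
      exact hkey (Pi.single i 1))
    (by
      intro i j _
      rw [Pi.basisFun_apply, Pi.basisFun_apply, ← toF_single, ← toF_single]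
      unfold QuadraticMap.polar
      rw [← toF_add]
      show Cfsg.quadFormOdd m F ((b * A₀.map K₀.subtype) *ᵥ toF (Pi.single i 1 + Pi.single j 1))
          - Cfsg.quadFormOdd m F ((b * A₀.map K₀.subtype) *ᵥ toF (Pi.single i 1))
          - Cfsg.quadFormOdd m F ((b * A₀.map K₀.subtype) *ᵥ toF (Pi.single j 1))
        = lam⁻¹ * (d : F) * Cfsg.quadFormOdd m F (toF (Pi.single i 1 + Pi.single j 1))
          - lam⁻¹ * (d : F) * Cfsg.quadFormOdd m F (toF (Pi.single i 1))
          - lam⁻¹ * (d : F) * Cfsg.quadFormOdd m F (toF (Pi.single j 1))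
      rw [hkey, hkey, hkey]) x
  exact hext

/-- **Hilbert 90 for the conformal orthogonal group in odd dimension** -/
theorem oh90_odd [Finite F] (h2 : (2 : F) ≠ 0) (σ : RingAut F) (r : ℕ) (hr : orderOf σ = r)
    (hr0 : 0 < r) (g : GL (OI m) F)
    (hg : g ∈ Cfsg.Geo.quadSimilarityGroup (F := F) (Cfsg.quadFormOdd m F))
    (hN : PSLn.twR (RingHom.mapMatrix (σ : F →+* F)) (g : Matrix (OI m) (OI m) F) r = 1) :
    ∃ k : GL (OI m) F, k ∈ Cfsg.Geo.quadSimilarityGroup (F := F) (Cfsg.quadFormOdd m F) ∧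
      (g : Matrix (OI m) (OI m) F) * (k : Matrix (OI m) (OI m) F).map σ
        = (k : Matrix (OI m) (OI m) F) := by
  classical
  obtain ⟨c, hc⟩ := hg
  have hc0 : (c : F) ≠ 0 := c.ne_zero
  have hcN : PSLn.twR (σ : F →+* F) (c : F) r = 1 := by
    have h1 := sim_twR σ _ (c : F) hc r (Pi.single (Sum.inl ()) 1)
    rw [hN, Matrix.one_mulVec, qodd_single, mul_one] at h1
    exact h1.symm
  obtain ⟨β, hβ0, hβ⟩ := PSLn.lang_h90_scalar σ r hr hr0 (c : F) hcN
  obtain ⟨b, hbU, hb⟩ := h90_matrix σ r hr hr0 _ hN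
  have hrat : ∀ v : OI m → PSpn.fixF σ,
      β⁻¹ * Cfsg.quadFormOdd m F (b *ᵥ fun i => (v i : F)) ∈ PSpn.fixF σ := by
    intro v
    have hv : fvec σ (fun i => (v i : F)) = fun i => (v i : F) := by
      funext i
      exact (v i).2
    have h1 : Cfsg.quadFormOdd m F (b *ᵥ fun i => (v i : F))
        = (c : F) * σ (Cfsg.quadFormOdd m F (b *ᵥ fun i => (v i : F))) := by
      conv_lhs => rw [← hb, ← Matrix.mulVec_mulVec, hc, ← hv, ← fvec_mulVec, qodd_fvec]
    have hσβ : σ β = β * (c : F)⁻¹ := by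
      rw [eq_mul_inv_iff_mul_eq₀ hc0, mul_comm]
      exact hβ
    show σ (β⁻¹ * Cfsg.quadFormOdd m F (b *ᵥ fun i => (v i : F)))
      = β⁻¹ * Cfsg.quadFormOdd m F (b *ᵥ fun i => (v i : F))
    rw [map_mul, map_inv₀, hσβ]
    conv_rhs => rw [h1]
    field_simp
  obtain ⟨A, d, hAU, hd0, hA⟩ := rat_odd h2 (PSpn.fixF σ) b hbU β⁻¹ (inv_ne_zero hβ0) hrat
  have hAσ : (A.map (PSpn.fixF σ).subtype).map σ = A.map (PSpn.fixF σ).subtype := by
    ext i j
    exact (A i j).2
  have hkU : IsUnit (b * A.map (PSpn.fixF σ).subtype) := by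
    apply IsUnit.mul hbU
    rw [Matrix.isUnit_iff_isUnit_det] at hAU ⊢
    have h1 : (A.map (PSpn.fixF σ).subtype).det = (PSpn.fixF σ).subtype A.det :=
      (RingHom.map_det (PSpn.fixF σ).subtype A).symm
    rw [h1]
    exact hAU.map (PSpn.fixF σ).subtype
  obtain ⟨k, hk⟩ := hkU
  have hd0' : ((d : PSpn.fixF σ) : F) ≠ 0 := by
    intro h
    exact hd0 (Subtype.ext h)
  refine ⟨k, ⟨Units.mk0 (β⁻¹⁻¹ * (d : F)) (mul_ne_zero (inv_ne_zero (inv_ne_zero hβ0)) hd0'),
    fun v => ?_⟩, ?_⟩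
  · rw [hk, Units.val_mk0]
    exact hA v
  · rw [hk, Matrix.map_mul, hAσ, ← Matrix.mul_assoc, hb]

end odd

end Cfsg.Agent.Helper44.POm
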