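import Mathlib
import Cfsg.Agent.Helper44.OmA
import Cfsg.Agent.Helper45.OmegaSimple
import Cfsg.Agent.Helper45.OutC
import Cfsg.Prelude.Def_KGroupFacts

/-!
# Automorphisms of `PΩ_{2m+1}(q)` (helper44), part B: generalities, the order of `Aut`
-/

set_option autoImplicit false
set_option linter.unusedSimpArgs false
set_option linter.unusedSectionVars false
set_option linter.unusedVariables false

namespace Cfsg.Agent.Helper44.POm

open Matrix

universe u

section generic

variable {G : Type*} [Group G]

/-- a perfect group has a perfect quotient -/
theorem commutator_quotient_top (N : Subgroup G) [N.Normal] (h : commutator G = ⊤) :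
    commutator (G ⧸ N) = ⊤ := by
  rw [commutator_def] at h ⊢
  have h1 : (⊤ : Subgroup (G ⧸ N)) = (⊤ : Subgroup G).map (QuotientGroup.mk' N) :=
    (Subgroup.map_top_of_surjective _ (QuotientGroup.mk'_surjective N)).symm
  rw [h1, ← Subgroup.map_commutator, h]

/-- a perfect simple group has trivial centre -/
theorem conj_injective_of_simple [IsSimpleGroup G] (h : commutator G = ⊤) :
    Function.Injective (MulAut.conj : G →* MulAut G) := by
  rw [injective_iff_map_eq_one]
  intro g hg
  have hc : g ∈ Subgroup.center G := by
    rw [Subgroup.mem_center_iff]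
    intro x
    have h1 := congrArg (fun φ : MulAut G => φ x) hg
    simp only [MulAut.conj_apply, MulAut.one_apply] at h1
    calc x * g = g * x * g⁻¹ * g := by rw [h1]
      _ = g * x := by group
  rcases (inferInstance : (Subgroup.center G).Normal).eq_bot_or_eq_top with h1 | h1
  · rw [h1, Subgroup.mem_bot] at hc
    exact hc
  · exfalso
    have h2 := (commutator_eq_bot_iff_center_eq_top (G := G)).mpr h1
    rw [h] at h2
    exact top_ne_bot h2

/-- the order of the automorphism group of a centreless group from the order of `Out` -/
theorem card_aut_of_card_out [Finite G] (hinj : Function.Injective (MulAut.conj : G →* MulAut G))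
    (n : ℕ) (h : Nat.card (Cfsg.Out G) = n) : Nat.card (MulAut G) = n * Nat.card G := by
  have h1 := Subgroup.card_mul_index (Cfsg.Inn G)
  have h2 : Nat.card ↥(Cfsg.Inn G) = Nat.card G :=
    (Nat.card_congr (MonoidHom.ofInjective hinj).toEquiv).symm
  have h3 : (Cfsg.Inn G).index = Nat.card (Cfsg.Out G) := rfl
  rw [h2, h3, h] at h1
  rw [← h1, mul_comm]

end generic

end Cfsg.Agent.Helper44.POm
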