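import Mathlib
import Cfsg.Agent.Helper44.OmA
import Cfsg.Agent.Helper44.OmB
import Cfsg.Agent.Helper44.LangE
import Cfsg.Agent.Helper44.PSL2E
import Cfsg.Agent.Helper45.OutD
import Cfsg.Agent.Helper45.CenterForms
import Cfsg.Agent.Helper45.TSing

/-!
# Field automorphisms of `PΩ_{2m+1}(q)` (helper44), part C: the standard field automorphisms,
`Inndiag` as the kernel of the field-automorphism homomorphism, Lang–Steinberg and the coset
statement
-/

set_option autoImplicit false
set_option linter.unusedSimpArgs false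
set_option linter.unusedSectionVars false
set_option linter.unusedVariables false

namespace Cfsg.Agent.Helper44.POm

open Matrix Cfsg
open Cfsg.Agent.Helper45.OO (semiAut semiMap glMap)

universe u

section gen

variable {F : Type u} [Field F] {ι : Type} [Fintype ι] [DecidableEq ι]

theorem gmat_map_smul (σ : RingAut F) (c : F) (G : Matrix ι ι F) :
    (c • G).map σ = σ c • G.map σ := by
  ext i j
  simp

theorem gmat_map_one (σ : RingAut F) : (1 : Matrix ι ι F).map σ = 1 := by
  ext i j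
  rw [Matrix.map_apply, Matrix.one_apply]
  by_cases hij : i = j
  · rw [if_pos hij, map_one]
  · rw [if_neg hij, map_zero]

theorem gmat_map_mul (σ : RingAut F) (A B : Matrix ι ι F) :
    (A * B).map σ = A.map σ * B.map σ :=
  Matrix.map_mul (f := (σ : F →+* F))

theorem gmat_map_map_one (G : Matrix ι ι F) : G.map (1 : RingAut F) = G := by
  ext i j
  rfl

theorem gmat_twR_smul (σ : RingAut F) (μ : F) (G : Matrix ι ι F) (k : ℕ) :
    PSLn.twR (RingHom.mapMatrix (σ : F →+* F)) (μ • G) k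
      = PSLn.twR (σ : F →+* F) μ k • PSLn.twR (RingHom.mapMatrix (σ : F →+* F)) G k := by
  induction k with
  | zero => rw [PSLn.twR_zero, PSLn.twR_zero, PSLn.twR_zero, one_smul]
  | succ k ih =>
    rw [PSLn.twR_succ, PSLn.twR_succ, PSLn.twR_succ, ih]
    show (μ • G) * ((PSLn.twR (σ : F →+* F) μ k
      • PSLn.twR (RingHom.mapMatrix (σ : F →+* F)) G k).map σ) = _
    rw [gmat_map_smul, Matrix.smul_mul, Matrix.mul_smul, smul_smul]
    rfl

theorem gmat_iter_mapMatrix (σ : RingAut F) (i : ℕ) (c : Matrix ι ι F) :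
    (⇑(RingHom.mapMatrix (σ : F →+* F) : Matrix ι ι F →+* _))^[i] c = c.map (σ ^ i) := by
  induction i with
  | zero =>
    ext k l
    rfl
  | succ i ih =>
    rw [Function.iterate_succ_apply', ih, pow_succ']
    ext k l
    rfl

theorem gmat_smul_one_inj [Nonempty ι] (a b : F)
    (h : a • (1 : Matrix ι ι F) = b • 1) : a = b := by
  obtain ⟨i⟩ := ‹Nonempty ι›
  have h1 := congrFun (congrFun h i) i
  simpa using h1

theorem fvec_one (x : ι → F) : fvec (1 : RingAut F) x = x := rfl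

theorem fvec_fvec (σ τ : RingAut F) (x : ι → F) : fvec σ (fvec τ x) = fvec (σ * τ) x := rfl

theorem semiMap_eq (g : GL ι F) (σ : RingAut F) (x : ι → F) :
    semiMap g σ x = (g : Matrix ι ι F) *ᵥ fvec σ x := rfl

/-- iterates of a semilinear map -/
theorem semiMap_iter (g : GL ι F) (σ : RingAut F) (k : ℕ) (x : ι → F) :
    (semiMap g σ)^[k] x
      = PSLn.twR (RingHom.mapMatrix (σ : F →+* F)) (g : Matrix ι ι F) k *ᵥ fvec (σ ^ k) x := by
  induction k with
  | zero => rw [Function.iterate_zero, id, PSLn.twR_zero, Matrix.one_mulVec, pow_zero, fvec_one]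
  | succ k ih =>
    rw [Function.iterate_succ_apply', ih, semiMap_eq, fvec_mulVec, fvec_fvec, Matrix.mulVec_mulVec,
      PSLn.twR_succ, pow_succ']
    rfl

/-- the scalar matrix as an element of `GL` -/
noncomputable def scGL (μ : F) (hμ : μ ≠ 0) : GL ι F :=
  Matrix.GeneralLinearGroup.scalar ι (Units.mk0 μ hμ)

theorem scGL_coe (μ : F) (hμ : μ ≠ 0) :
    ((scGL μ hμ : GL ι F) : Matrix ι ι F) = μ • (1 : Matrix ι ι F) := by
  show Matrix.scalar ι μ = _
  ext i j
  simp [Matrix.scalar_apply, Matrix.diagonal_apply, Matrix.one_apply]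

theorem scGL_mul_coe (μ : F) (hμ : μ ≠ 0) (g : GL ι F) :
    ((scGL μ hμ * g : GL ι F) : Matrix ι ι F) = μ • (g : Matrix ι ι F) := by
  rw [Units.val_mul, scGL_coe, Matrix.smul_mul, Matrix.one_mul]

theorem scGL_semi (Q : QuadraticForm F (ι → F)) (μ : F) (hμ : μ ≠ 0) :
    IsSemisimilarityPair (⇑Q) (scGL μ hμ : GL ι F) (RingEquiv.refl F) := by
  refine ⟨Units.mk0 (μ * μ) (mul_ne_zero hμ hμ), fun v => ?_⟩
  rw [scGL_coe, Matrix.smul_mulVec, Matrix.one_mulVec]
  have h1 : (fun i => (RingEquiv.refl F) (v i)) = v := rfl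
  rw [h1, QuadraticMap.map_smul]
  rfl

theorem semiAut_scGL (Q : QuadraticForm F (ι → F)) (μ : F) (hμ : μ ≠ 0) :
    semiAut (⇑Q) (scGL μ hμ : GL ι F) (RingEquiv.refl F) (scGL_semi Q μ hμ) = 1 :=
  ((Helper45.OO.semi_ind_iff (⇑Q) _ (RingEquiv.refl F) (scGL_semi Q μ hμ) 1).mp
    (Helper45.ind_scalar (⇑Q) _ μ (scGL_coe μ hμ))).symm

/-- rescaling the matrix does not change the induced automorphism -/
theorem semiAut_scGL_mul (Q : QuadraticForm F (ι → F)) (μ : F) (hμ : μ ≠ 0) (g : GL ι F)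
    (σ : RingAut F) (hg : IsSemisimilarityPair (⇑Q) g σ)
    (hg' : IsSemisimilarityPair (⇑Q) (scGL μ hμ * g) σ) :
    semiAut (⇑Q) (scGL μ hμ * g) σ hg' = semiAut (⇑Q) g σ hg := by
  have h1 := Helper45.OO.semiAut_mul (⇑Q) (scGL μ hμ) g (RingEquiv.refl F) σ (scGL_semi Q μ hμ) hg
  rw [semiAut_scGL, one_mul] at h1
  rw [h1]
  exact Helper45.OO.semiAut_congr _ _ _ (by rw [Helper45.OO.glMap_refl]) rfl

end gen

/-! ### the odd-dimensional form -/

section odd

variable {F : Type u} [Field F] [Fintype F] {m : ℕ}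

/-- the field automorphisms are semisimilarities of the odd-dimensional form -/
theorem ofield (σ : RingAut F) :
    IsSemisimilarityPair (quadFormOdd m F) (1 : GL (OI m) F) σ := by
  refine ⟨1, fun v => ?_⟩
  rw [Units.val_one, Matrix.one_mulVec, Units.val_one, one_mul]
  unfold quadFormOdd
  rw [map_add, map_pow, map_sum]
  congr 1
  apply Finset.sum_congr rfl
  intro i _
  rw [map_mul]

/-- the standard field automorphism of `PΩ_{2m+1}(F)` -/
noncomputable def oF (σ : RingAut F) : MulAut (POmega F (quadFormOdd m F)) :=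
  semiAut (quadFormOdd m F) 1 σ (ofield σ)

theorem oF_mul (σ τ : RingAut F) :
    (oF (σ * τ) : MulAut (POmega F (quadFormOdd m F))) = oF σ * oF τ := by
  unfold oF
  rw [Helper45.OO.semiAut_mul]
  exact Helper45.OO.semiAut_congr _ _ _ (by rw [map_one, mul_one]) rfl

theorem oF_one : (oF (1 : RingAut F) : MulAut (POmega F (quadFormOdd m F))) = 1 :=
  Helper45.OO.semiAut_one _ _

/-- the standard field automorphisms as a homomorphism -/
noncomputable def oFhom : RingAut F →* MulAut (POmega F (quadFormOdd m F)) where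
  toFun := oF
  map_one' := oF_one
  map_mul' := oF_mul

theorem oFhom_apply (σ : RingAut F) :
    (oFhom σ : MulAut (POmega F (quadFormOdd m F))) = oF σ := rfl

/-- the Prelude's field automorphism attached to `σ` is the standard one -/
theorem oF_of_std (σ : RingAut F) (φ : MulAut (POmega F (quadFormOdd m F)))
    (h : IsFieldAutPOmegaOf (quadFormOdd m F) σ φ) : φ = oF σ := by
  apply (Helper45.OO.semi_ind_iff (quadFormOdd m F) 1 σ (ofield σ) φ).mp
  intro s s' hss'
  apply h s s'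
  rw [hss', Units.val_one, Matrix.one_mul, inv_one, Units.val_one, Matrix.mul_one]

theorem oF_std (σ : RingAut F) :
    IsFieldAutPOmegaOf (quadFormOdd m F) σ (oF σ : MulAut (POmega F (quadFormOdd m F))) := by
  intro s s' hss'
  apply (Helper45.OO.semi_ind_iff (quadFormOdd m F) 1 σ (ofield σ) (oF σ)).mpr rfl s s'
  rw [hss', Units.val_one, Matrix.one_mul, inv_one, Units.val_one, Matrix.mul_one]

theorem card_OI : Fintype.card (OI m) = 2 * m + 1 := by
  rw [Fintype.card_sum, Fintype.card_sum, Fintype.card_fin, Fintype.card_unit]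
  omega

/-- **the field-automorphism homomorphism of `PΩ_{2m+1}(q)`**, with kernel `Inndiag` -/
theorem odd_theta (hodd : Odd (Fintype.card F)) (hm : 3 ≤ m) :
    ∃ Θ : MulAut (POmega F (quadFormOdd m F)) →* RingAut F,
      (∀ (g : GL (OI m) F) (σ : F ≃+* F) (hg : IsSemisimilarityPair (quadFormOdd m F) g σ),
        Θ (semiAut (quadFormOdd m F) g σ hg) = σ) ∧
      (∀ α : MulAut (POmega F (quadFormOdd m F)),
        ∃ (g : GL (OI m) F) (hg : IsSemisimilarityPair (quadFormOdd m F) g (Θ α)),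
          α = semiAut (quadFormOdd m F) g (Θ α) hg) ∧
      Θ.ker = inndiagPOmegaOdd m F := by
  have h2 : (2 : F) ≠ 0 := Helper45.two_ne_zero_of_odd_card hodd
  have hQ := Helper45.oddQF_nondeg' (F := F) m h2
  have hcard : Fintype.card (OI m) = 2 * m + 1 := card_OI
  have hn7 : 7 ≤ Fintype.card (OI m) := by omega
  have hcase : 9 ≤ Fintype.card (OI m) ∨ Helper45.AO.TS4free (Helper43.oddQF m F) := by
    by_cases h4 : 4 ≤ m
    · left
      omega
    · right
      intro W hW
      have h5 : 2 * Module.finrank F W ≤ Fintype.card (OI m) :=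
        Helper45.finrank_ts_le (Helper43.oddQF m F) hQ W hW
      omega
  obtain ⟨Θ, hΘ1, hΘ2⟩ := Helper45.OO.exists_theta (Helper43.oddQF m F) hQ hn7 hcase
  refine ⟨Θ, hΘ1, hΘ2, ?_⟩
  ext α
  exact (Helper45.OO.theta_ker_iff (Helper43.oddQF m F) Θ hΘ1 hΘ2 α).trans
    (Helper45.mem_pgoAut_iff (quadFormOdd m F) α).symm

theorem orderOf_oF (hodd : Odd (Fintype.card F)) (hm : 3 ≤ m) (σ : RingAut F) :
    orderOf (oF σ : MulAut (POmega F (quadFormOdd m F))) = orderOf σ := by
  obtain ⟨Θ, hΘ1, -, -⟩ := odd_theta (F := F) hodd hm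
  have hinj : Function.Injective (oFhom : RingAut F →* MulAut (POmega F (quadFormOdd m F))) := by
    intro σ τ h
    have h1 := congrArg Θ h
    rw [oFhom_apply, oFhom_apply] at h1
    unfold oF at h1
    rwa [hΘ1, hΘ1] at h1
  exact orderOf_injective oFhom hinj σ

/-- **Lang–Steinberg for field automorphisms of `PΩ_{2m+1}(q)`** -/
theorem olang_field_std (hodd : Odd (Fintype.card F)) (hm : 3 ≤ m) (σ : RingAut F) (r : ℕ)
    (hr : orderOf σ = r) (hr0 : 0 < r) (g : GL (OI m) F)
    (hg : IsSemisimilarityPair (quadFormOdd m F) g (RingEquiv.refl F))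
    (hy : (semiAut (quadFormOdd m F) g (RingEquiv.refl F) hg * oF σ) ^ r = 1) :
    ∃ (k : GL (OI m) F) (hk : IsSemisimilarityPair (quadFormOdd m F) k (RingEquiv.refl F)),
      semiAut (quadFormOdd m F) g (RingEquiv.refl F) hg * oF σ
        = semiAut (quadFormOdd m F) k (RingEquiv.refl F) hk * oF σ
          * (semiAut (quadFormOdd m F) k (RingEquiv.refl F) hk)⁻¹ := by
  have h2 : (2 : F) ≠ 0 := Helper45.two_ne_zero_of_odd_card hodd
  have hQ := Helper45.oddQF_nondeg' (F := F) m h2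
  have hcard : Fintype.card (OI m) = 2 * m + 1 := card_OI
  have hn5 : 5 ≤ Fintype.card (OI m) := by omega
  have hgσ : IsSemisimilarityPair (quadFormOdd m F) g σ := by
    have h := Helper45.OO.semi_mul (quadFormOdd m F) hg (ofield σ)
    rw [map_one, mul_one] at h
    exact h
  have hy1 : semiAut (quadFormOdd m F) g (RingEquiv.refl F) hg * oF σ
      = semiAut (quadFormOdd m F) g σ hgσ := by
    unfold oF
    rw [Helper45.OO.semiAut_mul]
    exact Helper45.OO.semiAut_congr _ _ _ (by rw [map_one, mul_one]) rfl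
  obtain ⟨g', τ, hτ, hg', hpow, hiter⟩ := Helper45.OO.semiAut_pow (quadFormOdd m F) g σ hgσ r
  have hσr : (σ : RingAut F) ^ r = 1 := by
    rw [← hr]
    exact pow_orderOf_eq_one σ
  rw [hσr] at hτ
  subst hτ
  rw [← hy1, hy] at hpow
  obtain ⟨c, hc⟩ := Helper45.OO.scalar_of_ind (Helper43.oddQF m F) hQ hn5 g' hg'
    ((Helper45.OO.semi_ind_iff _ g' (RingEquiv.refl F) hg' 1).mpr hpow)
  have hT : PSLn.twR (RingHom.mapMatrix (σ : F →+* F)) (g : Matrix (OI m) (OI m) F) r
      = c • (1 : Matrix (OI m) (OI m) F) := by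
    apply Helper13.mulVec_ext
    intro x
    have h3 := hiter x
    rw [semiMap_iter, hσr, fvec_one, semiMap_eq, fvec_one, hc] at h3
    exact h3.symm
  have hc0 : c ≠ 0 := by
    rintro rfl
    have h0 : (g' : Matrix (OI m) (OI m) F) = 0 := by rw [hc, zero_smul]
    have h1 : (g' : Matrix (OI m) (OI m) F) * ((g'⁻¹ : GL (OI m) F) : Matrix (OI m) (OI m) F) = 1 :=
      Units.mul_inv g'
    rw [h0, zero_mul] at h1
    have h4 := congrFun (congrFun h1 (Sum.inl ())) (Sum.inl ())
    simp at h4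
  have hσc : σ c = c := by
    have h1 : PSLn.twR (RingHom.mapMatrix (σ : F →+* F)) (g : Matrix (OI m) (OI m) F) (r + 1)
        = (g : Matrix (OI m) (OI m) F)
          * (PSLn.twR (RingHom.mapMatrix (σ : F →+* F)) (g : Matrix (OI m) (OI m) F) r).map σ :=
      rfl
    have h2' := PSLn.twR_succ' (RingHom.mapMatrix (σ : F →+* F)) (g : Matrix (OI m) (OI m) F) r
    rw [h1, hT, gmat_iter_mapMatrix, hσr, gmat_map_map_one, gmat_map_smul, gmat_map_one,
      Matrix.mul_smul, mul_one, Matrix.smul_mul, one_mul] at h2'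
    have h3 := congrArg (fun M => M * ((g⁻¹ : GL (OI m) F) : Matrix (OI m) (OI m) F)) h2'
    have h4 : (g : Matrix (OI m) (OI m) F) * ((g⁻¹ : GL (OI m) F) : Matrix (OI m) (OI m) F) = 1 :=
      Units.mul_inv g
    simp only [Matrix.smul_mul, h4] at h3
    exact gmat_smul_one_inj _ _ h3
  obtain ⟨μ, hμ0, hμ⟩ := PSLn.lang_norm_surj σ r hr hr0 c⁻¹ (inv_ne_zero hc0)
    (by rw [map_inv₀, hσc])
  have hg₁ : IsSemisimilarityPair (quadFormOdd m F) (scGL μ hμ0 * g) (RingEquiv.refl F) :=
    Subgroup.mul_mem (Geo.quadSimilarityGroup (F := F) (quadFormOdd m F))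
      (scGL_semi (Helper43.oddQF m F) μ hμ0) hg
  have hT' : PSLn.twR (RingHom.mapMatrix (σ : F →+* F))
      ((scGL μ hμ0 * g : GL (OI m) F) : Matrix (OI m) (OI m) F) r = 1 := by
    rw [scGL_mul_coe, gmat_twR_smul, hμ, hT, smul_smul, inv_mul_cancel₀ hc0, one_smul]
  obtain ⟨k, hk0, hkeq⟩ := oh90_odd h2 σ r hr hr0 _ hg₁ hT'
  have hk : IsSemisimilarityPair (quadFormOdd m F) k (RingEquiv.refl F) := hk0
  refine ⟨k, hk, ?_⟩
  have hg₁σ : IsSemisimilarityPair (quadFormOdd m F) (scGL μ hμ0 * g) σ := by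
    have h := Helper45.OO.semi_mul (quadFormOdd m F) hg₁ (ofield σ)
    rw [map_one, mul_one] at h
    exact h
  have hsc : semiAut (quadFormOdd m F) (scGL μ hμ0 * g) σ hg₁σ
      = semiAut (quadFormOdd m F) g σ hgσ :=
    semiAut_scGL_mul (Helper43.oddQF m F) μ hμ0 g σ hgσ hg₁σ
  rw [hy1, ← hsc, eq_mul_inv_iff_mul_eq]
  unfold oF
  rw [Helper45.OO.semiAut_mul, Helper45.OO.semiAut_mul]
  refine Helper45.OO.semiAut_congr _ _ _ ?_ ?_
  · apply Units.ext
    rw [map_one, mul_one, Units.val_mul, Helper45.OO.glMap_coe]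
    exact hkeq
  · exact (mul_one σ).trans (one_mul σ).symm

/-- **the coset statement for field automorphisms of `PΩ_{2m+1}(q)`** -/
theorem olang_coset_conj (hodd : Odd (Fintype.card F)) (hm : 3 ≤ m)
    (x δ : MulAut (POmega F (quadFormOdd m F)))
    (hx : IsFieldAutClassPOmega (quadFormOdd m F) x) (r : ℕ) (hr : r.Prime)
    (hxr : orderOf x = r) (hδ : δ ∈ inndiagPOmegaOdd m F) :
    orderOf (δ * x) = r ↔ IsConjUnder (inndiagPOmegaOdd m F) x (δ * x) := by
  obtain ⟨Θ, hΘ1, hΘ2, hker⟩ := odd_theta (F := F) hodd hm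
  constructor
  · intro ho
    obtain ⟨α, φ, σ, hσ, hφ, hα⟩ := hx
    rw [oF_of_std σ φ hφ] at hα
    have hσr : orderOf (σ : RingAut F) = r := by
      rw [← orderOf_oF hodd hm σ, ← hα, PSLn.lang_orderOf_conj, hxr]
    have hδ' : α * δ * α⁻¹ ∈ Θ.ker := by
      rw [← hker] at hδ
      exact (inferInstance : Θ.ker.Normal).conj_mem δ hδ α
    obtain ⟨g, hg, e⟩ := hΘ2 (α * δ * α⁻¹)
    have hΘ0 : Θ (α * δ * α⁻¹) = RingEquiv.refl F := hδ'
    revert hg e
    rw [hΘ0]
    intro hg e
    have h1 : semiAut (quadFormOdd m F) g (RingEquiv.refl F) hg * oF σ = α * (δ * x) * α⁻¹ := by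
      rw [← e, ← hα]
      group
    have hy : (semiAut (quadFormOdd m F) g (RingEquiv.refl F) hg * oF σ) ^ r = 1 := by
      rw [h1, ← ho, ← PSLn.lang_orderOf_conj α (δ * x)]
      exact pow_orderOf_eq_one _
    obtain ⟨k, hk, hkeq⟩ := olang_field_std hodd hm σ r hσr hr.pos g hg hy
    refine ⟨α⁻¹ * semiAut (quadFormOdd m F) k (RingEquiv.refl F) hk * α, ?_, ?_⟩
    · rw [← hker]
      have h3 : semiAut (quadFormOdd m F) k (RingEquiv.refl F) hk ∈ Θ.ker :=
        hΘ1 k (RingEquiv.refl F) hk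
      have h4 := (inferInstance : Θ.ker.Normal).conj_mem _ h3 α⁻¹
      rwa [inv_inv] at h4
    · have h5 : δ * x = α⁻¹ * (semiAut (quadFormOdd m F) g (RingEquiv.refl F) hg * oF σ) * α := by
        rw [h1]
        group
      rw [h5, hkeq, ← hα]
      group
  · rintro ⟨h, -, heq⟩
    rw [heq, PSLn.lang_orderOf_conj, hxr]

end odd

end Cfsg.Agent.Helper44.POm
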