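import Mathlib
import Cfsg.Agent.Helper44.OmC
import Cfsg.Agent.Helper44.SpL
import Cfsg.Agent.Helper44.CD

/-!
# Field automorphisms of `PΩ_{2m+1}(q)` (helper44), part D: the subfield group, the centraliser
of a standard field automorphism in the conformal orthogonal group
-/

set_option autoImplicit false
set_option linter.unusedSimpArgs false
set_option linter.unusedSectionVars false
set_option linter.unusedVariables false

namespace Cfsg.Agent.Helper44.POm

open Matrix Cfsg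
open Cfsg.Agent.Helper45.OO (semiAut semiMap glMap polarGram)

universe u v

/-! ### the embedding of the subfield group -/

section embed

variable {F : Type u} [Field F] {F₀ : Type v} [Field F₀] {m : ℕ}

/-- applying a field embedding to a vector -/
def ivec (ι : F₀ →+* F) (v : OI m → F₀) : OI m → F := fun i => ι (v i)

theorem ivec_apply (ι : F₀ →+* F) (v : OI m → F₀) (i : OI m) : ivec ι v i = ι (v i) := rfl

theorem ivec_add (ι : F₀ →+* F) (u v : OI m → F₀) : ivec ι (u + v) = ivec ι u + ivec ι v := by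
  funext i
  exact map_add ι _ _

theorem ivec_sub (ι : F₀ →+* F) (u v : OI m → F₀) : ivec ι (u - v) = ivec ι u - ivec ι v := by
  funext i
  exact map_sub ι _ _

theorem ivec_smul (ι : F₀ →+* F) (c : F₀) (v : OI m → F₀) :
    ivec ι (c • v) = ι c • ivec ι v := by
  funext i
  exact map_mul ι _ _

theorem ivec_single (ι : F₀ →+* F) (a : OI m) :
    ivec ι (Pi.single a 1 : OI m → F₀) = Pi.single a 1 := by
  funext i
  by_cases h : i = a
  · subst h
    rw [ivec_apply, Pi.single_eq_same, Pi.single_eq_same, map_one]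
  · rw [ivec_apply, Pi.single_eq_of_ne h, Pi.single_eq_of_ne h, map_zero]

theorem ivec_injective (ι : F₀ →+* F) : Function.Injective (ivec (m := m) ι) := by
  intro u v h
  funext i
  exact ι.injective (congrFun h i)

theorem qodd_ivec (ι : F₀ →+* F) (v : OI m → F₀) :
    quadFormOdd m F (ivec ι v) = ι (quadFormOdd m F₀ v) := by
  unfold quadFormOdd ivec
  rw [map_add, map_pow, map_sum]
  congr 1
  apply Finset.sum_congr rfl
  intro i _
  rw [map_mul]

theorem polar_ivec (ι : F₀ →+* F) (u v : OI m → F₀) :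
    QuadraticMap.polar (quadFormOdd m F) (ivec ι u) (ivec ι v)
      = ι (QuadraticMap.polar (quadFormOdd m F₀) u v) := by
  unfold QuadraticMap.polar
  rw [← ivec_add, qodd_ivec, qodd_ivec, qodd_ivec, map_sub, map_sub]

theorem map_mulVec_ivec (ι : F₀ →+* F) (M : Matrix (OI m) (OI m) F₀) (u : OI m → F₀) :
    (M.map ι) *ᵥ ivec ι u = ivec ι (M *ᵥ u) := by
  funext i
  exact (RingHom.map_mulVec ι M u i).symm

theorem polarGram_map (ι : F₀ →+* F) :
    polarGram (Helper43.oddQF m F) = (polarGram (Helper43.oddQF m F₀)).map ι := by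
  ext i j
  rw [Matrix.map_apply]
  unfold polarGram
  rw [LinearMap.BilinForm.toMatrix'_apply, LinearMap.BilinForm.toMatrix'_apply]
  show QuadraticMap.polar (quadFormOdd m F) (Pi.single i 1) (Pi.single j 1)
    = ι (QuadraticMap.polar (quadFormOdd m F₀) (Pi.single i 1) (Pi.single j 1))
  rw [← polar_ivec, ivec_single, ivec_single]

theorem gram_map (ι : F₀ →+* F) (M : Matrix (OI m) (OI m) F₀) (c₀ : F₀) :
    (M.map ι)ᵀ * polarGram (Helper43.oddQF m F) * M.map ι
        = ι c₀ • polarGram (Helper43.oddQF m F)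
      ↔ Mᵀ * polarGram (Helper43.oddQF m F₀) * M = c₀ • polarGram (Helper43.oddQF m F₀) := by
  rw [polarGram_map ι]
  have h1 : (Mᵀ * polarGram (Helper43.oddQF m F₀) * M).map ι
      = (M.map ι)ᵀ * (polarGram (Helper43.oddQF m F₀)).map ι * M.map ι := by
    rw [Matrix.map_mul, Matrix.map_mul, Matrix.transpose_map]
  have h2 : (c₀ • polarGram (Helper43.oddQF m F₀)).map ι
      = ι c₀ • (polarGram (Helper43.oddQF m F₀)).map ι := by
    ext i j
    simp
  rw [← h1, ← h2]
  exact (Matrix.map_injective ι.injective).eq_iff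

theorem two_ne_zero_sub (h2 : (2 : F) ≠ 0) (ι : F₀ →+* F) : (2 : F₀) ≠ 0 := by
  intro h
  apply h2
  have h1 := congrArg ι h
  rwa [map_ofNat, map_zero] at h1

theorem iota_mem_sim (h2 : (2 : F) ≠ 0) (ι : F₀ →+* F) (γ : GL (OI m) F₀)
    (hγ : γ ∈ Geo.quadSimilarityGroup (F := F₀) (quadFormOdd m F₀)) :
    Matrix.GeneralLinearGroup.map ι γ ∈ Geo.quadSimilarityGroup (F := F) (quadFormOdd m F) := by
  have h2₀ : (2 : F₀) ≠ 0 := two_ne_zero_sub h2 ι
  obtain ⟨c₀, hc₀⟩ := hγ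
  have hG := Helper45.gram_of_sim (quadFormOdd m F₀) (polarGram (Helper43.oddQF m F₀)) h2₀
    (Helper45.OO.polarGram_quad (Helper43.oddQF m F₀)) (Helper45.OO.polarGram_symm (Helper43.oddQF m F₀))
    (γ : Matrix (OI m) (OI m) F₀) (c₀ : F₀) hc₀
  refine ⟨Units.map (ι : F₀ →* F) c₀, fun v => ?_⟩
  exact Helper45.sim_of_gram (quadFormOdd m F) (polarGram (Helper43.oddQF m F)) h2
    (Helper45.OO.polarGram_quad (Helper43.oddQF m F)) _ _ ((gram_map ι _ _).mpr hG) v

theorem iota_mem_iso (h2 : (2 : F) ≠ 0) (ι : F₀ →+* F) (γ : GL (OI m) F₀)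
    (hγ : γ ∈ isometryGroup F₀ (quadFormOdd m F₀)) :
    Matrix.GeneralLinearGroup.map ι γ ∈ isometryGroup F (quadFormOdd m F) := by
  have h2₀ : (2 : F₀) ≠ 0 := two_ne_zero_sub h2 ι
  rw [Helper45.mem_iso_iff] at hγ ⊢
  have hG := Helper45.gram_of_sim (quadFormOdd m F₀) (polarGram (Helper43.oddQF m F₀)) h2₀
    (Helper45.OO.polarGram_quad (Helper43.oddQF m F₀)) (Helper45.OO.polarGram_symm (Helper43.oddQF m F₀))
    (γ : Matrix (OI m) (OI m) F₀) 1 (fun v => by rw [one_mul]; exact hγ v)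
  intro v
  have h3 := Helper45.sim_of_gram (quadFormOdd m F) (polarGram (Helper43.oddQF m F)) h2
    (Helper45.OO.polarGram_quad (Helper43.oddQF m F)) _ _ ((gram_map ι _ _).mpr hG) v
  rw [map_one, one_mul] at h3
  exact h3

/-- the embedding of the conformal orthogonal group over a subfield -/
noncomputable def oTh (h2 : (2 : F) ≠ 0) (ι : F₀ →+* F) :
    ↥(Geo.quadSimilarityGroup (F := F₀) (quadFormOdd m F₀))
      →* ↥(Geo.quadSimilarityGroup (F := F) (quadFormOdd m F)) :=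
  ((Matrix.GeneralLinearGroup.map ι).comp (Subgroup.subtype _)).codRestrict _
    (fun γ => iota_mem_sim h2 ι γ.1 γ.2)

theorem oTh_coe (h2 : (2 : F) ≠ 0) (ι : F₀ →+* F)
    (γ : ↥(Geo.quadSimilarityGroup (F := F₀) (quadFormOdd m F₀))) :
    (((oTh h2 ι γ : ↥(Geo.quadSimilarityGroup (F := F) (quadFormOdd m F))) : GL (OI m) F) :
      Matrix (OI m) (OI m) F) = ((γ : GL (OI m) F₀) : Matrix (OI m) (OI m) F₀).map ι := rfl

/-- the embedding of the orthogonal group over a subfield -/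
noncomputable def oThO (h2 : (2 : F) ≠ 0) (ι : F₀ →+* F) :
    ↥(isometryGroup F₀ (quadFormOdd m F₀)) →* ↥(isometryGroup F (quadFormOdd m F)) :=
  ((Matrix.GeneralLinearGroup.map ι).comp (Subgroup.subtype _)).codRestrict _
    (fun γ => iota_mem_iso h2 ι γ.1 γ.2)

theorem oThO_coe (h2 : (2 : F) ≠ 0) (ι : F₀ →+* F)
    (γ : ↥(isometryGroup F₀ (quadFormOdd m F₀))) :
    (((oThO h2 ι γ : ↥(isometryGroup F (quadFormOdd m F))) : GL (OI m) F) :
      Matrix (OI m) (OI m) F) = ((γ : GL (OI m) F₀) : Matrix (OI m) (OI m) F₀).map ι := rfl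

theorem oTh_fixed (h2 : (2 : F) ≠ 0) (σ : RingAut F) (ι : F₀ →+* F)
    (hι : ∀ x, σ x = x ↔ x ∈ Set.range ι)
    (γ : ↥(Geo.quadSimilarityGroup (F := F₀) (quadFormOdd m F₀))) :
    glMap σ ((oTh h2 ι γ : ↥(Geo.quadSimilarityGroup (F := F) (quadFormOdd m F))) : GL (OI m) F)
      = ((oTh h2 ι γ : ↥(Geo.quadSimilarityGroup (F := F) (quadFormOdd m F))) : GL (OI m) F) := by
  apply Units.ext
  rw [Helper45.OO.glMap_coe, oTh_coe]
  ext i j
  exact (hι _).mpr ⟨_, rfl⟩

theorem oTh_surj (h2 : (2 : F) ≠ 0) (σ : RingAut F) (ι : F₀ →+* F)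
    (hι : ∀ x, σ x = x ↔ x ∈ Set.range ι) (g₀ : GL (OI m) F)
    (hg₀ : g₀ ∈ Geo.quadSimilarityGroup (F := F) (quadFormOdd m F))
    (hfix : glMap σ g₀ = g₀) :
    ∃ γ : ↥(Geo.quadSimilarityGroup (F := F₀) (quadFormOdd m F₀)),
      ((oTh h2 ι γ : ↥(Geo.quadSimilarityGroup (F := F) (quadFormOdd m F))) : GL (OI m) F) = g₀ := by
  have hfix' : (g₀ : Matrix (OI m) (OI m) F).map σ = (g₀ : Matrix (OI m) (OI m) F) := by
    have h1 := congrArg (fun k : GL (OI m) F => (k : Matrix (OI m) (OI m) F)) hfix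
    exact h1
  have hex : ∀ i j, ∃ a : F₀, ι a = (g₀ : Matrix (OI m) (OI m) F) i j :=
    fun i j => (hι _).mp (congrFun (congrFun hfix' i) j)
  choose M₀f hM₀f using hex
  obtain ⟨M₀, hM₀⟩ : ∃ M₀ : Matrix (OI m) (OI m) F₀, M₀.map ι = (g₀ : Matrix (OI m) (OI m) F) :=
    ⟨Matrix.of M₀f, by ext i j; exact hM₀f i j⟩
  have hdet : M₀.det ≠ 0 := by
    intro h0
    have h1 := RingHom.map_det ι M₀
    rw [h0, map_zero] at h1
    have h3 : (g₀ : Matrix (OI m) (OI m) F).det = 0 := by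
      rw [← hM₀]
      exact h1.symm
    apply (Matrix.GeneralLinearGroup.det g₀).ne_zero
    rw [Matrix.GeneralLinearGroup.val_det_apply]
    exact h3
  obtain ⟨c, hc⟩ := hg₀
  obtain ⟨c₀, hc₀⟩ : ∃ c₀ : F₀, c₀ = quadFormOdd m F₀ (M₀ *ᵥ Pi.single (Sum.inl ()) 1) := ⟨_, rfl⟩
  have hcc : (c : F) = ι c₀ := by
    have h1 := hc (ivec ι (Pi.single (Sum.inl ()) 1))
    rw [← hM₀, map_mulVec_ivec, qodd_ivec, qodd_ivec, ← hc₀, qodd_single, map_one, mul_one] at h1
    exact h1.symm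
  have hc₀0 : c₀ ≠ 0 := by
    rintro rfl
    rw [map_zero] at hcc
    exact c.ne_zero hcc
  have hmem : Matrix.GeneralLinearGroup.mkOfDetNeZero M₀ hdet
      ∈ Geo.quadSimilarityGroup (F := F₀) (quadFormOdd m F₀) := by
    refine ⟨Units.mk0 c₀ hc₀0, fun v => ?_⟩
    apply ι.injective
    show ι (quadFormOdd m F₀ (M₀ *ᵥ v)) = ι (c₀ * quadFormOdd m F₀ v)
    rw [← qodd_ivec, ← map_mulVec_ivec, hM₀, hc, map_mul, ← qodd_ivec, hcc]
  refine ⟨⟨_, hmem⟩, ?_⟩
  apply Units.ext
  exact hM₀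

end embed

/-! ### the homomorphism from the conformal orthogonal group to `Aut(PΩ)` -/

section simhom

variable {F : Type u} [Field F] {ι : Type} [Fintype ι] [DecidableEq ι]

theorem gmat_map_pow_smul (σ : RingAut F) (lam : F) (G : Matrix ι ι F)
    (h : G.map σ = lam • G) (k : ℕ) :
    G.map (σ ^ k) = PSLn.twR (σ : F →+* F) lam k • G := by
  induction k with
  | zero =>
    rw [pow_zero, PSLn.twR_zero, one_smul]
    exact gmat_map_map_one G
  | succ k ih =>
    have h1 : G.map (σ ^ (k + 1)) = (G.map (σ ^ k)).map σ := by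
      rw [pow_succ']
      ext i j
      rfl
    rw [h1, ih, gmat_map_smul, h, smul_smul, PSLn.twR_succ]
    congr 1
    exact mul_comm _ _

theorem semi_of_mem (Q : (ι → F) → F) (g : GL ι F)
    (hg : g ∈ Geo.quadSimilarityGroup (F := F) Q) :
    IsSemisimilarityPair Q g (RingEquiv.refl F) := hg

/-- the automorphism of `PΩ(Q)` induced by a similarity, as a homomorphism -/
noncomputable def simHom (Q : (ι → F) → F) :
    ↥(Geo.quadSimilarityGroup (F := F) Q) →* MulAut (POmega F Q) where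
  toFun g := semiAut Q g.1 (RingEquiv.refl F) (semi_of_mem Q g.1 g.2)
  map_one' := Helper45.OO.semiAut_one Q _
  map_mul' a b := by
    rw [Helper45.OO.semiAut_mul]
    exact Helper45.OO.semiAut_congr _ _ _ (by rw [Helper45.OO.glMap_refl]; rfl) rfl

theorem simHom_apply (Q : (ι → F) → F) (g : ↥(Geo.quadSimilarityGroup (F := F) Q)) :
    simHom Q g = semiAut Q g.1 (RingEquiv.refl F) (semi_of_mem Q g.1 g.2) := rfl

theorem simHom_range (Q : (ι → F) → F) : (simHom Q).range = pgoAut F Q := by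
  ext β
  rw [Helper45.mem_pgoAut_iff, MonoidHom.mem_range]
  constructor
  · rintro ⟨g, rfl⟩
    exact ⟨g.1, g.2, (Helper45.OO.semi_ind_iff Q g.1 (RingEquiv.refl F)
      (semi_of_mem Q g.1 g.2) _).mpr rfl⟩
  · rintro ⟨g, hg, hind⟩
    exact ⟨⟨g, hg⟩, ((Helper45.OO.semi_ind_iff Q g (RingEquiv.refl F)
      (semi_of_mem Q g hg) β).mp hind).symm⟩

theorem simHom_eq_one_iff [Fintype F] (Q : QuadraticForm F (ι → F))
    (hQ : (QuadraticMap.polarBilin Q).Nondegenerate) (hn : 5 ≤ Fintype.card ι)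
    (g : ↥(Geo.quadSimilarityGroup (F := F) ⇑Q)) :
    simHom ⇑Q g = 1 ↔ ∃ c : F, ((g : GL ι F) : Matrix ι ι F) = c • (1 : Matrix ι ι F) := by
  constructor
  · intro h
    exact Helper45.OO.scalar_of_ind Q hQ hn g.1 g.2
      ((Helper45.OO.semi_ind_iff _ g.1 (RingEquiv.refl F) (semi_of_mem _ g.1 g.2) 1).mpr h.symm)
  · rintro ⟨c, hc⟩
    exact ((Helper45.OO.semi_ind_iff _ g.1 (RingEquiv.refl F) (semi_of_mem _ g.1 g.2) 1).mp
      (Helper45.ind_scalar ⇑Q g.1 c hc)).symm

/-- the centraliser in the image `H` of `D` of `x₀` is the image of a group `Γ` mapping onto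
the centraliser of `x₀` modulo the kernel -/
theorem centralizer_iso_gen {A : Type*} {G : Type*} {Γ : Type*} [Group A] [Group G] [Group Γ]
    (D : G →* A) (H : Subgroup A) (hH : D.range = H) (θ : Γ →* G) (x₀ : A)
    (ha : ∀ γ, D (θ γ) * x₀ = x₀ * D (θ γ))
    (hb : ∀ g, D g * x₀ = x₀ * D g → ∃ γ : Γ, D g = D (θ γ))
    (N : Subgroup Γ) [N.Normal] (hN : ∀ γ, γ ∈ N ↔ D (θ γ) = 1) :
    Nonempty (↥(H ⊓ Subgroup.centralizer {x₀}) ≃* Γ ⧸ N) := by
  let Θ₀ : Γ →* A := D.comp θ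
  have hΘ₀ : ∀ γ, Θ₀ γ = D (θ γ) := fun γ => rfl
  have hmem : ∀ γ, Θ₀ γ ∈ H ⊓ Subgroup.centralizer {x₀} := by
    intro γ
    refine Subgroup.mem_inf.mpr ⟨by rw [← hH]; exact ⟨θ γ, rfl⟩, ?_⟩
    rw [Subgroup.mem_centralizer_iff]
    intro y hy
    rw [Set.mem_singleton_iff] at hy
    subst hy
    exact (ha γ).symm
  let Θ : Γ →* ↥(H ⊓ Subgroup.centralizer {x₀}) := Θ₀.codRestrict _ hmem
  have hker : Θ.ker = N := by
    ext γ
    rw [MonoidHom.mem_ker, hN]
    constructor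
    · intro h
      exact congrArg Subtype.val h
    · intro h
      apply Subtype.ext
      exact h
  have hsurj : Function.Surjective Θ := by
    rintro ⟨y, hy⟩
    obtain ⟨hy1, hy2⟩ := Subgroup.mem_inf.mp hy
    rw [← hH] at hy1
    obtain ⟨g, rfl⟩ := hy1
    rw [Subgroup.mem_centralizer_iff] at hy2
    have h1 := hy2 x₀ rfl
    obtain ⟨γ, hγ⟩ := hb g h1.symm
    refine ⟨γ, ?_⟩
    apply Subtype.ext
    show Θ₀ γ = D g
    rw [hΘ₀, ← hγ]
  exact ⟨((QuotientGroup.quotientMulEquivOfEq hker.symm).trans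
    (QuotientGroup.quotientKerEquivOfSurjective Θ hsurj)).symm⟩

end simhom

/-! ### the centraliser of a standard field automorphism -/

section cent

variable {F : Type u} [Field F] [Fintype F] {m : ℕ}

theorem simHom_mul_oF (g : ↥(Geo.quadSimilarityGroup (F := F) (quadFormOdd m F))) (σ : RingAut F)
    (hgσ : IsSemisimilarityPair (quadFormOdd m F) g.1 σ) :
    simHom (quadFormOdd m F) g * oF σ = semiAut (quadFormOdd m F) g.1 σ hgσ := by
  rw [simHom_apply]
  unfold oF
  rw [Helper45.OO.semiAut_mul]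
  exact Helper45.OO.semiAut_congr _ _ _ (by rw [map_one, mul_one]) rfl

theorem oF_mul_simHom (g : ↥(Geo.quadSimilarityGroup (F := F) (quadFormOdd m F))) (σ : RingAut F)
    (hgσ : IsSemisimilarityPair (quadFormOdd m F) (glMap σ g.1) σ) :
    oF σ * simHom (quadFormOdd m F) g = semiAut (quadFormOdd m F) (glMap σ g.1) σ hgσ := by
  rw [simHom_apply]
  unfold oF
  rw [Helper45.OO.semiAut_mul]
  exact Helper45.OO.semiAut_congr _ _ _ (one_mul _) rfl

theorem semi_of_sim (g : GL (OI m) F)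
    (hg : g ∈ Geo.quadSimilarityGroup (F := F) (quadFormOdd m F)) (σ : RingAut F) :
    IsSemisimilarityPair (quadFormOdd m F) g σ := by
  have h := Helper45.OO.semi_mul (quadFormOdd m F) (semi_of_mem _ g hg) (ofield σ)
  rw [map_one, mul_one] at h
  exact h

theorem semi_of_sim' (g : GL (OI m) F)
    (hg : g ∈ Geo.quadSimilarityGroup (F := F) (quadFormOdd m F)) (σ : RingAut F) :
    IsSemisimilarityPair (quadFormOdd m F) (glMap σ g) σ := by
  have h := Helper45.OO.semi_mul (quadFormOdd m F) (ofield σ) (semi_of_mem _ g hg)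
  rw [one_mul] at h
  exact h

/-- a similarity fixed by `σ` induces an automorphism commuting with the field automorphism -/
theorem simHom_comm_of_fixed (g : ↥(Geo.quadSimilarityGroup (F := F) (quadFormOdd m F)))
    (σ : RingAut F) (hfix : glMap σ g.1 = g.1) :
    simHom (quadFormOdd m F) g * oF σ = oF σ * simHom (quadFormOdd m F) g := by
  rw [simHom_mul_oF g σ (semi_of_sim g.1 g.2 σ), oF_mul_simHom g σ (semi_of_sim' g.1 g.2 σ)]
  exact Helper45.OO.semiAut_congr _ _ _ hfix.symm rfl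

/-- a similarity inducing an automorphism commuting with the field automorphism is a scalar
multiple of a similarity fixed by `σ` -/
theorem simHom_comm_oF (hodd : Odd (Fintype.card F)) (hm : 3 ≤ m) (σ : RingAut F) (r : ℕ)
    (hr : orderOf σ = r) (hr0 : 0 < r)
    (g : ↥(Geo.quadSimilarityGroup (F := F) (quadFormOdd m F)))
    (h : simHom (quadFormOdd m F) g * oF σ = oF σ * simHom (quadFormOdd m F) g) :
    ∃ (b : F) (hb : b ≠ 0), glMap σ (scGL b hb * g.1) = scGL b hb * g.1 := by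
  have h2 : (2 : F) ≠ 0 := Helper45.two_ne_zero_of_odd_card hodd
  have hQ := Helper45.oddQF_nondeg' (F := F) m h2
  have hcard : Fintype.card (OI m) = 2 * m + 1 := card_OI
  have hn5 : 5 ≤ Fintype.card (OI m) := by omega
  rw [simHom_mul_oF g σ (semi_of_sim g.1 g.2 σ), oF_mul_simHom g σ (semi_of_sim' g.1 g.2 σ)] at h
  obtain ⟨-, l, hl⟩ := Helper45.OO.semi_unique (Helper43.oddQF m F) hQ hn5 g.1 (glMap σ g.1) σ σ
    (semi_of_sim g.1 g.2 σ) (semi_of_sim' g.1 g.2 σ) h
  have hlam : ((g : GL (OI m) F) : Matrix (OI m) (OI m) F).map σ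
      = l • ((g : GL (OI m) F) : Matrix (OI m) (OI m) F) := by
    apply Helper13.mulVec_ext
    intro y
    have h3 := hl (fvec σ⁻¹ y)
    rw [semiMap_eq, semiMap_eq, fvec_inv, Helper45.OO.glMap_coe] at h3
    rw [h3, Matrix.smul_mulVec]
  have hσr : σ ^ r = 1 := by rw [← hr, pow_orderOf_eq_one]
  have h4 := gmat_map_pow_smul σ l _ hlam r
  rw [hσr, gmat_map_map_one] at h4
  have h5 : PSLn.twR (σ : F →+* F) l r = 1 := by
    have h6 := congrArg (fun M => M * (((g : GL (OI m) F)⁻¹ : GL (OI m) F) :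
      Matrix (OI m) (OI m) F)) h4
    have h7 : ((g : GL (OI m) F) : Matrix (OI m) (OI m) F)
        * (((g : GL (OI m) F)⁻¹ : GL (OI m) F) : Matrix (OI m) (OI m) F) = 1 := Units.mul_inv _
    simp only [Matrix.smul_mul, h7] at h6
    have h8 : (1 : F) • (1 : Matrix (OI m) (OI m) F)
        = PSLn.twR (σ : F →+* F) l r • (1 : Matrix (OI m) (OI m) F) := by
      rw [one_smul]
      exact h6
    exact (gmat_smul_one_inj _ _ h8).symm
  obtain ⟨b, hb0, hb⟩ := PSLn.lang_h90_scalar σ r hr hr0 l h5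
  refine ⟨b, hb0, ?_⟩
  apply Units.ext
  rw [Helper45.OO.glMap_coe, scGL_mul_coe, gmat_map_smul, hlam, smul_smul, mul_comm, hb]

end cent

/-! ### the centraliser of a standard field automorphism in `Inndiag` -/

section centiso

variable {F : Type u} [Field F] [Fintype F] {F₀ : Type v} [Field F₀] [Fintype F₀] {m : ℕ}

theorem simHom_range_odd :
    (simHom (quadFormOdd m F)).range = inndiagPOmegaOdd m F :=
  simHom_range (quadFormOdd m F)

theorem mem_inndiag_odd (δ : MulAut (POmega F (quadFormOdd m F))) :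
    δ ∈ inndiagPOmegaOdd m F ↔
      ∃ g : ↥(Geo.quadSimilarityGroup (F := F) (quadFormOdd m F)), simHom (quadFormOdd m F) g = δ := by
  rw [← simHom_range_odd]
  exact MonoidHom.mem_range

/-- the kernel of `GO_{2m+1}(q₀) → Aut(PΩ_{2m+1}(q))` is the kernel of
`GO_{2m+1}(q₀) → Aut(PΩ_{2m+1}(q₀))` -/
theorem oTh_ker (hodd : Odd (Fintype.card F)) (hm : 3 ≤ m) (ι : F₀ →+* F)
    (γ : ↥(Geo.quadSimilarityGroup (F := F₀) (quadFormOdd m F₀))) :
    γ ∈ (simHom (quadFormOdd m F₀)).ker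
      ↔ simHom (quadFormOdd m F) (oTh (Helper45.two_ne_zero_of_odd_card hodd) ι γ) = 1 := by
  have h2 : (2 : F) ≠ 0 := Helper45.two_ne_zero_of_odd_card hodd
  have h2₀ : (2 : F₀) ≠ 0 := two_ne_zero_sub h2 ι
  have hQ := Helper45.oddQF_nondeg' (F := F) m h2
  have hQ₀ := Helper45.oddQF_nondeg' (F := F₀) m h2₀
  have hcard : Fintype.card (OI m) = 2 * m + 1 := card_OI
  have hn5 : 5 ≤ Fintype.card (OI m) := by omega
  have hιinj : Function.Injective ι := ι.injective
  rw [MonoidHom.mem_ker]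
  have e1 := simHom_eq_one_iff (Helper43.oddQF m F₀) hQ₀ hn5 γ
  have e2 := simHom_eq_one_iff (Helper43.oddQF m F) hQ hn5 (oTh h2 ι γ)
  refine e1.trans (Iff.trans ?_ e2.symm)
  rw [oTh_coe]
  constructor
  · rintro ⟨c₀, hc₀⟩
    refine ⟨ι c₀, ?_⟩
    rw [hc₀]
    ext i j
    rw [Matrix.map_apply, Matrix.smul_apply, Matrix.smul_apply, Matrix.one_apply,
      Matrix.one_apply, smul_eq_mul, smul_eq_mul, map_mul]
    by_cases hij : i = j
    · rw [if_pos hij, if_pos hij, map_one]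
    · rw [if_neg hij, if_neg hij, map_zero]
  · rintro ⟨c, hc⟩
    refine ⟨((γ : GL (OI m) F₀) : Matrix (OI m) (OI m) F₀) (Sum.inl ()) (Sum.inl ()), ?_⟩
    ext i j
    have h1 := congrFun (congrFun hc i) j
    have h3 := congrFun (congrFun hc (Sum.inl ())) (Sum.inl ())
    rw [Matrix.map_apply, Matrix.smul_apply, Matrix.one_apply, smul_eq_mul] at h1 h3
    rw [if_pos rfl, mul_one] at h3
    rw [Matrix.smul_apply, Matrix.one_apply, smul_eq_mul]
    by_cases hij : i = j
    · rw [if_pos hij, mul_one] at h1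
      rw [if_pos hij, mul_one]
      exact hιinj (h1.trans h3.symm)
    · rw [if_neg hij, mul_zero] at h1
      rw [if_neg hij, mul_zero]
      exact hιinj (h1.trans (map_zero ι).symm)

/-- **the centraliser of a standard field automorphism in `Inndiag(Ω_{2m+1}(q))`** is
`Inndiag(Ω_{2m+1}(q₀))` -/
theorem odd_centralizer_iso (hodd : Odd (Fintype.card F)) (hm : 3 ≤ m) (σ : RingAut F) (r : ℕ)
    (hr : orderOf σ = r) (hr0 : 0 < r) (ι : F₀ →+* F) (hι : ∀ x, σ x = x ↔ x ∈ Set.range ι) :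
    Nonempty (↥(inndiagPOmegaOdd m F ⊓ Subgroup.centralizer {(oF σ : MulAut (POmega F (quadFormOdd m F)))})
      ≃* ↥(inndiagPOmegaOdd m F₀)) := by
  have h2 : (2 : F) ≠ 0 := Helper45.two_ne_zero_of_odd_card hodd
  obtain ⟨e1⟩ := centralizer_iso_gen (simHom (quadFormOdd m F)) (inndiagPOmegaOdd m F)
    simHom_range_odd (oTh h2 ι) (oF σ)
    (fun γ => simHom_comm_of_fixed _ σ (oTh_fixed h2 σ ι hι γ))
    (by
      intro g hg
      obtain ⟨b, hb0, hfix⟩ := simHom_comm_oF hodd hm σ r hr hr0 g hg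
      have hmem : scGL b hb0 * g.1 ∈ Geo.quadSimilarityGroup (F := F) (quadFormOdd m F) :=
        Subgroup.mul_mem _ (scGL_semi (Helper43.oddQF m F) b hb0) g.2
      obtain ⟨γ, hγ⟩ := oTh_surj h2 σ ι hι _ hmem hfix
      refine ⟨γ, ?_⟩
      rw [simHom_apply, simHom_apply]
      have h3 : semiAut (quadFormOdd m F) (scGL b hb0 * g.1) (RingEquiv.refl F)
            (semi_of_mem _ _ hmem)
          = semiAut (quadFormOdd m F) g.1 (RingEquiv.refl F) (semi_of_mem _ g.1 g.2) :=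
        semiAut_scGL_mul (Helper43.oddQF m F) b hb0 g.1 (RingEquiv.refl F)
          (semi_of_mem _ g.1 g.2) (semi_of_mem _ _ hmem)
      exact h3.symm.trans (Helper45.OO.semiAut_congr (quadFormOdd m F) (semi_of_mem _ _ hmem)
        (semi_of_mem _ _ (oTh h2 ι γ).2) hγ.symm rfl))
    (simHom (quadFormOdd m F₀)).ker (fun γ => oTh_ker hodd hm ι γ)
  have e2 : (↥(Geo.quadSimilarityGroup (F := F₀) (quadFormOdd m F₀)) ⧸ (simHom (quadFormOdd m F₀)).ker)
      ≃* ↥(inndiagPOmegaOdd m F₀) :=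
    (QuotientGroup.quotientKerEquivRange (simHom (quadFormOdd m F₀))).trans
      (MulEquiv.subgroupCongr simHom_range_odd)
  exact ⟨e1.trans e2⟩

end centiso

end Cfsg.Agent.Helper44.POm
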