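import Mathlib
import Cfsg.Agent.Helper44.OmD

/-!
# Field automorphisms of `PΩ_{2m+1}(q)` (helper44), part E: class splitting
-/

set_option autoImplicit false
set_option linter.unusedSimpArgs false
set_option linter.unusedSectionVars false
set_option linter.unusedVariables false

namespace Cfsg.Agent.Helper44.POm

open Matrix Cfsg
open Cfsg.Agent.Helper45.OO (semiAut semiMap glMap polarGram)

universe u v

/-! ### class splitting under a subgroup of index two -/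

section split

variable {X : Type*} [Group X]

theorem mul_mem_iff_relIndex_two (G T : Subgroup X) (hidx : T.relIndex G = 2) {a b : X}
    (ha : a ∈ G) (hb : b ∈ G) : a * b ∈ T ↔ (a ∈ T ↔ b ∈ T) := by
  have h := Subgroup.mul_mem_iff_of_index_two (H := T.subgroupOf G) hidx
    (a := ⟨a, ha⟩) (b := ⟨b, hb⟩)
  simpa [Subgroup.mem_subgroupOf] using h

/-- if some element of `G` outside `T` centralises `x`, the `G`-class of `x` is one `T`-class -/
theorem splitCount_one_of (G T : Subgroup X) (hidx : T.relIndex G = 2) (x c : X) (hcG : c ∈ G)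
    (hcx : c * x = x * c) (hcT : c ∉ T) : splitClassCount G T x = 1 := by
  unfold splitClassCount
  rw [Nat.card_eq_one_iff_unique]
  obtain ⟨x₀, hx₀⟩ : ∃ x₀ : {y : X // IsConjUnder G x y}, x₀.1 = x :=
    ⟨⟨x, 1, one_mem G, by simp⟩, rfl⟩
  have key : ∀ q : Quot (fun y z : {y : X // IsConjUnder G x y} => IsConjUnder T y.1 z.1),
      q = Quot.mk _ x₀ := by
    intro q
    induction q using Quot.ind with
    | _ y =>
      symm
      apply Quot.sound
      obtain ⟨y, g, hg, rfl⟩ := y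
      show IsConjUnder T x₀.1 (g * x * g⁻¹)
      rw [hx₀]
      by_cases hgT : g ∈ T
      · exact ⟨g, hgT, rfl⟩
      · refine ⟨g * c, ?_, ?_⟩
        · rw [mul_mem_iff_relIndex_two G T hidx hg hcG]
          tauto
        · have h1 : c * x * c⁻¹ = x := by rw [hcx, mul_inv_cancel_right]
          calc g * x * g⁻¹ = g * (c * x * c⁻¹) * g⁻¹ := by rw [h1]
            _ = g * c * x * (g * c)⁻¹ := by group
  constructor
  · constructor
    intro a b
    rw [key a, key b]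
  · exact ⟨Quot.mk _ x₀⟩

/-- if the centraliser of `x` in `G` lies in `T`, the `G`-class of `x` is two `T`-classes -/
theorem splitCount_two_of (G T : Subgroup X) (hTG : T ≤ G) (hidx : T.relIndex G = 2) (x : X)
    (hC : ∀ c ∈ G, c * x = x * c → c ∈ T) : splitClassCount G T x = 2 := by
  classical
  have hex : ∀ y : {y : X // IsConjUnder G x y}, ∃ g : X, g ∈ G ∧ y.1 = g * x * g⁻¹ :=
    fun y => y.2
  choose gy hgyG hgy using hex
  let fq : {y : X // IsConjUnder G x y} → Bool := fun y => decide (gy y ∈ T)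
  have key : ∀ (y : {y : X // IsConjUnder G x y}) (g : X), g ∈ G → y.1 = g * x * g⁻¹ →
      (fq y = true ↔ g ∈ T) := by
    intro y g hg hyg
    have h1 : (gy y)⁻¹ * g ∈ T := by
      apply hC _ (G.mul_mem (G.inv_mem (hgyG y)) hg)
      have h2 := (hgy y).symm.trans hyg
      calc (gy y)⁻¹ * g * x = (gy y)⁻¹ * (g * x * g⁻¹) * g := by group
        _ = (gy y)⁻¹ * (gy y * x * (gy y)⁻¹) * g := by rw [h2]
        _ = x * ((gy y)⁻¹ * g) := by group
    rw [mul_mem_iff_relIndex_two G T hidx (G.inv_mem (hgyG y)) hg, inv_mem_iff] at h1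
    show decide (gy y ∈ T) = true ↔ _
    rw [decide_eq_true_iff]
    exact h1
  have hI : ∀ y z : {y : X // IsConjUnder G x y}, IsConjUnder T y.1 z.1 → fq y = fq z := by
    rintro y z ⟨t, ht, hz⟩
    have h1 : z.1 = (t * gy y) * x * (t * gy y)⁻¹ := by
      rw [hz, hgy y]
      group
    have h2 := key z _ (G.mul_mem (hTG ht) (hgyG y)) h1
    have h3 : t * gy y ∈ T ↔ gy y ∈ T := T.mul_mem_cancel_left ht
    have h4 := key y _ (hgyG y) (hgy y)
    rw [Bool.eq_iff_iff, h4, h2, h3]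
  have hII : ∀ y z : {y : X // IsConjUnder G x y}, fq y = fq z → IsConjUnder T y.1 z.1 := by
    intro y z hyz
    refine ⟨gy z * (gy y)⁻¹, ?_, ?_⟩
    · rw [mul_mem_iff_relIndex_two G T hidx (hgyG z) (G.inv_mem (hgyG y)), inv_mem_iff,
        ← key z _ (hgyG z) (hgy z), ← key y _ (hgyG y) (hgy y), hyz]
    · rw [hgy z]
      conv_rhs => rw [hgy y]
      group
  have hIII : Function.Surjective fq := by
    obtain ⟨a, haG, haT⟩ : ∃ a ∈ G, a ∉ T := by
      by_contra hcon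
      push_neg at hcon
      have h1 : T.relIndex G = 1 := Subgroup.relIndex_eq_one.mpr hcon
      omega
    intro b
    cases b with
    | true =>
      refine ⟨⟨x, 1, one_mem G, by simp⟩, ?_⟩
      rw [key _ 1 (one_mem G) (by simp)]
      exact one_mem T
    | false =>
      refine ⟨⟨a * x * a⁻¹, a, haG, rfl⟩, ?_⟩
      have h1 := key ⟨a * x * a⁻¹, a, haG, rfl⟩ a haG rfl
      cases h : fq ⟨a * x * a⁻¹, a, haG, rfl⟩ with
      | true => exact absurd (h1.mp h) haT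
      | false => rfl
  unfold splitClassCount
  have hB : Nat.card Bool = 2 := by simp
  rw [← hB]
  apply Nat.card_eq_of_bijective (Quot.lift fq hI)
  constructor
  · intro a b
    induction a using Quot.ind with
    | _ y =>
      induction b using Quot.ind with
      | _ z =>
        intro h
        exact Quot.sound (hII y z h)
  · intro b
    obtain ⟨y, rfl⟩ := hIII b
    exact ⟨Quot.mk _ y, rfl⟩

end split

/-! ### squares in a subfield -/

section squares

variable {F : Type u} [Field F] [Fintype F] {F₀ : Type v} [Field F₀] [Fintype F₀]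

theorem twR_fixed_pow {R : Type*} [CommRing R] (τ : R →+* R) (a : R) (ha : τ a = a) (k : ℕ) :
    PSLn.twR τ a k = a ^ k := by
  induction k with
  | zero => rw [PSLn.twR_zero, pow_zero]
  | succ k ih => rw [PSLn.twR_succ, ih, map_pow, ha, pow_succ']

/-- a non-square of the fixed field of an automorphism of odd order stays a non-square -/
theorem not_isSquare_iota_of_odd (σ : RingAut F) (r : ℕ) (hr : orderOf σ = r) (hrodd : Odd r)
    (ι : F₀ →+* F) (hι : ∀ x, σ x = x ↔ x ∈ Set.range ι) (ε₀ : F₀) (hε₀ : ¬ IsSquare ε₀) :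
    ¬ IsSquare (ι ε₀) := by
  rintro ⟨b, hb⟩
  have hε0 : ε₀ ≠ 0 := by
    rintro rfl
    exact hε₀ ⟨0, by simp⟩
  have hb0 : b ≠ 0 := by
    rintro rfl
    rw [mul_zero] at hb
    exact hε0 (ι.injective (hb.trans (map_zero ι).symm))
  have hN := PSLn.lang_nmF_fixed σ r hr b hb0
  obtain ⟨n₀, hn₀⟩ := (hι _).mp hN
  have hfix : (σ : F →+* F) (ι ε₀) = ι ε₀ := (hι _).mpr ⟨ε₀, rfl⟩
  have h1 : PSLn.lang_nmF σ r b * PSLn.lang_nmF σ r b = ι ε₀ ^ r := by
    rw [← map_mul, ← hb, PSLn.lang_nmF_apply, twR_fixed_pow _ _ hfix]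
  rw [← hn₀, ← map_mul, ← map_pow] at h1
  have h2 : n₀ * n₀ = ε₀ ^ r := ι.injective h1
  obtain ⟨k, hk⟩ := hrodd
  apply hε₀
  refine ⟨n₀ / ε₀ ^ k, ?_⟩
  have h3 : ε₀ ^ k ≠ 0 := pow_ne_zero _ hε0
  rw [hk] at h2
  field_simp
  rw [pow_two n₀, h2]
  ring

/-- every element of the fixed field of an involution is a square -/
theorem isSquare_iota_of_two (p f : ℕ) [Fact p.Prime] (hF : Fintype.card F = p ^ f)
    (hodd : Odd (Fintype.card F)) (hF₀ : Fintype.card F₀ = p ^ (f / 2)) (h2f : 2 ∣ f)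
    (ι : F₀ →+* F) (c : F₀) : IsSquare (ι c) := by
  by_cases hc : c = 0
  · subst hc
    exact ⟨0, by simp⟩
  have h2 : (2 : F) ≠ 0 := Helper45.two_ne_zero_of_odd_card hodd
  have hιc : ι c ≠ 0 := (map_ne_zero ι).mpr hc
  rw [FiniteField.isSquare_iff (Helper45.ringChar_ne_two h2) hιc]
  obtain ⟨q₀, hq₀⟩ : ∃ q₀, q₀ = p ^ (f / 2) := ⟨_, rfl⟩
  have hq : Fintype.card F = q₀ * q₀ := by
    rw [hF, hq₀, ← pow_add]
    congr 1
    omega
  have hq₀odd : Odd q₀ := by
    rw [hq] at hodd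
    exact (Nat.odd_mul.mp hodd).1
  obtain ⟨k, hk⟩ := hq₀odd
  have h3 : Fintype.card F / 2 = (q₀ - 1) * (k + 1) := by
    rw [hq, hk]
    have h4 : (2 * k + 1) * (2 * k + 1) = 2 * ((2 * k + 1 - 1) * (k + 1)) + 1 := by
      have h5 : 2 * k + 1 - 1 = 2 * k := by omega
      rw [h5]
      ring
    rw [h4]
    omega
  have h5 : c ^ (q₀ - 1) = 1 := by
    rw [hq₀, ← hF₀]
    exact FiniteField.pow_card_sub_one_eq_one c hc
  rw [h3, ← map_pow, pow_mul, h5, one_pow, map_one]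

end squares

/-! ### reflections under the subfield embedding -/

section refl

variable {F : Type u} [Field F] {F₀ : Type v} [Field F₀] {m : ℕ}

theorem reflMatrix_map (ι : F₀ →+* F) (v : OI m → F₀) :
    (reflectionMatrix (quadFormOdd m F₀) v).map ι
      = reflectionMatrix (quadFormOdd m F) (ivec ι v) := by
  ext i j
  unfold reflectionMatrix polarVec
  rw [Matrix.map_apply, Matrix.sub_apply, Matrix.sub_apply, Matrix.smul_apply, Matrix.smul_apply,
    Matrix.vecMulVec_apply, Matrix.vecMulVec_apply, smul_eq_mul, smul_eq_mul, map_sub, map_mul,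
    map_mul, map_inv₀, qodd_ivec, ← ivec_single ι j, polar_ivec, ivec_apply]
  congr 1
  rw [Matrix.one_apply, Matrix.one_apply]
  by_cases hij : i = j
  · rw [if_pos hij, if_pos hij, map_one]
  · rw [if_neg hij, if_neg hij, map_zero]

theorem oThO_reflO (h2 : (2 : F) ≠ 0) (ι : F₀ →+* F) (v : OI m → F₀)
    (hv : Helper43.oddQF m F₀ v ≠ 0) (hv' : Helper43.oddQF m F (ivec ι v) ≠ 0) :
    oThO h2 ι (Helper45.reflO (Helper43.oddQF m F₀) v hv)
      = Helper45.reflO (Helper43.oddQF m F) (ivec ι v) hv' := by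
  apply Subtype.ext
  apply Units.ext
  exact reflMatrix_map ι v

theorem oThO_fixed (h2 : (2 : F) ≠ 0) (σ : RingAut F) (ι : F₀ →+* F)
    (hι : ∀ x, σ x = x ↔ x ∈ Set.range ι) (γ : ↥(isometryGroup F₀ (quadFormOdd m F₀))) :
    glMap σ ((oThO h2 ι γ : ↥(isometryGroup F (quadFormOdd m F))) : GL (OI m) F)
      = ((oThO h2 ι γ : ↥(isometryGroup F (quadFormOdd m F))) : GL (OI m) F) := by
  apply Units.ext
  rw [Helper45.OO.glMap_coe, oThO_coe]
  ext i j
  exact (hι _).mpr ⟨_, rfl⟩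

theorem oThO_det (h2 : (2 : F) ≠ 0) (ι : F₀ →+* F) (γ : ↥(isometryGroup F₀ (quadFormOdd m F₀))) :
    (((oThO h2 ι γ : ↥(isometryGroup F (quadFormOdd m F))) : GL (OI m) F) :
      Matrix (OI m) (OI m) F).det = ι ((γ : GL (OI m) F₀) : Matrix (OI m) (OI m) F₀).det := by
  rw [oThO_coe]
  exact (RingHom.map_det ι _).symm

end refl

/-! ### the spin characters on the subfield group -/

section spin

variable {F : Type u} [Field F] [Fintype F] {F₀ : Type v} [Field F₀] [Fintype F₀] {m : ℕ}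

/-- when every element of the subfield is a square of the big field, the second spin character
is trivial on the orthogonal group of the subfield -/
theorem spin_eps_oThO (hodd : Odd (Fintype.card F)) (ι : F₀ →+* F)
    (hsq : ∀ c : F₀, IsSquare (ι c)) (ε : F) (hε : ¬ IsSquare ε)
    (γ : ↥(isometryGroup F₀ (quadFormOdd m F₀))) :
    Helper45.spin (quadFormOdd m F) ε (oThO (Helper45.two_ne_zero_of_odd_card hodd) ι γ) = 1 := by
  have h2 : (2 : F) ≠ 0 := Helper45.two_ne_zero_of_odd_card hodd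
  have h2₀ : (2 : F₀) ≠ 0 := two_ne_zero_sub h2 ι
  have hQ₀ := Helper45.oddQF_nondeg' (F := F₀) m h2₀
  have hR : Helper45.reflGroup (Helper43.oddQF m F₀) = ⊤ :=
    Helper44.reflGroup_eq_top_of (Helper43.oddQF m F₀) hQ₀ (Or.inr (by rw [card_OI]; omega))
  have hR' : Subgroup.closure {s : ↥(isometryGroup F₀ (quadFormOdd m F₀)) |
      ∃ (v : OI m → F₀) (hv : Helper43.oddQF m F₀ v ≠ 0),
        s = Helper45.reflO (Helper43.oddQF m F₀) v hv} = ⊤ := hR
  have hχ : (Helper45.spin (quadFormOdd m F) ε).comp (oThO h2 ι) = 1 := by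
    apply MonoidHom.eq_of_eqOn_dense hR'
    rintro s ⟨v, hv, rfl⟩
    have hv' : Helper43.oddQF m F (ivec ι v) ≠ 0 := by
      show quadFormOdd m F (ivec ι v) ≠ 0
      rw [qodd_ivec]
      exact (map_ne_zero ι).mpr hv
    show Helper45.spin (quadFormOdd m F) ε
      (oThO h2 ι (Helper45.reflO (Helper43.oddQF m F₀) v hv)) = 1
    rw [oThO_reflO h2 ι v hv hv']
    exact Helper45.spin_eps_reflO_sq (Helper43.oddQF m F) h2 ε hε (ivec ι v) hv'
      (by
        show IsSquare (quadFormOdd m F (ivec ι v))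
        rw [qodd_ivec]
        exact hsq _)
  exact congrArg (fun f : ↥(isometryGroup F₀ (quadFormOdd m F₀)) →* ℤˣ => f γ) hχ

/-- when every element of the subfield is a square of the big field, the special orthogonal
group of the subfield lies in `Ω` of the big field -/
theorem oThO_mem_omega (hodd : Odd (Fintype.card F)) (hm : 3 ≤ m) (ι : F₀ →+* F)
    (hsq : ∀ c : F₀, IsSquare (ι c)) (γ : ↥(isometryGroup F₀ (quadFormOdd m F₀)))
    (hdet : ((γ : GL (OI m) F₀) : Matrix (OI m) (OI m) F₀).det = 1) :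
    oThO (Helper45.two_ne_zero_of_odd_card hodd) ι γ ∈ Omega F (quadFormOdd m F) := by
  have h2 : (2 : F) ≠ 0 := Helper45.two_ne_zero_of_odd_card hodd
  have hQ := Helper45.oddQF_nondeg' (F := F) m h2
  have hcard2 : 2 ≤ Fintype.card (OI m) := by
    rw [card_OI]
    omega
  obtain ⟨ε, hε⟩ := FiniteField.exists_nonsquare (Helper45.ringChar_ne_two h2)
  have h1 := spin_eps_oThO hodd ι hsq ε hε γ
  have hd : (((oThO h2 ι γ : ↥(isometryGroup F (quadFormOdd m F))) : GL (OI m) F) :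
      Matrix (OI m) (OI m) F).det = 1 := by
    rw [oThO_det, hdet, map_one]
  have h3 : Helper45.spin (quadFormOdd m F) 1 (oThO h2 ι γ)
      * Helper45.spin (quadFormOdd m F) ε (oThO h2 ι γ) = 1 :=
    (Helper45.det_eq_one_iff (Helper43.oddQF m F) h2 hQ ε hε (oThO h2 ι γ)).mp hd
  rw [h1, mul_one] at h3
  exact (Helper45.mem_omega_iff (Helper43.oddQF m F) h2 hQ hcard2 ε hε (oThO h2 ι γ)).mpr ⟨h3, h1⟩

/-- **`r = 2`**: the centraliser of the field automorphism in `Inndiag` consists of inner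
automorphisms -/
theorem cent_le_inn_of_sq (hodd : Odd (Fintype.card F)) (hm : 3 ≤ m) (σ : RingAut F) (r : ℕ)
    (hr : orderOf σ = r) (hr0 : 0 < r) (ι : F₀ →+* F) (hι : ∀ x, σ x = x ↔ x ∈ Set.range ι)
    (hsq : ∀ c : F₀, IsSquare (ι c))
    (c : MulAut (POmega F (quadFormOdd m F))) (hc : c ∈ inndiagPOmegaOdd m F)
    (hcx : c * oF σ = oF σ * c) : c ∈ Inn (POmega F (quadFormOdd m F)) := by
  have h2 : (2 : F) ≠ 0 := Helper45.two_ne_zero_of_odd_card hodd
  have h2₀ : (2 : F₀) ≠ 0 := two_ne_zero_sub h2 ι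
  have hQ₀ := Helper45.oddQF_nondeg' (F := F₀) m h2₀
  have hoddι : Odd (Fintype.card (OI m)) := ⟨m, card_OI⟩
  obtain ⟨g, rfl⟩ := (mem_inndiag_odd c).mp hc
  obtain ⟨b, hb0, hfix⟩ := simHom_comm_oF hodd hm σ r hr hr0 g hcx
  have hmem : scGL b hb0 * g.1 ∈ Geo.quadSimilarityGroup (F := F) (quadFormOdd m F) :=
    Subgroup.mul_mem _ (scGL_semi (Helper43.oddQF m F) b hb0) g.2
  obtain ⟨γ, hγ⟩ := oTh_surj h2 σ ι hι _ hmem hfix
  obtain ⟨sc, e, hsc1, hmemO, hdet⟩ :=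
    Helper45.OO.sim_odd (Helper43.oddQF m F₀) h2₀ hQ₀ hoddι γ.1 γ.2
  have he0 : e ≠ 0 := by
    rintro rfl
    have h0 : (sc : Matrix (OI m) (OI m) F₀) = 0 := by rw [hsc1, zero_smul]
    have h1 : (sc : Matrix (OI m) (OI m) F₀) * ((sc⁻¹ : GL (OI m) F₀) : Matrix (OI m) (OI m) F₀)
        = 1 := Units.mul_inv sc
    rw [h0, zero_mul] at h1
    have h4 := congrFun (congrFun h1 (Sum.inl ())) (Sum.inl ())
    simp at h4
  obtain ⟨γ₁, hγ₁⟩ : ∃ γ₁ : ↥(isometryGroup F₀ (quadFormOdd m F₀)), γ₁ = ⟨sc * γ.1, hmemO⟩ :=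
    ⟨_, rfl⟩
  have hΩ := oThO_mem_omega hodd hm ι hsq γ₁ (by rw [hγ₁]; exact hdet)
  have hne : ι e * b ≠ 0 := mul_ne_zero ((map_ne_zero ι).mpr he0) hb0
  have hgl : ((oThO h2 ι γ₁ : ↥(isometryGroup F (quadFormOdd m F))) : GL (OI m) F)
      = scGL (ι e * b) hne * g.1 := by
    apply Units.ext
    rw [oThO_coe, hγ₁, scGL_mul_coe]
    show ((sc * γ.1 : GL (OI m) F₀) : Matrix (OI m) (OI m) F₀).map ι = _
    rw [Units.val_mul, hsc1, Matrix.smul_mul, Matrix.one_mul]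
    have h5 : ((γ : GL (OI m) F₀) : Matrix (OI m) (OI m) F₀).map ι
        = b • ((g : GL (OI m) F) : Matrix (OI m) (OI m) F) := by
      rw [← oTh_coe h2 ι γ, hγ, scGL_mul_coe]
    have h6 : (e • ((γ : GL (OI m) F₀) : Matrix (OI m) (OI m) F₀)).map ι
        = ι e • ((γ : GL (OI m) F₀) : Matrix (OI m) (OI m) F₀).map ι := by
      ext i j
      simp
    rw [h6, h5, smul_smul]
  have hmem' : scGL (ι e * b) hne * g.1 ∈ Geo.quadSimilarityGroup (F := F) (quadFormOdd m F) :=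
    Subgroup.mul_mem _ (scGL_semi (Helper43.oddQF m F) _ hne) g.2
  apply Helper45.mem_inn_of_ind_omega (Helper43.oddQF m F) (oThO h2 ι γ₁) hΩ
  rw [hgl]
  apply (Helper45.OO.semi_ind_iff _ _ (RingEquiv.refl F) (semi_of_mem _ _ hmem') _).mpr
  rw [simHom_apply]
  exact (semiAut_scGL_mul (Helper43.oddQF m F) _ hne g.1 (RingEquiv.refl F)
    (semi_of_mem _ g.1 g.2) (semi_of_mem _ _ hmem')).symm

/-- **`r` odd**: some element of the centraliser of the field automorphism in `Inndiag` is not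
inner -/
theorem exists_cent_not_inn (hodd : Odd (Fintype.card F)) (hm : 3 ≤ m) (σ : RingAut F)
    (ι : F₀ →+* F) (hι : ∀ x, σ x = x ↔ x ∈ Set.range ι) (ε₀ : F₀) (hε₀ : ¬ IsSquare (ι ε₀)) :
    ∃ c ∈ inndiagPOmegaOdd m F, c * oF σ = oF σ * c ∧ c ∉ Inn (POmega F (quadFormOdd m F)) := by
  have h2 : (2 : F) ≠ 0 := Helper45.two_ne_zero_of_odd_card hodd
  have h2₀ : (2 : F₀) ≠ 0 := two_ne_zero_sub h2 ι
  have hQ := Helper45.oddQF_nondeg' (F := F) m h2
  have hQ₀ := Helper45.oddQF_nondeg' (F := F₀) m h2₀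
  have hcard : Fintype.card (OI m) = 2 * m + 1 := card_OI
  have hn5 : 5 ≤ Fintype.card (OI m) := by omega
  have hcard2 : 2 ≤ Fintype.card (OI m) := by omega
  have hoddι : Odd (Fintype.card (OI m)) := ⟨m, card_OI⟩
  obtain ⟨u₀, hu₀⟩ := Helper45.exists_norm_eq (Helper43.oddQF m F₀) h2₀ hQ₀ hcard2 1
  obtain ⟨w₀, hw₀⟩ := Helper45.exists_norm_eq (Helper43.oddQF m F₀) h2₀ hQ₀ hcard2 ε₀
  have hε₀0 : ε₀ ≠ 0 := by
    rintro rfl
    exact hε₀ ⟨0, by simp⟩
  have hu₀0 : Helper43.oddQF m F₀ u₀ ≠ 0 := by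
    rw [hu₀]
    exact one_ne_zero
  have hw₀0 : Helper43.oddQF m F₀ w₀ ≠ 0 := by
    rw [hw₀]
    exact hε₀0
  have hu : Helper43.oddQF m F (ivec ι u₀) = 1 := by
    show quadFormOdd m F (ivec ι u₀) = 1
    have h1 : quadFormOdd m F₀ u₀ = 1 := hu₀
    rw [qodd_ivec, h1, map_one]
  have hw : Helper43.oddQF m F (ivec ι w₀) = ι ε₀ := by
    show quadFormOdd m F (ivec ι w₀) = ι ε₀
    have h1 : quadFormOdd m F₀ w₀ = ε₀ := hw₀
    rw [qodd_ivec, h1]
  have hu0 : Helper43.oddQF m F (ivec ι u₀) ≠ 0 := by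
    rw [hu]
    exact one_ne_zero
  have hw0 : Helper43.oddQF m F (ivec ι w₀) ≠ 0 := by
    rw [hw]
    exact (map_ne_zero ι).mpr hε₀0
  obtain ⟨γu, hγu⟩ : ∃ γu : ↥(isometryGroup F₀ (quadFormOdd m F₀)),
      γu = Helper45.reflO (Helper43.oddQF m F₀) u₀ hu₀0 := ⟨_, rfl⟩
  obtain ⟨γw, hγw⟩ : ∃ γw : ↥(isometryGroup F₀ (quadFormOdd m F₀)),
      γw = Helper45.reflO (Helper43.oddQF m F₀) w₀ hw₀0 := ⟨_, rfl⟩
  obtain ⟨ru, hru⟩ : ∃ ru : ↥(isometryGroup F (quadFormOdd m F)),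
      ru = Helper45.reflO (Helper43.oddQF m F) (ivec ι u₀) hu0 := ⟨_, rfl⟩
  obtain ⟨rw, hrw⟩ : ∃ rw : ↥(isometryGroup F (quadFormOdd m F)),
      rw = Helper45.reflO (Helper43.oddQF m F) (ivec ι w₀) hw0 := ⟨_, rfl⟩
  have hθu : oThO h2 ι γu = ru := by
    rw [hγu, hru]
    exact oThO_reflO h2 ι u₀ hu₀0 hu0
  have hθw : oThO h2 ι γw = rw := by
    rw [hγw, hrw]
    exact oThO_reflO h2 ι w₀ hw₀0 hw0
  obtain ⟨g, hg⟩ : ∃ g : ↥(isometryGroup F (quadFormOdd m F)), g = oThO h2 ι (γu * γw) :=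
    ⟨_, rfl⟩
  have hg' : g = ru * rw := by
    rw [hg, map_mul, hθu, hθw]
  have hs1 : Helper45.spin (quadFormOdd m F) 1 g = -1 := by
    have a1 : Helper45.spin (quadFormOdd m F) 1 ru = -1 := by
      rw [hru]
      exact Helper45.spin_one_reflO_sq (Helper43.oddQF m F) h2 (ivec ι u₀) hu0
        (by rw [hu]; exact ⟨1, by ring⟩)
    have a2 : Helper45.spin (quadFormOdd m F) 1 rw = 1 := by
      rw [hrw]
      exact Helper45.spin_one_reflO_nsq (Helper43.oddQF m F) h2 (ivec ι w₀) hw0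
        (by rw [hw]; exact hε₀)
    rw [hg', map_mul, a1, a2, mul_one]
  have hsε : Helper45.spin (quadFormOdd m F) (ι ε₀) g = -1 := by
    have a1 : Helper45.spin (quadFormOdd m F) (ι ε₀) ru = 1 := by
      rw [hru]
      exact Helper45.spin_eps_reflO_sq (Helper43.oddQF m F) h2 (ι ε₀) hε₀ (ivec ι u₀) hu0
        (by rw [hu]; exact ⟨1, by ring⟩)
    have a2 : Helper45.spin (quadFormOdd m F) (ι ε₀) rw = -1 := by
      rw [hrw]
      exact Helper45.spin_eps_reflO_nsq (Helper43.oddQF m F) h2 (ι ε₀) hε₀ (ivec ι w₀) hw0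
        (by rw [hw]; exact hε₀)
    rw [hg', map_mul, a1, a2, one_mul]
  have hdet : ((g : GL (OI m) F) : Matrix (OI m) (OI m) F).det = 1 :=
    (Helper45.det_eq_one_iff (Helper43.oddQF m F) h2 hQ (ι ε₀) hε₀ g).mpr
      (by
        show Helper45.spin (quadFormOdd m F) 1 g * Helper45.spin (quadFormOdd m F) (ι ε₀) g = 1
        rw [hs1, hsε]
        rfl)
  have hgsim : (g : GL (OI m) F) ∈ Geo.quadSimilarityGroup (F := F) (quadFormOdd m F) :=
    Helper45.iso_le_sim _ g.2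
  refine ⟨simHom (quadFormOdd m F) ⟨g.1, hgsim⟩, (mem_inndiag_odd _).mpr ⟨_, rfl⟩, ?_, ?_⟩
  · apply simHom_comm_of_fixed
    show glMap σ g.1 = g.1
    rw [hg]
    exact oThO_fixed h2 σ ι hι _
  · intro hinn
    have hΩ := Helper45.OO.omega_of_mem_inn_odd (Helper43.oddQF m F) h2 hoddι
      (Helper45.OO.scalar_of_ind (Helper43.oddQF m F) hQ hn5) ⟨ivec ι u₀, hu0⟩ g hdet
      (simHom (quadFormOdd m F) ⟨g.1, hgsim⟩)
      ((Helper45.OO.semi_ind_iff _ _ (RingEquiv.refl F) (semi_of_mem _ _ hgsim) _).mpr rfl) hinn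
    have h5 : Helper45.spin (quadFormOdd m F) 1 g = 1 :=
      ((Helper45.mem_omega_iff (Helper43.oddQF m F) h2 hQ hcard2 (ι ε₀) hε₀ g).mp hΩ).1
    rw [hs1] at h5
    exact absurd h5 (by decide)

end spin

/-! ### the main statement -/

section main

variable {F : Type u} [Field F] [Fintype F] {m : ℕ}

/-- **field automorphisms of `PΩ_{2m+1}(q)` of prime order `r`** -/
theorem olang_field_class (p f : ℕ) [Fact p.Prime] (hF : Fintype.card F = p ^ f) (hf : 1 ≤ f)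
    (hodd : Odd (Fintype.card F)) (hm : 3 ≤ m)
    (x : MulAut (POmega F (quadFormOdd m F)))
    (hx : IsFieldAutClassPOmega (quadFormOdd m F) x) (r : ℕ) (hr : r.Prime)
    (hxr : orderOf x = r) (F₀ : Type v) [Field F₀] [Fintype F₀]
    (hF₀ : Fintype.card F₀ = p ^ (f / r)) :
    r ∣ f ∧
      Nonempty (↥(inndiagPOmegaOdd m F ⊓ Subgroup.centralizer {x}) ≃* ↥(inndiagPOmegaOdd m F₀)) ∧
      (Odd r → splitClassCount (inndiagPOmegaOdd m F) (Inn (POmega F (quadFormOdd m F))) x = 1) ∧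
      (r = 2 → splitClassCount (inndiagPOmegaOdd m F) (Inn (POmega F (quadFormOdd m F))) x = 2) := by
  have h2 : (2 : F) ≠ 0 := Helper45.two_ne_zero_of_odd_card hodd
  have hQ := Helper45.oddQF_nondeg' (F := F) m h2
  have hcard : Fintype.card (OI m) = 2 * m + 1 := card_OI
  have hn5 : 5 ≤ Fintype.card (OI m) := by omega
  have hoddι : Odd (Fintype.card (OI m)) := ⟨m, card_OI⟩
  obtain ⟨Θ, hΘ1, hΘ2, hker⟩ := odd_theta (F := F) hodd hm
  obtain ⟨α, φ, σ, hσ, hφ, hα⟩ := hx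
  rw [oF_of_std σ φ hφ] at hα
  have hσr : orderOf (σ : RingAut F) = r := by
    rw [← orderOf_oF hodd hm σ, ← hα, PSLn.lang_orderOf_conj, hxr]
  have hx' : x = α⁻¹ * oF σ * α⁻¹⁻¹ := by
    rw [← hα]
    group
  have hrf := (PSLn.lang_card_fix p f hF σ r hσr hr.pos).1
  have hN : ∀ (a : MulAut (POmega F (quadFormOdd m F))), ∀ h ∈ inndiagPOmegaOdd m F,
      a * h * a⁻¹ ∈ inndiagPOmegaOdd m F := by
    intro a h hh
    rw [← hker] at hh ⊢
    exact (inferInstance : Θ.ker.Normal).conj_mem h hh a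
  have hH : ∀ h ∈ inndiagPOmegaOdd m F, α⁻¹ * h * α⁻¹⁻¹ ∈ inndiagPOmegaOdd m F :=
    fun h hh => hN α⁻¹ h hh
  have hH' : ∀ h ∈ inndiagPOmegaOdd m F, α⁻¹⁻¹ * h * α⁻¹ ∈ inndiagPOmegaOdd m F := by
    intro h hh
    have h1 := hN α⁻¹⁻¹ h hh
    rwa [inv_inv] at h1 ⊢
  have hK : ∀ k ∈ Inn (POmega F (quadFormOdd m F)),
      α⁻¹ * k * α⁻¹⁻¹ ∈ Inn (POmega F (quadFormOdd m F)) :=
    fun k hk => (innNormal (POmega F (quadFormOdd m F))).conj_mem k hk α⁻¹
  have hK' : ∀ k ∈ Inn (POmega F (quadFormOdd m F)),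
      α⁻¹⁻¹ * k * α⁻¹ ∈ Inn (POmega F (quadFormOdd m F)) := by
    intro k hk
    have h1 := (innNormal (POmega F (quadFormOdd m F))).conj_mem k hk α⁻¹⁻¹
    rwa [inv_inv] at h1 ⊢
  obtain ⟨ι, hι⟩ := PSLn.lang_exists_embedding p f hF σ r hσr hr.pos F₀ hF₀
  have hidx : (Inn (POmega F (quadFormOdd m F))).relIndex (inndiagPOmegaOdd m F) = 2 :=
    Helper45.OO.odd_relIndex (Helper43.oddQF m F) h2 hQ hn5 hoddι (inndiagPOmegaOdd m F)
      (fun a => Helper45.mem_pgoAut_iff (quadFormOdd m F) a)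
  have hTG : Inn (POmega F (quadFormOdd m F)) ≤ inndiagPOmegaOdd m F := by
    intro a ha
    exact (Helper45.mem_pgoAut_iff (quadFormOdd m F) a).mpr
      (Helper45.OO.inn_sim (Helper43.oddQF m F) a ha)
  refine ⟨hrf, ?_, ?_, ?_⟩
  · obtain ⟨e1⟩ := PSpn.centralizer_conj_iso (inndiagPOmegaOdd m F) α⁻¹ hH hH' (oF σ)
    obtain ⟨e2⟩ := odd_centralizer_iso hodd hm σ r hσr hr.pos ι hι
    rw [hx']
    exact ⟨e1.trans e2⟩
  · intro hrodd
    rw [hx', PSpn.splitCount_conj _ _ α⁻¹ hH hH' hK hK' (oF σ)]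
    have h2₀ : (2 : F₀) ≠ 0 := two_ne_zero_sub h2 ι
    obtain ⟨ε₀, hε₀⟩ := FiniteField.exists_nonsquare (Helper45.ringChar_ne_two h2₀)
    have hε := not_isSquare_iota_of_odd σ r hσr hrodd ι hι ε₀ hε₀
    obtain ⟨c, hcG, hcx, hcT⟩ := exists_cent_not_inn hodd hm σ ι hι ε₀ hε
    exact splitCount_one_of _ _ hidx (oF σ) c hcG hcx hcT
  · intro hr2
    subst hr2
    rw [hx', PSpn.splitCount_conj _ _ α⁻¹ hH hH' hK hK' (oF σ)]
    have hsq : ∀ c : F₀, IsSquare (ι c) := isSquare_iota_of_two p f hF hodd hF₀ hrf ι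
    exact splitCount_two_of _ _ hTG hidx (oF σ)
      (fun c hcG hcx => cent_le_inn_of_sq hodd hm σ 2 hσr hr.pos ι hι hsq c hcG hcx)

end main

end Cfsg.Agent.Helper44.POm
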