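import Mathlib
import Cfsg.Agent.Helper44.SpQ

/-!
# Local balance for `PSp_{2m}(q)` (helper44), part R

For an automorphism `x` of prime order `p ≠ char` of `PSp_{2m}(q)` that is not inner-diagonal,
and a group `A` of automorphisms containing the inner ones, `O_{p'}(C_A(x)) ≠ 1` if and only if
`p` does not divide the number of fixed points of `x` (and `x` is a field automorphism).
-/

set_option autoImplicit false
set_option linter.unusedSimpArgs false
set_option linter.unusedSectionVars false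
set_option linter.unusedVariables false

namespace Cfsg.Agent.Helper44.PSpn

open Matrix
open scoped Pointwise
open Cfsg.Agent.Helper13 (sympForm_add_left sympForm_add_right sympForm_smul_left
  sympForm_smul_right sympForm_swap sympForm_self sympForm_zero_left sympForm_zero_right
  sympForm_neg_left sympForm_neg_right sympForm_sub_left sympForm_sub_right)
open Cfsg.Agent.Helper5 (spTv spTv_mulVec sp_ext sp_sympForm sp_coe_one sp_mul_mulVec
  sp_inv_mulVec sp_mulVec_inv)

universe u v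

/-! ### the `p'`-core of the centraliser of an automorphism: the skeleton -/

section skeleton

variable {K : Type*} [Group K]

/-- if `p` does not divide the number of fixed points of `x`, the inner automorphisms by fixed
points form a normal `p'`-subgroup of `C_A(x)` -/
theorem core_ne_bot_of_fix (A : Subgroup (MulAut K)) (hinn : ∀ k : K, MulAut.conj k ∈ A)
    (p : ℕ) (x : MulAut K)
    (hcop : Nat.Coprime p (Nat.card ↥(MonoidHom.eqLocus x.toMonoidHom (MonoidHom.id K))))
    (k₀ : K) (hk₀ : x k₀ = k₀) (hk₀1 : MulAut.conj k₀ ≠ 1) :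
    Cfsg.pPrimeCore p ↥(A ⊓ Subgroup.centralizer {x}) ≠ ⊥ := by
  have hmem : ∀ k : ↥(MonoidHom.eqLocus x.toMonoidHom (MonoidHom.id K)),
      MulAut.conj (k : K) ∈ A ⊓ Subgroup.centralizer {x} := by
    intro k
    refine Subgroup.mem_inf.2 ⟨hinn _, ?_⟩
    rw [Subgroup.mem_centralizer_singleton_iff]
    have hk : x (k : K) = k := k.2
    have h1 : x * MulAut.conj (k : K) * x⁻¹ = MulAut.conj (x (k : K)) := conj_mulAut x k
    rw [hk] at h1
    calc MulAut.conj (k : K) * x = (x * MulAut.conj (k : K) * x⁻¹) * x := by rw [h1]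
      _ = x * MulAut.conj (k : K) := by group
  let φ : ↥(MonoidHom.eqLocus x.toMonoidHom (MonoidHom.id K)) →*
      ↥(A ⊓ Subgroup.centralizer {x}) :=
    ((MulAut.conj : K →* MulAut K).comp (Subgroup.subtype _)).codRestrict _ hmem
  have hnorm : φ.range.Normal := by
    constructor
    rintro _ ⟨k, rfl⟩ c
    have hc : (c : MulAut K) * x = x * (c : MulAut K) :=
      Subgroup.mem_centralizer_singleton_iff.1 (Subgroup.mem_inf.1 c.2).2
    have hk : x (k : K) = k := k.2
    have hck : x ((c : MulAut K) (k : K)) = (c : MulAut K) (k : K) := by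
      have h1 := congrArg (fun f : MulAut K => f (k : K)) hc
      simp only [MulAut.mul_apply] at h1
      rw [← h1, hk]
    refine ⟨⟨(c : MulAut K) (k : K), hck⟩, ?_⟩
    apply Subtype.ext
    show MulAut.conj ((c : MulAut K) (k : K))
      = (c : MulAut K) * MulAut.conj (k : K) * (c : MulAut K)⁻¹
    rw [conj_mulAut]
  have hcard : (Nat.card φ.range).Coprime p :=
    Nat.Coprime.coprime_dvd_left (Subgroup.card_range_dvd φ) hcop.symm
  have hne : φ.range ≠ ⊥ := by
    intro h
    have h1 : φ ⟨k₀, hk₀⟩ ∈ φ.range := ⟨_, rfl⟩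
    rw [h, Subgroup.mem_bot] at h1
    exact hk₀1 (congrArg Subtype.val h1)
  intro hbot
  have hle : φ.range ≤ Cfsg.pPrimeCore p ↥(A ⊓ Subgroup.centralizer {x}) :=
    le_sSup ⟨hnorm, hcard⟩
  rw [hbot, le_bot_iff] at hle
  exact hne hle

/-- the `p'`-core of `C_A(x)` is trivial if the normal `p'`-subgroups of the group of fixed
points are trivial and the automorphisms fixing all fixed points are powers of `x` -/
theorem core_eq_bot_of (hZ : ∀ k : K, MulAut.conj k = 1 → k = 1)
    (A : Subgroup (MulAut K)) (hinn : ∀ k : K, MulAut.conj k ∈ A) (p : ℕ) [Fact p.Prime]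
    (x : MulAut K) (hxp : orderOf x = p)
    (H1 : ∀ M : Subgroup K, (∀ c : K, x c = c → ∀ k ∈ M, c * k * c⁻¹ ∈ M) →
      (∀ k ∈ M, x k = k) → (Nat.card M).Coprime p → M = ⊥)
    (H2 : ∀ n : MulAut K, (∀ k : K, x k = k → n k = k) → n ∈ Subgroup.zpowers x) :
    Cfsg.pPrimeCore p ↥(A ⊓ Subgroup.centralizer {x}) = ⊥ := by
  unfold Cfsg.pPrimeCore
  rw [eq_bot_iff]
  apply sSup_le
  rintro N ⟨hNn, hNc⟩
  have hC : ∀ k : K, x k = k → MulAut.conj k ∈ A ⊓ Subgroup.centralizer {x} := by
    intro k hk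
    refine Subgroup.mem_inf.2 ⟨hinn k, ?_⟩
    rw [Subgroup.mem_centralizer_singleton_iff]
    have h1 : x * MulAut.conj k * x⁻¹ = MulAut.conj (x k) := conj_mulAut x k
    rw [hk] at h1
    calc MulAut.conj k * x = (x * MulAut.conj k * x⁻¹) * x := by rw [h1]
      _ = x * MulAut.conj k := by group
  have hfixC : ∀ k : K, MulAut.conj k ∈ Subgroup.centralizer {x} → x k = k := by
    intro k hk
    rw [Subgroup.mem_centralizer_singleton_iff] at hk
    have h1 : MulAut.conj (x k) = MulAut.conj k := by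
      rw [← conj_mulAut x k, ← hk]
      group
    have h2 : MulAut.conj (x k * k⁻¹) = 1 := by
      rw [map_mul, map_inv, h1, mul_inv_cancel]
    exact mul_inv_eq_one.1 (hZ _ h2)
  let M : Subgroup K :=
    (N.map (Subgroup.subtype (A ⊓ Subgroup.centralizer {x}))).comap
      (MulAut.conj : K →* MulAut K)
  have hMmem : ∀ k : K, k ∈ M ↔
      ∃ n ∈ N, ((n : ↥(A ⊓ Subgroup.centralizer {x})) : MulAut K) = MulAut.conj k := by
    intro k
    show MulAut.conj k ∈ N.map (Subgroup.subtype (A ⊓ Subgroup.centralizer {x})) ↔ _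
    rw [Subgroup.mem_map]
    rfl
  have hMfix : ∀ k ∈ M, x k = k := by
    intro k hk
    obtain ⟨n, hn, hnk⟩ := (hMmem k).1 hk
    apply hfixC
    rw [← hnk]
    exact (Subgroup.mem_inf.1 n.2).2
  have hMnorm : ∀ c : K, x c = c → ∀ k ∈ M, c * k * c⁻¹ ∈ M := by
    intro c hc k hk
    obtain ⟨n, hn, hnk⟩ := (hMmem k).1 hk
    rw [hMmem]
    have hcm := hNn.conj_mem n hn ⟨MulAut.conj c, hC c hc⟩
    refine ⟨_, hcm, ?_⟩
    show MulAut.conj c * (n : MulAut K) * (MulAut.conj c)⁻¹ = MulAut.conj (c * k * c⁻¹)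
    rw [hnk, map_mul, map_mul, map_inv]
  have hMcop : (Nat.card M).Coprime p := by
    let f : ↥M →* ↥(N.map (Subgroup.subtype (A ⊓ Subgroup.centralizer {x}))) :=
      ((MulAut.conj : K →* MulAut K).comp M.subtype).codRestrict _ (fun k => k.2)
    have hf : Function.Injective f := by
      intro a b hab
      have h1 : MulAut.conj (a : K) = MulAut.conj (b : K) := congrArg Subtype.val hab
      have h2 : MulAut.conj ((a : K) * (b : K)⁻¹) = 1 := by
        rw [map_mul, map_inv, h1, mul_inv_cancel]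
      exact Subtype.ext (mul_inv_eq_one.1 (hZ _ h2))
    have h1 : Nat.card ↥M ∣
        Nat.card ↥(N.map (Subgroup.subtype (A ⊓ Subgroup.centralizer {x}))) :=
      Subgroup.card_dvd_of_injective f hf
    rw [Subgroup.card_map_of_injective (Subgroup.subtype_injective _)] at h1
    exact Nat.Coprime.coprime_dvd_left h1 hNc
  have hM : M = ⊥ := H1 M hMnorm hMfix hMcop
  intro n hn
  rw [Subgroup.mem_bot]
  have hnfix : ∀ k : K, x k = k → (n : MulAut K) k = k := by
    intro k hk
    have h1 : (n : MulAut K) k * k⁻¹ ∈ M := by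
      rw [hMmem]
      have hcm := hNn.conj_mem n⁻¹ (N.inv_mem hn) ⟨MulAut.conj k, hC k hk⟩
      refine ⟨_, N.mul_mem hn hcm, ?_⟩
      show (n : MulAut K) * (MulAut.conj k * (n : MulAut K)⁻¹ * (MulAut.conj k)⁻¹)
        = MulAut.conj ((n : MulAut K) k * k⁻¹)
      rw [map_mul, map_inv, ← conj_mulAut (n : MulAut K) k, mul_assoc, mul_assoc, mul_assoc]
    rw [hM, Subgroup.mem_bot] at h1
    exact mul_inv_eq_one.1 h1
  have hz := H2 (n : MulAut K) hnfix
  have h1 : orderOf (n : MulAut K) ∣ p := by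
    rw [← hxp]
    exact orderOf_dvd_of_mem_zpowers hz
  have h2 : orderOf (n : MulAut K) ∣ Nat.card N := by
    have h3 : orderOf (⟨n, hn⟩ : N) ∣ Nat.card N := orderOf_dvd_natCard _
    rwa [Subgroup.orderOf_mk, ← Subgroup.orderOf_coe n] at h3
  have h3 : orderOf (n : MulAut K) = 1 := Nat.eq_one_of_dvd_coprimes hNc h2 h1
  exact Subtype.ext (orderOf_eq_one_iff.1 h3)

end skeleton

/-! ### the symplectic case -/

section psp

variable {F : Type u} [Field F] [Fintype F] {m : ℕ}

local notation "⟪" x ", " y "⟫" => Cfsg.sympForm m F x y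

/-- `PSp` has trivial centre -/
theorem conj_prS_eq_one (r : ℕ) [Fact r.Prime] [CharP F r] (hm : 1 ≤ m) (k : Cfsg.PSp m F)
    (h : MulAut.conj k = 1) : k = 1 := by
  obtain ⟨s, rfl⟩ := prS_surjective k
  rw [conj_prS] at h
  obtain ⟨a, ha⟩ := (sD_eq_one_iff r hm (spGSp s)).1 h
  have hs : ∀ x, sact s x = (a : F) • x := by
    intro x
    have h1 := scalarGSp_mulVec (m := m) a x
    rw [← ha] at h1
    exact h1
  have ha2 : (a : F) * a = 1 := by
    have h1 := multGSp_spGSp hm s
    rw [ha, multGSp_scalarGSp] at h1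
    exact congrArg Units.val h1
  exact prS_center s (sp_scalar_center s a ha2 hs)

/-- automorphisms of `PSp_{2m}(q)` are semilinear, with the proviso of odd order or a fixed
transvection for `PSp_4(2^f)` -/
theorem aut_semi_of (r : ℕ) [Fact r.Prime] [CharP F r] (hm : 2 ≤ m) (α : MulAut (Cfsg.PSp m F))
    (h : m = 2 → r = 2 → (∃ k : ℕ, Odd k ∧ α ^ k = 1) ∨
      (∃ v₀ : Fin m ⊕ Fin m → F, v₀ ≠ 0 ∧ α (prS (spTv m v₀ 1)) = prS (spTv m v₀ 1))) :
    ∃ (g : ↥(Cfsg.GSp m F)) (τ : RingAut F), α = sD g * sF τ := by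
  apply aut_psp_of_rel r hm α
  intro v hv0
  by_cases hr : r = 2
  · subst hr
    by_cases hm2 : m = 2
    · subst hm2
      rcases h rfl rfl with ⟨k, hk, hαk⟩ | ⟨v₀, hv₀, hfix⟩
      · exact rel_of_odd_order α k hk hαk v hv0
      · exact rel_of_fix_tv α v₀ hv₀ hfix v hv0
    · exact rel_exists_even (by omega) α v hv0
  · have h2 : (2 : F) ≠ 0 := by
      intro h2
      have h1 : ((2 : ℕ) : F) = 0 := by exact_mod_cast h2
      have h3 := (CharP.cast_eq_zero_iff F r 2).1 h1
      exact hr ((Nat.prime_dvd_prime_iff_eq Fact.out Nat.prime_two).1 h3)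
    exact rel_exists_odd h2 r (by omega) α v hv0

/-- the criterion for a conjugate of a standard field automorphism of order `p` -/
theorem psp_balance_core (r : ℕ) [Fact r.Prime] [CharP F r] (hm : 2 ≤ m) (hm1 : 1 ≤ m)
    (A : Subgroup (MulAut (Cfsg.PSp m F))) (hinn : ∀ k : Cfsg.PSp m F, MulAut.conj k ∈ A)
    (p : ℕ) [Fact p.Prime] (hpr : p ≠ r) (κ : MulAut (Cfsg.PSp m F)) (σ : RingAut F)
    (hσ : orderOf σ = p) :
    Cfsg.pPrimeCore p ↥(A ⊓ Subgroup.centralizer {κ * sF σ * κ⁻¹}) ≠ ⊥ ↔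
      Nat.Coprime p (Nat.card ↥(MonoidHom.eqLocus
        (κ * sF σ * κ⁻¹ : MulAut (Cfsg.PSp m F)).toMonoidHom (MonoidHom.id (Cfsg.PSp m F)))) := by
  classical
  have hZ : ∀ k : Cfsg.PSp m F, MulAut.conj k = 1 → k = 1 := conj_prS_eq_one r hm1
  have hxκ : ∀ k : Cfsg.PSp m F, (κ * sF σ * κ⁻¹ : MulAut (Cfsg.PSp m F)) (κ k)
      = κ ((sF σ : MulAut (Cfsg.PSp m F)) k) := by
    intro k
    rw [MulAut.mul_apply, MulAut.mul_apply, MulAut.inv_apply_self]
  have hfix_iff : ∀ k : Cfsg.PSp m F, (κ * sF σ * κ⁻¹ : MulAut (Cfsg.PSp m F)) (κ k) = κ k ↔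
      (sF σ : MulAut (Cfsg.PSp m F)) k = k := by
    intro k
    rw [hxκ]
    exact κ.injective.eq_iff
  have hκinv : ∀ k : Cfsg.PSp m F, κ (κ⁻¹ k) = k := fun k => MulAut.apply_inv_self _ κ k
  have hxp : orderOf (κ * sF σ * κ⁻¹ : MulAut (Cfsg.PSp m F)) = p := by
    have h1 := MulEquiv.orderOf_eq (MulAut.conj κ) (sF σ : MulAut (Cfsg.PSp m F))
    rw [MulAut.conj_apply] at h1
    rw [h1, orderOf_sF r hm1, hσ]
  -- the standard transvection
  have htfix : (sF σ : MulAut (Cfsg.PSp m F))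
      (prS (spTv m (Pi.single (Sum.inl ⟨0, hm1⟩) 1 : Fin m ⊕ Fin m → F) 1))
      = prS (spTv m (Pi.single (Sum.inl ⟨0, hm1⟩) 1 : Fin m ⊕ Fin m → F) 1) := by
    rw [sF_prS, mapSp_tv, ssv_single, map_one]
  have htne : prS (spTv m (Pi.single (Sum.inl ⟨0, hm1⟩) 1 : Fin m ⊕ Fin m → F) 1) ≠ 1 := by
    intro h1
    rw [prS_mk] at h1
    exact Cfsg.Agent.Helper5.spTv_single_not_mem_center (F := F) (⟨0, hm1⟩ : Fin m)
      ((QuotientGroup.eq_one_iff _).1 h1)
  constructor
  · -- a nontrivial core forces coprimality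
    intro hne
    by_contra hcop
    apply hne
    have hdvd : p ∣ Nat.card ↥(MonoidHom.eqLocus
        (κ * sF σ * κ⁻¹ : MulAut (Cfsg.PSp m F)).toMonoidHom (MonoidHom.id (Cfsg.PSp m F))) := by
      by_contra hnd
      exact hcop ((Nat.Prime.coprime_iff_not_dvd Fact.out).2 hnd)
    obtain ⟨c, hc⟩ := exists_prime_orderOf_dvd_card' p hdvd
    have hcfix : (κ * sF σ * κ⁻¹ : MulAut (Cfsg.PSp m F)) (c : Cfsg.PSp m F)
        = (c : Cfsg.PSp m F) := c.2
    apply core_eq_bot_of hZ A hinn p _ hxp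
    · -- normal `p'`-subgroups of the fixed points
      intro M hMnorm hMfix hMcop
      have hM' : M.comap κ.toMonoidHom = ⊥ := by
        apply fix_normal_trivial p r hpr hm σ
        · intro c' hc' k' hk'
          show κ (c' * k' * c'⁻¹) ∈ M
          rw [map_mul, map_mul, map_inv]
          exact hMnorm (κ c') ((hfix_iff c').2 hc') (κ k') hk'
        · intro k' hk'
          exact (hfix_iff k').1 (hMfix (κ k') hk')
        · have hbij : Function.Bijective
              (fun k' : ↥(M.comap κ.toMonoidHom) => (⟨κ (k' : Cfsg.PSp m F), k'.2⟩ : ↥M)) := by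
            constructor
            · intro a b hab
              exact Subtype.ext (κ.injective (congrArg Subtype.val hab))
            · intro k
              refine ⟨⟨κ⁻¹ (k : Cfsg.PSp m F), ?_⟩, ?_⟩
              · show κ (κ⁻¹ (k : Cfsg.PSp m F)) ∈ M
                rw [hκinv]
                exact k.2
              · exact Subtype.ext (hκinv _)
          rw [Nat.card_eq_of_bijective _ hbij]
          exact hMcop
        · refine ⟨κ⁻¹ (c : Cfsg.PSp m F), ?_, ?_⟩
          · apply (hfix_iff _).1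
            rw [hκinv]
            exact hcfix
          · have h1 := MulEquiv.orderOf_eq (κ⁻¹ : MulAut (Cfsg.PSp m F)) (c : Cfsg.PSp m F)
            rw [h1, Subgroup.orderOf_coe, hc]
      rw [eq_bot_iff]
      intro k hk
      rw [Subgroup.mem_bot]
      have h1 : κ⁻¹ k ∈ M.comap κ.toMonoidHom := by
        show κ (κ⁻¹ k) ∈ M
        rw [hκinv]
        exact hk
      rw [hM', Subgroup.mem_bot] at h1
      have h2 := hκinv k
      rw [h1, map_one] at h2
      exact h2.symm
    · -- automorphisms fixing the fixed points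
      intro n hn
      have hn' : ∀ k' : Cfsg.PSp m F, (sF σ : MulAut (Cfsg.PSp m F)) k' = k' →
          (κ⁻¹ * n * κ : MulAut (Cfsg.PSp m F)) k' = k' := by
        intro k' hk'
        rw [MulAut.mul_apply, MulAut.mul_apply, hn (κ k') ((hfix_iff k').2 hk'),
          MulAut.inv_apply_self]
      obtain ⟨g, τ, hgτ⟩ := aut_semi_of r hm (κ⁻¹ * n * κ) (fun _ _ =>
        Or.inr ⟨_, psingle_ne_zero (Sum.inl ⟨0, hm1⟩), hn' _ htfix⟩)
      obtain ⟨hD, hτ⟩ := semi_fix_sub r hm1 g τ σ (by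
        intro v c hv hc
        rw [← hgτ]
        apply hn'
        rw [sF_prS, mapSp_tv, hv, hc])
      obtain ⟨j, hj⟩ := Subgroup.mem_zpowers_iff.1 (mem_zpowers_of_fix σ τ hτ)
      rw [Subgroup.mem_zpowers_iff]
      refine ⟨j, ?_⟩
      rw [conj_zpow, ← map_zpow, hj]
      have h1 : (sF τ : MulAut (Cfsg.PSp m F)) = κ⁻¹ * n * κ := by
        rw [hgτ, hD, one_mul]
      rw [h1]
      group
  · intro hcop
    apply core_ne_bot_of_fix A hinn p _ hcop
      (κ (prS (spTv m (Pi.single (Sum.inl ⟨0, hm1⟩) 1 : Fin m ⊕ Fin m → F) 1)))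
    · exact (hfix_iff _).2 htfix
    · intro h1
      have h2 := hZ _ h1
      apply htne
      apply κ.injective
      rw [h2, map_one]

/-- **local balance for `PSp_{2m}(q)`**: for an automorphism `x` of prime order `p ≠ char`, not
inner-diagonal, `O_{p'}(C_A(x)) ≠ 1` iff `x` is a field automorphism and `p` does not divide the
number of its fixed points -/
theorem psp_local_balance (r : ℕ) [Fact r.Prime] [CharP F r] (hm : 2 ≤ m)
    (A : Subgroup (MulAut (Cfsg.PSp m F))) (hinn : ∀ k : Cfsg.PSp m F, MulAut.conj k ∈ A)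
    (p : ℕ) [Fact p.Prime] (hpr : p ≠ r) (x : MulAut (Cfsg.PSp m F)) (hord : orderOf x = p)
    (hnot : ¬ Cfsg.IsInnerDiagonalAutPSp x) :
    Cfsg.pPrimeCore p ↥(A ⊓ Subgroup.centralizer {x}) ≠ ⊥ ↔
      (Cfsg.IsFieldAutClassPSp x ∧ Nat.Coprime p (Nat.card ↥(MonoidHom.eqLocus
        x.toMonoidHom (MonoidHom.id (Cfsg.PSp m F))))) := by
  have hm1 : 1 ≤ m := by omega
  have hxp : x ^ p = 1 := by
    rw [← hord]
    exact pow_orderOf_eq_one x
  have hp_odd_of : r = 2 → Odd p := by
    intro hr2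
    rcases (Fact.out : p.Prime).eq_two_or_odd' with h | h
    · exact absurd (h.trans hr2.symm) hpr
    · exact h
  obtain ⟨g, σ, hx⟩ := aut_semi_of r hm x (fun _ hr2 => Or.inl ⟨p, hp_odd_of hr2, hxp⟩)
  obtain ⟨f, hF⟩ : ∃ f : ℕ, Fintype.card F = r ^ f := by
    obtain ⟨n, -, hn⟩ := FiniteField.card F r
    exact ⟨n, hn⟩
  have hσp : orderOf σ = p := by
    have h1 : (sD g * sF σ : MulAut (Cfsg.PSp m F)) ^ p = 1 := by
      rw [← hx]
      exact hxp
    obtain ⟨gk, -, hgk⟩ := slang_semi_pow g σ p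
    rw [hgk] at h1
    have h2 : sD gk⁻¹ = (sF (σ ^ p) : MulAut (Cfsg.PSp m F)) := by
      rw [map_inv]
      exact inv_eq_of_mul_eq_one_right h1
    have h3 := (sD_eq_sF r hm1 gk⁻¹ (σ ^ p) h2).1
    have h4 : orderOf σ ∣ p := orderOf_dvd_of_pow_eq_one h3
    rcases (Nat.dvd_prime Fact.out).1 h4 with h5 | h5
    · exfalso
      have h6 : σ = 1 := orderOf_eq_one_iff.1 h5
      apply hnot
      rw [hx, h6, map_one, mul_one]
      exact sD_innerDiag g
    · exact h5
  obtain ⟨k, hk⟩ := slang_field_std r f hF hm1 σ p hσp (Fact.out : p.Prime).pos g (by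
    rw [← hx]
    exact hxp)
  have hx' : x = sD k * sF σ * (sD k)⁻¹ := hx.trans hk
  have hfc : Cfsg.IsFieldAutClassPSp x := by
    refine ⟨(sD k)⁻¹, σ, ?_, ?_⟩
    · intro h
      have h6 : σ = 1 := h
      rw [h6, orderOf_one] at hσp
      exact (Fact.out : p.Prime).one_lt.ne hσp
    · have h7 : (sD k)⁻¹ * x * ((sD k)⁻¹)⁻¹ = sF σ := by
        rw [hx']
        group
      rw [h7]
      exact sF_fieldAut σ
  have hcore := psp_balance_core r hm hm1 A hinn p hpr (sD k) σ hσp
  rw [← hx'] at hcore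
  rw [hcore]
  exact ⟨fun h => ⟨hfc, h⟩, fun h => h.2⟩

end psp

end Cfsg.Agent.Helper44.PSpn
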