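import Mathlib
import Cfsg.Agent.Helper44.OmE
import Cfsg.Agent.Helper44.SpR
import Cfsg.Agent.Helper45.OmegaSimple

/-!
# Field automorphisms of `PΩ_{2m+1}(q)` (helper44), part F: rigidity of the subfield group
(a semilinear map commuting with the Eichler transformations over the fixed field is a scalar
multiple of a power of the field automorphism)
-/

set_option autoImplicit false
set_option linter.unusedSimpArgs false
set_option linter.unusedSectionVars false
set_option linter.unusedVariables false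

namespace Cfsg.Agent.Helper44.POm

open Matrix Cfsg
open Cfsg.Agent.Helper45.OO (semiAut semiMap glMap polarGram)

universe u v

section rigid

variable {F : Type u} [Field F] {m : ℕ}

/-- the basis vectors `e_i` -/
def bE (i : Fin m) : OI m → F := Pi.single (Sum.inr (Sum.inl i)) 1

/-- the basis vectors `f_i` -/
def bF (i : Fin m) : OI m → F := Pi.single (Sum.inr (Sum.inr i)) 1

/-- the basis vector `e_0` -/
def bO : OI m → F := Pi.single (Sum.inl ()) 1

theorem bE_L (i j : Fin m) : (bE i : OI m → F) (Sum.inr (Sum.inl j)) = if j = i then 1 else 0 := by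
  unfold bE
  rw [Pi.single_apply]
  simp

theorem bE_R (i j : Fin m) : (bE i : OI m → F) (Sum.inr (Sum.inr j)) = 0 := by
  unfold bE
  rw [Pi.single_apply]
  simp

theorem bE_O (i : Fin m) : (bE i : OI m → F) (Sum.inl ()) = 0 := by
  unfold bE
  rw [Pi.single_apply]
  simp

theorem bF_L (i j : Fin m) : (bF i : OI m → F) (Sum.inr (Sum.inl j)) = 0 := by
  unfold bF
  rw [Pi.single_apply]
  simp

theorem bF_R (i j : Fin m) : (bF i : OI m → F) (Sum.inr (Sum.inr j)) = if j = i then 1 else 0 := by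
  unfold bF
  rw [Pi.single_apply]
  simp

theorem bF_O (i : Fin m) : (bF i : OI m → F) (Sum.inl ()) = 0 := by
  unfold bF
  rw [Pi.single_apply]
  simp

theorem bO_L (j : Fin m) : (bO : OI m → F) (Sum.inr (Sum.inl j)) = 0 := by
  unfold bO
  rw [Pi.single_apply]
  simp

theorem bO_R (j : Fin m) : (bO : OI m → F) (Sum.inr (Sum.inr j)) = 0 := by
  unfold bO
  rw [Pi.single_apply]
  simp

theorem bO_O : (bO : OI m → F) (Sum.inl ()) = 1 := by
  unfold bO
  rw [Pi.single_apply]
  simp

theorem Q_bE (i : Fin m) : Helper43.oddQF m F (bE i) = 0 := (Helper45.odd_hypPairs m).hQL i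

theorem Q_bF (i : Fin m) : Helper43.oddQF m F (bF i) = 0 := (Helper45.odd_hypPairs m).hQR i

theorem Q_bO : Helper43.oddQF m F (bO : OI m → F) = 1 := qodd_single

theorem polar_bE (i : Fin m) (x : OI m → F) :
    QuadraticMap.polar ⇑(Helper43.oddQF m F) (bE i) x = x (Sum.inr (Sum.inr i)) :=
  (Helper45.odd_hypPairs m).hpL i x

theorem polar_bF (i : Fin m) (x : OI m → F) :
    QuadraticMap.polar ⇑(Helper43.oddQF m F) (bF i) x = x (Sum.inr (Sum.inl i)) :=
  (Helper45.odd_hypPairs m).hpR i x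

theorem polar_bO (x : OI m → F) :
    QuadraticMap.polar ⇑(Helper43.oddQF m F) (bO : OI m → F) x = 2 * x (Sum.inl ()) := by
  rw [Helper45.oddQF_polar]
  simp [bO_O, bO_L, bO_R]

theorem fvec_single (σ : RingAut F) (a : OI m) :
    fvec σ (Pi.single a 1 : OI m → F) = Pi.single a 1 := by
  funext i
  rw [fvec_apply]
  by_cases h : i = a
  · subst h
    rw [Pi.single_eq_same, map_one]
  · rw [Pi.single_eq_of_ne h, map_zero]

theorem fvec_smul (σ : RingAut F) (c : F) (x : OI m → F) : fvec σ (c • x) = σ c • fvec σ x := by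
  funext i
  exact map_mul σ _ _

theorem fvec_add (σ : RingAut F) (x y : OI m → F) : fvec σ (x + y) = fvec σ x + fvec σ y := by
  funext i
  exact map_add σ _ _

theorem fvec_sub (σ : RingAut F) (x y : OI m → F) : fvec σ (x - y) = fvec σ x - fvec σ y := by
  funext i
  exact map_sub σ _ _

theorem eich_Ec (i j : Fin m) (c : F) (x : OI m → F) :
    Helper44.eich (Helper43.oddQF m F) (bE i) (c • bE j) x
      = x + (c * x (Sum.inr (Sum.inr j))) • bE i - x (Sum.inr (Sum.inr i)) • (c • bE j) := by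
  unfold Helper44.eich
  rw [QuadraticMap.polar_smul_left, polar_bE, polar_bE, QuadraticMap.map_smul, Q_bE, smul_eq_mul,
    smul_eq_mul, mul_zero, zero_mul, sub_zero]

theorem eich_FF (i j : Fin m) (x : OI m → F) :
    Helper44.eich (Helper43.oddQF m F) (bF i) (bF j) x
      = x + x (Sum.inr (Sum.inl j)) • bF i - x (Sum.inr (Sum.inl i)) • bF j := by
  unfold Helper44.eich
  rw [polar_bF, polar_bF, Q_bF, zero_mul, sub_zero]

theorem eich_EO (i : Fin m) (x : OI m → F) :
    Helper44.eich (Helper43.oddQF m F) (bE i) (bO : OI m → F) x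
      = x + (2 * x (Sum.inl ()) - x (Sum.inr (Sum.inr i))) • bE i
        - x (Sum.inr (Sum.inr i)) • bO := by
  unfold Helper44.eich
  rw [polar_bO, polar_bE, Q_bO, one_mul]

theorem exists_third (hm : 3 ≤ m) (i j : Fin m) : ∃ k : Fin m, k ≠ i ∧ k ≠ j := by
  by_cases h0 : i.val ≠ 0 ∧ j.val ≠ 0
  · exact ⟨⟨0, by omega⟩, fun h => h0.1 (by rw [← h]), fun h => h0.2 (by rw [← h])⟩
  · by_cases h1 : i.val ≠ 1 ∧ j.val ≠ 1
    · exact ⟨⟨1, by omega⟩, fun h => h1.1 (by rw [← h]), fun h => h1.2 (by rw [← h])⟩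
    · refine ⟨⟨2, by omega⟩, fun h => ?_, fun h => ?_⟩
      · have h2 : i.val = 2 := by rw [← h]
        omega
      · have h2 : j.val = 2 := by rw [← h]
        omega

/-- **rigidity**: a semilinear injective map commuting with the Eichler transformations with
`σ`-fixed parameters is, on the standard basis, a scalar; and its field automorphism fixes the
fixed field of `σ` -/
theorem rigid (hm : 3 ≤ m) (σ τ : RingAut F) (Φ : (OI m → F) → (OI m → F))
    (hadd : ∀ x y, Φ (x + y) = Φ x + Φ y) (hsmul : ∀ (c : F) x, Φ (c • x) = τ c • Φ x)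
    (hinj : ∀ x, Φ x = 0 → x = 0)
    (hcomm : ∀ (u b : OI m → F), Helper43.oddQF m F u = 0 →
      QuadraticMap.polar ⇑(Helper43.oddQF m F) u b = 0 → fvec σ u = u → fvec σ b = b →
      ∀ x, Φ (Helper44.eich (Helper43.oddQF m F) u b x)
        = Helper44.eich (Helper43.oddQF m F) u b (Φ x)) :
    (∀ c, σ c = c → τ c = c) ∧ ∃ l : F, ∀ a : OI m, Φ (Pi.single a 1) = l • Pi.single a 1 := by
  have hsub : ∀ x y, Φ (x - y) = Φ x - Φ y := by
    intro x y
    have h1 := hadd (x - y) y
    rw [sub_add_cancel] at h1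
    exact eq_sub_of_add_eq h1.symm
  -- step 1
  have h1 : ∀ (i j : Fin m) (c : F), i ≠ j → σ c = c →
      τ c • Φ (bE i) = (c * Φ (bF j) (Sum.inr (Sum.inr j))) • bE i
        - Φ (bF j) (Sum.inr (Sum.inr i)) • (c • bE j) := by
    intro i j c hij hc
    have h := hcomm (bE i) (c • bE j) (Q_bE i)
      (by rw [polar_bE, Pi.smul_apply, bE_R, smul_zero]) (fvec_single σ _)
      (by rw [fvec_smul, hc]; congr 1; exact fvec_single σ _) (bF j)
    rw [eich_Ec, eich_Ec] at h
    have hx : (bF j : OI m → F) + (c * (bF j : OI m → F) (Sum.inr (Sum.inr j))) • bE i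
        - (bF j : OI m → F) (Sum.inr (Sum.inr i)) • (c • bE j) = bF j + c • bE i := by
      rw [bF_R, bF_R, if_pos rfl, if_neg hij, mul_one, zero_smul, sub_zero]
    rw [hx, hadd, hsmul, add_sub_assoc] at h
    exact add_left_cancel h
  have h2 : ∀ i j : Fin m, i ≠ j → Φ (bF j) (Sum.inr (Sum.inr i)) = 0 := by
    intro i j hij
    obtain ⟨k, hki, hkj⟩ := exists_third hm i j
    have a1 : (τ 1 • Φ (bE i)) (Sum.inr (Sum.inl j)) = -Φ (bF j) (Sum.inr (Sum.inr i)) := by
      rw [h1 i j 1 hij (map_one σ)]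
      simp [bE_L, Ne.symm hij]
    have a2 : (τ 1 • Φ (bE i)) (Sum.inr (Sum.inl j)) = 0 := by
      rw [h1 i k 1 (Ne.symm hki) (map_one σ)]
      simp [bE_L, Ne.symm hij, Ne.symm hkj]
    exact neg_eq_zero.mp (a1.symm.trans a2)
  have h3 : ∀ (i j : Fin m) (c : F), i ≠ j → σ c = c →
      τ c • Φ (bE i) = (c * Φ (bF j) (Sum.inr (Sum.inr j))) • bE i := by
    intro i j c hij hc
    rw [h1 i j c hij hc, h2 i j hij, zero_smul, sub_zero]
  have h4 : ∀ j k : Fin m, Φ (bF j) (Sum.inr (Sum.inr j)) = Φ (bF k) (Sum.inr (Sum.inr k)) := by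
    intro j k
    obtain ⟨i, hij, hik⟩ := exists_third hm j k
    have a1 : (τ 1 • Φ (bE i)) (Sum.inr (Sum.inl i)) = Φ (bF j) (Sum.inr (Sum.inr j)) := by
      rw [h3 i j 1 hij (map_one σ)]
      simp [bE_L]
    have a2 : (τ 1 • Φ (bE i)) (Sum.inr (Sum.inl i)) = Φ (bF k) (Sum.inr (Sum.inr k)) := by
      rw [h3 i k 1 hik (map_one σ)]
      simp [bE_L]
    exact a1.symm.trans a2
  obtain ⟨l, hl⟩ : ∃ l : F, l = Φ (bF (⟨0, by omega⟩ : Fin m)) (Sum.inr (Sum.inr ⟨0, by omega⟩)) :=
    ⟨_, rfl⟩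
  have h5 : ∀ (i : Fin m) (c : F), σ c = c → τ c • Φ (bE i) = (c * l) • bE i := by
    intro i c hc
    obtain ⟨j, hji, -⟩ := exists_third hm i i
    rw [h3 i j c (Ne.symm hji) hc, hl, h4 j ⟨0, by omega⟩]
  have h5' : ∀ i : Fin m, Φ (bE i) = l • (bE i : OI m → F) := by
    intro i
    have h := h5 i 1 (map_one σ)
    rw [map_one, one_smul, one_mul] at h
    exact h
  have hl0 : l ≠ 0 := by
    rintro rfl
    have h := hinj _ ((h5' (⟨0, by omega⟩ : Fin m)).trans (zero_smul _ _))
    have h6 := congrFun h (Sum.inr (Sum.inl ⟨0, by omega⟩))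
    rw [bE_L, if_pos rfl] at h6
    exact one_ne_zero h6
  have h6 : ∀ i : Fin m, Φ (bF i) = l • (bF i : OI m → F) := by
    intro i
    obtain ⟨j, hji, -⟩ := exists_third hm i i
    have h := hcomm (bF i) (bF j) (Q_bF i) (by rw [polar_bF, bF_L]) (fvec_single σ _)
      (fvec_single σ _) (bE j)
    rw [eich_FF, eich_FF] at h
    have hx : (bE j : OI m → F) + (bE j : OI m → F) (Sum.inr (Sum.inl j)) • bF i
        - (bE j : OI m → F) (Sum.inr (Sum.inl i)) • bF j = bE j + bF i := by
      rw [bE_L, bE_L, if_pos rfl, if_neg (Ne.symm hji), one_smul, zero_smul, sub_zero]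
    rw [hx, hadd, h5' j] at h
    have hy : (l • (bE j : OI m → F)) (Sum.inr (Sum.inl j)) • (bF i : OI m → F)
        - (l • (bE j : OI m → F)) (Sum.inr (Sum.inl i)) • bF j = l • bF i := by
      rw [Pi.smul_apply, Pi.smul_apply, bE_L, bE_L, if_pos rfl, if_neg (Ne.symm hji), smul_eq_mul,
        smul_eq_mul, mul_one, mul_zero, zero_smul, sub_zero]
    rw [add_sub_assoc, hy] at h
    exact add_left_cancel h
  have h7 : Φ (bO : OI m → F) = l • (bO : OI m → F) := by
    obtain ⟨i, hi⟩ : ∃ i : Fin m, i = ⟨0, by omega⟩ := ⟨_, rfl⟩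
    have h := hcomm (bE i) bO (Q_bE i) (by rw [polar_bE, bO_R]) (fvec_single σ _)
      (fvec_single σ _) (bF i)
    rw [eich_EO, eich_EO] at h
    have hx : (bF i : OI m → F) + (2 * (bF i : OI m → F) (Sum.inl ())
        - (bF i : OI m → F) (Sum.inr (Sum.inr i))) • bE i
        - (bF i : OI m → F) (Sum.inr (Sum.inr i)) • bO = bF i - bE i - bO := by
      rw [bF_O, bF_R, if_pos rfl, mul_zero, zero_sub, neg_smul, one_smul, one_smul]
      abel
    rw [hx, hsub, hsub, h6 i, h5' i] at h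
    have hy : (l • (bF i : OI m → F)) (Sum.inl ()) = 0 := by
      rw [Pi.smul_apply, bF_O, smul_zero]
    have hz : (l • (bF i : OI m → F)) (Sum.inr (Sum.inr i)) = l := by
      rw [Pi.smul_apply, bF_R, if_pos rfl, smul_eq_mul, mul_one]
    rw [hy, hz, mul_zero, zero_sub, neg_smul] at h
    have h8 : Φ (bO : OI m → F) = l • (bF i : OI m → F) - l • bE i
        - (l • (bF i : OI m → F) + -(l • bE i) - l • bO) := by
      rw [← h]
      abel
    rw [h8]
    abel
  refine ⟨?_, l, ?_⟩
  · intro c hc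
    have h := h5 (⟨0, by omega⟩ : Fin m) c hc
    rw [h5', smul_smul] at h
    have h8 := congrFun h (Sum.inr (Sum.inl ⟨0, by omega⟩))
    rw [Pi.smul_apply, Pi.smul_apply, bE_L, if_pos rfl, smul_eq_mul, smul_eq_mul, mul_one,
      mul_one] at h8
    exact mul_right_cancel₀ hl0 h8
  · intro a
    rcases a with a | a | a
    · exact h7
    · exact h5' a
    · exact h6 a

end rigid

end Cfsg.Agent.Helper44.POm
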