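import Mathlib
import Cfsg.Agent.Helper44.OmF

/-!
# Field automorphisms of `PΩ_{2m+1}(q)` (helper44), part G: the fixed points of a standard field
automorphism; automorphisms fixing them pointwise; their normal subgroups
-/

set_option autoImplicit false
set_option linter.unusedSimpArgs false
set_option linter.unusedSectionVars false
set_option linter.unusedVariables false

namespace Cfsg.Agent.Helper44.POm

open Matrix Cfsg
open Cfsg.Agent.Helper45.OO (semiAut semiMap glMap polarGram)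

universe u v

section basics

variable {F : Type u} [Field F] [Fintype F] {m : ℕ}

theorem negO_not_mem_omega_odd (h2 : (2 : F) ≠ 0) :
    Helper45.negO (Helper43.oddQF m F) ∉ Omega F ⇑(Helper43.oddQF m F) := by
  intro hc
  have h5 : Helper45.negO (Helper43.oddQF m F) ∈ (Helper45.detO (Helper43.oddQF m F)).ker :=
    Abelianization.commutator_subset_ker (Helper45.detO (Helper43.oddQF m F)) hc
  rw [MonoidHom.mem_ker] at h5
  have h6 := congrArg (fun x : Fˣ => (x : F)) h5
  simp only [Helper45.detO_val, Helper45.negO_coe, Units.val_one] at h6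
  rw [Matrix.det_neg, Matrix.det_one, mul_one, card_OI, pow_succ, pow_mul] at h6
  apply h2
  have h7 : ((-1 : F) ^ 2) ^ m = 1 := by
    rw [neg_one_sq, one_pow]
  rw [h7] at h6
  linear_combination (-1 : F) * h6

/-- `Ω_{2m+1}(q)`, `q` odd, has trivial centre -/
theorem odd_center_bot (h2 : (2 : F) ≠ 0) (hm : 3 ≤ m) :
    Subgroup.center ↥(Omega F (quadFormOdd m F)) = ⊥ := by
  have hQ := Helper45.oddQF_nondeg' (F := F) m h2
  have hcard : Fintype.card (OI m) = 2 * m + 1 := card_OI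
  have hcard2 : 2 ≤ Fintype.card (OI m) := by omega
  rw [eq_bot_iff]
  intro z hz
  rw [Subgroup.mem_bot]
  rcases (Helper45.odd_hypPairs (F := F) m).center_cases hm hQ hcard2 z hz with h | h
  · exact Subtype.ext h
  · exfalso
    apply negO_not_mem_omega_odd (m := m) h2
    rw [← h]
    exact z.2

theorem mk_eq_mk_iff (h2 : (2 : F) ≠ 0) (hm : 3 ≤ m) (s t : ↥(Omega F (quadFormOdd m F))) :
    (QuotientGroup.mk s : POmega F (quadFormOdd m F)) = QuotientGroup.mk t ↔ s = t := by
  rw [QuotientGroup.eq, odd_center_bot h2 hm, Subgroup.mem_bot, inv_mul_eq_one]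

/-- `PΩ_{2m+1}(q)` has trivial centre -/
theorem conj_eq_one (h2 : (2 : F) ≠ 0) (hm : 3 ≤ m) (k : POmega F (quadFormOdd m F))
    (h : MulAut.conj k = 1) : k = 1 := by
  obtain ⟨s, rfl⟩ := QuotientGroup.mk_surjective k
  have hs : s ∈ Subgroup.center ↥(Omega F (quadFormOdd m F)) := by
    rw [Subgroup.mem_center_iff]
    intro t
    have h1 := congrArg (fun f : MulAut (POmega F (quadFormOdd m F)) => f (QuotientGroup.mk t)) h
    simp only [MulAut.conj_apply, MulAut.one_apply] at h1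
    have h3 : (QuotientGroup.mk (s * t * s⁻¹) : POmega F (quadFormOdd m F)) = QuotientGroup.mk t :=
      h1
    rw [mk_eq_mk_iff h2 hm] at h3
    calc t * s = (s * t * s⁻¹) * s := by rw [h3]
      _ = s * t := by group
  rw [odd_center_bot h2 hm, Subgroup.mem_bot] at hs
  rw [hs]
  rfl

theorem oF_fix_iff (h2 : (2 : F) ≠ 0) (hm : 3 ≤ m) (σ : RingAut F)
    (s : ↥(Omega F (quadFormOdd m F))) :
    (oF σ : MulAut (POmega F (quadFormOdd m F))) (QuotientGroup.mk s) = QuotientGroup.mk s ↔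
      glMap σ ((s : ↥(isometryGroup F (quadFormOdd m F))) : GL (OI m) F)
        = ((s : ↥(isometryGroup F (quadFormOdd m F))) : GL (OI m) F) := by
  have h0 : (oF σ : MulAut (POmega F (quadFormOdd m F))) (QuotientGroup.mk s)
      = QuotientGroup.mk (Helper45.OO.semiΩ (quadFormOdd m F) 1 σ (ofield σ) s) := rfl
  rw [h0, mk_eq_mk_iff h2 hm]
  constructor
  · intro h
    have h1 := congrArg (fun t : ↥(Omega F (quadFormOdd m F)) =>
      ((t : ↥(isometryGroup F (quadFormOdd m F))) : GL (OI m) F)) h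
    simp only [Helper45.OO.semiΩ_coe] at h1
    rwa [one_mul, inv_one, mul_one] at h1
  · intro h
    apply Subtype.ext
    apply Subtype.ext
    rw [Helper45.OO.semiΩ_coe, one_mul, inv_one, mul_one, h]

/-- an automorphism induced by a semilinear map and fixing the class of `s`: the semilinear map
commutes with `s` -/
theorem semi_fix_comm (h2 : (2 : F) ≠ 0) (hm : 3 ≤ m) (g : GL (OI m) F) (τ : RingAut F)
    (hg : IsSemisimilarityPair (quadFormOdd m F) g τ) (s : ↥(Omega F (quadFormOdd m F)))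
    (h : semiAut (quadFormOdd m F) g τ hg (QuotientGroup.mk s) = QuotientGroup.mk s)
    (x : OI m → F) :
    (((s : ↥(isometryGroup F (quadFormOdd m F))) : GL (OI m) F) : Matrix (OI m) (OI m) F)
        *ᵥ semiMap g τ x
      = semiMap g τ ((((s : ↥(isometryGroup F (quadFormOdd m F))) : GL (OI m) F) :
          Matrix (OI m) (OI m) F) *ᵥ x) := by
  rw [Helper45.OO.semiAut_mk, mk_eq_mk_iff h2 hm] at h
  have h1 : Helper45.mv (quadFormOdd m F)
      ((Helper45.OO.semiΩ (quadFormOdd m F) g τ hg s : ↥(Omega F (quadFormOdd m F))) :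
        ↥(isometryGroup F (quadFormOdd m F))) (semiMap g τ x)
      = semiMap g τ (Helper45.mv (quadFormOdd m F)
          (s : ↥(isometryGroup F (quadFormOdd m F))) x) :=
    Helper45.OO.mv_semiΩ (Helper43.oddQF m F) g τ hg s x
  rw [h] at h1
  exact h1

/-- field automorphisms of vectors are semisimilarities -/
theorem fvec_SS (σ : RingAut F) :
    Helper45.AO.SS (Helper43.oddQF m F) (fvec σ) σ 1 :=
  ⟨fvec_add σ, fvec_smul σ, fun x => by rw [one_mul]; exact qodd_fvec σ x, one_ne_zero⟩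

theorem fvec_eich (σ : RingAut F) (u b x : OI m → F) :
    fvec σ (Helper44.eich (Helper43.oddQF m F) u b x)
      = Helper44.eich (Helper43.oddQF m F) (fvec σ u) (fvec σ b) (fvec σ x) := by
  have h := (fvec_SS (m := m) σ).eich u b x
  rw [inv_one, one_smul] at h
  exact h

/-- an Eichler transformation as an element of `Ω` -/
noncomputable def eiΩ (h2 : (2 : F) ≠ 0) (hm : 3 ≤ m) (u b : OI m → F)
    (hu : Helper43.oddQF m F u = 0)
    (hub : QuadraticMap.polar ⇑(Helper43.oddQF m F) u b = 0) :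
    ↥(Omega F (quadFormOdd m F)) :=
  ⟨Helper45.eichO (Helper43.oddQF m F) u b hu hub,
    Helper45.eichO_mem_omega (Helper43.oddQF m F) (Helper45.oddQF_nondeg' (F := F) m h2)
      (by rw [card_OI]; omega) u b hu hub⟩

theorem eiΩ_mulVec (h2 : (2 : F) ≠ 0) (hm : 3 ≤ m) (u b : OI m → F)
    (hu : Helper43.oddQF m F u = 0)
    (hub : QuadraticMap.polar ⇑(Helper43.oddQF m F) u b = 0) (x : OI m → F) :
    ((((eiΩ h2 hm u b hu hub : ↥(Omega F (quadFormOdd m F))) :
      ↥(isometryGroup F (quadFormOdd m F))) : GL (OI m) F) : Matrix (OI m) (OI m) F) *ᵥ x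
      = Helper44.eich (Helper43.oddQF m F) u b x :=
  Helper45.mv_eichO (Helper43.oddQF m F) u b hu hub x

theorem eiΩ_fixed (h2 : (2 : F) ≠ 0) (hm : 3 ≤ m) (σ : RingAut F) (u b : OI m → F)
    (hu : Helper43.oddQF m F u = 0)
    (hub : QuadraticMap.polar ⇑(Helper43.oddQF m F) u b = 0)
    (hσu : fvec σ u = u) (hσb : fvec σ b = b) :
    (oF σ : MulAut (POmega F (quadFormOdd m F))) (QuotientGroup.mk (eiΩ h2 hm u b hu hub))
      = QuotientGroup.mk (eiΩ h2 hm u b hu hub) := by
  rw [oF_fix_iff h2 hm]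
  apply Units.ext
  rw [Helper45.OO.glMap_coe]
  apply Helper13.mulVec_ext
  intro y
  have h1 := fvec_mulVec σ ((((eiΩ h2 hm u b hu hub : ↥(Omega F (quadFormOdd m F))) :
      ↥(isometryGroup F (quadFormOdd m F))) : GL (OI m) F) : Matrix (OI m) (OI m) F)
    (fvec σ⁻¹ y)
  rw [fvec_inv, eiΩ_mulVec, fvec_eich, fvec_inv, hσu, hσb] at h1
  rw [← h1, eiΩ_mulVec]

end basics

/-! ### automorphisms fixing the fixed points of a field automorphism -/

section pointwise

variable {F : Type u} [Field F] [Fintype F] {m : ℕ}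

/-- **an automorphism fixing every fixed point of a standard field automorphism is a power of
it** -/
theorem fix_pointwise_zpowers (hodd : Odd (Fintype.card F)) (hm : 3 ≤ m) (σ : RingAut F)
    (n : MulAut (POmega F (quadFormOdd m F)))
    (hn : ∀ k : POmega F (quadFormOdd m F),
      (oF σ : MulAut (POmega F (quadFormOdd m F))) k = k → n k = k) :
    n ∈ Subgroup.zpowers (oF σ : MulAut (POmega F (quadFormOdd m F))) := by
  have h2 : (2 : F) ≠ 0 := Helper45.two_ne_zero_of_odd_card hodd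
  have hQ := Helper45.oddQF_nondeg' (F := F) m h2
  obtain ⟨Θ, hΘ1, hΘ2, hker⟩ := odd_theta (F := F) hodd hm
  obtain ⟨τ, g, hg, e⟩ : ∃ (τ : RingAut F) (g : GL (OI m) F)
      (hg : IsSemisimilarityPair (quadFormOdd m F) g τ),
      n = semiAut (quadFormOdd m F) g τ hg := by
    obtain ⟨g, hg, e⟩ := hΘ2 n
    exact ⟨Θ n, g, hg, e⟩
  obtain ⟨c, hc⟩ := id hg
  have hSS : Helper45.AO.SS (Helper43.oddQF m F) (semiMap g τ) τ (c : F) :=
    Helper45.OO.ss_semi (Helper43.oddQF m F) c hc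
  have hinj : ∀ x, semiMap g τ x = 0 → x = 0 := by
    intro x hx
    exact hSS.inj hQ x 0 (hx.trans hSS.zero.symm)
  have hcomm : ∀ (u b : OI m → F), Helper43.oddQF m F u = 0 →
      QuadraticMap.polar ⇑(Helper43.oddQF m F) u b = 0 → fvec σ u = u → fvec σ b = b →
      ∀ x, semiMap g τ (Helper44.eich (Helper43.oddQF m F) u b x)
        = Helper44.eich (Helper43.oddQF m F) u b (semiMap g τ x) := by
    intro u b hu hub hσu hσb x
    have h1 := hn _ (eiΩ_fixed h2 hm σ u b hu hub hσu hσb)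
    rw [e] at h1
    have h3 := semi_fix_comm h2 hm g τ hg _ h1 x
    rw [eiΩ_mulVec, eiΩ_mulVec] at h3
    exact h3.symm
  obtain ⟨hfix, l, hl⟩ := rigid hm σ τ (semiMap g τ) (Helper45.OO.semiMap_add g τ)
    (Helper45.OO.semiMap_smul g τ) hinj hcomm
  have hl0 : l ≠ 0 := by
    rintro rfl
    have h1 := hinj _ ((hl (Sum.inl ())).trans (zero_smul _ _))
    have h3 := congrFun h1 (Sum.inl ())
    rw [Pi.single_eq_same] at h3
    exact one_ne_zero h3
  have hgl : g = scGL l hl0 * 1 := by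
    apply Units.ext
    rw [scGL_mul_coe, Units.val_one]
    ext i a
    have h1 := congrFun (hl a) i
    rw [semiMap_eq, fvec_single, Matrix.mulVec_single_one] at h1
    rw [Matrix.smul_apply, Matrix.one_apply]
    rw [Pi.smul_apply, Pi.single_apply] at h1
    exact h1
  obtain ⟨j, hj⟩ := Subgroup.mem_zpowers_iff.1 (PSpn.mem_zpowers_of_fix σ τ hfix)
  rw [Subgroup.mem_zpowers_iff]
  refine ⟨j, ?_⟩
  have h4 : n = oF τ := by
    rw [e]
    have hg' : IsSemisimilarityPair (quadFormOdd m F) (scGL l hl0 * 1) τ := by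
      rw [← hgl]
      exact hg
    have h5 : semiAut (quadFormOdd m F) (scGL l hl0 * 1) τ hg'
        = semiAut (quadFormOdd m F) 1 τ (ofield τ) :=
      semiAut_scGL_mul (Helper43.oddQF m F) l hl0 1 τ (ofield τ) hg'
    exact (Helper45.OO.semiAut_congr _ _ _ hgl rfl).trans h5
  rw [h4, ← hj]
  exact (map_zpow oFhom σ j).symm

end pointwise

/-! ### the subfield group inside the fixed points -/

section sub

variable {F : Type u} [Field F] [Fintype F] {F₀ : Type v} [Field F₀] [Fintype F₀] {m : ℕ}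

theorem oThO_map_omega (h2 : (2 : F) ≠ 0) (ι : F₀ →+* F)
    (s : ↥(isometryGroup F₀ (quadFormOdd m F₀))) (hs : s ∈ Omega F₀ (quadFormOdd m F₀)) :
    oThO h2 ι s ∈ Omega F (quadFormOdd m F) := by
  have h : (Omega F₀ (quadFormOdd m F₀)).map (oThO h2 ι) ≤ Omega F (quadFormOdd m F) := by
    show (commutator _).map _ ≤ commutator _
    rw [commutator_def, commutator_def, Subgroup.map_commutator]
    exact Subgroup.commutator_mono le_top le_top
  exact h ⟨s, hs, rfl⟩

/-- the embedding of `Ω` over a subfield -/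
noncomputable def oThΩ (h2 : (2 : F) ≠ 0) (ι : F₀ →+* F) :
    ↥(Omega F₀ (quadFormOdd m F₀)) →* ↥(Omega F (quadFormOdd m F)) :=
  ((oThO h2 ι).comp (Subgroup.subtype _)).codRestrict _ (fun s => oThO_map_omega h2 ι s.1 s.2)

theorem oThΩ_coe (h2 : (2 : F) ≠ 0) (ι : F₀ →+* F) (s : ↥(Omega F₀ (quadFormOdd m F₀))) :
    ((oThΩ h2 ι s : ↥(Omega F (quadFormOdd m F))) : ↥(isometryGroup F (quadFormOdd m F)))
      = oThO h2 ι (s : ↥(isometryGroup F₀ (quadFormOdd m F₀))) := rfl

theorem oThO_injective (h2 : (2 : F) ≠ 0) (ι : F₀ →+* F) :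
    Function.Injective (oThO (m := m) h2 ι) := by
  intro a b hab
  apply Subtype.ext
  apply Units.ext
  have h1 := congrArg (fun t : ↥(isometryGroup F (quadFormOdd m F)) =>
    ((t : GL (OI m) F) : Matrix (OI m) (OI m) F)) hab
  simp only [oThO_coe] at h1
  exact Matrix.map_injective ι.injective h1

theorem oThO_surj (h2 : (2 : F) ≠ 0) (σ : RingAut F) (ι : F₀ →+* F)
    (hι : ∀ x, σ x = x ↔ x ∈ Set.range ι) (s : ↥(isometryGroup F (quadFormOdd m F)))
    (hfix : glMap σ (s : GL (OI m) F) = s) :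
    ∃ γ : ↥(isometryGroup F₀ (quadFormOdd m F₀)), oThO h2 ι γ = s := by
  obtain ⟨γ', hγ'⟩ := oTh_surj h2 σ ι hι (s : GL (OI m) F) (Helper45.iso_le_sim _ s.2) hfix
  have hmem : (γ' : GL (OI m) F₀) ∈ isometryGroup F₀ (quadFormOdd m F₀) := by
    rw [Helper45.mem_iso_iff]
    intro v
    apply ι.injective
    have h1 : ((γ' : GL (OI m) F₀) : Matrix (OI m) (OI m) F₀).map ι
        = ((s : GL (OI m) F) : Matrix (OI m) (OI m) F) := by
      rw [← oTh_coe h2 ι γ', hγ']
    rw [← qodd_ivec, ← map_mulVec_ivec, h1, ← qodd_ivec]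
    exact (Helper45.mem_iso_iff _ _).mp s.2 (ivec ι v)
  refine ⟨⟨γ', hmem⟩, ?_⟩
  apply Subtype.ext
  exact hγ'

end sub

section invol

variable {F : Type u} [Field F] [Fintype F] {m : ℕ}

/-- an involution in `Ω_{2m+1}(q)` -/
theorem exists_invol_omega (h2 : (2 : F) ≠ 0) (hm : 3 ≤ m) :
    ∃ t : ↥(Omega F (quadFormOdd m F)), t * t = 1 ∧ t ≠ 1 := by
  have hQ := Helper45.oddQF_nondeg' (F := F) m h2
  have hcard : Fintype.card (OI m) = 2 * m + 1 := card_OI
  have hcard2 : 2 ≤ Fintype.card (OI m) := by omega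
  obtain ⟨i, hi⟩ : ∃ i : Fin m, i = ⟨0, by omega⟩ := ⟨_, rfl⟩
  obtain ⟨u, hu⟩ : ∃ u : OI m → F, u = bO := ⟨_, rfl⟩
  obtain ⟨w, hw⟩ : ∃ w : OI m → F, w = bE i + bF i := ⟨_, rfl⟩
  have hQu : Helper43.oddQF m F u = 1 := by rw [hu]; exact Q_bO
  have hQw : Helper43.oddQF m F w = 1 := by
    rw [hw, Helper13.Q_add', Q_bE, Q_bF, polar_bE, bF_R, if_pos rfl]
    ring
  have hu0 : Helper43.oddQF m F u ≠ 0 := by rw [hQu]; exact one_ne_zero
  have hw0 : Helper43.oddQF m F w ≠ 0 := by rw [hQw]; exact one_ne_zero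
  have huw : QuadraticMap.polar ⇑(Helper43.oddQF m F) u w = 0 := by
    rw [hu, polar_bO, hw, Pi.add_apply, bE_O, bF_O, add_zero, mul_zero]
  have hwu : QuadraticMap.polar ⇑(Helper43.oddQF m F) w u = 0 := by
    rw [QuadraticMap.polar_comm]
    exact huw
  obtain ⟨ru, hru⟩ : ∃ ru : ↥(isometryGroup F (quadFormOdd m F)),
      ru = Helper45.reflO (Helper43.oddQF m F) u hu0 := ⟨_, rfl⟩
  obtain ⟨rw, hrw⟩ : ∃ rw : ↥(isometryGroup F (quadFormOdd m F)),
      rw = Helper45.reflO (Helper43.oddQF m F) w hw0 := ⟨_, rfl⟩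
  have hmvw : Helper45.mv (quadFormOdd m F) ru w = w := by
    rw [hru]
    have h1 := Helper45.mv_reflO (Helper43.oddQF m F) u hu0 w
    rw [huw, mul_zero, zero_smul, sub_zero] at h1
    exact h1
  have hmvu : Helper45.mv (quadFormOdd m F) rw u = u := by
    rw [hrw]
    have h1 := Helper45.mv_reflO (Helper43.oddQF m F) w hw0 u
    rw [hwu, mul_zero, zero_smul, sub_zero] at h1
    exact h1
  have hmvuu : Helper45.mv (quadFormOdd m F) ru u = -u := by
    rw [hru]
    have h1 := Helper45.mv_reflO (Helper43.oddQF m F) u hu0 u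
    rw [Helper44.polar_self_eq, hQu, inv_one, one_mul, mul_one, two_smul] at h1
    rw [h1]
    abel
  have hgen : ∀ (v : OI m → F) (hv : Helper43.oddQF m F v ≠ 0), v = w →
      Helper45.reflO (Helper43.oddQF m F) v hv = Helper45.reflO (Helper43.oddQF m F) w hw0 := by
    intro v hv hvw
    subst hvw
    rfl
  have hconj : ru * rw * ru⁻¹ = rw := by
    have hkv : Helper43.oddQF m F (Helper45.mv (quadFormOdd m F) ru w) ≠ 0 := by
      rw [hmvw]
      exact hw0
    have h1 : ru * rw * ru⁻¹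
        = Helper45.reflO (Helper43.oddQF m F) (Helper45.mv (quadFormOdd m F) ru w) hkv := by
      rw [hrw]
      exact Helper45.conj_reflO (Helper43.oddQF m F) ru w hw0 hkv
    exact h1.trans ((hgen _ hkv hmvw).trans hrw.symm)
  have hruinv : ru⁻¹ = ru := by
    rw [hru]
    exact Helper44.reflO_inv (Helper43.oddQF m F) u hu0
  have hrwsq : rw * rw = 1 := by
    rw [hrw]
    exact Helper45.reflO_mul_self (Helper43.oddQF m F) w hw0
  have hmem : ru * rw ∈ Omega F (quadFormOdd m F) := by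
    rw [hru, hrw]
    exact Helper45.refl_pair_mem_omega_all (Helper43.oddQF m F) hQ hcard2 u w hu0 hw0
      (hQu.trans hQw.symm)
  refine ⟨⟨ru * rw, hmem⟩, ?_, ?_⟩
  · apply Subtype.ext
    show ru * rw * (ru * rw) = 1
    rw [hruinv] at hconj
    calc ru * rw * (ru * rw) = (ru * rw * ru) * rw := by group
      _ = 1 := by rw [hconj, hrwsq]
  · intro h
    have h1 : ru * rw = 1 := congrArg Subtype.val h
    have h3 : Helper45.mv (quadFormOdd m F) (ru * rw) u = Helper45.mv (quadFormOdd m F) 1 u := by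
      rw [h1]
    rw [Helper45.mv_mul, hmvu, hmvuu, Helper45.mv_one] at h3
    have h4 := congrFun h3 (Sum.inl ())
    rw [Pi.neg_apply, hu, bO_O] at h4
    apply h2
    linear_combination (-1 : F) * h4

end invol

/-! ### normal subgroups of the group of fixed points -/

section normal

variable {F : Type u} [Field F] [Fintype F] {F₀ : Type v} [Field F₀] [Fintype F₀] {m : ℕ}

/-- a subgroup of the fixed points of a field automorphism, normalised by all fixed points and of
order prime to `p`, is trivial when the fixed points contain an element of order `p` -/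
theorem odd_fix_normal_trivial (h2 : (2 : F) ≠ 0) (hm : 3 ≤ m) (p : ℕ) [Fact p.Prime]
    (σ : RingAut F) (ι : F₀ →+* F) (hι : ∀ x, σ x = x ↔ x ∈ Set.range ι)
    (M : Subgroup (POmega F (quadFormOdd m F)))
    (hMnorm : ∀ c : POmega F (quadFormOdd m F),
      (oF σ : MulAut (POmega F (quadFormOdd m F))) c = c → ∀ k ∈ M, c * k * c⁻¹ ∈ M)
    (hMfix : ∀ k ∈ M, (oF σ : MulAut (POmega F (quadFormOdd m F))) k = k)
    (hMcop : (Nat.card M).Coprime p)
    (hp : ∃ c : POmega F (quadFormOdd m F),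
      (oF σ : MulAut (POmega F (quadFormOdd m F))) c = c ∧ orderOf c = p) :
    M = ⊥ := by
  classical
  have h2₀ : (2 : F₀) ≠ 0 := two_ne_zero_sub h2 ι
  have hQ := Helper45.oddQF_nondeg' (F := F) m h2
  have hQ₀ := Helper45.oddQF_nondeg' (F := F₀) m h2₀
  have hcard : Fintype.card (OI m) = 2 * m + 1 := card_OI
  have hn6 : 6 ≤ Fintype.card (OI m) := by omega
  have hcard2 : 2 ≤ Fintype.card (OI m) := by omega
  obtain ⟨π, hπ⟩ : ∃ π : ↥(Omega F₀ (quadFormOdd m F₀)) →* POmega F (quadFormOdd m F),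
      ∀ s₀, π s₀ = QuotientGroup.mk (oThΩ h2 ι s₀) :=
    ⟨(QuotientGroup.mk' _).comp (oThΩ h2 ι), fun s₀ => rfl⟩
  have hπfix : ∀ s₀, (oF σ : MulAut (POmega F (quadFormOdd m F))) (π s₀) = π s₀ := by
    intro s₀
    rw [hπ, oF_fix_iff h2 hm, oThΩ_coe]
    exact oThO_fixed h2 σ ι hι _
  have hπinj : ∀ s₀, π s₀ = 1 → s₀ = 1 := by
    intro s₀ h
    have h1 : (QuotientGroup.mk (oThΩ h2 ι s₀) : POmega F (quadFormOdd m F))
        = QuotientGroup.mk (1 : ↥(Omega F (quadFormOdd m F))) := by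
      rw [← hπ, h]
      rfl
    rw [mk_eq_mk_iff h2 hm] at h1
    have h3 : oThO h2 ι (s₀ : ↥(isometryGroup F₀ (quadFormOdd m F₀))) = oThO h2 ι 1 := by
      rw [map_one, ← oThΩ_coe, h1]
      rfl
    exact Subtype.ext (oThO_injective h2 ι h3)
  obtain ⟨N₀, hN₀def⟩ : ∃ N₀ : Subgroup ↥(Omega F₀ (quadFormOdd m F₀)), N₀ = M.comap π :=
    ⟨_, rfl⟩
  have hN₀mem : ∀ s₀, s₀ ∈ N₀ ↔ π s₀ ∈ M := by
    intro s₀
    rw [hN₀def]
    rfl
  haveI hN₀ : N₀.Normal := ⟨fun n hn g => by
    rw [hN₀mem] at hn ⊢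
    rw [map_mul, map_mul, map_inv]
    exact hMnorm (π g) (hπfix g) (π n) hn⟩
  have hcent₀ : Subgroup.center ↥(Omega F₀ (quadFormOdd m F₀)) = ⊥ := odd_center_bot h2₀ hm
  by_cases hN : N₀ ≤ Subgroup.center ↥(Omega F₀ (quadFormOdd m F₀))
  · -- `N₀` trivial: `M` centralises the subfield group
    rw [hcent₀] at hN
    rw [eq_bot_iff]
    intro k hk
    rw [Subgroup.mem_bot]
    obtain ⟨s, rfl⟩ := QuotientGroup.mk_surjective k
    have hfix := (oF_fix_iff h2 hm σ s).mp (hMfix _ hk)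
    obtain ⟨γ, hγ⟩ := oThO_surj h2 σ ι hι (s : ↥(isometryGroup F (quadFormOdd m F))) hfix
    have hcomm : ∀ t₀ : ↥(Omega F₀ (quadFormOdd m F₀)),
        γ * (t₀ : ↥(isometryGroup F₀ (quadFormOdd m F₀)))
          = (t₀ : ↥(isometryGroup F₀ (quadFormOdd m F₀))) * γ := by
      intro t₀
      have hwmem : γ * (t₀ : ↥(isometryGroup F₀ (quadFormOdd m F₀))) * γ⁻¹
          * (t₀ : ↥(isometryGroup F₀ (quadFormOdd m F₀)))⁻¹ ∈ Omega F₀ (quadFormOdd m F₀) :=
        Subgroup.mul_mem _
          ((inferInstance : (Omega F₀ (quadFormOdd m F₀)).Normal).conj_mem _ t₀.2 γ)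
          (Subgroup.inv_mem _ t₀.2)
      have hw : (⟨_, hwmem⟩ : ↥(Omega F₀ (quadFormOdd m F₀))) ∈ N₀ := by
        rw [hN₀mem]
        have h1 : π ⟨_, hwmem⟩ = (QuotientGroup.mk s : POmega F (quadFormOdd m F))
            * (π t₀ * (QuotientGroup.mk s : POmega F (quadFormOdd m F))⁻¹ * (π t₀)⁻¹) := by
          rw [hπ, hπ, ← QuotientGroup.mk_inv, ← QuotientGroup.mk_mul, ← QuotientGroup.mk_inv,
            ← QuotientGroup.mk_mul, ← QuotientGroup.mk_mul, mk_eq_mk_iff h2 hm]
          apply Subtype.ext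
          show oThO h2 ι (γ * (t₀ : ↥(isometryGroup F₀ (quadFormOdd m F₀))) * γ⁻¹
              * (t₀ : ↥(isometryGroup F₀ (quadFormOdd m F₀)))⁻¹)
            = (s : ↥(isometryGroup F (quadFormOdd m F)))
              * (oThO h2 ι (t₀ : ↥(isometryGroup F₀ (quadFormOdd m F₀)))
                * (s : ↥(isometryGroup F (quadFormOdd m F)))⁻¹
                * (oThO h2 ι (t₀ : ↥(isometryGroup F₀ (quadFormOdd m F₀))))⁻¹)
          rw [map_mul, map_mul, map_mul, map_inv, map_inv, hγ]
          group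
        rw [h1]
        exact Subgroup.mul_mem _ hk (hMnorm (π t₀) (hπfix t₀) _ (Subgroup.inv_mem _ hk))
      have hw1 := hN hw
      rw [Subgroup.mem_bot] at hw1
      have hw2 : γ * (t₀ : ↥(isometryGroup F₀ (quadFormOdd m F₀))) * γ⁻¹
          * (t₀ : ↥(isometryGroup F₀ (quadFormOdd m F₀)))⁻¹ = 1 := congrArg Subtype.val hw1
      calc γ * (t₀ : ↥(isometryGroup F₀ (quadFormOdd m F₀)))
          = (γ * (t₀ : ↥(isometryGroup F₀ (quadFormOdd m F₀))) * γ⁻¹
            * (t₀ : ↥(isometryGroup F₀ (quadFormOdd m F₀)))⁻¹)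
              * ((t₀ : ↥(isometryGroup F₀ (quadFormOdd m F₀))) * γ) := by group
        _ = (t₀ : ↥(isometryGroup F₀ (quadFormOdd m F₀))) * γ := by rw [hw2, one_mul]
    obtain ⟨l₀, hl₀⟩ := (Helper45.odd_hypPairs (F := F₀) m).scalar_of_comm hm hQ₀ γ
      (fun a b ha hb hab => hcomm ⟨_, Helper45.refl_pair_mem_omega_all (Helper43.oddQF m F₀) hQ₀
        hcard2 a b ha hb hab⟩)
    have hsl : ∀ x : OI m → F,
        Helper45.mv (quadFormOdd m F) (s : ↥(isometryGroup F (quadFormOdd m F))) x = ι l₀ • x := by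
      intro x
      show (((s : ↥(isometryGroup F (quadFormOdd m F))) : GL (OI m) F) :
        Matrix (OI m) (OI m) F) *ᵥ x = ι l₀ • x
      rw [← hγ, oThO_coe, hl₀]
      have h5 : (l₀ • (1 : Matrix (OI m) (OI m) F₀)).map ι = ι l₀ • (1 : Matrix (OI m) (OI m) F) := by
        ext i j
        rw [Matrix.map_apply, Matrix.smul_apply, Matrix.smul_apply, Matrix.one_apply,
          Matrix.one_apply, smul_eq_mul, smul_eq_mul, map_mul]
        by_cases hij : i = j
        · rw [if_pos hij, if_pos hij, map_one]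
        · rw [if_neg hij, if_neg hij, map_zero]
      rw [h5, Matrix.smul_mulVec, Matrix.one_mulVec]
    have hsc := Helper45.mem_center_of_scalar (Helper43.oddQF m F) s (ι l₀) hsl
    have hsc' : s ∈ Subgroup.center ↥(Omega F (quadFormOdd m F)) := hsc
    rw [odd_center_bot h2 hm, Subgroup.mem_bot] at hsc'
    rw [hsc']
    rfl
  · -- `N₀` is everything
    exfalso
    have htop : N₀ = ⊤ :=
      Helper45.normal_eq_top (Helper43.oddQF m F₀) hQ₀ hn6 N₀ (hNn := hN₀) hN
    have hall : ∀ s₀, π s₀ ∈ M := by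
      intro s₀
      rw [← hN₀mem, htop]
      trivial
    have hdvd : ∀ k ∈ M, orderOf k ∣ Nat.card M := by
      intro k hk
      have h3 : orderOf (⟨k, hk⟩ : M) ∣ Nat.card M := orderOf_dvd_natCard _
      rwa [Subgroup.orderOf_mk] at h3
    have hcontra : ∀ k ∈ M, orderOf k ≠ p := by
      intro k hk hkp
      have h3 := hdvd k hk
      rw [hkp] at h3
      exact (Fact.out : p.Prime).one_lt.ne' (Nat.Coprime.eq_one_of_dvd hMcop.symm h3)
    by_cases hp2 : p = 2
    · obtain ⟨t₀, ht₀, ht₀1⟩ := exists_invol_omega (F := F₀) h2₀ hm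
      apply hcontra (π t₀) (hall t₀)
      rw [hp2]
      apply orderOf_eq_prime
      · rw [pow_two, ← map_mul, ht₀, map_one]
      · intro h
        exact ht₀1 (hπinj t₀ h)
    · obtain ⟨c, hcfix, hcord⟩ := hp
      obtain ⟨s, rfl⟩ := QuotientGroup.mk_surjective c
      have hfix := (oF_fix_iff h2 hm σ s).mp hcfix
      obtain ⟨γ, hγ⟩ := oThO_surj h2 σ ι hι (s : ↥(isometryGroup F (quadFormOdd m F))) hfix
      obtain ⟨ε₀, hε₀⟩ := FiniteField.exists_nonsquare (Helper45.ringChar_ne_two h2₀)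
      have hγ2 : γ * γ ∈ Omega F₀ (quadFormOdd m F₀) := by
        apply (Helper45.mem_omega_iff (Helper43.oddQF m F₀) h2₀ hQ₀ hcard2 ε₀ hε₀ (γ * γ)).mpr
        constructor
        · show Helper45.spin (quadFormOdd m F₀) 1 (γ * γ) = 1
          rw [map_mul, Int.units_mul_self]
        · show Helper45.spin (quadFormOdd m F₀) ε₀ (γ * γ) = 1
          rw [map_mul, Int.units_mul_self]
      have hcc : (QuotientGroup.mk s : POmega F (quadFormOdd m F)) ^ 2 = π ⟨γ * γ, hγ2⟩ := by
        rw [hπ, pow_two, ← QuotientGroup.mk_mul, mk_eq_mk_iff h2 hm]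
        apply Subtype.ext
        show (s : ↥(isometryGroup F (quadFormOdd m F))) * (s : ↥(isometryGroup F (quadFormOdd m F)))
          = oThO h2 ι (γ * γ)
        rw [map_mul, hγ]
      apply hcontra _ (hall ⟨γ * γ, hγ2⟩)
      rw [← hcc, orderOf_pow' _ (two_ne_zero), hcord]
      have hcop2 : Nat.Coprime p 2 := by
        rw [Nat.coprime_comm, Nat.Prime.coprime_iff_not_dvd Nat.prime_two]
        intro h
        exact hp2 ((Nat.prime_dvd_prime_iff_eq Nat.prime_two Fact.out).mp h).symm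
      rw [Nat.Coprime.gcd_eq_one hcop2, Nat.div_one]

end normal

end Cfsg.Agent.Helper44.POm
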