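import Mathlib
import Cfsg.Agent.Helper44.OmG

/-!
# Field automorphisms of `PΩ_{2m+1}(q)` (helper44), part H: local balance
-/

set_option autoImplicit false
set_option linter.unusedSimpArgs false
set_option linter.unusedSectionVars false
set_option linter.unusedVariables false

namespace Cfsg.Agent.Helper44.POm

open Matrix Cfsg
open Cfsg.Agent.Helper45.OO (semiAut semiMap glMap polarGram)

universe u v

section balance

variable {F : Type u} [Field F] [Fintype F] {m : ℕ}

/-- Cauchy's theorem in the fixed points of an automorphism -/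
theorem exists_fix_of_order (p : ℕ) [Fact p.Prime] (y : MulAut (POmega F (quadFormOdd m F)))
    (hdvd : p ∣ Nat.card ↥(MonoidHom.eqLocus y.toMonoidHom
      (MonoidHom.id (POmega F (quadFormOdd m F))))) :
    ∃ c : POmega F (quadFormOdd m F), y c = c ∧ orderOf c = p := by
  obtain ⟨c, hc⟩ := exists_prime_orderOf_dvd_card' p hdvd
  exact ⟨c, c.2, by rw [Subgroup.orderOf_coe]; exact hc⟩

set_option maxHeartbeats 1600000 in
/-- the criterion for a conjugate of a standard field automorphism of order `p` -/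
theorem odd_balance_core (hodd : Odd (Fintype.card F)) (hm : 3 ≤ m)
    (A : Subgroup (MulAut (POmega F (quadFormOdd m F))))
    (hinn : ∀ k : POmega F (quadFormOdd m F), MulAut.conj k ∈ A)
    (p : ℕ) [Fact p.Prime] (κ : MulAut (POmega F (quadFormOdd m F))) (σ : RingAut F)
    (hσ : orderOf σ = p) :
    pPrimeCore p ↥(A ⊓ Subgroup.centralizer {κ * oF σ * κ⁻¹}) ≠ ⊥ ↔
      Nat.Coprime p (Nat.card ↥(MonoidHom.eqLocus
        (κ * oF σ * κ⁻¹ : MulAut (POmega F (quadFormOdd m F))).toMonoidHom
        (MonoidHom.id (POmega F (quadFormOdd m F))))) := by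
  classical
  have h2 : (2 : F) ≠ 0 := Helper45.two_ne_zero_of_odd_card hodd
  have hZ : ∀ k : POmega F (quadFormOdd m F), MulAut.conj k = 1 → k = 1 := conj_eq_one h2 hm
  have hxκ : ∀ k : POmega F (quadFormOdd m F),
      (κ * oF σ * κ⁻¹ : MulAut (POmega F (quadFormOdd m F))) (κ k)
        = κ ((oF σ : MulAut (POmega F (quadFormOdd m F))) k) := by
    intro k
    rw [MulAut.mul_apply, MulAut.mul_apply, MulAut.inv_apply_self]
  have hfix_iff : ∀ k : POmega F (quadFormOdd m F),
      (κ * oF σ * κ⁻¹ : MulAut (POmega F (quadFormOdd m F))) (κ k) = κ k ↔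
        (oF σ : MulAut (POmega F (quadFormOdd m F))) k = k := by
    intro k
    rw [hxκ]
    exact κ.injective.eq_iff
  have hκinv : ∀ k : POmega F (quadFormOdd m F), κ (κ⁻¹ k) = k :=
    fun k => MulAut.apply_inv_self _ κ k
  have hxp : orderOf (κ * oF σ * κ⁻¹ : MulAut (POmega F (quadFormOdd m F))) = p := by
    have h1 := MulEquiv.orderOf_eq (MulAut.conj κ) (oF σ : MulAut (POmega F (quadFormOdd m F)))
    rw [MulAut.conj_apply] at h1
    rw [h1, orderOf_oF hodd hm, hσ]
  -- a standard Eichler transformation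
  obtain ⟨i, hi⟩ : ∃ i : Fin m, i = ⟨0, by omega⟩ := ⟨_, rfl⟩
  obtain ⟨j, hj⟩ : ∃ j : Fin m, j = ⟨1, by omega⟩ := ⟨_, rfl⟩
  have hij : i ≠ j := by
    rw [hi, hj]
    intro h
    have h1 := congrArg Fin.val h
    simp at h1
  have hub : QuadraticMap.polar ⇑(Helper43.oddQF m F) (bE i) ((1 : F) • bE j) = 0 := by
    rw [polar_bE, Pi.smul_apply, bE_R, smul_zero]
  obtain ⟨t, ht⟩ : ∃ t : ↥(Omega F (quadFormOdd m F)),
      t = eiΩ h2 hm (bE i) ((1 : F) • bE j) (Q_bE i) hub := ⟨_, rfl⟩
  have htfix : (oF σ : MulAut (POmega F (quadFormOdd m F))) (QuotientGroup.mk t)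
      = QuotientGroup.mk t := by
    rw [ht]
    exact eiΩ_fixed h2 hm σ _ _ _ _ (fvec_single σ _)
      (by rw [fvec_smul, map_one]; congr 1; exact fvec_single σ _)
  have htne : (QuotientGroup.mk t : POmega F (quadFormOdd m F)) ≠ 1 := by
    intro h1
    have h3 : (QuotientGroup.mk t : POmega F (quadFormOdd m F))
        = QuotientGroup.mk (1 : ↥(Omega F (quadFormOdd m F))) := h1
    rw [mk_eq_mk_iff h2 hm] at h3
    have h4 := eiΩ_mulVec h2 hm (bE i) ((1 : F) • bE j) (Q_bE i) hub (bF j)
    rw [← ht, h3, eich_Ec] at h4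
    have h5 := congrFun h4 (Sum.inr (Sum.inl i))
    have h6 : (((1 : ↥(Omega F (quadFormOdd m F))) : ↥(isometryGroup F (quadFormOdd m F))) :
        GL (OI m) F) = 1 := rfl
    rw [h6, Units.val_one, Matrix.one_mulVec] at h5
    simp [bF_L, bF_R, bE_L, hij, Ne.symm hij] at h5
  constructor
  · -- a nontrivial core forces coprimality
    intro hne
    by_contra hcop
    apply hne
    have hdvd : p ∣ Nat.card ↥(MonoidHom.eqLocus
        (κ * oF σ * κ⁻¹ : MulAut (POmega F (quadFormOdd m F))).toMonoidHom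
        (MonoidHom.id (POmega F (quadFormOdd m F)))) := by
      by_contra hnd
      exact hcop ((Nat.Prime.coprime_iff_not_dvd Fact.out).2 hnd)
    obtain ⟨c, hcfix, hc⟩ := exists_fix_of_order p
      (κ * oF σ * κ⁻¹ : MulAut (POmega F (quadFormOdd m F))) hdvd
    apply PSpn.core_eq_bot_of hZ A hinn p _ hxp
    · -- normal `p'`-subgroups of the fixed points
      intro M hMnorm hMfix hMcop
      haveI : Fintype ↥(PSpn.fixF σ) := Fintype.ofFinite _
      have hM' : M.comap κ.toMonoidHom = ⊥ := by
        apply odd_fix_normal_trivial h2 hm p σ (PSpn.fixF σ).subtype (PSpn.fixF_range σ)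
        · intro c' hc' k' hk'
          show κ (c' * k' * c'⁻¹) ∈ M
          rw [map_mul, map_mul, map_inv]
          exact hMnorm (κ c') ((hfix_iff c').2 hc') (κ k') hk'
        · intro k' hk'
          exact (hfix_iff k').1 (hMfix (κ k') hk')
        · have hbij : Function.Bijective
              (fun k' : ↥(M.comap κ.toMonoidHom) =>
                (⟨κ (k' : POmega F (quadFormOdd m F)), k'.2⟩ : ↥M)) := by
            constructor
            · intro a b hab
              exact Subtype.ext (κ.injective (congrArg Subtype.val hab))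
            · intro k
              refine ⟨⟨κ⁻¹ (k : POmega F (quadFormOdd m F)), ?_⟩, ?_⟩
              · show κ (κ⁻¹ (k : POmega F (quadFormOdd m F))) ∈ M
                rw [hκinv]
                exact k.2
              · exact Subtype.ext (hκinv _)
          rw [Nat.card_eq_of_bijective _ hbij]
          exact hMcop
        · refine ⟨κ⁻¹ (c : POmega F (quadFormOdd m F)), ?_, ?_⟩
          · apply (hfix_iff _).1
            rw [hκinv]
            exact hcfix
          · have h1 := MulEquiv.orderOf_eq (κ⁻¹ : MulAut (POmega F (quadFormOdd m F)))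
              (c : POmega F (quadFormOdd m F))
            rw [h1, hc]
      rw [eq_bot_iff]
      intro k hk
      rw [Subgroup.mem_bot]
      have h1 : κ⁻¹ k ∈ M.comap κ.toMonoidHom := by
        show κ (κ⁻¹ k) ∈ M
        rw [hκinv]
        exact hk
      rw [hM', Subgroup.mem_bot] at h1
      have h3 := hκinv k
      rw [h1, map_one] at h3
      exact h3.symm
    · -- automorphisms fixing the fixed points
      intro n hn
      have hn' : ∀ k' : POmega F (quadFormOdd m F),
          (oF σ : MulAut (POmega F (quadFormOdd m F))) k' = k' →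
          (κ⁻¹ * n * κ : MulAut (POmega F (quadFormOdd m F))) k' = k' := by
        intro k' hk'
        rw [MulAut.mul_apply, MulAut.mul_apply, hn (κ k') ((hfix_iff k').2 hk'),
          MulAut.inv_apply_self]
      obtain ⟨z, hz⟩ := Subgroup.mem_zpowers_iff.1
        (fix_pointwise_zpowers hodd hm σ (κ⁻¹ * n * κ) hn')
      rw [Subgroup.mem_zpowers_iff]
      refine ⟨z, ?_⟩
      rw [conj_zpow, hz]
      group
  · intro hcop
    apply PSpn.core_ne_bot_of_fix A hinn p _ hcop (κ (QuotientGroup.mk t))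
    · exact (hfix_iff _).2 htfix
    · intro h1
      have h3 := hZ _ h1
      apply htne
      apply κ.injective
      rw [h3, map_one]

/-- **local balance for `Ω_{2m+1}(q)`**: for an automorphism `x` of prime order `p`, not
inner-diagonal, `O_{p'}(C_A(x)) ≠ 1` iff `x` is a field automorphism and `p` does not divide the
number of its fixed points -/
theorem odd_local_balance (hodd : Odd (Fintype.card F)) (hm : 3 ≤ m)
    (A : Subgroup (MulAut (POmega F (quadFormOdd m F))))
    (hinn : ∀ k : POmega F (quadFormOdd m F), MulAut.conj k ∈ A)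
    (p : ℕ) [Fact p.Prime] (x : MulAut (POmega F (quadFormOdd m F))) (hord : orderOf x = p)
    (hnot : ¬ IsInnerDiagonalAutPOmegaOdd m x) :
    pPrimeCore p ↥(A ⊓ Subgroup.centralizer {x}) ≠ ⊥ ↔
      (IsFieldAutClassPOmega (quadFormOdd m F) x ∧ Nat.Coprime p (Nat.card ↥(MonoidHom.eqLocus
        x.toMonoidHom (MonoidHom.id (POmega F (quadFormOdd m F)))))) := by
  have hxp : x ^ p = 1 := by
    rw [← hord]
    exact pow_orderOf_eq_one x
  obtain ⟨Θ, hΘ1, hΘ2, hker⟩ := odd_theta (F := F) hodd hm
  obtain ⟨σ, g, hg, e⟩ : ∃ (σ : RingAut F) (g : GL (OI m) F)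
      (hg : IsSemisimilarityPair (quadFormOdd m F) g σ),
      x = semiAut (quadFormOdd m F) g σ hg := by
    obtain ⟨g, hg, e⟩ := hΘ2 x
    exact ⟨Θ x, g, hg, e⟩
  have hσ1 : σ ≠ 1 := by
    rintro rfl
    apply hnot
    exact ⟨g, hg, (Helper45.OO.semi_ind_iff (quadFormOdd m F) g (RingEquiv.refl F) hg x).mpr e⟩
  have hΘx : Θ x = σ := by
    rw [e]
    exact hΘ1 g σ hg
  have hσp : orderOf σ = p := by
    have h1 : σ ^ p = 1 := by
      rw [← hΘx, ← map_pow, hxp, map_one]
    have h4 : orderOf σ ∣ p := orderOf_dvd_of_pow_eq_one h1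
    rcases (Nat.dvd_prime Fact.out).1 h4 with h5 | h5
    · exact absurd (orderOf_eq_one_iff.1 h5) hσ1
    · exact h5
  have hgsim : g ∈ Geo.quadSimilarityGroup (F := F) (quadFormOdd m F) := by
    obtain ⟨c, hc⟩ := hg
    refine ⟨c, fun v => ?_⟩
    have h1 := hc (fvec σ⁻¹ v)
    have h3 : (fun i => σ (fvec σ⁻¹ v i)) = v := fvec_inv σ v
    rw [h3, qodd_fvec] at h1
    rw [h1]
    congr 1
    exact RingEquiv.apply_symm_apply σ _
  have hx1 : x = semiAut (quadFormOdd m F) g (RingEquiv.refl F) (semi_of_mem _ g hgsim) * oF σ := by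
    rw [e]
    exact (simHom_mul_oF ⟨g, hgsim⟩ σ hg).symm
  have hy : (semiAut (quadFormOdd m F) g (RingEquiv.refl F) (semi_of_mem _ g hgsim) * oF σ) ^ p
      = 1 := by
    rw [← hx1]
    exact hxp
  obtain ⟨k, hk, hkeq⟩ := olang_field_std hodd hm σ p hσp (Fact.out : p.Prime).pos g
    (semi_of_mem _ g hgsim) hy
  have hx' : x = semiAut (quadFormOdd m F) k (RingEquiv.refl F) hk * oF σ
      * (semiAut (quadFormOdd m F) k (RingEquiv.refl F) hk)⁻¹ := hx1.trans hkeq
  have hfc : IsFieldAutClassPOmega (quadFormOdd m F) x := by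
    refine ⟨(semiAut (quadFormOdd m F) k (RingEquiv.refl F) hk)⁻¹, oF σ, σ, hσ1, oF_std σ, ?_⟩
    rw [hx']
    group
  have hcore := odd_balance_core hodd hm A hinn p
    (semiAut (quadFormOdd m F) k (RingEquiv.refl F) hk) σ hσp
  rw [← hx'] at hcore
  rw [hcore]
  exact ⟨fun h => ⟨hfc, h⟩, fun h => h.2⟩

end balance

end Cfsg.Agent.Helper44.POm
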