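import Cfsg.Agent.Helper44.OmegaTwo
import Cfsg.Agent.Helper44.OPlus
import Cfsg.Agent.Helper13.FinQuad

set_option autoImplicit false

/-!
Helper library (helper44): moving subspaces by elements of `Ω`. Witt's theorem gives an isometry
carrying `U` to `W`; it is corrected by elements of the stabiliser of `U` whose images generate
the quotient of the isometry group by `Ω` (one reflection in characteristic two, two elements
with independent spinor characters in odd characteristic).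
-/

namespace Cfsg.Agent.Helper44

open Cfsg Matrix Cfsg.Agent.Helper45

universe u

section Stab

variable {ι : Type} [Fintype ι] [DecidableEq ι] {F : Type u} [Field F]
  (Q : QuadraticForm F (ι → F))

/-- the image of a subspace under an isometry -/
abbrev mapSub (U : Submodule F (ι → F)) (g : ↥(isometryGroup F ⇑Q)) : Submodule F (ι → F) :=
  U.map (Matrix.mulVecLin ((g : GL ι F) : Matrix ι ι F))

theorem mem_mapSub (U : Submodule F (ι → F)) (g : ↥(isometryGroup F ⇑Q)) (y : ι → F) :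
    y ∈ mapSub Q U g ↔ ∃ x ∈ U, mv ⇑Q g x = y := by
  rw [Submodule.mem_map]
  rfl

theorem mv_injective (g : ↥(isometryGroup F ⇑Q)) : Function.Injective (mv ⇑Q g) := by
  intro x y hxy
  have h1 : mv ⇑Q g⁻¹ (mv ⇑Q g x) = x := by rw [← mv_mul, inv_mul_cancel, mv_one]
  have h2 : mv ⇑Q g⁻¹ (mv ⇑Q g y) = y := by rw [← mv_mul, inv_mul_cancel, mv_one]
  rw [← h1, ← h2, hxy]

theorem finrank_mapSub (U : Submodule F (ι → F)) (g : ↥(isometryGroup F ⇑Q)) :
    Module.finrank F ↥(mapSub Q U g) = Module.finrank F ↥U :=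
  (Submodule.equivMapOfInjective _ (mv_injective Q g) U).finrank_eq.symm

theorem mapSub_eq_of_le (U W : Submodule F (ι → F)) (g : ↥(isometryGroup F ⇑Q))
    (hle : ∀ x ∈ U, mv ⇑Q g x ∈ W) (hfr : Module.finrank F ↥U = Module.finrank F ↥W) :
    mapSub Q U g = W := by
  apply Submodule.eq_of_le_of_finrank_eq
  · intro y hy
    obtain ⟨x, hx, rfl⟩ := (mem_mapSub Q U g y).mp hy
    exact hle x hx
  · rw [finrank_mapSub, hfr]

theorem mapSub_mul (U : Submodule F (ι → F)) (k s : ↥(isometryGroup F ⇑Q)) :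
    mapSub Q U (k * s) = mapSub Q (mapSub Q U s) k := by
  ext y
  simp only [mem_mapSub]
  constructor
  · rintro ⟨x, hx, rfl⟩
    exact ⟨mv ⇑Q s x, ⟨x, hx, rfl⟩, (mv_mul ⇑Q k s x).symm⟩
  · rintro ⟨z, ⟨x, hx, rfl⟩, rfl⟩
    exact ⟨x, hx, mv_mul ⇑Q k s x⟩

theorem mapSub_one (U : Submodule F (ι → F)) : mapSub Q U 1 = U := by
  ext y
  simp only [mem_mapSub, mv_one]
  constructor
  · rintro ⟨x, hx, rfl⟩; exact hx
  · intro hy; exact ⟨y, hy, rfl⟩

/-- multiplying on the right by an element stabilising `U` does not change the image of `U` -/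
theorem mapSub_mul_of_stab (U : Submodule F (ι → F)) (k s : ↥(isometryGroup F ⇑Q))
    (hs : ∀ x ∈ U, mv ⇑Q s x ∈ U) : mapSub Q U (k * s) = mapSub Q U k := by
  rw [mapSub_mul, mapSub_eq_of_le Q U U s hs rfl]

/-- Witt's theorem for subspaces: an isometry between two subspaces is induced by an element of the
isometry group -/
theorem exists_iso_map_sub (hQ : (QuadraticMap.polarBilin Q).Nondegenerate)
    (U W : Submodule F (ι → F)) (e : U ≃ₗ[F] W)
    (he : ∀ u : U, Q (e u : ι → F) = Q (u : ι → F)) :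
    ∃ k : ↥(isometryGroup F ⇑Q), mapSub Q U k = W := by
  obtain ⟨π, hπ⟩ := LinearMap.exists_leftInverse_of_injective U.subtype (Submodule.ker_subtype U)
  have hπx : ∀ x (hx : x ∈ U), π x = ⟨x, hx⟩ := by
    intro x hx
    have := congrArg (fun f => f ⟨x, hx⟩) hπ
    simpa using this
  let f : (ι → F) →ₗ[F] (ι → F) := W.subtype ∘ₗ (e : U →ₗ[F] W) ∘ₗ π
  have hf : ∀ x (hx : x ∈ U), f x = (e ⟨x, hx⟩ : ι → F) := by
    intro x hx
    show ((e (π x) : W) : ι → F) = _
    rw [hπx x hx]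
  obtain ⟨g, hg, hgx⟩ := Helper13.witt_quad Q hQ U f
    (by
      intro x hx
      rw [hf x hx, he])
    (by
      intro x hx h0
      rw [hf x hx] at h0
      have h1 : e ⟨x, hx⟩ = 0 := Subtype.ext h0
      have h2 := e.injective (h1.trans (map_zero e).symm)
      exact congrArg Subtype.val h2)
  obtain ⟨k, hk⟩ := exists_iso_of_linearEquiv Q g hg
  refine ⟨k, mapSub_eq_of_le Q U W k ?_ e.finrank_eq⟩
  intro x hx
  rw [hk, hgx x hx, hf x hx]
  exact (e ⟨x, hx⟩).2

theorem polar_eq_zero_of_singular (U : Submodule F (ι → F)) (hU0 : ∀ u ∈ U, Q u = 0)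
    (x y : ι → F) (hx : x ∈ U) (hy : y ∈ U) : QuadraticMap.polar ⇑Q x y = 0 := by
  unfold QuadraticMap.polar
  rw [hU0 _ (U.add_mem hx hy), hU0 x hx, hU0 y hy]
  simp

theorem mem_orthogonal_iff' (U : Submodule F (ι → F)) (a : ι → F) :
    a ∈ LinearMap.BilinForm.orthogonal (QuadraticMap.polarBilin Q) U
      ↔ ∀ x ∈ U, QuadraticMap.polar ⇑Q a x = 0 := by
  rw [LinearMap.BilinForm.mem_orthogonal_iff]
  constructor
  · intro h x hx
    rw [QuadraticMap.polar_comm]
    exact h x hx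
  · intro h x hx
    show QuadraticMap.polar ⇑Q x a = 0
    rw [QuadraticMap.polar_comm]
    exact h x hx

/-- a reflection in a vector orthogonal to `U` fixes `U` pointwise -/
theorem mv_reflO_of_orth (U : Submodule F (ι → F)) (a : ι → F) (ha : Q a ≠ 0)
    (haU : ∀ x ∈ U, QuadraticMap.polar ⇑Q a x = 0) (x : ι → F) (hx : x ∈ U) :
    mv ⇑Q (reflO Q a ha) x = x := by
  rw [mv_reflO, haU x hx, mul_zero, zero_smul, sub_zero]

/-- a reflection in a vector of `U` stabilises `U` -/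
theorem mv_reflO_mem (U : Submodule F (ι → F)) (a : ι → F) (ha : Q a ≠ 0) (haU : a ∈ U)
    (x : ι → F) (hx : x ∈ U) : mv ⇑Q (reflO Q a ha) x ∈ U := by
  rw [mv_reflO]
  exact U.sub_mem hx (U.smul_mem _ haU)

/-- the orthogonal complement of a totally singular subspace of less than half the dimension
contains a non-singular vector -/
theorem exists_nonsingular_orth (hQ : (QuadraticMap.polarBilin Q).Nondegenerate)
    (U : Submodule F (ι → F)) (hk : 2 * Module.finrank F ↥U < Fintype.card ι) :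
    ∃ a, (∀ x ∈ U, QuadraticMap.polar ⇑Q a x = 0) ∧ Q a ≠ 0 := by
  by_contra hcon
  push Not at hcon
  set B := QuadraticMap.polarBilin Q with hB
  have hsymm : B.IsSymm := ⟨fun x y => QuadraticMap.polar_comm ⇑Q x y⟩
  set N := LinearMap.BilinForm.orthogonal B U with hN
  have hN0 : ∀ a ∈ N, Q a = 0 := fun a ha => hcon a ((mem_orthogonal_iff' Q U a).mp ha)
  have hNN : N ≤ LinearMap.BilinForm.orthogonal B N := by
    intro b hb
    rw [mem_orthogonal_iff']
    intro a ha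
    exact polar_eq_zero_of_singular Q N hN0 b a hb ha
  have hNNU : LinearMap.BilinForm.orthogonal B N = U :=
    LinearMap.BilinForm.orthogonal_orthogonal hQ hsymm.isRefl U
  have hfrN : Module.finrank F ↥N = Module.finrank F (ι → F) - Module.finrank F ↥U :=
    LinearMap.BilinForm.finrank_orthogonal hQ U
  have h3 : Module.finrank F ↥N ≤ Module.finrank F ↥U := by
    rw [← hNNU]
    exact Submodule.finrank_mono hNN
  rw [Module.finrank_fintype_fun_eq_card] at hfrN
  omega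

end Stab

section StabTwo

variable {ι : Type} [Fintype ι] [DecidableEq ι] {F : Type u} [Field F] [Fintype F] [CharP F 2]
  (Q : QuadraticForm F (ι → F))

/-- characteristic two: if some reflection stabilises `U`, the image of `U` under an isometry is
also its image under an element of `Ω` -/
theorem exists_omega_map_two (hQ : (QuadraticMap.polarBilin Q).Nondegenerate)
    (hex : (∃ t : F, t ≠ 0 ∧ t ≠ 1) ∨ Fintype.card ι ≠ 4) (U : Submodule F (ι → F))
    (k : ↥(isometryGroup F ⇑Q)) (a : ι → F) (ha : Q a ≠ 0)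
    (hstab : ∀ x ∈ U, mv ⇑Q (reflO Q a ha) x ∈ U) :
    ∃ g : ↥(isometryGroup F ⇑Q), g ∈ Omega F ⇑Q ∧ mapSub Q U g = mapSub Q U k := by
  rcases omega_dichotomy Q hQ hex a ha k with h | h
  · exact ⟨k, h, rfl⟩
  · exact ⟨k * reflO Q a ha, h, mapSub_mul_of_stab Q U k _ hstab⟩

end StabTwo

section StabOdd

variable {ι : Type} [Fintype ι] [DecidableEq ι] {F : Type u} [Field F] [Fintype F]
  (Q : QuadraticForm F (ι → F))

/-- odd characteristic: if the stabiliser of `U` contains elements with spinor characters `(-1, 1)`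
and `(1, -1)`, the image of `U` under an isometry is also its image under an element of `Ω` -/
theorem exists_omega_map_odd (h2 : (2 : F) ≠ 0) (hQ : (QuadraticMap.polarBilin Q).Nondegenerate)
    (hcard : 2 ≤ Fintype.card ι) (ε : F) (hε : ¬ IsSquare ε) (U : Submodule F (ι → F))
    (k s₁ s₂ : ↥(isometryGroup F ⇑Q))
    (hs₁ : ∀ x ∈ U, mv ⇑Q s₁ x ∈ U) (hs₂ : ∀ x ∈ U, mv ⇑Q s₂ x ∈ U)
    (h11 : spin ⇑Q 1 s₁ = -1) (h1ε : spin ⇑Q ε s₁ = 1)
    (h21 : spin ⇑Q 1 s₂ = 1) (h2ε : spin ⇑Q ε s₂ = -1) :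
    ∃ g : ↥(isometryGroup F ⇑Q), g ∈ Omega F ⇑Q ∧ mapSub Q U g = mapSub Q U k := by
  have hs₁₂ : ∀ x ∈ U, mv ⇑Q (s₁ * s₂) x ∈ U := fun x hx => by
    rw [mv_mul]; exact hs₁ _ (hs₂ x hx)
  rcases Int.units_eq_one_or (spin ⇑Q 1 k) with hx | hx <;>
    rcases Int.units_eq_one_or (spin ⇑Q ε k) with hy | hy
  · exact ⟨k, (mem_omega_iff Q h2 hQ hcard ε hε k).mpr ⟨hx, hy⟩, rfl⟩
  · refine ⟨k * s₂, (mem_omega_iff Q h2 hQ hcard ε hε _).mpr ⟨?_, ?_⟩,
      mapSub_mul_of_stab Q U k _ hs₂⟩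
    · rw [map_mul, hx, h21, mul_one]
    · rw [map_mul, hy, h2ε]; rfl
  · refine ⟨k * s₁, (mem_omega_iff Q h2 hQ hcard ε hε _).mpr ⟨?_, ?_⟩,
      mapSub_mul_of_stab Q U k _ hs₁⟩
    · rw [map_mul, hx, h11]; rfl
    · rw [map_mul, hy, h1ε, mul_one]
  · refine ⟨k * (s₁ * s₂), (mem_omega_iff Q h2 hQ hcard ε hε _).mpr ⟨?_, ?_⟩,
      mapSub_mul_of_stab Q U k _ hs₁₂⟩
    · rw [map_mul, map_mul, hx, h11, h21]; rfl
    · rw [map_mul, map_mul, hy, h1ε, h2ε]; rfl

/-- a non-degenerate subspace of dimension at least two represents every non-zero scalar -/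
theorem exists_norm_in_sub (h2 : (2 : F) ≠ 0) (X : Submodule F (ι → F))
    (hX : X ⊓ LinearMap.BilinForm.orthogonal (QuadraticMap.polarBilin Q) X = ⊥)
    (hdim : 2 ≤ Module.finrank F ↥X) (c : F) (hc : c ≠ 0) : ∃ a ∈ X, Q a = c := by
  have hbot : ∀ x ∈ X, (∀ y ∈ X, QuadraticMap.polar ⇑Q x y = 0) → x = 0 := by
    intro x hx hxy
    have : x ∈ X ⊓ LinearMap.BilinForm.orthogonal (QuadraticMap.polarBilin Q) X :=
      ⟨hx, (mem_orthogonal_iff' Q X x).mpr hxy⟩
    rw [hX] at this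
    exact (Submodule.mem_bot F).mp this
  -- a first non-singular vector
  have hex1 : ∃ a₁ ∈ X, Q a₁ ≠ 0 := by
    by_contra hcon
    push Not at hcon
    have hX0 : X = ⊥ := by
      rw [eq_bot_iff]
      intro x hx
      rw [Submodule.mem_bot]
      exact hbot x hx (fun y hy => polar_eq_zero_of_singular Q X hcon x y hx hy)
    rw [hX0, finrank_bot] at hdim
    omega
  obtain ⟨a₁, ha₁X, ha₁⟩ := hex1
  have hp1 : QuadraticMap.polar ⇑Q a₁ a₁ ≠ 0 := by
    rw [polar_self_eq]; exact mul_ne_zero h2 ha₁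
  let ℓ : (ι → F) →ₗ[F] F := QuadraticMap.polarBilin Q a₁
  have hℓ : ∀ x, ℓ x = QuadraticMap.polar ⇑Q a₁ x := fun x => rfl
  set X₁ : Submodule F (ι → F) := X ⊓ LinearMap.ker ℓ with hX₁
  have hfr : Module.finrank F ↥X₁ + 1 = Module.finrank F ↥X :=
    finrank_inf_ker X ℓ a₁ ha₁X (by rw [hℓ]; exact hp1)
  have hpos : 0 < Module.finrank F ↥X₁ := by omega
  obtain ⟨⟨x₁, hx₁⟩, hx₁ne⟩ := Module.finrank_pos_iff_exists_ne_zero.mp hpos
  have hx₁0 : x₁ ≠ 0 := fun h => hx₁ne (Subtype.ext h)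
  have hmemX₁ : ∀ x, x ∈ X₁ ↔ x ∈ X ∧ QuadraticMap.polar ⇑Q a₁ x = 0 := by
    intro x
    rw [hX₁, Submodule.mem_inf, LinearMap.mem_ker, hℓ]
  have hex2 : ∃ a₂ ∈ X₁, Q a₂ ≠ 0 := by
    by_contra hcon
    push Not at hcon
    apply hx₁0
    apply hbot x₁ ((hmemX₁ x₁).mp hx₁).1
    intro y hy
    set t := QuadraticMap.polar ⇑Q a₁ y / QuadraticMap.polar ⇑Q a₁ a₁ with ht
    have hy₁ : y - t • a₁ ∈ X₁ := by
      rw [hmemX₁]
      refine ⟨X.sub_mem hy (X.smul_mem _ ha₁X), ?_⟩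
      rw [QuadraticMap.polar_sub_right, QuadraticMap.polar_smul_right, smul_eq_mul, ht,
        div_mul_cancel₀ _ hp1, sub_self]
    have e1 : QuadraticMap.polar ⇑Q x₁ (y - t • a₁) = 0 :=
      polar_eq_zero_of_singular Q X₁ hcon x₁ _ hx₁ hy₁
    have e2 : QuadraticMap.polar ⇑Q x₁ a₁ = 0 := by
      rw [QuadraticMap.polar_comm]; exact ((hmemX₁ x₁).mp hx₁).2
    rw [QuadraticMap.polar_sub_right, QuadraticMap.polar_smul_right, e2, smul_zero, sub_zero] at e1
    exact e1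
  obtain ⟨a₂, ha₂X₁, ha₂⟩ := hex2
  have ha₂X := ((hmemX₁ a₂).mp ha₂X₁).1
  have h12 : QuadraticMap.polar ⇑Q a₁ a₂ = 0 := ((hmemX₁ a₂).mp ha₂X₁).2
  obtain ⟨x, y, hxy⟩ := Helper13.exists_sq_add_sq_eq_one h2
    (a := Q a₁ / c) (b := Q a₂ / c) (div_ne_zero ha₁ hc) (div_ne_zero ha₂ hc)
  refine ⟨x • a₁ + y • a₂, X.add_mem (X.smul_mem _ ha₁X) (X.smul_mem _ ha₂X), ?_⟩
  rw [Helper13.Q_add', QuadraticMap.map_smul, QuadraticMap.map_smul, QuadraticMap.polar_smul_left,
    QuadraticMap.polar_smul_right, h12]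
  simp only [smul_eq_mul, mul_zero, add_zero]
  field_simp at hxy
  linear_combination hxy

/-- a rotation in a hyperbolic plane through the singular vector `e`: it multiplies `e` by a scalar,
fixes the vectors orthogonal to the plane and has both spinor characters equal to `-1` -/
theorem exists_rot (h2 : (2 : F) ≠ 0) (hQ : (QuadraticMap.polarBilin Q).Nondegenerate) (ε : F)
    (hε : ¬ IsSquare ε) (e : ι → F) (he : Q e = 0) (he0 : e ≠ 0) :
    ∃ (s : ↥(isometryGroup F ⇑Q)) (b : ι → F) (d : F), QuadraticMap.polar ⇑Q b e ≠ 0 ∧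
      mv ⇑Q s e = d • e ∧
      (∀ x, QuadraticMap.polar ⇑Q b x = 0 → QuadraticMap.polar ⇑Q e x = 0 → mv ⇑Q s x = x) ∧
      spin ⇑Q 1 s = -1 ∧ spin ⇑Q ε s = -1 := by
  have hε0 : ε ≠ 0 := by
    rintro rfl
    exact hε ⟨0, by simp⟩
  obtain ⟨b₀, hb₀⟩ : ∃ b₀, QuadraticMap.polar ⇑Q e b₀ ≠ 0 := by
    by_contra hcon
    push Not at hcon
    exact he0 (hQ.1 e hcon)
  set p := QuadraticMap.polar ⇑Q b₀ e with hp
  have hp0 : p ≠ 0 := by rw [hp, QuadraticMap.polar_comm]; exact hb₀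
  have hee : QuadraticMap.polar ⇑Q e e = 0 := by rw [polar_self_eq, he, mul_zero]
  set b := b₀ + ((1 - Q b₀) / p) • e with hb
  have hQb : Q b = 1 := by
    rw [hb, Helper13.Q_add', QuadraticMap.map_smul, he, QuadraticMap.polar_smul_right, ← hp]
    simp only [smul_eq_mul, mul_zero, add_zero]
    field_simp
    ring
  have hbe : QuadraticMap.polar ⇑Q b e = p := by
    rw [hb, QuadraticMap.polar_add_left, QuadraticMap.polar_smul_left, hee, smul_zero, add_zero]
  set a₂ := b + ((ε - 1) / p) • e with ha₂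
  have hQa₂ : Q a₂ = ε := by
    rw [ha₂, Helper13.Q_add', QuadraticMap.map_smul, he, QuadraticMap.polar_smul_right, hbe, hQb]
    simp only [smul_eq_mul, mul_zero, add_zero]
    field_simp
    ring
  have hb0 : Q b ≠ 0 := by rw [hQb]; exact one_ne_zero
  have ha₂0 : Q a₂ ≠ 0 := by rw [hQa₂]; exact hε0
  have hbsq : IsSquare (Q b) := by rw [hQb]; exact ⟨1, by ring⟩
  have ha₂nsq : ¬ IsSquare (Q a₂) := by rw [hQa₂]; exact hε
  refine ⟨reflO Q a₂ ha₂0 * reflO Q b hb0, b, ε, by rw [hbe]; exact hp0, ?_, ?_, ?_, ?_⟩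
  · rw [mv_mul, mv_reflO, mv_reflO, hQb, hQa₂, hbe]
    have e1 : QuadraticMap.polar ⇑Q a₂ (e - (1⁻¹ * p) • b) = -(p * ε) := by
      rw [ha₂, QuadraticMap.polar_add_left, QuadraticMap.polar_smul_left,
        QuadraticMap.polar_sub_right, QuadraticMap.polar_sub_right, QuadraticMap.polar_smul_right,
        QuadraticMap.polar_smul_right, hbe, hee, polar_self_eq, hQb, QuadraticMap.polar_comm ⇑Q e b,
        hbe]
      simp only [smul_eq_mul]
      field_simp
      ring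
    rw [e1, ha₂]
    funext i
    simp only [Pi.add_apply, Pi.sub_apply, Pi.smul_apply, smul_eq_mul]
    field_simp
    ring
  · intro x hbx hex
    have ha₂x : QuadraticMap.polar ⇑Q a₂ x = 0 := by
      rw [ha₂, QuadraticMap.polar_add_left, QuadraticMap.polar_smul_left, hbx, hex, smul_zero,
        add_zero]
    rw [mv_mul, mv_reflO Q b, hbx, mul_zero, zero_smul, sub_zero, mv_reflO, ha₂x, mul_zero,
      zero_smul, sub_zero]
  · rw [map_mul, spin_one_reflO_nsq Q h2 a₂ ha₂0 ha₂nsq, spin_one_reflO_sq Q h2 b hb0 hbsq, one_mul]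
  · rw [map_mul, spin_eps_reflO_nsq Q h2 ε hε a₂ ha₂0 ha₂nsq, spin_eps_reflO_sq Q h2 ε hε b hb0 hbsq,
      mul_one]

end StabOdd

end Cfsg.Agent.Helper44
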