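import Cfsg.Agent.Helper44.Dickson
import Cfsg.Agent.Helper44.OmegaStab
import Cfsg.Agent.Helper43.Spinor2

set_option autoImplicit false

/-!
Helper library (helper44): `Ω` of the hyperbolic form `Σ x_i y_i` in characteristic two is the
kernel of the Dickson invariant.
-/

namespace Cfsg.Agent.Helper44

open Cfsg Matrix Cfsg.Agent.Helper45

universe u

section OmegaPlus

variable {F : Type u} [Field F] {m : ℕ}

theorem plusQF_polar (u v : Fin m ⊕ Fin m → F) :
    QuadraticMap.polar ⇑(Helper43.plusQF m F) u v = u ⬝ᵥ (Jp m F *ᵥ v) := by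
  unfold QuadraticMap.polar
  rw [Helper43.plusQF_coe, quadFormPlus_add]
  ring

theorem plusQF_nondeg : (QuadraticMap.polarBilin (Helper43.plusQF m F)).Nondegenerate := by
  constructor
  · intro x hx
    funext a
    rcases a with i | i
    · have h3 : QuadraticMap.polar ⇑(Helper43.plusQF m F) x (Pi.single (Sum.inr i) 1) = 0 :=
        hx (Pi.single (Sum.inr i) 1)
      rw [plusQF_polar, Jp_form] at h3
      simpa [Pi.single_apply] using h3
    · have h3 : QuadraticMap.polar ⇑(Helper43.plusQF m F) x (Pi.single (Sum.inl i) 1) = 0 :=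
        hx (Pi.single (Sum.inl i) 1)
      rw [plusQF_polar, Jp_form] at h3
      simpa [Pi.single_apply] using h3
  · intro y hy
    funext a
    rcases a with i | i
    · have h3 : QuadraticMap.polar ⇑(Helper43.plusQF m F) (Pi.single (Sum.inr i) 1) y = 0 :=
        hy (Pi.single (Sum.inr i) 1)
      rw [plusQF_polar, Jp_form] at h3
      simpa [Pi.single_apply] using h3
    · have h3 : QuadraticMap.polar ⇑(Helper43.plusQF m F) (Pi.single (Sum.inl i) 1) y = 0 :=
        hy (Pi.single (Sum.inl i) 1)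
      rw [plusQF_polar, Jp_form] at h3
      simpa [Pi.single_apply] using h3

/-- the matrix of an isometry of the hyperbolic form -/
abbrev isoMat (g : ↥(isometryGroup F (quadFormPlus m F))) :
    Matrix (Fin m ⊕ Fin m) (Fin m ⊕ Fin m) F :=
  ((g : GL (Fin m ⊕ Fin m) F) : Matrix (Fin m ⊕ Fin m) (Fin m ⊕ Fin m) F)

theorem isoMat_iso (g : ↥(isometryGroup F (quadFormPlus m F))) (v : Fin m ⊕ Fin m → F) :
    quadFormPlus m F (isoMat g *ᵥ v) = quadFormPlus m F v :=
  (mem_isometryGroup_iff F _ _).mp g.2 v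

theorem isoMat_det_ne_zero (g : ↥(isometryGroup F (quadFormPlus m F))) : (isoMat g).det ≠ 0 :=
  ((Matrix.isUnit_iff_isUnit_det _).mp (g : GL (Fin m ⊕ Fin m) F).isUnit).ne_zero

theorem dk_one : dk (1 : Matrix (Fin m ⊕ Fin m) (Fin m ⊕ Fin m) F) = 0 := by
  simp [dk]

/-- the Dickson invariant as a homomorphism -/
noncomputable def dkHom [CharP F 2] :
    ↥(isometryGroup F (quadFormPlus m F)) →* Multiplicative F where
  toFun g := Multiplicative.ofAdd (dk (isoMat g))
  map_one' := by
    show Multiplicative.ofAdd (dk (1 : Matrix (Fin m ⊕ Fin m) (Fin m ⊕ Fin m) F)) = 1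
    rw [dk_one]; rfl
  map_mul' g h := by
    show Multiplicative.ofAdd (dk (isoMat g * isoMat h)) = _
    rw [dk_mul _ _ (isoMat_iso g) (isoMat_iso h)]
    rfl

theorem dk_eq_zero_of_mem_omega [CharP F 2] (g : ↥(isometryGroup F (quadFormPlus m F)))
    (hg : g ∈ Omega F (quadFormPlus m F)) : dk (isoMat g) = 0 := by
  have h1 := Abelianization.commutator_subset_ker (dkHom (F := F) (m := m)) hg
  rw [MonoidHom.mem_ker] at h1
  exact h1

theorem exists_nonsingular_plus (hm : 1 ≤ m) : ∃ a : Fin m ⊕ Fin m → F, quadFormPlus m F a = 1 := by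
  refine ⟨Pi.single (Sum.inl ⟨0, hm⟩) 1 + Pi.single (Sum.inr ⟨0, hm⟩) 1, ?_⟩
  simp only [quadFormPlus, Pi.add_apply]
  rw [Finset.sum_eq_single ⟨0, hm⟩]
  · simp
  · intro j _ hj
    simp [Pi.single_apply, hj]
  · intro h; exact absurd (Finset.mem_univ _) h

/-- **`Ω` of the hyperbolic form in characteristic two is the kernel of the Dickson invariant** -/
theorem mem_omega_plus_iff [Fintype F] [CharP F 2] (hm : 1 ≤ m)
    (hex : (∃ t : F, t ≠ 0 ∧ t ≠ 1) ∨ m ≠ 2) (g : ↥(isometryGroup F (quadFormPlus m F))) :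
    g ∈ Omega F (quadFormPlus m F) ↔ dk (isoMat g) = 0 := by
  constructor
  · exact dk_eq_zero_of_mem_omega g
  · intro hg
    obtain ⟨a, ha1⟩ := exists_nonsingular_plus (F := F) hm
    have ha : (Helper43.plusQF m F) a ≠ 0 := by
      show quadFormPlus m F a ≠ 0
      rw [ha1]; exact one_ne_zero
    have hex' : (∃ t : F, t ≠ 0 ∧ t ≠ 1) ∨ Fintype.card (Fin m ⊕ Fin m) ≠ 4 := by
      rcases hex with h | h
      · exact Or.inl h
      · right
        rw [Fintype.card_sum, Fintype.card_fin]
        omega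
    let ra : ↥(isometryGroup F (quadFormPlus m F)) := reflO (Helper43.plusQF m F) a ha
    have hdich : g ∈ Omega F (quadFormPlus m F) ∨ g * ra ∈ Omega F (quadFormPlus m F) :=
      omega_dichotomy (Helper43.plusQF m F) plusQF_nondeg hex' a ha g
    rcases hdich with h | h
    · exact h
    · exfalso
      have h1 := dk_eq_zero_of_mem_omega (g * ra) h
      have h2 : isoMat (g * ra) = isoMat g * reflectionMatrix (quadFormPlus m F) a := rfl
      have hr : ∀ v, quadFormPlus m F (reflectionMatrix (quadFormPlus m F) a *ᵥ v)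
          = quadFormPlus m F v := isoMat_iso ra
      rw [h2, dk_mul _ _ (isoMat_iso g) hr, hg, zero_add,
        dk_reflection a (by rw [ha1]; exact one_ne_zero)] at h1
      exact one_ne_zero h1

/-- the dimension of the intersection of `{y = 0}` with its image is the nullity of the lower-left
block -/
theorem finrank_inf_map (G : Matrix (Fin m ⊕ Fin m) (Fin m ⊕ Fin m) F) (hdet : G.det ≠ 0) :
    Module.finrank F ↥(LinearMap.ker (LinearMap.funLeft F F (Sum.inr : Fin m → Fin m ⊕ Fin m)) ⊓
      (LinearMap.ker (LinearMap.funLeft F F (Sum.inr : Fin m → Fin m ⊕ Fin m))).map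
        (Matrix.mulVecLin G))
      = Module.finrank F (LinearMap.ker (Matrix.mulVecLin G.toBlocks₂₁)) := by
  set U₀ := LinearMap.ker (LinearMap.funLeft F F (Sum.inr : Fin m → Fin m ⊕ Fin m)) with hU₀
  set C := G.toBlocks₂₁ with hC
  have hinj : Function.Injective ((Matrix.mulVecLin G) ∘ₗ (inlLin m F)) := by
    intro x y hxy
    have h1 : G *ᵥ (Sum.elim x 0) = G *ᵥ (Sum.elim y 0) := hxy
    have h2 : G *ᵥ (Sum.elim x 0 - Sum.elim y 0) = 0 := by
      rw [Matrix.mulVec_sub, h1, sub_self]
    have h3 := Matrix.eq_zero_of_mulVec_eq_zero hdet h2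
    funext a
    have h4 := congrFun h3 (Sum.inl a)
    simpa [sub_eq_zero] using h4
  have heq : U₀ ⊓ U₀.map (Matrix.mulVecLin G)
      = (LinearMap.ker (Matrix.mulVecLin C)).map ((Matrix.mulVecLin G) ∘ₗ (inlLin m F)) := by
    ext v
    simp only [Submodule.mem_inf, Submodule.mem_map, hU₀, LinearMap.mem_ker]
    constructor
    · rintro ⟨hv, u, hu, rfl⟩
      have hu' : Sum.elim (u ∘ Sum.inl) 0 = u := by
        funext a
        cases a with
        | inl a => rfl
        | inr a => exact (congrFun hu a).symm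
      refine ⟨u ∘ Sum.inl, ?_, ?_⟩
      · funext j
        rw [Matrix.mulVecLin_apply, toBlocks₂₁_mulVec, hu']
        exact congrFun hv j
      · show G *ᵥ Sum.elim (u ∘ Sum.inl) 0 = G *ᵥ u
        rw [hu']
    · rintro ⟨x, hx, rfl⟩
      refine ⟨?_, Sum.elim x 0, ?_, rfl⟩
      · funext j
        show (G *ᵥ Sum.elim x 0) (Sum.inr j) = 0
        rw [← toBlocks₂₁_mulVec]; exact congrFun hx j
      · funext j; rfl
  rw [heq]
  exact (Submodule.equivMapOfInjective _ hinj _).finrank_eq.symm

end OmegaPlus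

end Cfsg.Agent.Helper44
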