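import Cfsg.Agent.Helper44.PSLnG

set_option autoImplicit false

/-!
Helper library (helper44): uniqueness of the decomposition
`α = dAutN g * fAutN σ * jAut e` of an automorphism of `PSL_n(F)`, `n ≥ 3`, and the resulting
homomorphism `outHom : Aut(PSL_n(F)) → Aut(F) × C₂`, whose kernel is the group of diagonal
automorphisms (the image of `GL_n(F)`, with kernel the centre).
-/

namespace Cfsg.Agent.Helper44.PSLn

open Matrix

universe u

section Ker

variable {n : ℕ} {F : Type u} [Field F]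

theorem dAutN_of_center (g : GL (Fin n) F) (hg : g ∈ Subgroup.center (GL (Fin n) F)) :
    dAutN g = 1 := by
  apply MulEquiv.ext
  intro x
  obtain ⟨s, rfl⟩ := prn_surjective x
  rw [dAutN_prn, MulAut.one_apply]
  congr 1
  apply Subtype.ext
  rw [conjFun_coe]
  have h1 : Matrix.SpecialLinearGroup.toGL s * g = g * Matrix.SpecialLinearGroup.toGL s :=
    Subgroup.mem_center_iff.mp hg _
  have h2 := congrArg Units.val h1
  rw [Units.val_mul, Units.val_mul] at h2
  have h3 : ((Matrix.SpecialLinearGroup.toGL s : GL (Fin n) F) : Mn n F) = (s : Mn n F) := rfl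
  rw [h3] at h2
  rw [← h2, mul_assoc, ← Units.val_mul, mul_inv_cancel, Units.val_one, mul_one]

theorem mapA_fAutN_TP_le (σ : RingAut F) (v : Fin n → F) :
    mapA (fAutN σ) (TP v) ≤ TP (fun i => σ (v i)) := by
  intro x hx
  obtain ⟨_, ⟨φ, h, rfl⟩, rfl⟩ := (mem_mapA _ _ _).mp hx
  rw [fAutN_prn, mapFun_tvS]
  exact ⟨_, _, rfl⟩

/-- a diagonal automorphism equal to a field automorphism is trivial -/
theorem dAutN_eq_fAutN (hn : 3 ≤ n) (g : GL (Fin n) F) (σ : RingAut F)
    (h : dAutN g = fAutN σ) : g ∈ Subgroup.center (GL (Fin n) F) ∧ σ = 1 := by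
  have hcol : ∀ i : Fin n, ∃ c : F, c ≠ 0 ∧
      (g : Mn n F) *ᵥ (Pi.single i 1) = c • (Pi.single i 1 : Fin n → F) := by
    intro i
    have h1 : TP ((g : Mn n F) *ᵥ (Pi.single i 1)) ≤ TP (Pi.single i 1 : Fin n → F) := by
      rw [← mapA_dAutN_TP, h]
      have h2 := mapA_fAutN_TP_le σ (Pi.single i 1 : Fin n → F)
      have h3 : (fun k => σ ((Pi.single i 1 : Fin n → F) k)) = Pi.single i 1 := by
        funext k
        by_cases hk : k = i
        · subst hk
          rw [Pi.single_eq_same, map_one]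
        · rw [Pi.single_eq_of_ne hk, map_zero]
      rwa [h3] at h2
    have h4 : (g : Mn n F) *ᵥ (Pi.single i 1) ≠ 0 := by
      intro h0
      have h5 := congrArg (fun w => ((g⁻¹ : GL (Fin n) F) : Mn n F) *ᵥ w) h0
      simp only [mulVec_mulVec, ← Units.val_mul, inv_mul_cancel, Units.val_one, one_mulVec,
        mulVec_zero] at h5
      exact single_ne_zero' i h5
    obtain ⟨-, hpar⟩ := par_of_TP_le hn h4 h1
    obtain ⟨c, hc, he⟩ := hpar.symm.exists_smul_ne (single_ne_zero' i) h4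
    exact ⟨c, hc, he⟩
  choose c hc hgc using hcol
  have hg : g = diagGL c hc := by
    apply Units.ext
    rw [diagGL_coe]
    ext k i
    have h1 := congrFun (hgc i) k
    rw [mulVec_single_one, Pi.smul_apply, smul_eq_mul] at h1
    have h2 : (g : Mn n F) k i = c i * (Pi.single i 1 : Fin n → F) k := h1
    rw [h2, Matrix.diagonal_apply]
    by_cases hk : k = i
    · subst hk
      rw [Pi.single_eq_same, mul_one, if_pos rfl]
    · rw [Pi.single_eq_of_ne hk, mul_zero, if_neg hk]
  have key : ∀ (i j : Fin n) (hij : i ≠ j) (a : F), c i * a * (c j)⁻¹ = σ a := by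
    intro i j hij a
    apply prn_transvection_injective hij
    rw [← conjFun_diagGL_transvection c hc hij a, ← hg, ← dAutN_prn, h, fAutN_prn,
      mapFun_transvection]
  have hceq : ∀ i j : Fin n, c i = c j := by
    intro i j
    by_cases hij : i = j
    · rw [hij]
    · have h1 := key i j hij 1
      rw [mul_one, map_one] at h1
      have h2 := hc j
      field_simp at h1
      exact h1
  constructor
  · rw [Matrix.GeneralLinearGroup.mem_center_iff_val_mem_range_scalar]
    refine ⟨c ⟨0, by omega⟩, ?_⟩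
    rw [hg, diagGL_coe, Matrix.scalar_apply]
    congr 1
    funext k
    exact hceq _ _
  · apply RingEquiv.ext
    intro a
    obtain ⟨j, k, -, -, hjk⟩ := exists_two_ne hn (⟨0, by omega⟩ : Fin n)
    have h1 := key j k hjk a
    rw [hceq j k, mul_comm (c k) a, mul_assoc, mul_inv_cancel₀ (hc k), mul_one] at h1
    rw [← h1]
    rfl

/-- the kernel of `GL_n(F) → Aut(PSL_n(F))` is the centre -/
theorem dAutN_ker (hn : 3 ≤ n) :
    (dAutN : GL (Fin n) F →* MulAut (PSLn n F)).ker = Subgroup.center (GL (Fin n) F) := by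
  ext g
  rw [MonoidHom.mem_ker]
  constructor
  · intro h
    exact (dAutN_eq_fAutN hn g 1 (by rw [h, map_one])).1
  · exact dAutN_of_center g

theorem semi_mul (g g' : GL (Fin n) F) (σ σ' : RingAut F) :
    (dAutN g * fAutN σ) * (dAutN g' * fAutN σ')
      = dAutN (g * Matrix.GeneralLinearGroup.map (σ : F →+* F) g') * fAutN (σ * σ') := by
  rw [map_mul, map_mul, mul_assoc, ← mul_assoc (fAutN σ), fAutN_mul_dAutN]
  simp only [mul_assoc]

theorem semi_inv (g : GL (Fin n) F) (σ : RingAut F) :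
    (dAutN g * fAutN σ)⁻¹
      = dAutN (Matrix.GeneralLinearGroup.map ((σ⁻¹ : RingAut F) : F →+* F) g⁻¹) * fAutN σ⁻¹ := by
  rw [_root_.mul_inv_rev, ← map_inv, ← map_inv, fAutN_mul_dAutN]

theorem semi_inv_mul (g g' : GL (Fin n) F) (σ σ' : RingAut F) :
    ∃ g'' : GL (Fin n) F,
      (dAutN g * fAutN σ)⁻¹ * (dAutN g' * fAutN σ') = dAutN g'' * fAutN (σ⁻¹ * σ') := by
  rw [semi_inv, semi_mul]
  exact ⟨_, rfl⟩

/-- the inverse transpose is not induced by a semilinear map -/
theorem iAutN_ne_semi (hn : 3 ≤ n) (g : GL (Fin n) F) (σ : RingAut F) :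
    (iAutN : MulAut (PSLn n F)) ≠ dAutN g * fAutN σ := by
  intro h
  obtain ⟨v, hv⟩ := exists_single_ne_zero (F := F) hn
  have h1 : TH v ≤ TP ((g : Mn n F) *ᵥ fun i => σ (v i)) := by
    rw [← mapA_iAutN_TP, h, mapA_mul, ← mapA_dAutN_TP]
    exact mapA_mono _ (mapA_fAutN_TP_le σ v)
  exact not_TH_le_TP hn v _ hv h1

theorem zmod2_cases (e : ZMod 2) : e = 0 ∨ e = 1 := by
  fin_cases e
  · exact Or.inl rfl
  · exact Or.inr rfl

/-- the graph part: `1` or the inverse transpose -/
def jAut (e : ZMod 2) : MulAut (PSLn n F) := if e = 0 then 1 else iAutN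

theorem jAut_zero : jAut (0 : ZMod 2) = (1 : MulAut (PSLn n F)) := if_pos rfl

theorem jAut_one : jAut (1 : ZMod 2) = (iAutN : MulAut (PSLn n F)) := if_neg (by decide)

theorem jAut_add (e e' : ZMod 2) :
    (jAut (e + e') : MulAut (PSLn n F)) = jAut e * jAut e' := by
  rcases zmod2_cases e with rfl | rfl <;> rcases zmod2_cases e' with rfl | rfl
  · rw [add_zero, jAut_zero, one_mul]
  · rw [zero_add, jAut_zero, one_mul]
  · rw [add_zero, jAut_zero, mul_one]
  · have h : (1 : ZMod 2) + 1 = 0 := by decide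
    rw [h, jAut_zero, jAut_one, iAutN_mul_self]

theorem jAut_mul_dAutN (e : ZMod 2) (g : GL (Fin n) F) :
    ∃ g' : GL (Fin n) F, (jAut e : MulAut (PSLn n F)) * dAutN g = dAutN g' * jAut e := by
  rcases zmod2_cases e with rfl | rfl
  · exact ⟨g, by rw [jAut_zero, one_mul, mul_one]⟩
  · exact ⟨itGL g, by rw [jAut_one, iAutN_mul_dAutN]⟩

theorem jAut_mul_fAutN (e : ZMod 2) (σ : RingAut F) :
    (jAut e : MulAut (PSLn n F)) * fAutN σ = fAutN σ * jAut e := by
  rcases zmod2_cases e with rfl | rfl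
  · rw [jAut_zero, one_mul, mul_one]
  · rw [jAut_one, iAutN_mul_fAutN]

/-- uniqueness of the field and graph parts -/
theorem decomp_unique (hn : 3 ≤ n) (g g' : GL (Fin n) F) (σ σ' : RingAut F) (e e' : ZMod 2)
    (h : dAutN g * fAutN σ * jAut e = dAutN g' * fAutN σ' * (jAut e' : MulAut (PSLn n F))) :
    σ = σ' ∧ e = e' := by
  have he : e = e' := by
    rcases zmod2_cases e with rfl | rfl <;> rcases zmod2_cases e' with rfl | rfl
    · rfl
    · exfalso
      rw [jAut_zero, jAut_one, mul_one] at h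
      obtain ⟨g'', hg''⟩ := semi_inv_mul g' g σ' σ
      rw [h, inv_mul_cancel_left] at hg''
      exact iAutN_ne_semi hn _ _ hg''
    · exfalso
      rw [jAut_zero, jAut_one, mul_one] at h
      obtain ⟨g'', hg''⟩ := semi_inv_mul g g' σ σ'
      rw [← h, inv_mul_cancel_left] at hg''
      exact iAutN_ne_semi hn _ _ hg''
    · rfl
  subst he
  refine ⟨?_, rfl⟩
  have h1 : dAutN g * fAutN σ = dAutN g' * fAutN σ' := mul_right_cancel h
  obtain ⟨g'', hg''⟩ := semi_inv_mul g' g σ' σ
  rw [h1, inv_mul_cancel] at hg''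
  have h2 : dAutN g'' = fAutN (σ'⁻¹ * σ)⁻¹ := by
    rw [map_inv, eq_inv_iff_mul_eq_one, ← hg'']
  have h3 := (dAutN_eq_fAutN hn g'' _ h2).2
  rw [inv_eq_one, inv_mul_eq_one] at h3
  exact h3.symm

end Ker

section OutHom

variable {n : ℕ} {F : Type u} [Field F] [Fintype F]

theorem exists_decomp (p f : ℕ) [Fact p.Prime] (hF : Fintype.card F = p ^ f) (hf : 1 ≤ f)
    (hn : 3 ≤ n) (α : MulAut (PSLn n F)) :
    ∃ (g : GL (Fin n) F) (σ : RingAut F) (e : ZMod 2), α = dAutN g * fAutN σ * jAut e := by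
  obtain ⟨g, σ, h | h⟩ := aut_psln p f hF hf hn α
  · exact ⟨g, σ, 0, by rw [jAut_zero, mul_one]; exact h⟩
  · exact ⟨g, σ, 1, by rw [jAut_one]; exact h⟩

/-- the field part of an automorphism -/
noncomputable def galN (p f : ℕ) [Fact p.Prime] (hF : Fintype.card F = p ^ f) (hf : 1 ≤ f)
    (hn : 3 ≤ n) (α : MulAut (PSLn n F)) : RingAut F :=
  (exists_decomp p f hF hf hn α).choose_spec.choose

/-- the graph part of an automorphism -/
noncomputable def grN (p f : ℕ) [Fact p.Prime] (hF : Fintype.card F = p ^ f) (hf : 1 ≤ f)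
    (hn : 3 ≤ n) (α : MulAut (PSLn n F)) : ZMod 2 :=
  (exists_decomp p f hF hf hn α).choose_spec.choose_spec.choose

theorem galN_grN_spec (p f : ℕ) [Fact p.Prime] (hF : Fintype.card F = p ^ f) (hf : 1 ≤ f)
    (hn : 3 ≤ n) (α : MulAut (PSLn n F)) :
    ∃ g : GL (Fin n) F,
      α = dAutN g * fAutN (galN p f hF hf hn α) * jAut (grN p f hF hf hn α) :=
  ⟨(exists_decomp p f hF hf hn α).choose,
    (exists_decomp p f hF hf hn α).choose_spec.choose_spec.choose_spec⟩

theorem galN_grN_eq (p f : ℕ) [Fact p.Prime] (hF : Fintype.card F = p ^ f) (hf : 1 ≤ f)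
    (hn : 3 ≤ n) (α : MulAut (PSLn n F)) (g : GL (Fin n) F) (σ : RingAut F) (e : ZMod 2)
    (h : α = dAutN g * fAutN σ * jAut e) :
    galN p f hF hf hn α = σ ∧ grN p f hF hf hn α = e := by
  obtain ⟨g', hg'⟩ := galN_grN_spec p f hF hf hn α
  exact decomp_unique hn g' g _ σ _ e (hg'.symm.trans h)

/-- the homomorphism `Aut(PSL_n(F)) → Aut(F) × C₂` -/
noncomputable def outHom (p f : ℕ) [Fact p.Prime] (hF : Fintype.card F = p ^ f) (hf : 1 ≤ f)
    (hn : 3 ≤ n) : MulAut (PSLn n F) →* RingAut F × Multiplicative (ZMod 2) where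
  toFun α := (galN p f hF hf hn α, Multiplicative.ofAdd (grN p f hF hf hn α))
  map_one' := by
    obtain ⟨h1, h2⟩ := galN_grN_eq p f hF hf hn 1 1 1 0
      (by rw [map_one, map_one, jAut_zero, one_mul, one_mul])
    rw [h1, h2]
    rfl
  map_mul' α β := by
    obtain ⟨g, hg⟩ := galN_grN_spec p f hF hf hn α
    obtain ⟨g', hg'⟩ := galN_grN_spec p f hF hf hn β
    generalize galN p f hF hf hn α = σ at hg ⊢
    generalize grN p f hF hf hn α = e at hg ⊢
    generalize galN p f hF hf hn β = σ' at hg' ⊢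
    generalize grN p f hF hf hn β = e' at hg' ⊢
    obtain ⟨g'', e1⟩ := jAut_mul_dAutN (F := F) e g'
    have e2 := jAut_mul_fAutN (n := n) e σ'
    have key : α * β = dAutN (g * Matrix.GeneralLinearGroup.map (σ : F →+* F) g'')
        * fAutN (σ * σ') * jAut (e + e') := by
      calc α * β = dAutN g * fAutN σ * jAut e * (dAutN g' * fAutN σ' * jAut e') := by
            rw [← hg, ← hg']
        _ = dAutN g * fAutN σ * (jAut e * dAutN g') * fAutN σ' * jAut e' := by
            simp only [mul_assoc]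
        _ = dAutN g * fAutN σ * (dAutN g'' * jAut e) * fAutN σ' * jAut e' := by rw [e1]
        _ = dAutN g * fAutN σ * dAutN g'' * (jAut e * fAutN σ') * jAut e' := by
            simp only [mul_assoc]
        _ = dAutN g * fAutN σ * dAutN g'' * (fAutN σ' * jAut e) * jAut e' := by rw [e2]
        _ = (dAutN g * fAutN σ) * (dAutN g'' * fAutN σ') * (jAut e * jAut e') := by
            simp only [mul_assoc]
        _ = dAutN (g * Matrix.GeneralLinearGroup.map (σ : F →+* F) g'')
              * fAutN (σ * σ') * jAut (e + e') := by rw [semi_mul, jAut_add]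
    obtain ⟨h1, h2⟩ := galN_grN_eq p f hF hf hn (α * β) _ _ _ key
    rw [h1, h2]
    rfl

theorem outHom_apply (p f : ℕ) [Fact p.Prime] (hF : Fintype.card F = p ^ f) (hf : 1 ≤ f)
    (hn : 3 ≤ n) (g : GL (Fin n) F) (σ : RingAut F) (e : ZMod 2) :
    outHom p f hF hf hn (dAutN g * fAutN σ * jAut e) = (σ, Multiplicative.ofAdd e) := by
  obtain ⟨h1, h2⟩ := galN_grN_eq p f hF hf hn _ g σ e rfl
  show (galN p f hF hf hn _, Multiplicative.ofAdd (grN p f hF hf hn _)) = _
  rw [h1, h2]

theorem outHom_dAutN (p f : ℕ) [Fact p.Prime] (hF : Fintype.card F = p ^ f) (hf : 1 ≤ f)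
    (hn : 3 ≤ n) (g : GL (Fin n) F) : outHom p f hF hf hn (dAutN g) = 1 := by
  have h := outHom_apply p f hF hf hn g 1 0
  rw [map_one, jAut_zero, mul_one, mul_one] at h
  rw [h]
  rfl

theorem outHom_surjective (p f : ℕ) [Fact p.Prime] (hF : Fintype.card F = p ^ f) (hf : 1 ≤ f)
    (hn : 3 ≤ n) : Function.Surjective (outHom (n := n) p f hF hf hn) := by
  rintro ⟨σ, e⟩
  exact ⟨dAutN 1 * fAutN σ * jAut (Multiplicative.toAdd e), outHom_apply p f hF hf hn 1 σ _⟩

theorem outHom_ker (p f : ℕ) [Fact p.Prime] (hF : Fintype.card F = p ^ f) (hf : 1 ≤ f)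
    (hn : 3 ≤ n) :
    (outHom (n := n) p f hF hf hn).ker = (dAutN : GL (Fin n) F →* MulAut (PSLn n F)).range := by
  ext α
  rw [MonoidHom.mem_ker, MonoidHom.mem_range]
  constructor
  · intro h
    obtain ⟨g, hg⟩ := galN_grN_spec p f hF hf hn α
    have h1 : galN p f hF hf hn α = 1 := congrArg Prod.fst h
    have h2 : grN p f hF hf hn α = 0 := by
      have := congrArg Prod.snd h
      exact this
    rw [h1, h2, map_one, jAut_zero, mul_one, mul_one] at hg
    exact ⟨g, hg.symm⟩
  · rintro ⟨g, rfl⟩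
    exact outHom_dAutN p f hF hf hn g

end OutHom

end Cfsg.Agent.Helper44.PSLn
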