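import Cfsg.Agent.Helper44.PSLnH
import Cfsg.Prelude.Def_KGroupFacts

set_option autoImplicit false

/-!
Helper library (helper44): the order of `Aut(PSL_n(F))` and the structure of `Out(PSL_n(F))`
for a finite field `F` with `p ^ f` elements.
-/

namespace Cfsg.Agent.Helper44.PSLn

open Matrix

universe u

section Count

theorem card_of_ker_range {G H K : Type*} [Group G] [Group H] [Group K] (Ψ : G →* H)
    (hΨ : Function.Surjective Ψ) (d : K →* G) (hker : Ψ.ker = d.range) :
    Nat.card G = Nat.card H * d.ker.index := by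
  rw [← Subgroup.card_mul_index Ψ.ker, Subgroup.index_ker, MonoidHom.range_eq_top.mpr hΨ,
    Subgroup.card_top, hker, ← Subgroup.index_ker, mul_comm]

variable {n : ℕ} {F : Type u} [Field F] [Fintype F]

theorem card_pgl_eq_index :
    Nat.card (Matrix.ProjGenLinGroup (Fin n) F) = (Subgroup.center (GL (Fin n) F)).index := rfl

/-- `|Aut(PSL_n(q))| = 2 f |PGL_n(q)|` for `n ≥ 3` -/
theorem card_aut_psln (p f : ℕ) [Fact p.Prime] (hF : Fintype.card F = p ^ f) (hf : 1 ≤ f)
    (hn : 3 ≤ n) :
    Nat.card (MulAut (PSLn n F)) = 2 * f * Nat.card (Matrix.ProjGenLinGroup (Fin n) F) := by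
  haveI : CharP F p := charP_of_card p f hF
  rw [card_of_ker_range (outHom p f hF hf hn) (outHom_surjective p f hF hf hn) dAutN
    (outHom_ker p f hF hf hn), dAutN_ker hn, Nat.card_prod, (ringAut_cyclic_card p f hF).2,
    Nat.card_congr (Multiplicative.toAdd : Multiplicative (ZMod 2) ≃ ZMod 2), Nat.card_zmod,
    card_pgl_eq_index]
  ring

/-- `|Aut(PSL_2(q))| = f |PGL_2(q)|` -/
theorem card_aut_psl2 (p f : ℕ) [Fact p.Prime] (hF : Fintype.card F = p ^ f) :
    Nat.card (MulAut (PSLn 2 F)) = f * Nat.card (Matrix.ProjGenLinGroup (Fin 2) F) := by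
  haveI : CharP F p := charP_of_card p f hF
  have hker : (galHom p : MulAut (PSL2 F) →* RingAut F).ker
      = (dAut : GL (Fin 2) F →* MulAut (PSL2 F)).range := by
    ext α
    rw [MonoidHom.mem_ker, MonoidHom.mem_range]
    constructor
    · intro h
      obtain ⟨g, hg⟩ := exists_of_galHom_eq_one p α h
      exact ⟨g, hg.symm⟩
    · rintro ⟨g, rfl⟩
      exact galHom_dAut p g
  have hsurj : Function.Surjective (galHom p : MulAut (PSL2 F) →* RingAut F) :=
    fun σ => ⟨fAut σ, galHom_fAut p σ⟩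
  have hkd : (dAut : GL (Fin 2) F →* MulAut (PSL2 F)).ker = Subgroup.center (GL (Fin 2) F) := by
    ext g
    rw [MonoidHom.mem_ker, Matrix.GeneralLinearGroup.mem_center_iff_val_mem_range_scalar]
    constructor
    · intro h
      obtain ⟨a, ha⟩ := dAut_eq_one g h
      exact ⟨a, by rw [ha, Matrix.scalar_apply, Matrix.smul_one_eq_diagonal]⟩
    · rintro ⟨a, ha⟩
      exact dAut_scalar g a (by rw [← ha, Matrix.scalar_apply, Matrix.smul_one_eq_diagonal])
  have h1 := card_of_ker_range (galHom p : MulAut (PSL2 F) →* RingAut F) hsurj dAut hker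
  rw [hkd, (ringAut_cyclic_card p f hF).2] at h1
  exact h1

end Count

section OutStr

variable {n : ℕ} {F : Type u} [Field F] [Fintype F]

/-- a diagonal automorphism is inner iff the determinant of the matrix is an `n`-th power -/
theorem dAutN_inner_iff (hn : 3 ≤ n) (g : GL (Fin n) F) :
    (∃ x : PSLn n F, MulAut.conj x = dAutN g)
      ↔ ∃ c : Fˣ, Matrix.GeneralLinearGroup.det g = c ^ n := by
  constructor
  · rintro ⟨x, hx⟩
    obtain ⟨s, rfl⟩ := prn_surjective x
    rw [conj_prn] at hx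
    have h1 : (Matrix.SpecialLinearGroup.toGL s)⁻¹ * g
        ∈ (dAutN : GL (Fin n) F →* MulAut (PSLn n F)).ker := by
      rw [MonoidHom.mem_ker, map_mul, map_inv, hx, inv_mul_cancel]
    rw [dAutN_ker hn, Matrix.GeneralLinearGroup.center_eq_range_scalar] at h1
    obtain ⟨c, hc⟩ := h1
    refine ⟨c, ?_⟩
    have h2 := congrArg Matrix.GeneralLinearGroup.det hc
    rw [Matrix.GeneralLinearGroup.det_scalar, Fintype.card_fin, map_mul, map_inv] at h2
    have h3 : Matrix.GeneralLinearGroup.det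
        (Matrix.SpecialLinearGroup.toGL s : GL (Fin n) F) = 1 := by
      apply Units.ext
      rw [Matrix.GeneralLinearGroup.val_det_apply]
      exact s.2
    rw [h3, inv_one, one_mul] at h2
    exact h2.symm
  · rintro ⟨c, hc⟩
    have h1 : Matrix.GeneralLinearGroup.det
        (g * (Matrix.GeneralLinearGroup.scalar (Fin n) c)⁻¹) = 1 := by
      rw [map_mul, map_inv, Matrix.GeneralLinearGroup.det_scalar, Fintype.card_fin, hc,
        mul_inv_cancel]
    let s : SLn n F :=
      ⟨((g * (Matrix.GeneralLinearGroup.scalar (Fin n) c)⁻¹ : GL (Fin n) F) : Mn n F), by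
        have := congrArg Units.val h1
        rwa [Matrix.GeneralLinearGroup.val_det_apply] at this⟩
    have hs : Matrix.SpecialLinearGroup.toGL s
        = g * (Matrix.GeneralLinearGroup.scalar (Fin n) c)⁻¹ := by
      apply Units.ext
      rfl
    have hz : dAutN (Matrix.GeneralLinearGroup.scalar (Fin n) c) = (1 : MulAut (PSLn n F)) :=
      dAutN_of_center _ (by
        rw [Matrix.GeneralLinearGroup.center_eq_range_scalar]
        exact ⟨c, rfl⟩)
    refine ⟨prn s, ?_⟩
    rw [conj_prn, hs, map_mul, map_inv, hz, inv_one, mul_one]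

/-- **the outer automorphism group of `PSL_n(q)`, `n ≥ 3`, `q = p ^ f`**: it maps onto
`C_f × C_2` with cyclic kernel of order `gcd(n, q - 1)` -/
theorem out_psln (p f : ℕ) [Fact p.Prime] (hF : Fintype.card F = p ^ f) (hf : 1 ≤ f)
    (hn : 3 ≤ n) :
    ∃ φ : Cfsg.Out (PSLn n F) →* Multiplicative (ZMod f × ZMod 2),
      Function.Surjective φ ∧ IsCyclic φ.ker ∧ Nat.card φ.ker = Nat.gcd n (p ^ f - 1) := by
  haveI : CharP F p := charP_of_card p f hF
  obtain ⟨hcyc, hcard⟩ := ringAut_cyclic_card p f hF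
  subst hcard
  haveI : Nonempty (Fin n) := ⟨⟨0, by omega⟩⟩
  let e1 : RingAut F ≃* Multiplicative (ZMod (Nat.card (RingAut F))) :=
    (zmodCyclicMulEquiv hcyc).symm
  let E : RingAut F × Multiplicative (ZMod 2)
      ≃* Multiplicative (ZMod (Nat.card (RingAut F)) × ZMod 2) :=
    (MulEquiv.prodCongr e1 (MulEquiv.refl _)).trans (MulEquiv.prodMultiplicative (ZMod (Nat.card (RingAut F))) (ZMod 2)).symm
  let Ψ : MulAut (PSLn n F) →* Multiplicative (ZMod (Nat.card (RingAut F)) × ZMod 2) :=
    E.toMonoidHom.comp (outHom p _ hF hf hn)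
  have hΨ1 : ∀ α : MulAut (PSLn n F), Ψ α = 1 ↔ outHom p _ hF hf hn α = 1 := by
    intro α
    show E (outHom p _ hF hf hn α) = 1 ↔ _
    rw [MulEquiv.map_eq_one_iff]
  let Φ : Cfsg.Out (PSLn n F) →* Multiplicative (ZMod (Nat.card (RingAut F)) × ZMod 2) :=
    QuotientGroup.lift (Cfsg.Inn (PSLn n F)) Ψ (by
      rintro _ ⟨x, rfl⟩
      obtain ⟨s, rfl⟩ := prn_surjective x
      rw [MonoidHom.mem_ker, hΨ1, conj_prn]
      exact outHom_dAutN p _ hF hf hn _)
  have hΦ : ∀ α : MulAut (PSLn n F), Φ (QuotientGroup.mk α) = Ψ α := fun α => rfl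
  refine ⟨Φ, ?_, ?_⟩
  · intro y
    obtain ⟨α, hα⟩ := outHom_surjective (n := n) p _ hF hf hn (E.symm y)
    refine ⟨QuotientGroup.mk α, ?_⟩
    rw [hΦ]
    show E (outHom p _ hF hf hn α) = y
    rw [hα, MulEquiv.apply_symm_apply]
  · let κ : GL (Fin n) F →* Cfsg.Out (PSLn n F) :=
      (QuotientGroup.mk' (Cfsg.Inn (PSLn n F))).comp dAutN
    have hker : Φ.ker = κ.range := by
      ext x
      rw [MonoidHom.mem_ker, MonoidHom.mem_range]
      constructor
      · intro hx
        obtain ⟨α, rfl⟩ := QuotientGroup.mk_surjective x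
        rw [hΦ, hΨ1, ← MonoidHom.mem_ker, outHom_ker] at hx
        obtain ⟨g, rfl⟩ := hx
        exact ⟨g, rfl⟩
      · rintro ⟨g, rfl⟩
        show Ψ (dAutN g) = 1
        rw [hΨ1]
        exact outHom_dAutN p _ hF hf hn g
    let P : Subgroup Fˣ := (powMonoidHom n : Fˣ →* Fˣ).range
    let δ : GL (Fin n) F →* Fˣ ⧸ P :=
      (QuotientGroup.mk' P).comp Matrix.GeneralLinearGroup.det
    have hκδ : κ.ker = δ.ker := by
      ext g
      rw [MonoidHom.mem_ker, MonoidHom.mem_ker]
      show (QuotientGroup.mk (dAutN g) : Cfsg.Out (PSLn n F)) = 1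
        ↔ (QuotientGroup.mk (Matrix.GeneralLinearGroup.det g) : Fˣ ⧸ P) = 1
      rw [QuotientGroup.eq_one_iff, QuotientGroup.eq_one_iff]
      constructor
      · rintro ⟨x, hx⟩
        obtain ⟨c, hc⟩ := (dAutN_inner_iff hn g).mp ⟨x, hx⟩
        exact ⟨c, hc.symm⟩
      · rintro ⟨c, hc⟩
        obtain ⟨x, hx⟩ := (dAutN_inner_iff hn g).mpr ⟨c, hc.symm⟩
        exact ⟨x, hx⟩
    have hδ : Function.Surjective δ := by
      intro y
      obtain ⟨u, rfl⟩ := QuotientGroup.mk_surjective y
      obtain ⟨g, rfl⟩ := Matrix.GeneralLinearGroup.det_surjective (n := Fin n) (R := F) u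
      exact ⟨g, rfl⟩
    let iso : Φ.ker ≃* Fˣ ⧸ P :=
      ((MulEquiv.subgroupCongr hker).trans (QuotientGroup.quotientKerEquivRange κ).symm).trans
        ((QuotientGroup.quotientMulEquivOfEq hκδ).trans
          (QuotientGroup.quotientKerEquivOfSurjective δ hδ))
    constructor
    · haveI : IsCyclic (Fˣ ⧸ P) :=
        isCyclic_of_surjective (QuotientGroup.mk' P) (QuotientGroup.mk'_surjective P)
      exact isCyclic_of_surjective iso.symm.toMonoidHom iso.symm.surjective
    · rw [Nat.card_congr iso.toEquiv]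
      show P.index = _
      rw [IsCyclic.index_powMonoidHom_range, Nat.card_units, Nat.card_eq_fintype_card, hF,
        Nat.gcd_comm]

end OutStr

end Cfsg.Agent.Helper44.PSLn
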